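import Cfsg.Agent.H51.TwoPrime
import Cfsg.Agent.H51.SCFrob

set_option autoImplicit false

/-!
A 3-local argument excluding simple sections containing `3^2 : D_8` when the Sylow 3-subgroups have a "toral"
subgroup of index at most three (abstract version).
-/

namespace Cfsg.Agent.H51.A8Sec

/-- lifting, with the Sylow property -/
theorem lift_norm' {Γ Q : Type*} [Group Γ] [Group Q] [Finite Γ] {ℓ : ℕ} [Fact ℓ.Prime] (φ : Γ →* Q) {C : Subgroup Q}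
    (hC : IsPGroup ℓ C) (hCr : C ≤ φ.range) :
    ∃ P : Subgroup Γ, IsPGroup ℓ P ∧ P.map φ = C ∧
      (∀ σ ∈ φ.range, (∀ x ∈ C, σ * x * σ⁻¹ ∈ C) → ∃ g : Γ, φ g = σ ∧ ∀ x ∈ P, g * x * g⁻¹ ∈ P) ∧
      ∀ R : Subgroup Γ, IsPGroup ℓ R → R.map φ ≤ C → ∃ y : Γ, φ y ∈ C ∧ ∀ v ∈ R, y * v * y⁻¹ ∈ P := by
  classical
  set Y := C.comap φ with hY
  let f : Y →* C := (φ.comp Y.subtype).codRestrict C (fun x => x.2)
  have hf : Function.Surjective f := by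
    rintro ⟨x, hx⟩
    obtain ⟨y, rfl⟩ := hCr hx
    exact ⟨⟨y, hx⟩, rfl⟩
  haveI : Finite C := Finite.of_surjective f hf
  obtain ⟨P⟩ : Nonempty (Sylow ℓ Y) := inferInstance
  have h4 : (P : Subgroup Y).map f = ⊤ := by
    have h5 : ((P.mapSurjective hf : Sylow ℓ C) : Subgroup C) = (P : Subgroup Y).map f := rfl
    have h6 : IsPGroup ℓ (⊤ : Subgroup C) := hC.of_equiv Subgroup.topEquiv.symm
    have h7 := (P.mapSurjective hf).3 h6 le_top
    rw [← h5, ← h7]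
  have hmap : ((P : Subgroup Y).map Y.subtype).map φ = C := by
    apply le_antisymm
    · rintro _ ⟨_, ⟨x, -, rfl⟩, rfl⟩
      exact x.2
    · intro c hc
      obtain ⟨x, hx, hxc⟩ : (⟨c, hc⟩ : C) ∈ (P : Subgroup Y).map f := by rw [h4]; trivial
      exact ⟨_, ⟨x, hx, rfl⟩, congrArg Subtype.val hxc⟩
  -- Sylow property
  have hsyl : ∀ R : Subgroup Y, IsPGroup ℓ R → ∃ y : Y, ∀ v ∈ R, y * v * y⁻¹ ∈ (P : Subgroup Y) := by
    intro R hR
    obtain ⟨R', hR'⟩ := hR.exists_le_sylow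
    obtain ⟨y, hy⟩ := MulAction.exists_smul_eq Y R' P
    refine ⟨y, fun v hv => ?_⟩
    rw [← hy]
    exact ⟨v, hR' hv, rfl⟩
  refine ⟨(P : Subgroup Y).map Y.subtype, P.2.map _, hmap, ?_, ?_⟩
  · rintro _ ⟨s, rfl⟩ hσ
    have hsY : ∀ x ∈ Y, s * x * s⁻¹ ∈ Y := by
      intro x hx
      rw [hY, Subgroup.mem_comap] at hx ⊢
      rw [map_mul, map_mul, map_inv]
      exact hσ _ hx
    let α : Y →* Y := ((MulAut.conj s).toMonoidHom.comp Y.subtype).codRestrict Y (fun x => hsY _ x.2)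
    have hα : ∀ x : Y, ((α x : Y) : Γ) = s * x * s⁻¹ := fun x => rfl
    obtain ⟨y, hy⟩ := hsyl ((P : Subgroup Y).map α) (P.2.map α)
    have h1 : ∀ x ∈ (P : Subgroup Y), y * α x * y⁻¹ ∈ (P : Subgroup Y) := fun x hx => hy _ ⟨x, hx, rfl⟩
    have h3 : ∀ x ∈ (P : Subgroup Y).map Y.subtype,
        ((y : Γ) * s) * x * ((y : Γ) * s)⁻¹ ∈ (P : Subgroup Y).map Y.subtype := by
      rintro _ ⟨x, hx, rfl⟩
      refine ⟨_, h1 x hx, ?_⟩
      change ((y * α x * y⁻¹ : Y) : Γ) = _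
      rw [Subgroup.coe_mul, Subgroup.coe_mul, hα, Subgroup.coe_inv]
      change _ = (y : Γ) * s * (x : Γ) * ((y : Γ) * s)⁻¹
      group
    obtain ⟨z, hz, hzy⟩ : φ (y : Γ) ∈ ((P : Subgroup Y).map Y.subtype).map φ := by rw [hmap]; exact y.2
    refine ⟨z⁻¹ * ((y : Γ) * s), ?_, ?_⟩
    · rw [map_mul, map_mul, map_inv, hzy, inv_mul_cancel_left]
    · intro x hx
      have h5 := h3 x hx
      have h6 : z⁻¹ * ((y : Γ) * s) * x * (z⁻¹ * ((y : Γ) * s))⁻¹ = z⁻¹ * ((y : Γ) * s * x * ((y : Γ) * s)⁻¹) * z⁻¹⁻¹ := by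
        group
      rw [h6]
      exact Subgroup.mul_mem _ (Subgroup.mul_mem _ (Subgroup.inv_mem _ hz) h5)
        (Subgroup.inv_mem _ (Subgroup.inv_mem _ hz))
  · intro R hR hRC
    have hRY : R ≤ Y := fun v hv => hRC ⟨v, hv, rfl⟩
    obtain ⟨y, hy⟩ := hsyl (R.subgroupOf Y) (hR.comap_subtype)
    refine ⟨y, y.2, fun v hv => ?_⟩
    exact ⟨_, hy ⟨v, hRY hv⟩ hv, rfl⟩

variable {H Q : Type*} [Group H] [Group Q]

/-- the relations in the quotient -/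
structure Rel (Q : Type*) [Group Q] where
  x1 : Q
  x2 : Q
  ρ : Q
  τ : Q
  σ0 : Q
  hx1 : x1 ^ 3 = 1
  hx2 : x2 ^ 3 = 1
  hc : x1 * x2 = x2 * x1
  n1 : x1 ≠ 1
  n2 : x1 ≠ x2
  n3 : x1 ≠ x2⁻¹
  hρ1 : ρ * x1 * ρ⁻¹ = x2
  hρ2 : ρ * x2 * ρ⁻¹ = x1⁻¹
  hτ1 : τ * x1 * τ⁻¹ = x1⁻¹
  hτ2 : τ * x2 * τ⁻¹ = x2
  hσ : σ0 ^ 6 ≠ 1

namespace Rel

variable (r : Rel Q)

/-- the subgroup `3^2` -/
def C : Subgroup Q where
  carrier := {c | ∃ i j : ℕ, c = r.x1 ^ i * r.x2 ^ j}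
  one_mem' := ⟨0, 0, by simp⟩
  mul_mem' := by
    rintro _ _ ⟨i, j, rfl⟩ ⟨k, l, rfl⟩
    refine ⟨i + k, j + l, ?_⟩
    have h : Commute r.x2 r.x1 := r.hc.symm
    have h2 : r.x2 ^ j * r.x1 ^ k = r.x1 ^ k * r.x2 ^ j := (h.pow_pow j k).eq
    rw [pow_add, pow_add]
    calc r.x1 ^ i * r.x2 ^ j * (r.x1 ^ k * r.x2 ^ l) = r.x1 ^ i * (r.x2 ^ j * r.x1 ^ k) * r.x2 ^ l := by group
      _ = r.x1 ^ i * (r.x1 ^ k * r.x2 ^ j) * r.x2 ^ l := by rw [h2]
      _ = r.x1 ^ i * r.x1 ^ k * (r.x2 ^ j * r.x2 ^ l) := by group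
  inv_mem' := by
    rintro _ ⟨i, j, rfl⟩
    refine ⟨2 * i, 2 * j, ?_⟩
    have h : Commute r.x2 r.x1 := r.hc.symm
    have h2 : r.x2 ^ j * r.x1 ^ (2 * i) = r.x1 ^ (2 * i) * r.x2 ^ j := (h.pow_pow j (2 * i)).eq
    rw [inv_eq_iff_mul_eq_one]
    calc r.x1 ^ i * r.x2 ^ j * (r.x1 ^ (2 * i) * r.x2 ^ (2 * j))
        = r.x1 ^ i * (r.x2 ^ j * r.x1 ^ (2 * i)) * r.x2 ^ (2 * j) := by group
      _ = r.x1 ^ i * (r.x1 ^ (2 * i) * r.x2 ^ j) * r.x2 ^ (2 * j) := by rw [h2]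
      _ = (r.x1 ^ i * r.x1 ^ (2 * i)) * (r.x2 ^ j * r.x2 ^ (2 * j)) := by simp only [mul_assoc]
      _ = (r.x1 ^ 3) ^ i * (r.x2 ^ 3) ^ j := by
        rw [← pow_add, ← pow_add, ← pow_mul, ← pow_mul]
        congr 2 <;> ring
      _ = 1 := by rw [r.hx1, r.hx2]; simp

theorem mem_C {c : Q} : c ∈ r.C ↔ ∃ i j : ℕ, c = r.x1 ^ i * r.x2 ^ j := Iff.rfl

theorem x1_mem : r.x1 ∈ r.C := ⟨1, 0, by simp⟩
theorem x2_mem : r.x2 ∈ r.C := ⟨0, 1, by simp⟩

theorem C_comm {a b : Q} (ha : a ∈ r.C) (hb : b ∈ r.C) : a * b = b * a := by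
  obtain ⟨i, j, rfl⟩ := ha
  obtain ⟨k, l, rfl⟩ := hb
  have h : Commute r.x1 r.x2 := r.hc
  have h1 : Commute (r.x1 ^ i * r.x2 ^ j) r.x1 :=
    ((Commute.refl r.x1).pow_left i).mul_left (h.symm.pow_left j)
  have h2 : Commute (r.x1 ^ i * r.x2 ^ j) r.x2 :=
    (h.pow_left i).mul_left ((Commute.refl r.x2).pow_left j)
  exact ((h1.pow_right k).mul_right (h2.pow_right l)).eq

theorem C_cube {a : Q} (ha : a ∈ r.C) : a ^ 3 = 1 := by
  obtain ⟨i, j, rfl⟩ := ha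
  have h : Commute (r.x1 ^ i) (r.x2 ^ j) := (show Commute r.x1 r.x2 from r.hc).pow_pow i j
  rw [h.mul_pow, ← pow_mul, ← pow_mul, mul_comm i, mul_comm j, pow_mul, pow_mul, r.hx1, r.hx2]; simp

theorem C_pgroup : IsPGroup 3 r.C := by
  intro x
  exact ⟨1, Subtype.ext (by simpa using r.C_cube x.2)⟩

/-- irreducibility under `ρ` -/
theorem irr {S : Subgroup Q} (hS : S ≤ r.C) (hρ : ∀ s ∈ S, r.ρ * s * r.ρ⁻¹ ∈ S) {c : Q} (hc : c ∈ S) (h1 : c ≠ 1) :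
    r.x1 ∈ S := by
  obtain ⟨i, j, rfl⟩ := hS hc
  -- reduce the exponents
  have hmod : ∀ k : ℕ, r.x1 ^ k = r.x1 ^ (k % 3) ∧ r.x2 ^ k = r.x2 ^ (k % 3) := fun k =>
    ⟨by conv_lhs => rw [← Nat.div_add_mod k 3, pow_add, pow_mul, r.hx1, one_pow, one_mul],
     by conv_lhs => rw [← Nat.div_add_mod k 3, pow_add, pow_mul, r.hx2, one_pow, one_mul]⟩
  rw [(hmod i).1, (hmod j).2] at hc h1
  have hi := Nat.mod_lt i (show 0 < 3 by norm_num)
  have hj := Nat.mod_lt j (show 0 < 3 by norm_num)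
  generalize i % 3 = a at hc h1 hi
  generalize j % 3 = b at hc h1 hj
  have h2 := hρ _ hc
  have e2 : r.ρ * (r.x1 ^ a * r.x2 ^ b) * r.ρ⁻¹ = (r.ρ * r.x1 * r.ρ⁻¹) ^ a * (r.ρ * r.x2 * r.ρ⁻¹) ^ b := by
    rw [conj_pow, conj_pow]; group
  rw [e2, r.hρ1, r.hρ2] at h2
  have hcm : Commute r.x1 r.x2 := r.hc
  -- `x1 ^ (a^2+b^2)`
  have h3 : (r.x1 ^ a * r.x2 ^ b) ^ a * ((r.x2 ^ a * r.x1⁻¹ ^ b) ^ b)⁻¹ ∈ S :=
    S.mul_mem (S.pow_mem hc a) (S.inv_mem (S.pow_mem h2 b))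
  have e3 : (r.x1 ^ a * r.x2 ^ b) ^ a * ((r.x2 ^ a * r.x1⁻¹ ^ b) ^ b)⁻¹ = r.x1 ^ (a * a + b * b) := by
    have c1 : Commute (r.x1 ^ a) (r.x2 ^ b) := hcm.pow_pow a b
    have c2 : Commute (r.x2 ^ a) (r.x1⁻¹ ^ b) := (hcm.symm.inv_right).pow_pow a b
    rw [c1.mul_pow, c2.mul_pow, mul_inv_rev, ← pow_mul, ← pow_mul, ← pow_mul, ← pow_mul, inv_pow, inv_inv]
    have c3 : r.x2 ^ (b * a) * r.x1 ^ (b * b) = r.x1 ^ (b * b) * r.x2 ^ (b * a) := (hcm.symm.pow_pow _ _).eq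
    calc r.x1 ^ (a * a) * r.x2 ^ (b * a) * (r.x1 ^ (b * b) * (r.x2 ^ (a * b))⁻¹)
        = r.x1 ^ (a * a) * (r.x2 ^ (b * a) * r.x1 ^ (b * b)) * (r.x2 ^ (a * b))⁻¹ := by group
      _ = r.x1 ^ (a * a) * (r.x1 ^ (b * b) * r.x2 ^ (b * a)) * (r.x2 ^ (a * b))⁻¹ := by rw [c3]
      _ = r.x1 ^ (a * a + b * b) := by rw [mul_comm b a, pow_add]; group
  rw [e3] at h3
  have h4 : r.x1 ^ 1 ∈ S ∨ r.x1 ^ 2 ∈ S := by
    rw [(hmod _).1] at h3
    have : (a * a + b * b) % 3 = 1 ∨ (a * a + b * b) % 3 = 2 := by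
      have ha0 : ¬ (a = 0 ∧ b = 0) := by
        rintro ⟨rfl, rfl⟩
        exact h1 (by simp)
      interval_cases a <;> interval_cases b <;> simp_all
    rcases this with h | h
    · left; rw [h] at h3; exact h3
    · right; rw [h] at h3; exact h3
  rcases h4 with h | h
  · simpa using h
  · have : r.x1 = (r.x1 ^ 2) ^ 2 := by
      rw [← pow_mul, show 2 * 2 = 3 + 1 from rfl, pow_add, r.hx1, one_mul, pow_one]
    rw [this]; exact S.pow_mem h 2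

theorem ρ_norm : ∀ x ∈ r.C, r.ρ * x * r.ρ⁻¹ ∈ r.C := by
  rintro _ ⟨i, j, rfl⟩
  have e2 : r.ρ * (r.x1 ^ i * r.x2 ^ j) * r.ρ⁻¹ = (r.ρ * r.x1 * r.ρ⁻¹) ^ i * (r.ρ * r.x2 * r.ρ⁻¹) ^ j := by
    rw [conj_pow, conj_pow]; group
  rw [e2, r.hρ1, r.hρ2]
  exact r.C.mul_mem (r.C.pow_mem r.x2_mem i) (r.C.pow_mem (r.C.inv_mem r.x1_mem) j)

theorem τ_norm : ∀ x ∈ r.C, r.τ * x * r.τ⁻¹ ∈ r.C := by
  rintro _ ⟨i, j, rfl⟩
  have e2 : r.τ * (r.x1 ^ i * r.x2 ^ j) * r.τ⁻¹ = (r.τ * r.x1 * r.τ⁻¹) ^ i * (r.τ * r.x2 * r.τ⁻¹) ^ j := by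
    rw [conj_pow, conj_pow]; group
  rw [e2, r.hτ1, r.hτ2]
  exact r.C.mul_mem (r.C.pow_mem (r.C.inv_mem r.x1_mem) i) (r.C.pow_mem r.x2_mem j)

/-- `ρ ^ 6` inverts `x1` -/
theorem ρ6 (h : r.ρ ^ 6 * r.x1 = r.x1 * r.ρ ^ 6) : False := by
  have e1 : r.ρ * r.x1 = r.x2 * r.ρ := mul_inv_eq_iff_eq_mul.1 r.hρ1
  have e2 : r.ρ * r.x2 = r.x1⁻¹ * r.ρ := mul_inv_eq_iff_eq_mul.1 r.hρ2
  have e3 : r.ρ ^ 2 * r.x1 = r.x1⁻¹ * r.ρ ^ 2 := by
    rw [pow_two, mul_assoc, e1, ← mul_assoc, e2, mul_assoc]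
  have e4 : r.ρ ^ 2 * r.x1⁻¹ = r.x1 * r.ρ ^ 2 := by
    have : r.ρ ^ 2 * r.x1⁻¹ = (r.x1⁻¹)⁻¹ * (r.x1⁻¹ * r.ρ ^ 2) * r.x1⁻¹ := by group
    rw [this, ← e3]; group
  have e6 : r.ρ ^ 6 * r.x1 = r.x1⁻¹ * r.ρ ^ 6 := by
    have : r.ρ ^ 6 = r.ρ ^ 2 * (r.ρ ^ 2 * r.ρ ^ 2) := by rw [← pow_add, ← pow_add]
    rw [this]
    calc r.ρ ^ 2 * (r.ρ ^ 2 * r.ρ ^ 2) * r.x1 = r.ρ ^ 2 * (r.ρ ^ 2 * (r.ρ ^ 2 * r.x1)) := by simp only [mul_assoc]
      _ = r.ρ ^ 2 * (r.ρ ^ 2 * (r.x1⁻¹ * r.ρ ^ 2)) := by rw [e3]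
      _ = r.ρ ^ 2 * ((r.ρ ^ 2 * r.x1⁻¹) * r.ρ ^ 2) := by simp only [mul_assoc]
      _ = r.ρ ^ 2 * ((r.x1 * r.ρ ^ 2) * r.ρ ^ 2) := by rw [e4]
      _ = (r.ρ ^ 2 * r.x1) * (r.ρ ^ 2 * r.ρ ^ 2) := by simp only [mul_assoc]
      _ = (r.x1⁻¹ * r.ρ ^ 2) * (r.ρ ^ 2 * r.ρ ^ 2) := by rw [e3]
      _ = r.x1⁻¹ * (r.ρ ^ 2 * (r.ρ ^ 2 * r.ρ ^ 2)) := by simp only [mul_assoc]
  rw [e6] at h
  have h2 : r.x1⁻¹ = r.x1 := mul_right_cancel h
  have h3 : r.x1 * r.x1 = 1 := by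
    nth_rewrite 1 [← h2]; exact inv_mul_cancel _
  apply r.n1
  have : r.x1 ^ 3 = r.x1 * (r.x1 * r.x1) := by rw [pow_succ, pow_two, mul_assoc]
  rw [h3, mul_one, r.hx1] at this
  exact this.symm

end Rel

/-- the main theorem: no section with the relations `Rel` -/
theorem main [Finite H] [IsSimpleGroup Q] (r : Rel Q) (φ : H →* Q) (hφ : Function.Surjective φ)
    (Tor : Subgroup H → Prop) (tor_mono : ∀ A B : Subgroup H, A ≤ B → Tor B → Tor A)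
    (tor_comm : ∀ A, Tor A → ∀ a ∈ A, ∀ b ∈ A, a * b = b * a)
    (tor6 : ∀ A, Tor A → ∀ g : H, (∀ x ∈ A, g * x * g⁻¹ ∈ A) → ∀ x ∈ A, g ^ 6 * x = x * g ^ 6)
    (key : ∀ P : Subgroup H, IsPGroup 3 P → ∃ A ≤ P, Tor A ∧ (∀ p ∈ P, ∀ a ∈ A, p * a * p⁻¹ ∈ A) ∧
      (∀ b ∈ P, b ∉ A → ∀ p ∈ P, p ∈ A ∨ b⁻¹ * p ∈ A ∨ b * p ∈ A) ∧
      ∀ a ∈ A, ∀ g : H, g * a * g⁻¹ ∈ P → g * a * g⁻¹ ∉ A → a * (g * a * g⁻¹) ≠ (g * a * g⁻¹) * a) : False := by
  classical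
  obtain ⟨P, hP, hPm, hPn, hPs⟩ := lift_norm' φ r.C_pgroup (by rw [MonoidHom.range_eq_top.2 hφ]; exact le_top)
  obtain ⟨g, hg, hgP⟩ := hPn r.ρ (by rw [MonoidHom.range_eq_top.2 hφ]; trivial) r.ρ_norm
  obtain ⟨A, hAP, hA, hAn, hAi, hAc⟩ := key P hP
  -- Claim I
  have claim1 : ∀ Z : Subgroup H, Z ≤ P → Tor Z → (∀ z ∈ Z, g * z * g⁻¹ ∈ Z) → ∀ z ∈ Z, φ z = 1 := by
    intro Z hZP hZ hgZ z hz
    by_contra h1
    have h2 : r.x1 ∈ Z.map φ := by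
      refine r.irr (S := Z.map φ) ?_ ?_ ⟨z, hz, rfl⟩ h1
      · rw [← hPm]; exact Subgroup.map_mono hZP
      · rintro _ ⟨y, hy, rfl⟩
        refine ⟨_, hgZ y hy, ?_⟩
        rw [map_mul, map_mul, map_inv, hg]
    obtain ⟨y, hy, hyx⟩ := h2
    have h3 := congrArg φ (tor6 Z hZ g hgZ y hy)
    rw [map_mul, map_mul, map_pow, hg, hyx] at h3
    exact r.ρ6 h3
  obtain ⟨p1, hp1, hp1x⟩ : r.x1 ∈ P.map φ := by rw [hPm]; exact r.x1_mem
  obtain ⟨p2, hp2, hp2x⟩ : r.x2 ∈ P.map φ := by rw [hPm]; exact r.x2_mem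
  have nx2 : r.x2 ≠ 1 := by
    intro h
    apply r.n1
    have := r.hρ2
    rw [h, mul_one, mul_inv_cancel] at this
    exact (inv_eq_one.1 this.symm)
  -- Claim II
  obtain ⟨a, haA, haN⟩ : ∃ a ∈ A, g * a * g⁻¹ ∉ A := by
    by_contra hcon
    push_neg at hcon
    have h1 := claim1 A hAP hA hcon
    by_cases h2 : p1 ∈ A
    · exact r.n1 (by rw [← hp1x, h1 p1 h2])
    · rcases hAi p1 hp1 h2 p2 hp2 with h3 | h3 | h3
      · exact nx2 (by rw [← hp2x, h1 p2 h3])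
      · have := h1 _ h3
        rw [map_mul, map_inv, hp1x, hp2x, inv_mul_eq_one] at this
        exact r.n2 this
      · have := h1 _ h3
        rw [map_mul, hp1x, hp2x] at this
        exact r.n3 (eq_inv_of_mul_eq_one_left this)
  set b := g * a * g⁻¹ with hb
  have hbP : b ∈ P := hgP a (hAP haA)
  have hab : a * b ≠ b * a := hAc a haA g hbP haN
  -- the centre of `P`
  set Z : Subgroup H := P ⊓ Subgroup.centralizer (P : Set H) with hZ
  have memZ : ∀ z, z ∈ Z ↔ z ∈ P ∧ ∀ p ∈ P, p * z = z * p := by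
    intro z
    rw [hZ, Subgroup.mem_inf, Subgroup.mem_centralizer_iff]
    rfl
  -- `g` normalises `P` in the strong sense
  have hgPn : g ∈ Subgroup.normalizer (P : Set H) := Cfsg.Agent.H51.SCFrob.mem_normalizer_of_le hgP
  have hgP' : ∀ x ∈ P, g⁻¹ * x * g ∈ P := by
    intro x hx
    have := (Subgroup.mem_normalizer_iff.1 (inv_mem hgPn) x).1 hx
    simpa using this
  set M : Subgroup H := P ⊓ φ.ker with hM
  -- the conjugate of `A`
  set B : Subgroup H := A.map (MulAut.conj g).toMonoidHom with hB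
  have memB : ∀ y, y ∈ B ↔ g⁻¹ * y * g ∈ A := by
    intro y
    constructor
    · rintro ⟨x, hx, rfl⟩
      have : g⁻¹ * (g * x * g⁻¹) * g = x := by group
      change g⁻¹ * (g * x * g⁻¹) * g ∈ A
      rw [this]; exact hx
    · intro h
      refine ⟨_, h, ?_⟩
      change g * (g⁻¹ * y * g) * g⁻¹ = y
      group
  have hBP : B ≤ P := by
    intro y hy
    have h1 := hgP _ (hAP ((memB y).1 hy))
    have : g * (g⁻¹ * y * g) * g⁻¹ = y := by group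
    rwa [this] at h1
  have hbB : b ∈ B := (memB b).2 (by rw [hb]; have : g⁻¹ * (g * a * g⁻¹) * g = a := by group
                                     rw [this]; exact haA)
  -- the index of `A ⊓ B` in `P` is at most nine
  have hidx : ∀ A' : Subgroup H, A' ≤ P → (∀ b ∈ P, b ∉ A' → ∀ p ∈ P, p ∈ A' ∨ b⁻¹ * p ∈ A' ∨ b * p ∈ A') →
      A'.relIndex P ≤ 3 := by
    intro A' hA' h
    by_cases hPA : P ≤ A'
    · rw [Subgroup.relIndex_eq_one.2 hPA]; norm_num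
    · obtain ⟨c, hcP, hcA⟩ := Set.not_subset.1 hPA
      have hcP : c ∈ P := hcP
      have hsurj : Function.Surjective (fun i : Fin 3 =>
          (QuotientGroup.mk (⟨![1, c, c⁻¹] i, by fin_cases i <;> simp [hcP]⟩ : P) : P ⧸ A'.subgroupOf P)) := by
        intro x
        induction x using QuotientGroup.induction_on with
        | H p =>
          rcases h c hcP hcA p p.2 with h1 | h1 | h1
          · refine ⟨0, ?_⟩
            rw [QuotientGroup.eq, Subgroup.mem_subgroupOf]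
            simpa using h1
          · refine ⟨1, ?_⟩
            rw [QuotientGroup.eq, Subgroup.mem_subgroupOf]
            simpa using h1
          · refine ⟨2, ?_⟩
            rw [QuotientGroup.eq, Subgroup.mem_subgroupOf]
            simpa using h1
      have := Nat.card_le_card_of_surjective _ hsurj
      rw [Nat.card_eq_fintype_card (α := Fin 3), Fintype.card_fin] at this
      exact this
  have hAidx := hidx A hAP hAi
  have hBidx : B.relIndex P ≤ 3 := by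
    apply hidx B hBP
    intro c hcP hcB p hp
    have h1 := hAi (g⁻¹ * c * g) (hgP' c hcP) (fun h => hcB ((memB c).2 h)) (g⁻¹ * p * g) (hgP' p hp)
    rcases h1 with h1 | h1 | h1
    · left; exact (memB p).2 h1
    · right; left
      rw [memB]
      have : g⁻¹ * (c⁻¹ * p) * g = (g⁻¹ * c * g)⁻¹ * (g⁻¹ * p * g) := by group
      rw [this]; exact h1
    · right; right
      rw [memB]
      have : g⁻¹ * (c * p) * g = (g⁻¹ * c * g) * (g⁻¹ * p * g) := by group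
      rw [this]; exact h1
  -- `A ⊓ B` is central
  have hD_central : ∀ z ∈ A ⊓ B, ∀ p ∈ P, p * z = z * p := by
    rintro z ⟨hzA, hzB⟩ p hp
    have h1 : ∀ x ∈ A, x * z = z * x := fun x hx => tor_comm A hA x hx z hzA
    have h2 : b * z = z * b := by
      have h3 := tor_comm A hA a haA _ ((memB z).1 hzB)
      have h4 : g * (a * (g⁻¹ * z * g)) * g⁻¹ = g * (g⁻¹ * z * g * a) * g⁻¹ := by rw [h3]
      calc b * z = g * (a * (g⁻¹ * z * g)) * g⁻¹ := by rw [hb]; group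
        _ = g * (g⁻¹ * z * g * a) * g⁻¹ := h4
        _ = z * b := by rw [hb]; group
    rcases hAi b hbP haN p hp with h3 | h3 | h3
    · exact h1 p h3
    · have h4 := h1 _ h3
      calc p * z = b * (b⁻¹ * p * z) := by group
        _ = b * (z * (b⁻¹ * p)) := by rw [h4]
        _ = (b * z) * (b⁻¹ * p) := by group
        _ = (z * b) * (b⁻¹ * p) := by rw [h2]
        _ = z * p := by group
    · have h4 := h1 _ h3
      have h5 : b⁻¹ * z = z * b⁻¹ := by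
        calc b⁻¹ * z = b⁻¹ * (z * b) * b⁻¹ := by group
          _ = b⁻¹ * (b * z) * b⁻¹ := by rw [h2]
          _ = z * b⁻¹ := by group
      calc p * z = b⁻¹ * (b * p * z) := by group
        _ = b⁻¹ * (z * (b * p)) := by rw [h4]
        _ = (b⁻¹ * z) * (b * p) := by group
        _ = (z * b⁻¹) * (b * p) := by rw [h5]
        _ = z * p := by group
  -- the centre is contained in `A`
  have hZA : Z ≤ A := by
    intro z hz
    obtain ⟨hzP, hzc⟩ := (memZ z).1 hz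
    by_contra hzA
    apply hab
    have hAa : ∀ x ∈ A, a * x = x * a := fun x hx => tor_comm A hA a haA x hx
    rcases hAi z hzP hzA b hbP with h3 | h3 | h3
    · exact hAa _ h3
    · have h4 := hAa _ h3
      have h5 := hzc a (hAP haA)
      calc a * b = a * z * (z⁻¹ * b) := by group
        _ = z * a * (z⁻¹ * b) := by rw [h5]
        _ = z * (a * (z⁻¹ * b)) := by group
        _ = z * (z⁻¹ * b * a) := by rw [h4]
        _ = b * a := by group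
    · have h4 := hAa _ h3
      have h5 := hzc a (hAP haA)
      have h6 : a * z⁻¹ = z⁻¹ * a := by
        calc a * z⁻¹ = z⁻¹ * (z * a) * z⁻¹ := by group
          _ = z⁻¹ * (a * z) * z⁻¹ := by rw [h5]
          _ = z⁻¹ * a := by group
      calc a * b = a * z⁻¹ * (z * b) := by group
        _ = z⁻¹ * a * (z * b) := by rw [h6]
        _ = z⁻¹ * (a * (z * b)) := by group
        _ = z⁻¹ * (z * b * a) := by rw [h4]
        _ = b * a := by group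
  have hDZ : A ⊓ B ≤ Z := fun z hz => (memZ z).2 ⟨hAP hz.1, hD_central z hz⟩
  have hgZ : ∀ z ∈ Z, g * z * g⁻¹ ∈ Z := by
    intro z hz
    obtain ⟨hzP, hzc⟩ := (memZ z).1 hz
    refine (memZ _).2 ⟨hgP z hzP, fun p hp => ?_⟩
    have h1 := hzc _ (hgP' p hp)
    calc p * (g * z * g⁻¹) = g * (g⁻¹ * p * g * z) * g⁻¹ := by group
      _ = g * (z * (g⁻¹ * p * g)) * g⁻¹ := by rw [h1]
      _ = g * z * g⁻¹ * p := by group
  have hTorZ : Tor Z := tor_mono Z A hZA hA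
  have hZker : ∀ z ∈ Z, φ z = 1 := claim1 Z (fun z hz => ((memZ z).1 hz).1) hTorZ hgZ
  -- `M` is central
  have hcard : Nat.card r.C ≤ M.relIndex P := by
    have e1 : M.relIndex P = Nat.card (P.map φ) := by
      rw [hM, Subgroup.inf_relIndex_left]
      rw [Subgroup.relIndex_ker]
    rw [e1, hPm]
  have hC9 : 9 ≤ Nat.card r.C := by
    haveI : Finite Q := Finite.of_surjective φ hφ
    have hinj : Function.Injective (fun ij : Fin 3 × Fin 3 =>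
        (⟨r.x1 ^ (ij.1 : ℕ) * r.x2 ^ (ij.2 : ℕ), ⟨_, _, rfl⟩⟩ : r.C)) := by
      rintro ⟨i, j⟩ ⟨k, l⟩ h
      have h1 : r.x1 ^ (i : ℕ) * r.x2 ^ (j : ℕ) = r.x1 ^ (k : ℕ) * r.x2 ^ (l : ℕ) := congrArg Subtype.val h
      have hx : r.x1 ^ 3 = 1 := r.hx1
      have hy : r.x2 ^ 3 = 1 := r.hx2
      have hn : ∀ m : ℕ, 0 < m → m < 3 → ∀ k : ℕ, r.x1 ^ m ≠ r.x2 ^ k := by
        intro m hm hm3 k hk
        have hS : r.x2 ^ k ∈ Subgroup.zpowers r.x2 := Subgroup.pow_mem _ (Subgroup.mem_zpowers _) k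
        -- `x1 ∈ ⟨x2⟩`
        have h2 : r.x1 = r.x2 ^ (k * m) := by
          rw [pow_mul, ← hk, ← pow_mul]
          interval_cases m
          · simp
          · rw [show 2 * 2 = 3 + 1 from rfl, pow_add, hx, one_mul, pow_one]
        have h3 : k * m % 3 < 3 := Nat.mod_lt _ (by norm_num)
        have h4 : r.x1 = r.x2 ^ (k * m % 3) := by
          rw [h2]
          conv_lhs => rw [← Nat.div_add_mod (k * m) 3, pow_add, pow_mul, hy, one_pow, one_mul]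
        generalize k * m % 3 = t at h3 h4
        interval_cases t
        · exact r.n1 (by simpa using h4)
        · exact r.n2 (by simpa using h4)
        · apply r.n3
          rw [h4, eq_inv_iff_mul_eq_one, ← pow_succ, hy]
      have hik : (i : ℕ) = k := by
        by_contra hne
        rcases Nat.lt_or_gt_of_ne hne with hlt | hlt
        · have h2 : r.x1 ^ ((k : ℕ) - i) = r.x2 ^ (j : ℕ) * (r.x2 ^ (l : ℕ))⁻¹ := by
            have h3 : r.x1 ^ (k : ℕ) = r.x1 ^ (i : ℕ) * r.x1 ^ ((k : ℕ) - i) := by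
              rw [← pow_add]; congr 1; omega
            rw [h3, mul_assoc] at h1
            have h4 := mul_left_cancel h1
            rw [h4, mul_inv_cancel_right]
          have h5 : (r.x2 ^ (l : ℕ))⁻¹ = r.x2 ^ (2 * (l : ℕ)) := by
            rw [inv_eq_iff_mul_eq_one, ← pow_add, show (l : ℕ) + 2 * l = 3 * l by ring, pow_mul, hy, one_pow]
          rw [h5, ← pow_add] at h2
          exact hn _ (by omega) (by omega) _ h2
        · have h2 : r.x1 ^ ((i : ℕ) - k) = r.x2 ^ (l : ℕ) * (r.x2 ^ (j : ℕ))⁻¹ := by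
            have h3 : r.x1 ^ (i : ℕ) = r.x1 ^ (k : ℕ) * r.x1 ^ ((i : ℕ) - k) := by
              rw [← pow_add]; congr 1; omega
            rw [h3, mul_assoc] at h1
            have h4 := mul_left_cancel h1
            rw [← h4, mul_inv_cancel_right]
          have h5 : (r.x2 ^ (j : ℕ))⁻¹ = r.x2 ^ (2 * (j : ℕ)) := by
            rw [inv_eq_iff_mul_eq_one, ← pow_add, show (j : ℕ) + 2 * j = 3 * j by ring, pow_mul, hy, one_pow]
          rw [h5, ← pow_add] at h2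
          exact hn _ (by omega) (by omega) _ h2
      rw [hik] at h1
      have h2 := mul_left_cancel h1
      have hjl : (j : ℕ) = l := by
        have ho : orderOf r.x2 = 3 := orderOf_eq_prime hy nx2
        have h3 := pow_eq_pow_iff_modEq.1 h2
        rw [ho] at h3
        have h4 : (j : ℕ) % 3 = l % 3 := h3
        omega
      exact Prod.ext (Fin.ext hik) (Fin.ext hjl)
    have := Nat.card_le_card_of_injective _ hinj
    rw [Nat.card_prod, Nat.card_eq_fintype_card, Fintype.card_fin] at this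
    exact this
  have hMD : M ≤ A ⊓ B := by
    have h1 : (A ⊓ B).relIndex P ≤ 9 := by
      refine (Subgroup.relIndex_inf_le).trans ?_
      calc A.relIndex P * B.relIndex P ≤ 3 * 3 := Nat.mul_le_mul hAidx hBidx
        _ = 9 := rfl
    have hDM : A ⊓ B ≤ M := by
      intro z hz
      exact ⟨hAP hz.1, hZker z (hDZ hz)⟩
    have h2 := Subgroup.relIndex_mul_relIndex (A ⊓ B) M P hDM inf_le_left
    have h3 : (A ⊓ B).relIndex M ≤ 1 := by
      by_contra h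
      have h4 : 2 ≤ (A ⊓ B).relIndex M := by omega
      have h5 : 9 ≤ M.relIndex P := hC9.trans hcard
      have : 2 * 9 ≤ (A ⊓ B).relIndex M * M.relIndex P := Nat.mul_le_mul h4 h5
      omega
    have h4 : (A ⊓ B).relIndex M = 1 := by
      have : (A ⊓ B).relIndex M ≠ 0 := Subgroup.index_ne_zero_of_finite
      omega
    exact Subgroup.relIndex_eq_one.1 h4
  have hMc : ∀ z ∈ M, ∀ p ∈ P, p * z = z * p := fun z hz => hD_central z (hMD hz)
  have hTorM : Tor M := tor_mono M A (fun z hz => (hMD hz).1) hA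
  have hM3 : IsPGroup 3 M := hP.to_le inf_le_left
  -- lifts normalising `M`
  have hlift : ∀ q : Q, ∃ n : H, φ n = q ∧ ∀ z ∈ M, n * z * n⁻¹ ∈ M := by
    intro q
    obtain ⟨h, rfl⟩ := hφ q
    obtain ⟨y, hy, hyR⟩ := hPs (M.map (MulAut.conj h).toMonoidHom) (hM3.map _) (by
      rintro _ ⟨_, ⟨z, hz, rfl⟩, rfl⟩
      have : φ (h * z * h⁻¹) = 1 := by
        rw [map_mul, map_mul, map_inv, show φ z = 1 from hz.2]; simp
      change φ (h * z * h⁻¹) ∈ r.C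
      rw [this]; exact one_mem _)
    obtain ⟨p, hp, hpy⟩ : φ y ∈ P.map φ := by rw [hPm]; exact hy
    refine ⟨p⁻¹ * (y * h), ?_, ?_⟩
    · rw [map_mul, map_inv, map_mul, hpy, inv_mul_cancel_left]
    · intro z hz
      have h1 : y * (h * z * h⁻¹) * y⁻¹ ∈ P := hyR _ ⟨z, hz, rfl⟩
      have h2 : y * (h * z * h⁻¹) * y⁻¹ ∈ M := by
        refine ⟨h1, ?_⟩
        change φ _ = 1
        rw [map_mul, map_mul, map_mul, map_mul, map_inv, map_inv, show φ z = 1 from hz.2]; simp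
      have h3 := hMc _ h2 p hp
      have h4 : p⁻¹ * (y * h) * z * (p⁻¹ * (y * h))⁻¹ = p⁻¹ * (y * (h * z * h⁻¹) * y⁻¹) * p := by group
      have h5 : p⁻¹ * (y * (h * z * h⁻¹) * y⁻¹) * p = y * (h * z * h⁻¹) * y⁻¹ := by
        rw [mul_assoc p⁻¹, ← h3]; group
      rw [h4, h5]; exact h2
  -- the centraliser of `M` covers `Q`
  set C1 : Subgroup H := Subgroup.centralizer (M : Set H) with hC1
  have memC1 : ∀ c, c ∈ C1 ↔ ∀ z ∈ M, z * c = c * z := by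
    intro c; rw [hC1, Subgroup.mem_centralizer_iff]; rfl
  have hQ1 : (C1.map φ).Normal := by
    constructor
    rintro _ ⟨c, hc, rfl⟩ q
    obtain ⟨n, rfl, hn⟩ := hlift q
    have hnN : n ∈ Subgroup.normalizer (M : Set H) := Cfsg.Agent.H51.SCFrob.mem_normalizer_of_le hn
    refine ⟨n * c * n⁻¹, ?_, by simp⟩
    apply (memC1 _).2
    intro z hz
    have h1 : n⁻¹ * z * n ∈ M := by
      have := (Subgroup.mem_normalizer_iff.1 (inv_mem hnN) z).1 hz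
      simpa using this
    have h2 := (memC1 c).1 hc _ h1
    calc z * (n * c * n⁻¹) = n * (n⁻¹ * z * n * c) * n⁻¹ := by group
      _ = n * (c * (n⁻¹ * z * n)) * n⁻¹ := by rw [h2]
      _ = n * c * n⁻¹ * z := by group
  have htop : C1.map φ = ⊤ := by
    rcases hQ1.eq_bot_or_eq_top with h | h
    · exfalso
      obtain ⟨n, hn, hn'⟩ := hlift r.σ0
      have h1 : n ^ 6 ∈ C1 := (memC1 _).2 fun z hz => (tor6 M hTorM n hn' z hz).symm
      have h2 : φ (n ^ 6) ∈ C1.map φ := ⟨_, h1, rfl⟩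
      rw [h, Subgroup.mem_bot, map_pow, hn] at h2
      exact r.hσ h2
    · exact h
  let φ1 : C1 →* Q := φ.comp C1.subtype
  have hφ1 : φ1.range = ⊤ := by
    rw [eq_top_iff]
    intro q _
    have : q ∈ C1.map φ := by rw [htop]; trivial
    obtain ⟨c, hc, rfl⟩ := this
    exact ⟨⟨c, hc⟩, rfl⟩
  obtain ⟨P1, hP1, hP1m, hP1n, hP1s⟩ := lift_norm' φ1 r.C_pgroup (by rw [hφ1]; exact le_top)
  obtain ⟨t, ht, htP1⟩ := hP1n r.τ (by rw [hφ1]; trivial) r.τ_norm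
  -- `P1 ∩ ker ≤ M`
  have hP1M : ∀ k ∈ P1, φ (k : H) = 1 → (k : H) ∈ M := by
    intro k hk hk1
    -- the subgroup generated by `M` and `k`
    have hcomm : ∀ z ∈ M, Commute z (k : H) := fun z hz => (memC1 _).1 k.2 z hz
    set R : Subgroup H := M ⊔ Subgroup.zpowers (k : H) with hR
    have hRp : IsPGroup 3 R := by
      have h1 : IsPGroup 3 (Subgroup.zpowers (k : H)) := by
        have h2 : IsPGroup 3 (P1.map C1.subtype) := hP1.map _
        refine h2.to_le ?_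
        rw [Subgroup.zpowers_le]
        exact ⟨k, hk, rfl⟩
      refine IsPGroup.to_sup_of_normal_right' hM3 h1 ?_
      intro z hz
      apply Cfsg.Agent.H51.SCFrob.mem_normalizer_of_le
      rintro _ ⟨i, rfl⟩
      have h3 : Commute z ((k : H) ^ i) := (hcomm z hz).zpow_right i
      have h4 : z * (k : H) ^ i * z⁻¹ = (k : H) ^ i := by rw [h3.eq, mul_inv_cancel_right]
      simp only
      rw [h4]
      exact Subgroup.zpow_mem _ (Subgroup.mem_zpowers _) i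
    have hRk : R ≤ φ.ker := by
      rw [hR, sup_le_iff, Subgroup.zpowers_le]
      exact ⟨inf_le_right, hk1⟩
    obtain ⟨y, -, hyR⟩ := hPs R hRp (by
      rintro _ ⟨v, hv, rfl⟩
      rw [show φ v = 1 from hRk hv]; exact one_mem _)
    have hRM : ∀ v ∈ R, y * v * y⁻¹ ∈ M := by
      intro v hv
      refine ⟨hyR v hv, ?_⟩
      change φ _ = 1
      rw [map_mul, map_mul, map_inv, show φ v = 1 from hRk hv]; simp
    have hinj : Function.Injective (fun v : R => (⟨y * v * y⁻¹, hRM v v.2⟩ : M)) := by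
      intro v w hvw
      have h1 : y * (v : H) * y⁻¹ = y * w * y⁻¹ := congrArg Subtype.val hvw
      exact Subtype.ext (mul_left_cancel (mul_right_cancel h1))
    have hcard' := Nat.card_le_card_of_injective _ hinj
    have hMR : M = R := Subgroup.eq_of_le_of_card_ge le_sup_left hcard'
    rw [hMR]
    exact Subgroup.mem_sup_right (Subgroup.mem_zpowers _)
  have hcM : ∀ m ∈ M, ∀ c : C1, m * (c : H) = c * m := fun m hm c => (memC1 _).1 c.2 m hm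
  obtain ⟨u1, hu1, hu1x⟩ : r.x1 ∈ P1.map φ1 := by rw [hP1m]; exact r.x1_mem
  obtain ⟨u2, hu2, hu2x⟩ : r.x2 ∈ P1.map φ1 := by rw [hP1m]; exact r.x2_mem
  have hφ1' : ∀ c : C1, φ (c : H) = φ1 c := fun c => rfl
  -- central elements of `C1`
  have hcent : ∀ m : C1, (m : H) ∈ M → ∀ c : C1, m * c = c * m := fun m hm c => Subtype.ext (hcM m hm c)
  set k1 : C1 := u1 * (t * u1 * t⁻¹) with hk1
  have hk1M : (k1 : H) ∈ M := by
    apply hP1M k1 (P1.mul_mem hu1 (htP1 u1 hu1))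
    rw [hφ1', hk1, map_mul, map_mul, map_mul, map_inv, hu1x, ht, r.hτ1, mul_inv_cancel]
  set k2 : C1 := u2⁻¹ * (t * u2 * t⁻¹) with hk2
  have hk2M : (k2 : H) ∈ M := by
    apply hP1M k2 (P1.mul_mem (P1.inv_mem hu2) (htP1 u2 hu2))
    rw [hφ1', hk2, map_mul, map_mul, map_mul, map_inv, map_inv, hu2x, ht, r.hτ2, inv_mul_cancel]
  set c : C1 := u1 * u2 * u1⁻¹ * u2⁻¹ with hcdef
  have hcP1 : c ∈ P1 := P1.mul_mem (P1.mul_mem (P1.mul_mem hu1 hu2) (P1.inv_mem hu1)) (P1.inv_mem hu2)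
  have hcM' : (c : H) ∈ M := by
    apply hP1M c hcP1
    rw [hφ1', hcdef, map_mul, map_mul, map_mul, map_inv, map_inv, hu1x, hu2x, r.hc]
    group
  have e1 : t * u1 * t⁻¹ = u1⁻¹ * k1 := by rw [hk1]; group
  have e2 : t * u2 * t⁻¹ = u2 * k2 := by rw [hk2]; group
  have hc2 : c * c = 1 := by
    have h1 : t * c * t⁻¹ = c := by rw [← hcent c hcM' t, mul_inv_cancel_right]
    have h2 : t * c * t⁻¹ = (t * u1 * t⁻¹) * (t * u2 * t⁻¹) * (t * u1 * t⁻¹)⁻¹ * (t * u2 * t⁻¹)⁻¹ := by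
      rw [hcdef]; group
    have h3 : (u1⁻¹ * k1) * (u2 * k2) * (u1⁻¹ * k1)⁻¹ * (u2 * k2)⁻¹ = u1⁻¹ * u2 * u1 * u2⁻¹ := by
      have f1 := hcent k1 hk1M
      have f2 := hcent k2 hk2M
      calc (u1⁻¹ * k1) * (u2 * k2) * (u1⁻¹ * k1)⁻¹ * (u2 * k2)⁻¹
          = u1⁻¹ * (k1 * u2) * k2 * k1⁻¹ * u1 * k2⁻¹ * u2⁻¹ := by group
        _ = u1⁻¹ * (u2 * k1) * k2 * k1⁻¹ * u1 * k2⁻¹ * u2⁻¹ := by rw [f1 u2]
        _ = u1⁻¹ * u2 * (k1 * k2) * k1⁻¹ * u1 * k2⁻¹ * u2⁻¹ := by group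
        _ = u1⁻¹ * u2 * (k2 * k1) * k1⁻¹ * u1 * k2⁻¹ * u2⁻¹ := by rw [f1 k2]
        _ = u1⁻¹ * u2 * (k2 * u1) * k2⁻¹ * u2⁻¹ := by group
        _ = u1⁻¹ * u2 * (u1 * k2) * k2⁻¹ * u2⁻¹ := by rw [f2 u1]
        _ = u1⁻¹ * u2 * u1 * u2⁻¹ := by group
    have h4 : u1⁻¹ * u2 * u1 * u2⁻¹ = c := by rw [← h3, ← e1, ← e2, ← h2, h1]
    have h5 : u1 * c * u1⁻¹ = c := by rw [← hcent c hcM' u1, mul_inv_cancel_right]
    calc c * c = (u1 * c * u1⁻¹) * c := by rw [h5]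
      _ = (u1 * (u1⁻¹ * u2 * u1 * u2⁻¹) * u1⁻¹) * c := by rw [h4]
      _ = 1 := by rw [hcdef]; group
  have hc1 : c = 1 := by
    obtain ⟨k, hk⟩ := hP1 ⟨c, hcP1⟩
    have hk' : c ^ 3 ^ k = 1 := by simpa using congrArg Subtype.val hk
    have h1 : orderOf c ∣ 3 ^ k := orderOf_dvd_of_pow_eq_one hk'
    have h2 : orderOf c ∣ 2 := orderOf_dvd_of_pow_eq_one (by rw [pow_two, hc2])
    have h3 : orderOf c ∣ 1 := by
      have : Nat.Coprime (3 ^ k) 2 := Nat.Coprime.pow_left k (by norm_num)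
      rw [← this.gcd_eq_one]; exact Nat.dvd_gcd h1 h2
    exact orderOf_eq_one_iff.1 (Nat.dvd_one.1 h3)
  have hu12 : u1 * u2 = u2 * u1 := by
    have h1 : u1 * u2 = c * (u2 * u1) := by rw [hcdef]; group
    rw [h1, hc1, one_mul]
  -- `P1` is abelian
  have hP1c : ∀ p ∈ P1, Commute p u1 ∧ Commute p u2 ∧ ∃ i j : ℕ, ∃ k : C1, (k : H) ∈ M ∧ p = u1 ^ i * u2 ^ j * k := by
    intro p hp
    have h1 : φ1 p ∈ r.C := by rw [← hP1m]; exact ⟨p, hp, rfl⟩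
    obtain ⟨i, j, hij⟩ := h1
    set k : C1 := (u1 ^ i * u2 ^ j)⁻¹ * p with hk
    have hkP : k ∈ P1 := P1.mul_mem (P1.inv_mem (P1.mul_mem (P1.pow_mem hu1 i) (P1.pow_mem hu2 j))) hp
    have hkM : (k : H) ∈ M := by
      apply hP1M k hkP
      rw [hφ1', hk, map_mul, map_inv, map_mul, map_pow, map_pow, hu1x, hu2x, hij, inv_mul_cancel]
    have hpk : p = u1 ^ i * u2 ^ j * k := by rw [hk]; group
    have f1 : Commute u1 u2 := hu12
    have g1 : Commute k u1 := hcent k hkM u1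
    have g2 : Commute k u2 := hcent k hkM u2
    refine ⟨?_, ?_, i, j, k, hkM, hpk⟩
    · rw [hpk]
      exact ((((Commute.refl u1).pow_left i).mul_left (f1.symm.pow_left j))).mul_left g1
    · rw [hpk]
      exact (((f1.pow_left i).mul_left ((Commute.refl u2).pow_left j))).mul_left g2
  have hP1ab : ∀ p ∈ P1, ∀ q ∈ P1, p * q = q * p := by
    intro p hp q hq
    obtain ⟨h1, h2, -⟩ := hP1c p hp
    obtain ⟨-, -, i, j, k, hkM, rfl⟩ := hP1c q hq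
    have h3 : Commute p k := (hcent k hkM p).symm
    exact ((((h1.pow_right i).mul_right (h2.pow_right j))).mul_right h3).eq
  -- `P` is conjugate into `P1`
  have hPC1 : P ≤ C1 := fun p hp => (memC1 p).2 fun z hz => (hMc z hz p hp).symm
  obtain ⟨y, -, hy⟩ := hP1s (P.subgroupOf C1) (hP.comap_subtype) (by
    rintro _ ⟨v, hv, rfl⟩
    rw [← hPm]
    exact ⟨v, hv, rfl⟩)
  apply hab
  have h1 := hy ⟨a, hPC1 (hAP haA)⟩ (hAP haA)
  have h2 := hy ⟨b, hPC1 hbP⟩ hbP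
  have h3 := hP1ab _ h1 _ h2
  have h4 : y * (⟨a, hPC1 (hAP haA)⟩ * ⟨b, hPC1 hbP⟩) * y⁻¹ = y * (⟨b, hPC1 hbP⟩ * ⟨a, hPC1 (hAP haA)⟩) * y⁻¹ := by
    calc y * (⟨a, hPC1 (hAP haA)⟩ * ⟨b, hPC1 hbP⟩) * y⁻¹
        = y * ⟨a, hPC1 (hAP haA)⟩ * y⁻¹ * (y * ⟨b, hPC1 hbP⟩ * y⁻¹) := by group
      _ = y * ⟨b, hPC1 hbP⟩ * y⁻¹ * (y * ⟨a, hPC1 (hAP haA)⟩ * y⁻¹) := h3
      _ = _ := by group
  exact congrArg Subtype.val (mul_left_cancel (mul_right_cancel h4))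

end Cfsg.Agent.H51.A8Sec
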