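import Mathlib

/-!
Commutative irreducible families of endomorphisms; nonvanishing of the norm.
-/

set_option autoImplicit false

namespace Cfsg.Agent.H51

section Schur

variable {S : Type*} [AddCommGroup S] {R : Type*} [Group R] (ρ : R →* AddMonoid.End S)

/-- the subring generated by a representation -/
abbrev repRing : Subring (AddMonoid.End S) := Subring.closure (Set.range ρ)

variable {ρ}

theorem repRing_comm (hcomm : ∀ a b, ρ a * ρ b = ρ b * ρ a) {l : AddMonoid.End S} (hl : l ∈ repRing ρ)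
    (a : R) : l * ρ a = ρ a * l := by
  induction hl using Subring.closure_induction with
  | mem x hx => obtain ⟨b, rfl⟩ := hx; exact hcomm b a
  | zero => rw [zero_mul, mul_zero]
  | one => rw [one_mul, mul_one]
  | add x y _ _ hx hy => rw [add_mul, mul_add, hx, hy]
  | neg x _ hx => rw [neg_mul, mul_neg, hx]
  | mul x y _ _ hx hy => rw [mul_assoc, hy, ← mul_assoc, hx, mul_assoc]

theorem repRing_injective (hcomm : ∀ a b, ρ a * ρ b = ρ b * ρ a)
    (hirr : ∀ T : AddSubgroup S, (∀ r, ∀ t ∈ T, ρ r t ∈ T) → T = ⊥ ∨ T = ⊤) {l : AddMonoid.End S}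
    (hl : l ∈ repRing ρ) (hl0 : l ≠ 0) (s : S) (hs : l s = 0) : s = 0 := by
  let T : AddSubgroup S :=
    { carrier := {t | l t = 0}
      zero_mem' := map_zero l
      add_mem' := by
        intro a b ha hb
        change l (a + b) = 0
        rw [map_add, show l a = 0 from ha, show l b = 0 from hb, add_zero]
      neg_mem' := by
        intro a ha
        change l (-a) = 0
        rw [map_neg, show l a = 0 from ha, neg_zero] }
  rcases hirr T (fun r t ht => by
    have h1 : l (ρ r t) = ρ r (l t) := congrArg (fun g : AddMonoid.End S => g t) (repRing_comm hcomm hl r)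
    change l (ρ r t) = 0
    change l t = 0 at ht
    rw [h1, ht, map_zero]) with h | h
  · have h1 : s ∈ T := hs
    rwa [h, AddSubgroup.mem_bot] at h1
  · exfalso
    apply hl0
    ext t
    have h1 : t ∈ T := by rw [h]; trivial
    exact h1

theorem repRing_surj (hirr : ∀ T : AddSubgroup S, (∀ r, ∀ t ∈ T, ρ r t ∈ T) → T = ⊥ ∨ T = ⊤) {s₀ : S}
    (hs : s₀ ≠ 0) (s : S) : ∃ l ∈ repRing ρ, l s₀ = s := by
  let T : AddSubgroup S :=
    { carrier := {t | ∃ l ∈ repRing ρ, l s₀ = t}
      zero_mem' := ⟨0, Subring.zero_mem _, rfl⟩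
      add_mem' := by
        rintro _ _ ⟨l, hl, rfl⟩ ⟨m, hm, rfl⟩
        exact ⟨l + m, Subring.add_mem _ hl hm, rfl⟩
      neg_mem' := by
        rintro _ ⟨l, hl, rfl⟩
        exact ⟨-l, Subring.neg_mem _ hl, rfl⟩ }
  rcases hirr T (by
    rintro r _ ⟨l, hl, rfl⟩
    exact ⟨ρ r * l, Subring.mul_mem _ (Subring.subset_closure ⟨r, rfl⟩) hl, rfl⟩) with h | h
  · exfalso
    have h1 : s₀ ∈ T := ⟨1, Subring.one_mem _, rfl⟩
    rw [h, AddSubgroup.mem_bot] at h1
    exact hs h1
  · have h1 : s ∈ T := by rw [h]; trivial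
    exact h1

/-- the commutative ring structure -/
@[reducible] def repCommRing (hcomm : ∀ a b, ρ a * ρ b = ρ b * ρ a) : CommRing (repRing ρ) :=
  { (inferInstance : Ring (repRing ρ)) with
    mul_comm := by
      have h := Subring.isMulCommutative_closure (s := Set.range ρ) (by
        rintro _ ⟨a, rfl⟩ _ ⟨b, rfl⟩
        exact hcomm a b)
      exact h.is_comm.comm }

theorem repRing_isDomain [Nontrivial S] (hcomm : ∀ a b, ρ a * ρ b = ρ b * ρ a)
    (hirr : ∀ T : AddSubgroup S, (∀ r, ∀ t ∈ T, ρ r t ∈ T) → T = ⊥ ∨ T = ⊤) :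
    letI := repCommRing hcomm
    IsDomain (repRing ρ) := by
  let _ := repCommRing hcomm
  have hnt : Nontrivial (repRing ρ) := by
    refine ⟨⟨1, 0, ?_⟩⟩
    intro h
    obtain ⟨s, hs⟩ := exists_ne (0 : S)
    apply hs
    have h1 := congrArg (fun g : repRing ρ => (g : AddMonoid.End S) s) h
    exact h1
  have hnz : NoZeroDivisors (repRing ρ) := by
    refine ⟨?_⟩
    intro a b hab
    by_cases ha : a = 0
    · exact Or.inl ha
    · right
      have ha' : (a : AddMonoid.End S) ≠ 0 := fun h => ha (Subtype.ext h)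
      apply Subtype.ext
      ext s
      apply repRing_injective hcomm hirr a.2 ha'
      have h1 := congrArg (fun g : repRing ρ => (g : AddMonoid.End S) s) hab
      exact h1
  exact NoZeroDivisors.to_isDomain _

/-- An abelian group acting irreducibly acts as a cyclic group. -/
theorem exists_generator_of_irreducible [Nontrivial S] [Finite R] (hcomm : ∀ a b, ρ a * ρ b = ρ b * ρ a)
    (hirr : ∀ T : AddSubgroup S, (∀ r, ∀ t ∈ T, ρ r t ∈ T) → T = ⊥ ∨ T = ⊤) :
    ∃ x : R, ∀ a : R, ∃ i : ℕ, ρ a = ρ x ^ i := by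
  let _ := repCommRing hcomm
  have := repRing_isDomain hcomm hirr
  let φ : R →* repRing ρ :=
    { toFun := fun r => ⟨ρ r, Subring.subset_closure ⟨r, rfl⟩⟩
      map_one' := Subtype.ext (map_one ρ)
      map_mul' := fun a b => Subtype.ext (map_mul ρ a b) }
  let ψ : R →* (repRing ρ)ˣ := φ.toHomUnits
  have hfin : Finite ψ.range := Finite.of_surjective ψ.rangeRestrict ψ.rangeRestrict_surjective
  have hcyc : IsCyclic ψ.range := isCyclic_subgroup_units _
  obtain ⟨⟨_, x, rfl⟩, hx⟩ := hcyc.exists_generator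
  refine ⟨x, fun a => ?_⟩
  have h1 := hx ⟨ψ a, a, rfl⟩
  rw [← mem_powers_iff_mem_zpowers] at h1
  obtain ⟨i, hi⟩ := h1
  refine ⟨i, ?_⟩
  have h2 := congrArg (fun g : ψ.range => (((g : (repRing ρ)ˣ) : repRing ρ) : AddMonoid.End S)) hi
  have h3 : ((((⟨ψ x, x, rfl⟩ : ψ.range) ^ i : ψ.range) : (repRing ρ)ˣ) : repRing ρ) = (φ x) ^ i := by
    rfl
  have h4 : (((φ x) ^ i : repRing ρ) : AddMonoid.End S) = ρ x ^ i := by
    rfl
  rw [← h4, ← h3]
  exact h2.symm

end Schur

section Norm

variable {V : Type*} [AddCommGroup V] [Finite V] {R : Type*} [Group R]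

/-- Nonvanishing of the norm: abelian case of Hall–Higman. -/
theorem exists_norm_ne_zero [Nontrivial V] (ρ : R →* AddMonoid.End V) (hR : ∀ a b : R, a * b = b * a)
    (X : AddMonoid.End V) (σ : MulAut R) (hX : ∀ r, X * ρ r = ρ (σ r) * X) {n : ℕ} (hn : 0 < n)
    (hs : ∀ s, 0 < s → s < n → ∀ r : R, r ∈ Subgroup.closure {t | ∃ u, t = (σ ^ s) u * u⁻¹})
    (hV : ∀ W : AddSubgroup V, (∀ r u, ρ r u - u ∈ W) → W = ⊤) :
    ∃ v, (∑ i ∈ Finset.range n, X ^ i) v ≠ 0 := by
  by_contra hcon
  push Not at hcon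
  -- a maximal invariant subgroup
  have hfin : {W : AddSubgroup V | W ≠ ⊤ ∧ ∀ r, ∀ w ∈ W, ρ r w ∈ W}.Finite := Set.toFinite _
  obtain ⟨W, ⟨hW1, hW2⟩, hWmax⟩ := hfin.exists_maximal (⟨⊥, bot_ne_top, fun r w hw => by
    rw [AddSubgroup.mem_bot] at hw ⊢
    rw [hw, map_zero]⟩)
  let π : V →+ V ⧸ W := QuotientAddGroup.mk' W
  have hπs : Function.Surjective π := QuotientAddGroup.mk'_surjective W
  have hπ0 : ∀ v, π v = 0 ↔ v ∈ W := fun v => QuotientAddGroup.eq_zero_iff v
  let ρq : R →* AddMonoid.End (V ⧸ W) :=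
    { toFun := fun r => QuotientAddGroup.map W W (ρ r : V →+ V) (fun w hw => hW2 r w hw)
      map_one' := by
        apply AddMonoidHom.ext
        intro s
        obtain ⟨v, rfl⟩ := hπs s
        change π (ρ 1 v) = π v
        rw [map_one]; rfl
      map_mul' := fun a b => by
        apply AddMonoidHom.ext
        intro s
        obtain ⟨v, rfl⟩ := hπs s
        change π (ρ (a * b) v) = π (ρ a (ρ b v))
        rw [map_mul]; rfl }
  have hρq : ∀ r v, ρq r (π v) = π (ρ r v) := fun r v => rfl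
  have hcomm : ∀ a b, ρq a * ρq b = ρq b * ρq a := by
    intro a b
    rw [← map_mul, hR, map_mul]
  have hirr : ∀ T : AddSubgroup (V ⧸ W), (∀ r, ∀ t ∈ T, ρq r t ∈ T) → T = ⊥ ∨ T = ⊤ := by
    intro T hT
    by_cases h : T.comap π = ⊤
    · right
      rw [← AddSubgroup.map_comap_eq_self_of_surjective hπs T, h,
        AddSubgroup.map_top_of_surjective _ hπs]
    · left
      have hWT : W ≤ T.comap π := by
        intro w hw
        change π w ∈ T
        rw [(hπ0 w).mpr hw]; exact T.zero_mem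
      have h1 := hWmax (y := T.comap π) ⟨h, fun r v hv => by
        change π (ρ r v) ∈ T
        rw [← hρq]; exact hT r _ hv⟩ hWT
      rw [eq_bot_iff]
      intro t ht
      obtain ⟨v, rfl⟩ := hπs t
      rw [AddSubgroup.mem_bot, hπ0]
      exact h1 ht
  have hnt : Nontrivial (V ⧸ W) := by
    by_contra hsub
    rw [not_nontrivial_iff_subsingleton] at hsub
    apply hW1
    rw [eq_top_iff]
    intro v _
    rw [← hπ0]
    exact Subsingleton.elim _ _
  let _ := repCommRing hcomm
  have hdom := repRing_isDomain hcomm hirr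
  obtain ⟨s₀, hs₀⟩ := exists_ne (0 : V ⧸ W)
  -- the characters
  let lam : ℕ → (R →* repRing ρq) := fun i =>
    { toFun := fun r => ⟨ρq ((σ ^ i) r), Subring.subset_closure ⟨_, rfl⟩⟩
      map_one' := Subtype.ext (by
        change ρq ((σ ^ i) 1) = 1
        rw [map_one, map_one])
      map_mul' := fun a b => Subtype.ext (by
        change ρq ((σ ^ i) (a * b)) = ρq ((σ ^ i) a) * ρq ((σ ^ i) b)
        rw [map_mul, map_mul]) }
  have hlam : ∀ i j : ℕ, i < j → j < n → lam i ≠ lam j := by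
    intro i j hij hjn h
    have h1 : ∀ r, ρq ((σ ^ i) r) = ρq ((σ ^ j) r) := by
      intro r
      have h2 := congrArg (fun g : R →* repRing ρq => ((g r : repRing ρq) : AddMonoid.End (V ⧸ W))) h
      exact h2
    have h2 : ∀ u, ρq ((σ ^ (j - i)) u * u⁻¹) = 1 := by
      intro u
      have h3 := h1 ((σ ^ i)⁻¹ u)
      have h4 : (σ ^ i) ((σ ^ i)⁻¹ u) = u := MulAut.apply_inv_self _ _ _
      have h5 : (σ ^ j) ((σ ^ i)⁻¹ u) = (σ ^ (j - i)) u := by
        have h6 : σ ^ j = σ ^ (j - i) * σ ^ i := by rw [← pow_add, Nat.sub_add_cancel hij.le]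
        rw [h6]
        change (σ ^ (j - i)) ((σ ^ i) ((σ ^ i)⁻¹ u)) = _
        rw [h4]
      rw [h4, h5] at h3
      rw [map_mul, ← h3, ← map_mul, mul_inv_cancel, map_one]
    have h3 : ∀ r, ρq r = 1 := by
      intro r
      have h4 : Subgroup.closure {t | ∃ u, t = (σ ^ (j - i)) u * u⁻¹} ≤ ρq.ker := by
        rw [Subgroup.closure_le]
        rintro _ ⟨u, rfl⟩
        exact h2 u
      exact h4 (hs (j - i) (by omega) (by omega) r)
    apply hW1
    apply hV
    intro r u
    rw [← hπ0, map_sub, ← hρq, h3, sub_eq_zero]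
    rfl
  have hinj : Function.Injective (fun i : Fin n => lam i) := by
    intro i j h
    rcases lt_trichotomy i j with h1 | h1 | h1
    · exact absurd h (hlam i j h1 j.2)
    · exact h1
    · exact absurd h.symm (hlam j i h1 i.2)
  have hli := (linearIndependent_monoidHom R (repRing ρq)).comp _ hinj
  rw [Fintype.linearIndependent_iff] at hli
  -- conclusion
  apply hW1
  rw [eq_top_iff]
  intro v _
  rw [← hπ0]
  have hc : ∀ i : Fin n, ∃ l : repRing ρq, (l : AddMonoid.End (V ⧸ W)) s₀ = π ((X ^ (i : ℕ)) v) := by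
    intro i
    obtain ⟨l, hl, hls⟩ := repRing_surj hirr hs₀ (π ((X ^ (i : ℕ)) v))
    exact ⟨⟨l, hl⟩, hls⟩
  choose c hc using hc
  have hXi : ∀ (i : ℕ) (r : R), X ^ i * ρ r = ρ ((σ ^ i) r) * X ^ i := by
    intro i
    induction i with
    | zero => intro r; simp
    | succ i ih =>
      intro r
      rw [pow_succ, mul_assoc, hX, ← mul_assoc, ih, pow_succ σ, mul_assoc]
      rfl
  have hzero := hli c (by
    funext r
    rw [Finset.sum_apply]
    simp only [Pi.smul_apply, smul_eq_mul, Function.comp_apply, Pi.zero_apply]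
    apply Subtype.ext
    ext s
    obtain ⟨m, hm, rfl⟩ := repRing_surj hirr hs₀ s
    have hmm : ∀ l : repRing ρq, (l : AddMonoid.End (V ⧸ W)) (m s₀) = m ((l : AddMonoid.End (V ⧸ W)) s₀) := by
      intro l
      have h1 := mul_comm l ⟨m, hm⟩
      have h2 := congrArg (fun g : repRing ρq => (g : AddMonoid.End (V ⧸ W)) s₀) h1
      exact h2
    rw [hmm]
    have h1 : ((∑ i : Fin n, c i * lam i r : repRing ρq) : AddMonoid.End (V ⧸ W)) s₀ = 0 := by
      have h2 : ((∑ i : Fin n, c i * lam i r : repRing ρq) : AddMonoid.End (V ⧸ W)) s₀ =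
          ∑ i : Fin n, ((c i * lam i r : repRing ρq) : AddMonoid.End (V ⧸ W)) s₀ := by
        rw [AddSubmonoidClass.coe_finset_sum]
        exact AddMonoidHom.finset_sum_apply _ _ _
      rw [h2]
      have h3 : ∀ i : Fin n, ((c i * lam i r : repRing ρq) : AddMonoid.End (V ⧸ W)) s₀ =
          π ((X ^ (i : ℕ)) (ρ r v)) := by
        intro i
        rw [mul_comm]
        change ρq ((σ ^ (i : ℕ)) r) ((c i : AddMonoid.End (V ⧸ W)) s₀) = _
        rw [hc, hρq]
        have h4 := congrArg (fun g : AddMonoid.End V => g v) (hXi i r)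
        exact congrArg π h4.symm
      rw [Finset.sum_congr rfl (fun i _ => h3 i), ← map_sum]
      have h5 : ∑ i : Fin n, (X ^ (i : ℕ)) (ρ r v) = 0 := by
        have h6 := hcon (ρ r v)
        rw [← Fin.sum_univ_eq_sum_range (fun i => X ^ i) n] at h6
        rw [← h6]
        exact (AddMonoidHom.finset_sum_apply _ _ _).symm
      rw [h5, map_zero]
    rw [h1, map_zero]
    rfl)
  have h0 := hc ⟨0, hn⟩
  rw [hzero ⟨0, hn⟩] at h0
  have h1 : (X ^ ((⟨0, hn⟩ : Fin n) : ℕ)) v = v := by simp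
  rw [h1] at h0
  exact h0.symm

end Norm

end Cfsg.Agent.H51
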