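import Mathlib

/-!
Algebraic lemmas: equivariant alternating forms and unipotent operators in characteristic `p`.
-/

set_option autoImplicit false

namespace Cfsg.Agent.H51

section Form

variable {V Z : Type*} [AddCommGroup V] [AddCommGroup Z]

/-- equivariant forms vanish on deep terms -/
theorem form_zero (f : V →+ V →+ Z) (X Xi D : AddMonoid.End V) (ξ δ : AddMonoid.End Z)
    (hXi : X * Xi = 1) (hD : D = X - 1) (hδ : δ = ξ - 1) (hDX : Xi * D = D * Xi)
    (hf : ∀ u v, f (X u) (X v) = ξ (f u v)) {n c : ℕ} (hDn : D ^ n = 0)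
    (hc : ∀ u v, (δ ^ c) (f u v) = 0) :
    ∀ (b a e : ℕ) (u v : V), n + c ≤ a + b + e + 1 → (δ ^ e) (f ((D ^ a) u) ((D ^ b) v)) = 0 := by
  have hkey : ∀ u v, f u (D v) = δ (f (Xi u) v) - f (D (Xi u)) v := by
    intro u v
    have h1 : f u (X v) = ξ (f (Xi u) v) := by
      rw [← hf]
      have : X (Xi u) = (X * Xi) u := rfl
      rw [this, hXi]; rfl
    have h2 : D v = X v - v := by rw [hD]; rfl
    have h3 : D (Xi u) = u - Xi u := by
      have : X (Xi u) = (X * Xi) u := rfl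
      rw [hD]
      change X (Xi u) - Xi u = _
      rw [this, hXi]; rfl
    have h4 : δ (f (Xi u) v) = ξ (f (Xi u) v) - f (Xi u) v := by rw [hδ]; rfl
    rw [h2, map_sub, h1, h3, h4, map_sub, AddMonoidHom.sub_apply]
    abel
  have hcomm : ∀ (a : ℕ) (u : V), Xi ((D ^ a) u) = (D ^ a) (Xi u) := by
    intro a u
    have h1 : Commute Xi (D ^ a) := (show Commute Xi D from hDX).pow_right a
    exact congrArg (fun g : AddMonoid.End V => g u) h1.eq
  have hge : ∀ {m j : ℕ} (_ : m ≤ j) (u : V), D ^ m = 0 → (D ^ j) u = 0 := by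
    intro m j hmj u hm
    obtain ⟨l, rfl⟩ := Nat.exists_eq_add_of_le hmj
    rw [pow_add, hm, zero_mul]; rfl
  have hgeδ : ∀ {j : ℕ} (_ : c ≤ j) (u v : V), (δ ^ j) (f u v) = 0 := by
    intro j hj u v
    obtain ⟨l, rfl⟩ := Nat.exists_eq_add_of_le hj
    rw [add_comm, pow_add]
    change (δ ^ l) ((δ ^ c) (f u v)) = 0
    rw [hc, map_zero]
  intro b
  induction b with
  | zero =>
    intro a e u v h
    by_cases ha : n ≤ a
    · rw [hge ha u hDn, map_zero, AddMonoidHom.zero_apply, map_zero]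
    · exact hgeδ (by omega) _ _
  | succ b ih =>
    intro a e u v h
    have h1 : (D ^ (b + 1)) v = D ((D ^ b) v) := by rw [pow_succ']; rfl
    rw [h1, hkey, map_sub, hcomm]
    have h2 : (δ ^ e) (δ (f ((D ^ a) (Xi u)) ((D ^ b) v))) = (δ ^ (e + 1)) (f ((D ^ a) (Xi u)) ((D ^ b) v)) := by
      rw [pow_succ]; rfl
    have h3 : D ((D ^ a) (Xi u)) = (D ^ (a + 1)) (Xi u) := by rw [pow_succ']; rfl
    rw [h2, h3, ih a (e + 1) (Xi u) v (by omega), ih (a + 1) e (Xi u) v (by omega), sub_zero]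

/-- the special case in characteristic five -/
theorem form_five (f : V →+ V →+ Z) (X D : AddMonoid.End V) (ξ δ : AddMonoid.End Z)
    (hD : D = X - 1) (hδ : δ = ξ - 1) (hX5 : X ^ 5 = 1)
    (hf : ∀ u v, f (X u) (X v) = ξ (f u v)) (halt : ∀ v, f v v = 0)
    (hc : ∀ u v, (δ ^ 2) (f u v) = 0) (h5 : ∀ z : Z, (5 : ℕ) • z = 0) (v : V) :
    f ((D ^ 2) v) ((D ^ 3) v) = 0 := by
  have hskew : ∀ u w, f u w = - f w u := by
    intro u w
    have h1 := halt (u + w)
    simp only [map_add, AddMonoidHom.add_apply, halt, zero_add, add_zero] at h1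
    exact eq_neg_of_add_eq_zero_right h1
  have hξ2 : ∀ u w, ξ (ξ (f u w)) = ξ (f u w) + ξ (f u w) - f u w := by
    intro u w
    have h1 := hc u w
    have h2 : (δ ^ 2) (f u w) = δ (δ (f u w)) := rfl
    have h3 : ∀ z, δ z = ξ z - z := by intro z; rw [hδ]; rfl
    rw [h2, h3, h3, map_sub] at h1
    have h4 : ξ (ξ (f u w)) = (ξ (ξ (f u w)) - ξ (f u w) - (ξ (f u w) - f u w)) + (ξ (f u w) + ξ (f u w) - f u w) := by
      abel
    rw [h4, h1, zero_add]
  set p1 := X v with hp1
  set p2 := X p1 with hp2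
  set p3 := X p2 with hp3
  have h5v : X (X p3) = v := by
    have : (X ^ 5) v = v := by rw [hX5]; rfl
    exact this
  set A := f v p1 with hA
  set B := f v p2 with hB
  have e12 : f p1 p2 = ξ A := hf v p1
  have e23 : f p2 p3 = ξ (ξ A) := by rw [hp2, hp3, hf, ← e12]
  have e13 : f p1 p3 = ξ B := hf v p2
  have e24 : f p2 (X p3) = ξ (ξ B) := by rw [hp2, hf, e13]
  have e30 : f p3 v = ξ (ξ (ξ B)) := by
    have h1 := hf p2 (X p3)
    rw [h5v, e24] at h1
    exact h1
  have e03 : f v p3 = - ξ (ξ (ξ B)) := by rw [hskew, e30]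
  have hAξ : ξ (ξ A) = ξ A + ξ A - A := hξ2 v p1
  have hBξ : ξ (ξ B) = ξ B + ξ B - B := hξ2 v p2
  have hd : ∀ w, D w = X w - w := by intro w; rw [hD]; rfl
  have d2 : (D ^ 2) v = p2 - p1 - (p1 - v) := by
    have : (D ^ 2) v = D (D v) := rfl
    rw [this, hd, hd, map_sub]
  have d3 : (D ^ 3) v = p3 - p2 - (p2 - p1) - (p2 - p1 - (p1 - v)) := by
    have : (D ^ 3) v = D ((D ^ 2) v) := rfl
    rw [this, d2, hd, map_sub, map_sub, map_sub]
  have e20 : f p2 v = - B := hskew _ _
  have e10 : f p1 v = - A := hskew _ _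
  have e21 : f p2 p1 = - ξ A := by rw [hskew, e12]
  rw [d2, d3]
  simp only [map_sub, AddMonoidHom.sub_apply, halt, e12, e23, e13, e03, e20, e10, e21, hAξ, hBξ,
    map_add, ← hA, ← hB]
  have h5A := h5 (ξ A)
  have h5B := h5 (ξ B)
  have e : (5 : ℕ) • (ξ A) - (5 : ℕ) • (ξ B) = 0 := by rw [h5A, h5B, sub_zero]
  refine Eq.trans ?_ e
  abel

end Form

section Char

variable {𝓔 : Type*} [Ring 𝓔] {p : ℕ} [hp : Fact p.Prime]

theorem sub_one_pow_char_pow (h0 : (p : 𝓔) = 0) (X : 𝓔) (k : ℕ) :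
    (X - 1) ^ (p ^ k) = X ^ (p ^ k) - 1 := by
  have hdvd : ringChar 𝓔 ∣ p := ringChar.dvd h0
  let φ : ZMod p →+* 𝓔 := ZMod.castHom hdvd 𝓔
  let ψ : Polynomial (ZMod p) →+* 𝓔 := Polynomial.eval₂RingHom' φ X (fun a => by
    obtain ⟨m, rfl⟩ := ZMod.natCast_zmod_surjective a
    rw [map_natCast]
    exact Nat.cast_commute m X)
  have hψ : ψ Polynomial.X = X := by
    change Polynomial.eval₂ φ X Polynomial.X = X
    exact Polynomial.eval₂_X _ _
  have h1 : ((Polynomial.X : Polynomial (ZMod p)) - 1) ^ (p ^ k) = Polynomial.X ^ (p ^ k) - 1 := by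
    rw [sub_pow_char_pow, one_pow]
  have h2 := congrArg ψ h1
  rwa [map_pow, map_sub, map_one, map_sub, map_pow, map_one, hψ] at h2

theorem geom_sum_eq_sub_one_pow (h0 : (p : 𝓔) = 0) (X : 𝓔) (k : ℕ) :
    ∑ i ∈ Finset.range (p ^ k), X ^ i = (X - 1) ^ (p ^ k - 1) := by
  have hdvd : ringChar 𝓔 ∣ p := ringChar.dvd h0
  let φ : ZMod p →+* 𝓔 := ZMod.castHom hdvd 𝓔
  let ψ : Polynomial (ZMod p) →+* 𝓔 := Polynomial.eval₂RingHom' φ X (fun a => by
    obtain ⟨m, rfl⟩ := ZMod.natCast_zmod_surjective a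
    rw [map_natCast]
    exact Nat.cast_commute m X)
  have hψ : ψ Polynomial.X = X := by
    change Polynomial.eval₂ φ X Polynomial.X = X
    exact Polynomial.eval₂_X _ _
  have hpos : 0 < p ^ k := pow_pos hp.out.pos k
  have h1 : ∑ i ∈ Finset.range (p ^ k), (Polynomial.X : Polynomial (ZMod p)) ^ i =
      (Polynomial.X - 1) ^ (p ^ k - 1) := by
    have hne : (Polynomial.X - 1 : Polynomial (ZMod p)) ≠ 0 := by
      have := Polynomial.X_sub_C_ne_zero (1 : ZMod p)
      rwa [Polynomial.C_1] at this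
    apply mul_right_cancel₀ hne
    rw [geom_sum_mul, ← pow_succ, Nat.sub_add_cancel hpos, sub_pow_char_pow, one_pow]
  have h2 := congrArg ψ h1
  rw [map_sum, map_pow, map_sub, map_one, hψ] at h2
  rw [← h2]
  refine Finset.sum_congr rfl (fun i _ => ?_)
  rw [map_pow, hψ]

end Char

section Chain

variable {Z : Type*} [AddCommGroup Z] [Finite Z]

/-- a nilpotent endomorphism with small image -/
theorem pow_eq_zero_of_card_range {p : ℕ} (hp : p.Prime) (hZ : ∀ z : Z, p • z = 0)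
    (δ : AddMonoid.End Z) {m : ℕ} (hm : δ ^ m = 0) {k : ℕ}
    (hk : Nat.card (AddMonoidHom.range (δ : Z →+ Z)) ≤ p ^ k) : δ ^ (k + 1) = 0 := by
  have hpp : Fact p.Prime := ⟨hp⟩
  -- images
  set R : ℕ → AddSubgroup Z := fun i => AddMonoidHom.range ((δ ^ i : AddMonoid.End Z) : Z →+ Z) with hR
  have hmem : ∀ i z, z ∈ R i ↔ ∃ y, (δ ^ i) y = z := fun i z => Iff.rfl
  have hsucc : ∀ i, R (i + 1) ≤ R i := by
    rintro i _ ⟨y, rfl⟩
    refine ⟨δ y, ?_⟩
    change (δ ^ i) (δ y) = (δ ^ (i + 1)) y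
    rw [pow_succ]; rfl
  have hlt : ∀ i, R i ≠ ⊥ → R (i + 1) ≠ R i := by
    intro i hi heq
    have hst : ∀ j, R (i + j) = R i := by
      intro j
      induction j with
      | zero => rfl
      | succ j ih =>
        apply le_antisymm ((hsucc (i + j)).trans ih.le)
        intro z hz
        -- z ∈ R (i+1)
        rw [← heq] at hz
        obtain ⟨y, rfl⟩ := hz
        have h1 : (δ ^ i) y ∈ R (i + j) := by rw [ih]; exact ⟨y, rfl⟩
        obtain ⟨y', hy'⟩ := h1
        refine ⟨y', ?_⟩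
        change (δ ^ (i + (j + 1))) y' = (δ ^ (i + 1)) y
        have e1 : (δ ^ (i + (j + 1))) y' = δ ((δ ^ (i + j)) y') := by
          rw [← add_assoc, pow_succ']; rfl
        have e2 : (δ ^ (i + 1)) y = δ ((δ ^ i) y) := by rw [pow_succ']; rfl
        rw [e1, e2]
        exact congrArg δ hy'
    apply hi
    rw [← hst m, eq_bot_iff]
    rintro _ ⟨y, rfl⟩
    rw [AddSubgroup.mem_bot]
    change (δ ^ (i + m)) y = 0
    rw [pow_add, hm, mul_zero]; rfl
  have hpg : ∀ W : AddSubgroup Z, ∃ j, Nat.card W = p ^ j := by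
    intro W
    have h1 : IsPGroup p (Multiplicative W) := by
      intro z
      refine ⟨1, ?_⟩
      rw [pow_one]
      apply Multiplicative.toAdd.injective
      rw [toAdd_pow, toAdd_one]
      exact Subtype.ext (hZ _)
    exact (IsPGroup.iff_card (G := Multiplicative W)).mp h1
  have hcard : ∀ i, R i ≠ ⊥ → Nat.card (R (i + 1)) * p ≤ Nat.card (R i) := by
    intro i hi
    obtain ⟨a, ha⟩ := hpg (R i)
    obtain ⟨b, hb⟩ := hpg (R (i + 1))
    have h1 : Nat.card (R (i + 1)) < Nat.card (R i) := by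
      apply lt_of_le_of_ne
      · exact Nat.card_le_card_of_injective _ (AddSubgroup.inclusion_injective (hsucc i))
      · intro h
        exact hlt i hi (AddSubgroup.eq_of_le_of_card_ge (hsucc i) h.ge)
    rw [ha, hb] at h1 ⊢
    have h2 : b < a := (Nat.pow_lt_pow_iff_right hp.one_lt).mp h1
    rw [← pow_succ]
    exact Nat.pow_le_pow_right hp.pos h2
  have hbot : ∀ i, R (i + 1) = ⊥ ∨ Nat.card (R (i + 1)) * p ^ i ≤ p ^ k := by
    intro i
    induction i with
    | zero =>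
      right
      rw [pow_zero, mul_one, zero_add]
      have : R 1 = AddMonoidHom.range (δ : Z →+ Z) := by
        rw [hR]; simp only [pow_one]
      rw [this]; exact hk
    | succ i ih =>
      rcases ih with ih | ih
      · left
        rw [eq_bot_iff, ← ih]; exact hsucc _
      · by_cases h0 : R (i + 1) = ⊥
        · left
          rw [eq_bot_iff, ← h0]; exact hsucc _
        · right
          calc Nat.card (R (i + 1 + 1)) * p ^ (i + 1) = (Nat.card (R (i + 1 + 1)) * p) * p ^ i := by ring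
            _ ≤ Nat.card (R (i + 1)) * p ^ i := Nat.mul_le_mul_right _ (hcard _ h0)
            _ ≤ p ^ k := ih
  have hfin : R (k + 1) = ⊥ := by
    rcases hbot k with h | h
    · exact h
    · have h1 : Nat.card (R (k + 1)) ≤ 1 := by
        by_contra hlt'
        push Not at hlt'
        have : p ^ k < Nat.card (R (k + 1)) * p ^ k := by
          have := pow_pos hp.pos k
          nlinarith
        omega
      have h2 : Nat.card (R (k + 1)) = 1 := le_antisymm h1 Nat.card_pos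
      exact AddSubgroup.card_eq_one.mp h2
  ext z
  have : (δ ^ (k + 1)) z ∈ R (k + 1) := ⟨z, rfl⟩
  rw [hfin, AddSubgroup.mem_bot] at this
  exact this

end Chain

end Cfsg.Agent.H51
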