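import Mathlib

/-!
Abelian sections of a group, with the conjugation action.
-/

set_option autoImplicit false

namespace Cfsg.Agent.H51

open scoped commutatorElement

variable {L : Type*} [Group L]

/-- the abelian section `Y / U`, written additively -/
def CSec (Y U : Subgroup L) [Y.Normal] [U.Normal] (_ : ⁅Y, Y⁆ ≤ U) : Type _ :=
  Additive (Y ⧸ U.subgroupOf Y)

section

variable {Y U : Subgroup L} [hY : Y.Normal] [hU : U.Normal] (h : ⁅Y, Y⁆ ≤ U)

instance CSec.addCommGroup : AddCommGroup (CSec Y U h) :=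
  { (inferInstance : AddGroup (Additive (Y ⧸ U.subgroupOf Y))) with
    add_comm := by
      intro a b
      change Additive (Y ⧸ U.subgroupOf Y) at a
      change Additive (Y ⧸ U.subgroupOf Y) at b
      obtain ⟨a, ha⟩ := QuotientGroup.mk_surjective (Additive.toMul a)
      obtain ⟨b, hb⟩ := QuotientGroup.mk_surjective (Additive.toMul b)
      have h1 : (a : Y ⧸ U.subgroupOf Y) * (b : Y ⧸ U.subgroupOf Y) = (b : Y ⧸ U.subgroupOf Y) * a := by
        rw [← QuotientGroup.mk_mul, ← QuotientGroup.mk_mul, QuotientGroup.eq, Subgroup.mem_subgroupOf]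
        have h1 := h (Subgroup.commutator_mem_commutator (Y.inv_mem b.2) (Y.inv_mem a.2))
        have e : (((a * b)⁻¹ * (b * a) : Y) : L) = ⁅(b : L)⁻¹, (a : L)⁻¹⁆ := by
          rw [commutatorElement_def]
          push_cast
          group
        rw [e]; exact h1
      rw [ha, hb] at h1
      exact h1 }

instance CSec.finite [Finite L] : Finite (CSec Y U h) :=
  inferInstanceAs (Finite (Additive (Y ⧸ U.subgroupOf Y)))

/-- the projection -/
def CSec.mk : Y →* Multiplicative (CSec Y U h) where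
  toFun y := Multiplicative.ofAdd (show CSec Y U h from Additive.ofMul (y : Y ⧸ U.subgroupOf Y))
  map_one' := rfl
  map_mul' _ _ := rfl

theorem CSec.mk_surjective : Function.Surjective (CSec.mk h) := by
  intro v
  obtain ⟨y, hy⟩ := QuotientGroup.mk_surjective (Additive.toMul (show Additive (Y ⧸ U.subgroupOf Y) from Multiplicative.toAdd v))
  exact ⟨y, hy⟩

theorem CSec.mk_eq_one_iff (y : Y) : CSec.mk h y = 1 ↔ (y : L) ∈ U := by
  have h1 : CSec.mk h y = 1 ↔ (y : Y ⧸ U.subgroupOf Y) = 1 := Iff.rfl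
  rw [h1, QuotientGroup.eq_one_iff, Subgroup.mem_subgroupOf]

theorem CSec.mk_eq_iff (y z : Y) : CSec.mk h y = CSec.mk h z ↔ (y : L) * (z : L)⁻¹ ∈ U := by
  rw [← mul_inv_eq_one, ← map_inv, ← map_mul, CSec.mk_eq_one_iff]
  rfl

/-- the action of one element -/
def CSec.actFun (g : L) : CSec Y U h →+ CSec Y U h :=
  MonoidHom.toAdditive (QuotientGroup.map (U.subgroupOf Y) (U.subgroupOf Y)
    ((MulAut.conjNormal g : MulAut Y).toMonoidHom) (by
      intro y hy
      rw [Subgroup.mem_subgroupOf] at hy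
      rw [Subgroup.mem_comap, Subgroup.mem_subgroupOf]
      exact hU.conj_mem _ hy g))

theorem CSec.actFun_mk (g : L) (y : Y) :
    CSec.actFun h g (Multiplicative.toAdd (CSec.mk h y)) =
      Multiplicative.toAdd (CSec.mk h ⟨g * y * g⁻¹, hY.conj_mem _ y.2 g⟩) := rfl

/-- the conjugation action -/
def CSec.act : L →* AddMonoid.End (CSec Y U h) where
  toFun g := CSec.actFun h g
  map_one' := by
    apply AddMonoidHom.ext
    intro v
    obtain ⟨y, hy⟩ := CSec.mk_surjective h (Multiplicative.ofAdd v)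
    have hv : v = Multiplicative.toAdd (CSec.mk h y) := by rw [hy]; rfl
    rw [hv, CSec.actFun_mk]
    change _ = Multiplicative.toAdd (CSec.mk h y)
    congr 2
    apply Subtype.ext
    simp
  map_mul' g g' := by
    apply AddMonoidHom.ext
    intro v
    obtain ⟨y, hy⟩ := CSec.mk_surjective h (Multiplicative.ofAdd v)
    have hv : v = Multiplicative.toAdd (CSec.mk h y) := by rw [hy]; rfl
    rw [hv, CSec.actFun_mk]
    change _ = CSec.actFun h g (CSec.actFun h g' (Multiplicative.toAdd (CSec.mk h y)))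
    rw [CSec.actFun_mk, CSec.actFun_mk]
    congr 2
    apply Subtype.ext
    change g * g' * y * (g * g')⁻¹ = g * (g' * y * g'⁻¹) * g⁻¹
    group

theorem CSec.act_mk (g : L) (y : Y) :
    CSec.act h g (Multiplicative.toAdd (CSec.mk h y)) =
      Multiplicative.toAdd (CSec.mk h ⟨g * y * g⁻¹, hY.conj_mem _ y.2 g⟩) := rfl

theorem CSec.act_eq_one_iff (g : L) : CSec.act h g = 1 ↔ ∀ y ∈ Y, ⁅g, y⁆ ∈ U := by
  constructor
  · intro h1 y hy
    have h2 := CSec.act_mk h g ⟨y, hy⟩
    rw [h1] at h2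
    have h3 : CSec.mk h ⟨g * y * g⁻¹, hY.conj_mem _ hy g⟩ = CSec.mk h ⟨y, hy⟩ := h2.symm
    rw [CSec.mk_eq_iff] at h3
    exact h3
  · intro h1
    apply AddMonoidHom.ext
    intro v
    obtain ⟨y, hy⟩ := CSec.mk_surjective h (Multiplicative.ofAdd v)
    have hv : v = Multiplicative.toAdd (CSec.mk h y) := by rw [hy]; rfl
    rw [hv]
    change CSec.act h g (Multiplicative.toAdd (CSec.mk h y)) = Multiplicative.toAdd (CSec.mk h y)
    rw [CSec.act_mk]
    congr 1
    rw [CSec.mk_eq_iff]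
    exact h1 y y.2

theorem CSec.nsmul_eq_zero {p : ℕ} (hp : ∀ y ∈ Y, y ^ p ∈ U) (v : CSec Y U h) : p • v = 0 := by
  obtain ⟨y, hy⟩ := CSec.mk_surjective h (Multiplicative.ofAdd v)
  have hv : v = Multiplicative.toAdd (CSec.mk h y) := by rw [hy]; rfl
  have h1 : CSec.mk h (y ^ p) = 1 := by
    rw [CSec.mk_eq_one_iff]
    exact hp y y.2
  rw [hv, ← toAdd_pow, ← map_pow, h1, toAdd_one]

theorem CSec.natCast_eq_zero {p : ℕ} (hp : ∀ y ∈ Y, y ^ p ∈ U) :
    ((p : ℕ) : AddMonoid.End (CSec Y U h)) = 0 := by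
  apply AddMonoidHom.ext
  intro v
  have h1 : ((p : ℕ) : AddMonoid.End (CSec Y U h)) v = p • v := by
    rw [AddMonoid.End.natCast_apply]
  change ((p : ℕ) : AddMonoid.End (CSec Y U h)) v = 0
  rw [h1]
  exact CSec.nsmul_eq_zero h hp v

end

section SecHom

variable (V V₁ : Subgroup L) [V.Normal] [V₁.Normal]

/-- conjugation action on the section `V / V₁` -/
def secHom : L →* MulAut (V ⧸ V₁.subgroupOf V) where
  toFun g := QuotientGroup.congr (V₁.subgroupOf V) (V₁.subgroupOf V) (MulAut.conjNormal g) (by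
    ext x
    constructor
    · rintro ⟨y, hy, rfl⟩
      rw [Subgroup.mem_subgroupOf]
      have hy' : (y : L) ∈ V₁ := Subgroup.mem_subgroupOf.mp hy
      show g * y * g⁻¹ ∈ V₁
      exact ‹V₁.Normal›.conj_mem _ hy' g
    · intro hx
      refine ⟨MulAut.conjNormal g⁻¹ x, ?_, ?_⟩
      · have hx' : (x : L) ∈ V₁ := Subgroup.mem_subgroupOf.mp hx
        show g⁻¹ * x * g⁻¹⁻¹ ∈ V₁
        exact ‹V₁.Normal›.conj_mem _ hx' g⁻¹
      · apply Subtype.ext
        show g * (g⁻¹ * x * g⁻¹⁻¹) * g⁻¹ = x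
        group)
  map_one' := by
    ext x
    obtain ⟨v, rfl⟩ := QuotientGroup.mk_surjective x
    simp
  map_mul' g h := by
    ext x
    obtain ⟨v, rfl⟩ := QuotientGroup.mk_surjective x
    simp

theorem secHom_mk (g : L) (v : V) :
    secHom V V₁ g (v : V ⧸ V₁.subgroupOf V) =
      ((MulAut.conjNormal g v : V) : V ⧸ V₁.subgroupOf V) := rfl

end SecHom

end Cfsg.Agent.H51
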