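import Mathlib
import Cfsg.Prelude.Def_PLocal
import Cfsg.Agent.H51.GTClosed
import Cfsg.Agent.H33.Frattini

/-!
Glauberman: a characteristic subgroup deciding the existence of a normal `p`-complement, `p` odd.
-/

set_option autoImplicit false

namespace Cfsg.Agent.H51

open Cfsg Subgroup
open Cfsg.Agent.ZJ
open Cfsg.Agent.H33 (IsSyl)
open scoped commutatorElement Pointwise

universe u

theorem hasNPC_of_central_quotient {p : ℕ} [hp : Fact p.Prime] {M : Type*} [Group M] [Finite M]
    (Z : Subgroup M) [Z.Normal] (hZ : Z ≤ center M) (hZp : IsPGroup p Z)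
    (h : HasNormalPComplement p (M ⧸ Z)) : HasNormalPComplement p M := by
  obtain ⟨N', hN', h1, k, h2⟩ := Cfsg.Agent.Transfer.hasNPC_iff_exists.mp h
  set A := N'.comap (QuotientGroup.mk' Z) with hA
  have hAn : A.Normal := hN'.comap _
  have hAi : A.index = p ^ k := by
    rw [hA, Subgroup.index_comap_of_surjective _ (QuotientGroup.mk'_surjective Z), h2]
  apply Cfsg.Agent.Transfer.HasNPC.of_normal_index_pow hAi
  have hZA : Z ≤ A := by
    intro z hz
    show QuotientGroup.mk' Z z ∈ N'
    rw [show QuotientGroup.mk' Z z = 1 from (QuotientGroup.eq_one_iff z).mpr hz]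
    exact one_mem _
  have hmapA : A.map (QuotientGroup.mk' Z) = N' :=
    Subgroup.map_comap_eq_self_of_surjective (QuotientGroup.mk'_surjective Z) N'
  have hrel : Z.relIndex A = Nat.card N' := by
    have h1 := Subgroup.relIndex_ker (QuotientGroup.mk' Z) (K := A)
    rw [QuotientGroup.ker_mk', hmapA] at h1
    exact h1
  let P : Sylow p A := IsPGroup.toSylow (P := Z.subgroupOf A) hZp.comap_subtype (by
    change ¬ p ∣ Z.relIndex A
    rw [hrel]
    exact (Nat.Prime.coprime_iff_not_dvd hp.out).mp h1.symm)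
  apply Cfsg.Agent.Transfer.hasNPC_of_normalizer_le_centralizer P
  intro x _
  rw [mem_centralizer_iff]
  intro z hz
  have hz' : (z : M) ∈ Z := mem_subgroupOf.mp hz
  exact Subtype.ext ((mem_center_iff.mp (hZ hz')) x).symm

/-- a lift of a `p'`-element through a `p`-group kernel -/
theorem exists_coprime_lift {p : ℕ} [hp : Fact p.Prime] {M X : Type*} [Group M] [Finite M] [Group X]
    (f : M →* X) (hf : Function.Surjective f) {g : X} (hg : (orderOf g).Coprime p) :
    ∃ m : M, f m = g ∧ (orderOf m).Coprime p := by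
  obtain ⟨x, rfl⟩ := hf g
  obtain ⟨a, b, hab, ⟨k, hk⟩, hb⟩ := Cfsg.Agent.Transfer.exists_pow_decomp p x (orderOf_pos x).ne'
  refine ⟨x ^ b, ?_, hb⟩
  have h1 : f (x ^ a) = 1 := by
    have h2 : orderOf (f (x ^ a)) ∣ p ^ k := by
      rw [← hk]; exact orderOf_map_dvd f _
    have h3 : orderOf (f (x ^ a)) ∣ orderOf (f x) := by
      rw [map_pow]; exact orderOf_pow_dvd a
    rw [← orderOf_eq_one_iff]
    exact Nat.eq_one_of_dvd_coprimes (hg.pow_right k) h3 h2
  calc f (x ^ b) = f (x ^ a) * f (x ^ b) := by rw [h1, one_mul]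
    _ = f (x ^ a * x ^ b) := (map_mul _ _ _).symm
    _ = f x := by rw [← hab]

/-- images of characteristic preimages under embeddings with the same range -/
theorem map_comap_char_eq {C X : Type*} [Group C] [Group X] (f g : C →* X)
    (hf : Function.Injective f) (hg : Function.Injective g) (hr : f.range = g.range)
    (Z₁ : Subgroup C) [Z₁.Normal] (hZ : Z₁.map f = Z₁.map g) (K₁ : Subgroup (C ⧸ Z₁))
    [hK : K₁.Characteristic] :
    (K₁.comap (QuotientGroup.mk' Z₁)).map f = (K₁.comap (QuotientGroup.mk' Z₁)).map g := by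
  let θ : C ≃* C := (MonoidHom.ofInjective hf).trans
    ((MulEquiv.subgroupCongr hr).trans (MonoidHom.ofInjective hg).symm)
  have hθ : ∀ c, g (θ c) = f c := by
    intro c
    have h1 : MonoidHom.ofInjective hg (θ c) = MulEquiv.subgroupCongr hr (MonoidHom.ofInjective hf c) := by
      change MonoidHom.ofInjective hg ((MonoidHom.ofInjective hg).symm _) = _
      rw [MulEquiv.apply_symm_apply]
      rfl
    exact congrArg Subtype.val h1
  have hfg : f = g.comp θ.toMonoidHom := by
    ext c; exact (hθ c).symm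
  have hθZ : Z₁.map θ.toMonoidHom = Z₁ := by
    apply Subgroup.map_injective hg
    rw [Subgroup.map_map, ← hfg, hZ]
  have hθK : (K₁.comap (QuotientGroup.mk' Z₁)).map θ.toMonoidHom = K₁.comap (QuotientGroup.mk' Z₁) := by
    let θ' : (C ⧸ Z₁) ≃* (C ⧸ Z₁) := QuotientGroup.congr Z₁ Z₁ θ hθZ
    have h1 : K₁.comap θ'.toMonoidHom = K₁ := (characteristic_iff_comap_eq.mp hK) θ'
    have h2 : (K₁.comap (QuotientGroup.mk' Z₁)).comap θ.toMonoidHom = K₁.comap (QuotientGroup.mk' Z₁) := by
      conv_rhs => rw [← h1]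
      rw [Subgroup.comap_comap, Subgroup.comap_comap]
      rfl
    conv_lhs => rw [← h2]
    exact Subgroup.map_comap_eq_self_of_surjective θ.surjective _
  rw [hfg, ← Subgroup.map_map, hθK]

theorem exists_char_npc (p : ℕ) [hp : Fact p.Prime] (hp2 : p ≠ 2) :
    ∀ (n : ℕ) (S : Type u) [Group S] [Finite S], Nat.card S = n → IsPGroup p S →
      ∃ K : Subgroup S, K.Characteristic ∧ centralizer (K : Set S) ≤ K ∧
        ∀ (G : Type u) [Group G] [Finite G] (P : Sylow p G) (ι : S →* G), Function.Injective ι →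
          ι.range = P →
          (∀ g ∈ normalizer ((K.map ι : Subgroup G) : Set G), (orderOf g).Coprime p →
            g ∈ centralizer ((K.map ι : Subgroup G) : Set G)) → HasNormalPComplement p G := by
  intro n
  induction n using Nat.strong_induction_on with
  | _ n ih =>
  intro S _ _ hn hS
  rcases subsingleton_or_nontrivial S with hsub | hnt
  · refine ⟨⊤, topCharacteristic, le_top, ?_⟩
    intro G _ _ P ι hι hP _
    have h1 : (P : Subgroup G) = ⊥ := by
      rw [← hP, eq_bot_iff]
      rintro _ ⟨s, rfl⟩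
      rw [Subsingleton.elim s 1, map_one]
      exact one_mem _
    apply Cfsg.Agent.Transfer.hasNPC_of_coprime
    have h2 := Cfsg.Agent.Transfer.coprime_index_sylow P
    rwa [h1, index_bot] at h2
  -- the centre of the Thompson subgroup
  set Z : Subgroup S := zja S with hZdef
  have hZ1 : Z ≠ ⊥ := (goodFun_zja hp2).ne_bot S hS hnt
  have hZchar : Z.Characteristic := by
    rw [characteristic_iff_map_eq]
    intro φ
    exact isNat_zja S S φ
  set C : Subgroup S := centralizer (Z : Set S) with hCdef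
  have hZC : Z ≤ C := by
    intro z hz
    rw [hCdef, mem_centralizer_iff]
    intro y hy
    have h1 : z ∈ zja S := hz
    have h2 : y ∈ zja S := hy
    exact mem_centralizer_iff.mp h1.2 y h2.1
  set Z₁ : Subgroup C := Z.subgroupOf C with hZ₁def
  have hZ₁n : Z₁.Normal := inferInstance
  have hcardZ₁ : Nat.card Z₁ = Nat.card Z := Nat.card_congr (subgroupOfEquivOfLe hZC).toEquiv
  have hcardQ : Nat.card (C ⧸ Z₁) < n := by
    rw [← hn]
    refine lt_of_lt_of_le ?_ (Subgroup.card_le_card_group C)
    rw [Subgroup.card_eq_card_quotient_mul_card_subgroup Z₁]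
    have h2 : 1 < Nat.card Z₁ := by
      rw [hcardZ₁]
      have := Nat.card_pos (α := Z)
      have hne : Nat.card Z ≠ 1 := fun h => hZ1 (Subgroup.card_eq_one.mp h)
      omega
    have h3 : 0 < Nat.card (C ⧸ Z₁) := Nat.card_pos
    nlinarith
  have hQp : IsPGroup p (C ⧸ Z₁) := (hS.to_subgroup C).to_quotient Z₁
  obtain ⟨K₁, hK₁char, hK₁cent, hK₁⟩ := ih _ hcardQ (C ⧸ Z₁) rfl hQp
  set K₀ : Subgroup C := K₁.comap (QuotientGroup.mk' Z₁) with hK₀def
  set K : Subgroup S := K₀.map C.subtype with hKdef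
  have hZK₀ : Z₁ ≤ K₀ := by
    intro z hz
    show QuotientGroup.mk' Z₁ z ∈ K₁
    rw [show QuotientGroup.mk' Z₁ z = 1 from (QuotientGroup.eq_one_iff z).mpr hz]
    exact one_mem _
  have hZK : Z ≤ K := by
    intro z hz
    exact ⟨⟨z, hZC hz⟩, hZK₀ (mem_subgroupOf.mpr hz), rfl⟩
  refine ⟨K, ?_, ?_, ?_⟩
  · -- characteristic
    rw [characteristic_iff_map_le]
    intro φ
    have hZφ : Z.map φ.toMonoidHom = Z := characteristic_iff_map_eq.mp hZchar φ
    have hCφ : C.map φ.toMonoidHom = C := by
      rw [hCdef, map_centralizer_equiv, hZφ]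
    have h1 := map_comap_char_eq (φ.toMonoidHom.comp C.subtype) C.subtype
      (φ.injective.comp C.subtype_injective) C.subtype_injective
      (by rw [MonoidHom.range_comp, Subgroup.range_subtype, hCφ]) Z₁
      (by rw [← Subgroup.map_map, hZ₁def, Subgroup.subgroupOf_map_subtype, inf_eq_left.mpr hZC, hZφ]) K₁
    rw [← Subgroup.map_map] at h1
    exact h1.le
  · -- self-centralizing
    intro x hx
    have hxC : x ∈ C := by
      rw [hCdef, mem_centralizer_iff]
      intro z hz
      exact mem_centralizer_iff.mp hx z (hZK hz)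
    have h1 : QuotientGroup.mk' Z₁ ⟨x, hxC⟩ ∈ centralizer (K₁ : Set (C ⧸ Z₁)) := by
      rw [mem_centralizer_iff]
      intro k hk
      obtain ⟨c, rfl⟩ := QuotientGroup.mk'_surjective Z₁ k
      rw [← map_mul, ← map_mul]
      congr 1
      exact Subtype.ext (mem_centralizer_iff.mp hx (c : S) ⟨c, hk, rfl⟩)
    exact ⟨⟨x, hxC⟩, hK₁cent h1, rfl⟩
  · -- the criterion
    intro G _ _ P ι hι hP hcrit
    set ZG : Subgroup G := Z.map ι with hZGdef
    set KG : Subgroup G := K.map ι with hKGdef
    have hZKG : ZG ≤ KG := Subgroup.map_mono hZK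
    have hZGP : ZG ≤ P := by
      rw [← hP]; exact Subgroup.map_le_range _ _
    have hZGp : IsPGroup p ZG := P.isPGroup'.to_le hZGP
    have hrel : ZG = rel (fun X _ => zja X) (P : Subgroup G) := by
      rw [← hP, MonoidHom.range_eq_map, ← rel_map isNat_zja ι hι.injOn, hZGdef]
      congr 1
      have h1 := isNat_zja (⊤ : Subgroup S) S Subgroup.topEquiv
      exact h1.symm
    apply hasNPC_of_stronglyClosed hp2 (goodFun_zja hp2) G P P
      ⟨le_rfl, fun _ _ _ h => h⟩
    rw [← hrel]
    set N := normalizer (ZG : Set G) with hNdef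
    set M := centralizer (ZG : Set G) with hMdef
    have hMN : M ≤ N := Cfsg.Agent.H33.cent_le_norm' ZG
    have hPN : (P : Subgroup G) ≤ N := by
      have := normalizer_le_normalizer_rel (W := fun X _ => zja X) isNat_zja (P : Subgroup G)
      rw [← hrel] at this
      exact le_normalizer.trans this
    have hNM : N ≤ normalizer (M : Set G) := by
      intro x hx
      have hx' : Cfsg.Agent.H33.cj x ZG = ZG := Cfsg.Agent.H33.mem_norm_iff.mp hx
      rw [Cfsg.Agent.H33.mem_norm_iff, hMdef, Cfsg.Agent.H33.cj_centralizer, hx']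
    have hZGM : ZG ≤ M := by
      rintro _ ⟨z, hz, rfl⟩
      rw [hMdef, mem_centralizer_iff]
      rintro _ ⟨y, hy, rfl⟩
      rw [← map_mul, ← map_mul, mem_centralizer_iff.mp (hZC hz) y hy]
    -- the Sylow subgroup `T` of `M`
    have hsylN : IsSyl p (P : Subgroup G) N := by
      refine ⟨hPN, P.isPGroup', ?_⟩
      intro hd
      exact P.not_dvd_index (hd.trans (Subgroup.relIndex_dvd_index_of_le hPN))
    have hsylM : IsSyl p ((P : Subgroup G) ⊓ M) M := hsylN.inf_normal hMN hNM
    have hιC : ∀ c : C, (ι.comp C.subtype) c ∈ M := by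
      intro c
      rw [hMdef, mem_centralizer_iff]
      rintro _ ⟨z, hz, rfl⟩
      show ι z * ι c = ι c * ι z
      rw [← map_mul, ← map_mul, mem_centralizer_iff.mp c.2 z hz]
    set ιC : C →* M := (ι.comp C.subtype).codRestrict M hιC with hιCdef
    have hιCi : Function.Injective ιC := by
      intro a b hab
      exact Subtype.ext (hι (congrArg Subtype.val hab))
    have hιCr : ιC.range = (P : Subgroup G).subgroupOf M := by
      ext m
      rw [mem_subgroupOf, ← hP]
      constructor
      · rintro ⟨c, rfl⟩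
        exact ⟨c, rfl⟩
      · rintro ⟨s, hs⟩
        have hsC : s ∈ C := by
          rw [hCdef, mem_centralizer_iff]
          intro z hz
          apply hι
          rw [map_mul, map_mul, hs]
          exact mem_centralizer_iff.mp m.2 _ ⟨z, hz, rfl⟩
        exact ⟨⟨s, hsC⟩, Subtype.ext hs⟩
    let PM : Sylow p M := hsylM.toSylow
    have hPM : (PM : Subgroup M) = ιC.range := by
      rw [hιCr]
      change ((P : Subgroup G) ⊓ M).subgroupOf M = _
      ext m
      rw [mem_subgroupOf, mem_subgroupOf]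
      exact ⟨fun h => h.1, fun h => ⟨h, m.2⟩⟩
    set ZM : Subgroup M := ZG.subgroupOf M with hZMdef
    have hZMc : ZM ≤ center M := by
      intro z hz
      rw [mem_center_iff]
      intro m
      exact Subtype.ext (mem_centralizer_iff.mp m.2 z (mem_subgroupOf.mp hz)).symm
    have hZMn : ZM.Normal := ⟨fun z hz m => by
      have h1 : m * z * m⁻¹ = z := by
        rw [mem_center_iff.mp (hZMc hz) m]; group
      rw [h1]; exact hz⟩
    have hZ₁M : ∀ c : C, ιC c ∈ ZM ↔ c ∈ Z₁ := by
      intro c
      rw [hZMdef, mem_subgroupOf, hZ₁def, mem_subgroupOf]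
      constructor
      · rintro ⟨z, hz, hzc⟩
        have : z = c := hι hzc
        rw [← this]; exact hz
      · intro h
        exact ⟨c, h, rfl⟩
    let ιQ : C ⧸ Z₁ →* M ⧸ ZM := QuotientGroup.map Z₁ ZM ιC (fun c hc => (hZ₁M c).mpr hc)
    have hιQ : ιQ.comp (QuotientGroup.mk' Z₁) = (QuotientGroup.mk' ZM).comp ιC := rfl
    have hιQi : Function.Injective ιQ := by
      rw [injective_iff_map_eq_one]
      intro x hx
      obtain ⟨c, rfl⟩ := QuotientGroup.mk'_surjective Z₁ x
      have h1 : QuotientGroup.mk' ZM (ιC c) = 1 := hx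
      exact (QuotientGroup.eq_one_iff _).mpr ((hZ₁M c).mp ((QuotientGroup.eq_one_iff _).mp h1))
    set KM : Subgroup M := K₀.map ιC with hKMdef
    have hKM : (K₁.map ιQ).comap (QuotientGroup.mk' ZM) = KM := by
      have h1 : K₁.map ιQ = KM.map (QuotientGroup.mk' ZM) := by
        rw [hKMdef, Subgroup.map_map, ← hιQ, ← Subgroup.map_map, hK₀def,
          Subgroup.map_comap_eq_self_of_surjective (QuotientGroup.mk'_surjective Z₁)]
      rw [h1, Subgroup.comap_map_eq, QuotientGroup.ker_mk', sup_eq_left]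
      rintro ⟨z, hzM⟩ hz
      obtain ⟨s, hs, hsz⟩ := mem_subgroupOf.mp hz
      refine ⟨⟨s, hZC hs⟩, hZK₀ (mem_subgroupOf.mpr hs), Subtype.ext hsz⟩
    have hKGM : KG = KM.map M.subtype := by
      rw [hKGdef, hKdef, hKMdef, Subgroup.map_map, Subgroup.map_map]
      rfl
    have hM : HasNormalPComplement p M := by
      apply hasNPC_of_central_quotient ZM hZMc hZGp.comap_subtype
      refine hK₁ (M ⧸ ZM) (PM.mapSurjective (QuotientGroup.mk'_surjective ZM)) ιQ hιQi ?_ ?_
      · rw [Sylow.coe_mapSurjective, hPM, ← MonoidHom.range_comp, ← hιQ, MonoidHom.range_comp,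
          MonoidHom.range_eq_top.mpr (QuotientGroup.mk'_surjective Z₁), ← MonoidHom.range_eq_map]
      · intro g hg hgp
        obtain ⟨m, rfl, hm⟩ := exists_coprime_lift (QuotientGroup.mk' ZM) (QuotientGroup.mk'_surjective ZM) hgp
        have h1 : (m : G) ∈ normalizer (KG : Set G) := by
          apply Cfsg.Agent.H51.mem_normalizer_of_conj_mem
          rw [hKGM]
          rintro _ ⟨x, hx, rfl⟩
          refine ⟨m * x * m⁻¹, ?_, rfl⟩
          rw [← hKM]
          show QuotientGroup.mk' ZM (m * x * m⁻¹) ∈ K₁.map ιQ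
          rw [map_mul, map_mul, map_inv]
          apply (mem_normalizer_iff.mp hg _).mp
          have h2 : x ∈ (K₁.map ιQ).comap (QuotientGroup.mk' ZM) := by rw [hKM]; exact hx
          exact h2
        have h2 := hcrit m h1 (by rwa [orderOf_coe])
        rw [mem_centralizer_iff]
        intro y hy
        obtain ⟨x, rfl⟩ := QuotientGroup.mk'_surjective ZM y
        have h3 : x ∈ KM := by rw [← hKM]; exact hy
        have h4 := mem_centralizer_iff.mp h2 (x : G) (by rw [hKGM]; exact ⟨x, h3, rfl⟩)
        rw [← map_mul, ← map_mul]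
        congr 1
        exact Subtype.ext h4
    -- `N / M` is a `p`-group
    have hTeq : (P : Subgroup G) ⊓ M = ((ι.comp C.subtype).range) := by
      have h1 := hsylM.toSylow_map
      rw [show (hsylM.toSylow : Subgroup M) = ιC.range from hPM, ← MonoidHom.range_comp] at h1
      rw [← h1]; rfl
    have hKGf : KG = K₀.map (ι.comp C.subtype) := by
      rw [hKGdef, hKdef, Subgroup.map_map]
    have hZGf : ZG = Z₁.map (ι.comp C.subtype) := by
      rw [← Subgroup.map_map, hZ₁def, Subgroup.subgroupOf_map_subtype, inf_eq_left.mpr hZC]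
    have hpow : ∀ g ∈ N, ∃ k : ℕ, g ^ p ^ k ∈ M := by
      intro g hg
      obtain ⟨m, hm, hmg⟩ := hsylM.frattini (hNM hg)
      set y := m * g with hy
      have hyN : y ∈ N := N.mul_mem (hMN hm) hg
      obtain ⟨a, b, hab, ⟨k, hk⟩, hb⟩ := Cfsg.Agent.Transfer.exists_pow_decomp p y (orderOf_pos y).ne'
      -- `y ^ b` centralizes `KG`
      have hybN : y ^ b ∈ N := N.pow_mem hyN b
      have hybT : y ^ b ∈ normalizer (((P : Subgroup G) ⊓ M : Subgroup G) : Set G) := pow_mem hmg b
      have hybK : y ^ b ∈ normalizer (KG : Set G) := by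
        apply mem_normalizer_of_map_conj_eq
        have hconjT := map_conj_eq_of_mem_normalizer hybT
        have hconjZ := map_conj_eq_of_mem_normalizer hybN
        have h1 := map_comap_char_eq ((MulAut.conj (y ^ b)).toMonoidHom.comp (ι.comp C.subtype))
          (ι.comp C.subtype)
          ((MulAut.conj (y ^ b)).injective.comp (hι.comp C.subtype_injective))
          (hι.comp C.subtype_injective)
          (by rw [MonoidHom.range_comp, ← hTeq, hconjT]) Z₁
          (by rw [← Subgroup.map_map, ← hZGf, hconjZ]) K₁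
        rw [← Subgroup.map_map] at h1
        rw [hKGf]
        exact h1
      have hybM : y ^ b ∈ M := by
        have h1 := hcrit _ hybK hb
        rw [hMdef, mem_centralizer_iff]
        intro z hz
        exact mem_centralizer_iff.mp h1 z (hZKG hz)
      refine ⟨k, ?_⟩
      have hMn : (M.subgroupOf N).Normal := normal_subgroupOf_of_le_normalizer hNM
      -- work in the quotient
      have h1 : (QuotientGroup.mk' (M.subgroupOf N)) ⟨g, hg⟩ = (QuotientGroup.mk' (M.subgroupOf N)) ⟨y, hyN⟩ := by
        have : (⟨y, hyN⟩ : N) = ⟨m, hMN hm⟩ * ⟨g, hg⟩ := rfl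
        rw [this, map_mul]
        have h2 : QuotientGroup.mk' (M.subgroupOf N) ⟨m, hMN hm⟩ = 1 := (QuotientGroup.eq_one_iff _).mpr (mem_subgroupOf.mpr hm)
        rw [h2, one_mul]
      have h2 : (QuotientGroup.mk' (M.subgroupOf N)) ⟨y, hyN⟩ = (QuotientGroup.mk' (M.subgroupOf N)) (⟨y, hyN⟩ ^ a) := by
        have h3 : (⟨y, hyN⟩ : N) = ⟨y, hyN⟩ ^ a * ⟨y, hyN⟩ ^ b := Subtype.ext hab
        conv_lhs => rw [h3]
        rw [map_mul]
        have h4 : QuotientGroup.mk' (M.subgroupOf N) ((⟨y, hyN⟩ : N) ^ b) = 1 :=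
          (QuotientGroup.eq_one_iff _).mpr (mem_subgroupOf.mpr hybM)
        rw [h4, mul_one]
      have h3 : ((QuotientGroup.mk' (M.subgroupOf N)) ⟨g, hg⟩) ^ p ^ k = 1 := by
        rw [h1, h2, ← map_pow]
        have h5 : ((⟨y, hyN⟩ : N) ^ a) ^ p ^ k = 1 := by
          apply Subtype.ext
          show (y ^ a) ^ p ^ k = 1
          rw [← hk, pow_orderOf_eq_one]
        rw [h5, map_one]
      rw [← map_pow] at h3
      exact mem_subgroupOf.mp ((QuotientGroup.eq_one_iff _).mp h3)
    have hMn : (M.subgroupOf N).Normal := normal_subgroupOf_of_le_normalizer hNM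
    have hquot : IsPGroup p (N ⧸ M.subgroupOf N) := by
      intro x
      obtain ⟨g, rfl⟩ := QuotientGroup.mk'_surjective _ x
      obtain ⟨k, hk⟩ := hpow g g.2
      refine ⟨k, ?_⟩
      rw [← map_pow]
      exact (QuotientGroup.eq_one_iff _).mpr (mem_subgroupOf.mpr hk)
    obtain ⟨k, hk⟩ := IsPGroup.iff_card.mp hquot
    apply Cfsg.Agent.Transfer.HasNPC.of_normal_index_pow (M := M.subgroupOf N) (k := k)
    · rw [Subgroup.index_eq_card, hk]
    · exact Cfsg.Agent.Transfer.HasNPC.of_injective hM
        (subgroupOfEquivOfLe hMN).toMonoidHom (subgroupOfEquivOfLe hMN).injective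

end Cfsg.Agent.H51
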