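import Cfsg.Agent.H51.TwoPrime
import Cfsg.Agent.ChevF.Frame

set_option autoImplicit false

/-!
Local structure of Chevalley groups over finite fields at primes not dividing the order of the Weyl group.
-/

namespace Cfsg.Agent.H51.ChevFus

open Matrix Cfsg.Lie Cfsg.Agent.Chev Cfsg.Agent.ChevGrp Cfsg.Agent.ChevF Cfsg.Agent.H51.TwoPrime

variable {D : ChevalleyDatum} (E : DData D) {F K : Type*} [Field F] [Field K]

/-- embedding followed by conjugation -/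
noncomputable def gam (ι : F →+* K) (g0 : GL D.Idx K) : ↥(D.group F) →* GL D.Idx K :=
  ((MulAut.conj g0⁻¹).toMonoidHom.comp (glMap D.Idx ι)).comp (D.group F).subtype

lemma gam_apply (ι : F →+* K) (g0 : GL D.Idx K) (g : ↥(D.group F)) :
    gam ι g0 g = g0⁻¹ * glMap D.Idx ι g * g0 := by
  simp [gam, MulAut.conj_apply]

lemma gam_inj (ι : F →+* K) (g0 : GL D.Idx K) : Function.Injective (gam (D := D) ι g0) := by
  intro a b h
  rw [gam_apply, gam_apply] at h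
  have h1 : glMap D.Idx ι (a : GL D.Idx F) = glMap D.Idx ι b := mul_left_cancel (mul_right_cancel h)
  exact Subtype.ext (glMap_injective ι h1)

variable [Fintype K]

/-- Two commuting subgroups of coprime prime power order in a torus, and an element normalising both. -/
theorem two_local (hD : D ∈ data) (ι : F →+* K) {ℓ ℓ' : ℕ} [Fact ℓ.Prime] [Fact ℓ'.Prime]
    (h1 : ℓ ∣ Fintype.card K - 1) (h1' : ℓ' ∣ Fintype.card K - 1)
    (hW : ¬ ℓ ∣ Nat.card E.rp.wsys.W) (hW' : ¬ ℓ' ∣ Nat.card E.rp.wsys.W) {P P' : Subgroup ↥(D.group F)}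
    (hP : IsPGroup ℓ P) (hP' : IsPGroup ℓ' P') (hc : ∀ x ∈ P, ∀ y ∈ P', x * y = y * x) (s : ↥(D.group F))
    (hs : ∀ x ∈ P, s * x * s⁻¹ ∈ P) (hs' : ∀ x ∈ P', s * x * s⁻¹ ∈ P') :
    ∃ g0 : GL D.Idx K, ∃ n ∈ (chev E (good_of_mem hD) K).N, ∃ u ∈ E.rp.wsys.W, (chev E (good_of_mem hD) K).Act n u ∧
      (∀ x ∈ P, gam ι g0 x ∈ D.diagonalSubgroup K ∧ gam ι g0 (s * x * s⁻¹) = n * gam ι g0 x * n⁻¹) ∧
      ∀ x ∈ P', gam ι g0 x ∈ D.diagonalSubgroup K ∧ gam ι g0 (s * x * s⁻¹) = n * gam ι g0 x * n⁻¹ := by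
  haveI : Finite (GL D.Idx K) := inferInstance
  set B' := (D.diagonalSubgroup K).subgroupOf (D.group K) with hB'
  let j : ↥(D.group F) →* ↥(D.group K) :=
    ((glMap D.Idx ι).comp (D.group F).subtype).codRestrict (D.group K) (fun g => glMap_mem ι g.2)
  have hj : ∀ g, ((j g : ↥(D.group K)) : GL D.Idx K) = glMap D.Idx ι g := fun g => rfl
  obtain ⟨g0, hg, hg'⟩ := conj_into2 (G := ↥(D.group K)) (T := B') (by
      rintro ⟨a, ha'⟩ ha ⟨b, hb'⟩ hb
      apply Subtype.ext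
      exact diag_comm hD ha hb)
    (not_dvd_index_diag E hD h1 hW) (not_dvd_index_diag E hD h1' hW') (hP.map j) (hP'.map j) (by
      rintro _ ⟨x, hx, rfl⟩ _ ⟨y, hy, rfl⟩
      rw [← map_mul, ← map_mul, hc x hx y hy])
  have e : ∀ x : ↥(D.group F), gam ι (g0 : GL D.Idx K) x = ((g0⁻¹ * j x * g0 : ↥(D.group K)) : GL D.Idx K) := by
    intro x
    rw [gam_apply]
    simp [hj]
  have hmem : gam ι (g0 : GL D.Idx K) s ∈ D.group K := by rw [e]; exact SetLike.coe_mem _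
  obtain ⟨b, hb, n, hn, x, hx, e1, h3⟩ := fusion E hD hmem
  obtain ⟨u, hu⟩ := RGrp.exists_act hn
  refine ⟨g0, n, hn, u, hu.mem, hu, fun v hv => ?_, fun v hv => ?_⟩
  · have h4 : gam ι (g0 : GL D.Idx K) v ∈ D.diagonalSubgroup K := by
      rw [e]; exact hg _ ⟨v, hv, rfl⟩
    refine ⟨h4, ?_⟩
    have h5 : gam ι (g0 : GL D.Idx K) (s * v * s⁻¹) ∈ D.diagonalSubgroup K := by
      rw [e]; exact hg _ ⟨_, hs v hv, rfl⟩
    rw [map_mul, map_mul, map_inv] at h5 ⊢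
    exact ((h3 _ h4 h5).1).symm
  · have h4 : gam ι (g0 : GL D.Idx K) v ∈ D.diagonalSubgroup K := by
      rw [e]; exact hg' _ ⟨v, hv, rfl⟩
    refine ⟨h4, ?_⟩
    have h5 : gam ι (g0 : GL D.Idx K) (s * v * s⁻¹) ∈ D.diagonalSubgroup K := by
      rw [e]; exact hg' _ ⟨_, hs' v hv, rfl⟩
    rw [map_mul, map_mul, map_inv] at h5 ⊢
    exact ((h3 _ h4 h5).1).symm

omit [Fintype K] in
/-- iterating -/
theorem iter {ι : F →+* K} {g0 n : GL D.Idx K} {s : ↥(D.group F)} {P : Subgroup ↥(D.group F)}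
    (hs : ∀ x ∈ P, s * x * s⁻¹ ∈ P) (h : ∀ x ∈ P, gam ι g0 (s * x * s⁻¹) = n * gam ι g0 x * n⁻¹) (k : ℕ) :
    ∀ x ∈ P, s ^ k * x * (s ^ k)⁻¹ ∈ P ∧ gam ι g0 (s ^ k * x * (s ^ k)⁻¹) = n ^ k * gam ι g0 x * (n ^ k)⁻¹ := by
  induction k with
  | zero => intro x hx; simpa using hx
  | succ k ih =>
    intro x hx
    obtain ⟨h1, h2⟩ := ih x hx
    have e1 : s ^ (k + 1) * x * (s ^ (k + 1))⁻¹ = s * (s ^ k * x * (s ^ k)⁻¹) * s⁻¹ := by
      rw [pow_succ' s k]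
      generalize s ^ k = z
      group
    have e2 : n ^ (k + 1) * gam ι g0 x * (n ^ (k + 1))⁻¹ = n * (n ^ k * gam ι g0 x * (n ^ k)⁻¹) * n⁻¹ := by
      rw [pow_succ' n k]
      generalize n ^ k = z
      group
    rw [e1, e2, ← h2]
    exact ⟨hs _ h1, h _ h1⟩

omit [Fintype K] in
theorem act_pow {hD : D ∈ data} {n : GL D.Idx K} {u : Equiv.Perm (Fin D.nroots)}
    (h : (chev E (good_of_mem hD) K).Act n u) (k : ℕ) : (chev E (good_of_mem hD) K).Act (n ^ k) (u ^ k) := by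
  induction k with
  | zero => rw [pow_zero, pow_zero]; exact RGrp.act_one
  | succ k ih => rw [pow_succ, pow_succ]; exact ih.mul h

omit [Fintype K] in
/-- if a power of the Weyl group element is trivial -/
theorem comm_of_pow {hD : D ∈ data} {ι : F →+* K} {g0 n : GL D.Idx K} (hn : n ∈ (chev E (good_of_mem hD) K).N)
    {u : Equiv.Perm (Fin D.nroots)} (hu : (chev E (good_of_mem hD) K).Act n u) {s : ↥(D.group F)}
    {P : Subgroup ↥(D.group F)} (hs : ∀ x ∈ P, s * x * s⁻¹ ∈ P)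
    (h : ∀ x ∈ P, gam ι g0 x ∈ D.diagonalSubgroup K ∧ gam ι g0 (s * x * s⁻¹) = n * gam ι g0 x * n⁻¹) {k : ℕ}
    (hk : u ^ k = 1) : ∀ x ∈ P, s ^ k * x * (s ^ k)⁻¹ = x := by
  intro x hx
  apply gam_inj ι g0
  rw [(iter hs (fun x hx => (h x hx).2) k x hx).2]
  have h1 := act_pow E (hD := hD) hu k
  rw [hk] at h1
  have h2 : n ^ k ∈ D.diagonalSubgroup K := RGrp.mem_H_of_act_one (R := chev E (good_of_mem hD) K) (pow_mem hn k) h1
  rw [diag_comm hD h2 (h x hx).1, mul_inv_cancel_right]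

omit [Fintype K] in
/-- if a power of the Weyl group element is minus identity -/
theorem inv_of_pow {hD : D ∈ data} {ι : F →+* K} {g0 n : GL D.Idx K} (hn : n ∈ (chev E (good_of_mem hD) K).N)
    {u : Equiv.Perm (Fin D.nroots)} (hu : (chev E (good_of_mem hD) K).Act n u) {s : ↥(D.group F)}
    {P : Subgroup ↥(D.group F)} (hs : ∀ x ∈ P, s * x * s⁻¹ ∈ P)
    (h : ∀ x ∈ P, gam ι g0 x ∈ D.diagonalSubgroup K ∧ gam ι g0 (s * x * s⁻¹) = n * gam ι g0 x * n⁻¹) {k : ℕ}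
    (hk : ∀ r, rv D ((u ^ k) r) = - rv D r) : ∀ x ∈ P, s ^ k * x * (s ^ k)⁻¹ = x⁻¹ := by
  intro x hx
  apply gam_inj ι g0
  obtain ⟨h0, h0'⟩ := iter hs (fun x hx => (h x hx).2) k x hx
  have hd : gam ι g0 (s ^ k * x * (s ^ k)⁻¹) ∈ D.diagonalSubgroup K := (h _ h0).1
  rw [h0'] at hd ⊢
  rw [map_inv]
  apply ev_ext E hD hd (inv_mem (h x hx).1)
  intro i
  set t := gam ι g0 x with ht
  obtain ⟨r, hr⟩ := (u ^ k).surjective (E.rp.wsys.p i)
  have h1 := N_conj_ev E hD (pow_mem hn k) (act_pow E (hD := hD) hu k) (h x hx).1 r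
  rw [hr] at h1
  rw [h1]
  have h2 : ev t r = (ev t (E.rp.wsys.p i))⁻¹ := by
    have h3 := hk r
    rw [hr] at h3
    rw [ev_eq_prod E hD (h x hx).1 r, ev_eq_prod E hD (h x hx).1 (E.rp.wsys.p i), ← Finset.prod_inv_distrib]
    refine Finset.prod_congr rfl fun j _ => ?_
    have h4 : vec D (E.rp.wsys.p i) j = - vec D r j := congrFun h3 j
    rw [h4, _root_.zpow_neg, inv_inv]
  have h5 : ev t⁻¹ (E.rp.wsys.p i) * ev t (E.rp.wsys.p i) = 1 := by
    rw [← ev_mul hD (inv_mem (h x hx).1) (h x hx).1, inv_mul_cancel, ev_one]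
  rw [h2]
  exact (eq_inv_of_mul_eq_one_left h5).symm

end Cfsg.Agent.H51.ChevFus
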