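import Mathlib
import Cfsg.Agent.H11.Act

/-!
A strong form of Thompson's replacement theorem: if `A` is an abelian subgroup of maximal order and
`N = ⟨[w, a] : a ∈ A⟩` is abelian, then `N` is the set of all `[w, a] z`, `z ∈ A ∩ N`.
-/

set_option autoImplicit false

namespace Cfsg.Agent.H51

open scoped commutatorElement

variable {G : Type*} [Group G]

/-- `[w, A]`, generated by the elements `a w a⁻¹ w⁻¹` -/
def dSub (w : G) (A : Subgroup G) : Subgroup G := Subgroup.closure {x | ∃ a ∈ A, x = a * w * a⁻¹ * w⁻¹}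

theorem mem_dSub {w : G} {A : Subgroup G} {a : G} (ha : a ∈ A) : a * w * a⁻¹ * w⁻¹ ∈ dSub w A :=
  Subgroup.subset_closure ⟨a, ha, rfl⟩

theorem conj_mem_dSub {w : G} {A : Subgroup G} {b x : G} (hb : b ∈ A) (hx : x ∈ dSub w A) :
    b * x * b⁻¹ ∈ dSub w A := by
  induction hx using Subgroup.closure_induction with
  | mem x hx =>
    obtain ⟨a, ha, rfl⟩ := hx
    have e : b * (a * w * a⁻¹ * w⁻¹) * b⁻¹ = (b * a * w * (b * a)⁻¹ * w⁻¹) * (b * w * b⁻¹ * w⁻¹)⁻¹ := by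
      group
    rw [e]
    exact (dSub w A).mul_mem (mem_dSub (A.mul_mem hb ha)) ((dSub w A).inv_mem (mem_dSub hb))
  | one => simp
  | mul x y _ _ hx hy =>
    have e : b * (x * y) * b⁻¹ = (b * x * b⁻¹) * (b * y * b⁻¹) := by group
    rw [e]; exact (dSub w A).mul_mem hx hy
  | inv x _ hx =>
    have e : b * x⁻¹ * b⁻¹ = (b * x * b⁻¹)⁻¹ := by group
    rw [e]; exact (dSub w A).inv_mem hx

/-- strong replacement -/
theorem strong_replacement [Finite G] {A : Subgroup G} (hAc : ∀ a ∈ A, ∀ b ∈ A, a * b = b * a)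
    {w : G} (hNc : ∀ x ∈ dSub w A, ∀ y ∈ dSub w A, x * y = y * x)
    (hmax : Nat.card (A ⊓ Subgroup.centralizer (dSub w A : Set G) ⊔ dSub w A : Subgroup G) ≤ Nat.card A)
    {ν : G} (hν : ν ∈ dSub w A) : ∃ a ∈ A, ∃ z ∈ A, z ∈ dSub w A ∧ ν = a * w * a⁻¹ * w⁻¹ * z := by
  set N := dSub w A with hN
  set C := A ⊓ Subgroup.centralizer (N : Set G) with hC
  set I := A ⊓ N with hI
  have hCN : C ⊓ N = I := by
    apply le_antisymm
    · rintro x ⟨⟨hx1, -⟩, hx2⟩; exact ⟨hx1, hx2⟩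
    · rintro x ⟨hx1, hx2⟩
      refine ⟨⟨hx1, ?_⟩, hx2⟩
      show x ∈ Subgroup.centralizer (N : Set G)
      rw [Subgroup.mem_centralizer_iff]
      intro y hy
      exact (hNc x hx2 y hy).symm
  have hcard : Nat.card (C ⊔ N : Subgroup G) * Nat.card I = Nat.card C * Nat.card N := by
    rw [← hCN]
    apply Cfsg.Agent.H11.card_sup_mul_card_inf
    exact inf_le_right.trans (Subgroup.centralizer_le_normalizer _)
  -- the key implication
  have hkey : ∀ c ∈ A, c * w * c⁻¹ * w⁻¹ ∈ A → c ∈ C := by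
    intro c hc hcA
    refine ⟨hc, ?_⟩
    show c ∈ Subgroup.centralizer (N : Set G)
    rw [Subgroup.mem_centralizer_iff]
    intro y hy
    have hyc : c * y * c⁻¹ = y := by
      clear hν
      induction hy using Subgroup.closure_induction with
      | mem y hy =>
        obtain ⟨b, hb, rfl⟩ := hy
        set dc := c * w * c⁻¹ * w⁻¹ with hdc
        have hdcb : b * dc * b⁻¹ = dc := by
          rw [hAc b hb dc hcA]; group
        have h1 : c * b = b * c := hAc c hc b hb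
        have e1 : c * (b * w * b⁻¹ * w⁻¹) * c⁻¹ = (c * b) * w * (c * b)⁻¹ * w⁻¹ * dc⁻¹ := by
          rw [hdc]; group
        have e2 : (b * c) * w * (b * c)⁻¹ * w⁻¹ = (b * dc * b⁻¹) * (b * w * b⁻¹ * w⁻¹) := by
          rw [hdc]; group
        rw [e1, h1, e2, hdcb, hNc dc (mem_dSub hc) _ (mem_dSub hb)]
        group
      | one => simp
      | mul x y _ _ hx hy =>
        have e : c * (x * y) * c⁻¹ = (c * x * c⁻¹) * (c * y * c⁻¹) := by group
        rw [e, hx, hy]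
      | inv x _ hx =>
        have e : c * x⁻¹ * c⁻¹ = (c * x * c⁻¹)⁻¹ := by group
        rw [e, hx]
    calc y * c = (c * y * c⁻¹) * c := by rw [hyc]
      _ = c * y := by group
  -- the map to cosets
  let ψ : A → N ⧸ I.subgroupOf N := fun a =>
    QuotientGroup.mk (⟨(a : G) * w * (a : G)⁻¹ * w⁻¹, mem_dSub a.2⟩ : N)
  have hψ : ∀ a b : A, ψ a = ψ b → (a : G)⁻¹ * b ∈ C := by
    intro a b hab
    have h1 := QuotientGroup.eq.mp hab
    rw [Subgroup.mem_subgroupOf] at h1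
    have h2 : ((a : G) * w * (a : G)⁻¹ * w⁻¹)⁻¹ * ((b : G) * w * (b : G)⁻¹ * w⁻¹) ∈ A := h1.1
    have hcA : (a : G)⁻¹ * b ∈ A := A.mul_mem (A.inv_mem a.2) b.2
    apply hkey _ hcA
    have h3 : ((a : G) * w * (a : G)⁻¹ * w⁻¹)⁻¹ * ((b : G) * w * (b : G)⁻¹ * w⁻¹) =
        ((b : G) * w * (b : G)⁻¹ * w⁻¹) * ((a : G) * w * (a : G)⁻¹ * w⁻¹)⁻¹ :=
      hNc _ (N.inv_mem (mem_dSub a.2)) _ (mem_dSub b.2)
    rw [h3] at h2
    have e : (a : G)⁻¹ * b * w * ((a : G)⁻¹ * b)⁻¹ * w⁻¹ =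
        (a : G)⁻¹ * (((b : G) * w * (b : G)⁻¹ * w⁻¹) * ((a : G) * w * (a : G)⁻¹ * w⁻¹)⁻¹) * a := by
      group
    rw [e]
    exact A.mul_mem (A.mul_mem (A.inv_mem a.2) h2) a.2
  have hsurj : Function.Surjective ψ := by
    have hle : Nat.card (N ⧸ I.subgroupOf N) ≤ Nat.card (Set.range ψ) := by
      -- `|A| ≤ |range ψ| |C|`
      have h1 : Nat.card A ≤ Nat.card (Set.range ψ) * Nat.card C := by
        rw [← Nat.card_prod]
        have hsec : ∀ y : Set.range ψ, ∃ a : A, ψ a = y := fun y => y.2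
        choose s hs using hsec
        apply Nat.card_le_card_of_injective
          (fun a : A => (⟨⟨ψ a, a, rfl⟩, ⟨((s ⟨ψ a, a, rfl⟩ : A) : G)⁻¹ * a, hψ _ _ (hs _)⟩⟩ : Set.range ψ × C))
        intro a b hab
        have h2 := congrArg Prod.fst hab
        have h3 := congrArg Prod.snd hab
        simp only [Subtype.mk.injEq] at h2 h3
        have h4 : (s ⟨ψ a, a, rfl⟩ : A) = s ⟨ψ b, b, rfl⟩ := by
          congr 1
        rw [h4] at h3
        exact Subtype.ext (mul_left_cancel h3)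
      have h2 : Nat.card (N ⧸ I.subgroupOf N) * Nat.card I = Nat.card N := by
        have h3 := Subgroup.card_eq_card_quotient_mul_card_subgroup (I.subgroupOf N)
        have h4 : Nat.card (I.subgroupOf N) = Nat.card I :=
          Nat.card_congr (Subgroup.subgroupOfEquivOfLe (inf_le_right : I ≤ N)).toEquiv
        rw [h4] at h3
        exact h3.symm
      have hCpos : 0 < Nat.card C := Nat.card_pos
      have hIpos : 0 < Nat.card I := Nat.card_pos
      -- `|C| |N| ≤ |A| |I| ≤ |range ψ| |C| |I|`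
      have h3 : Nat.card C * (Nat.card (N ⧸ I.subgroupOf N) * Nat.card I) ≤
          Nat.card (Set.range ψ) * Nat.card C * Nat.card I := by
        rw [h2, ← hcard]
        exact (Nat.mul_le_mul_right _ hmax).trans (Nat.mul_le_mul_right _ h1)
      have h4 : Nat.card (N ⧸ I.subgroupOf N) * (Nat.card C * Nat.card I) ≤
          Nat.card (Set.range ψ) * (Nat.card C * Nat.card I) := by
        calc Nat.card (N ⧸ I.subgroupOf N) * (Nat.card C * Nat.card I)
            = Nat.card C * (Nat.card (N ⧸ I.subgroupOf N) * Nat.card I) := by ring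
          _ ≤ Nat.card (Set.range ψ) * Nat.card C * Nat.card I := h3
          _ = Nat.card (Set.range ψ) * (Nat.card C * Nat.card I) := by ring
      exact Nat.le_of_mul_le_mul_right h4 (Nat.mul_pos hCpos hIpos)
    rw [← Set.range_eq_univ]
    apply Set.eq_of_subset_of_ncard_le (Set.subset_univ _)
    rw [Set.ncard_univ, ← Nat.card_coe_set_eq]
    exact hle
  obtain ⟨a, ha⟩ := hsurj (QuotientGroup.mk ⟨ν, hν⟩)
  have h1 := QuotientGroup.eq.mp ha
  rw [Subgroup.mem_subgroupOf] at h1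
  have h2 : ((a : G) * w * (a : G)⁻¹ * w⁻¹)⁻¹ * ν ∈ I := h1
  exact ⟨a, a.2, _, h2.1, h2.2, by group⟩

section Poly

variable {V : Type*} [AddCommGroup V]

theorem sub_one_pow_apply (X D : AddMonoid.End V) (hD : D = X - 1) {w : V} (h4 : (D ^ 4) w = 0) (i : ℕ) :
    D ((X ^ i) w) = D w + i • (D ^ 2) w + (i.choose 2) • (D ^ 3) w := by
  have hX : ∀ v, X v = v + D v := by
    intro v
    rw [hD]
    change X v = v + (X v - v)
    abel
  have hDX : ∀ v, D (X v) = X (D v) := by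
    intro v
    rw [hX, hX, map_add]
  induction i with
  | zero => simp
  | succ i ih =>
    have e : (X ^ (i + 1)) w = X ((X ^ i) w) := by rw [pow_succ']; rfl
    have d2 : (D ^ 2) w = D (D w) := rfl
    have d3 : (D ^ 3) w = D (D (D w)) := rfl
    have d4 : D (D (D (D w))) = 0 := h4
    rw [e, hDX, ih, hX, map_add, map_add, map_nsmul, map_nsmul, d2, d3, d4, smul_zero, add_zero,
      show (i + 1).choose 2 = i + i.choose 2 from by
        rw [Nat.choose_succ_succ' i 1, Nat.choose_one_right], add_smul, add_smul, one_smul]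
    abel

theorem prime_dvd_choose_two {p : ℕ} (hp : p.Prime) (hp2 : p ≠ 2) {i : ℕ} (h : p ∣ i) : p ∣ i.choose 2 := by
  have h1 : p ∣ i * (i - 1) := h.mul_right _
  have h2 : i.choose 2 * 2 = i * (i - 1) := by
    have := Nat.triangle_succ (i - 1)
    rw [Nat.choose_two_right]
    exact Nat.div_mul_cancel (Nat.even_mul_pred_self i).two_dvd
  rw [← h2] at h1
  exact (Nat.Coprime.dvd_of_dvd_mul_right ((Nat.coprime_primes hp Nat.prime_two).mpr hp2)) h1

end Poly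

/-- The contradiction from strong replacement: an element `w` of length exactly four on a section of
characteristic `p`, with `[w, A]` abelian, does not exist. -/
theorem no_length_four [Finite G] {p : ℕ} (hp : p.Prime) (hp2 : p ≠ 2) {A Y : Subgroup G}
    {V : Type*} [AddCommGroup V] (π : Y →* Multiplicative V) (X : AddMonoid.End V)
    (hAc : ∀ a ∈ A, ∀ b ∈ A, a * b = b * a)
    (hAY : ∀ a ∈ A, ∀ y ∈ Y, a * y * a⁻¹ ∈ Y) {x : G} (hxA : x ∈ A)
    (hx : ∀ y : Y, π ⟨x * y * x⁻¹, hAY x hxA y y.2⟩ = Multiplicative.ofAdd (X (Multiplicative.toAdd (π y))))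
    (hA : ∀ a (ha : a ∈ A), ∃ i : ℕ, ∀ y : Y, π ⟨a * y * a⁻¹, hAY a ha y y.2⟩ =
      Multiplicative.ofAdd ((X ^ i) (Multiplicative.toAdd (π y))))
    (hV : ∀ v : V, p • v = 0) {w : Y} (D : AddMonoid.End V) (hD : D = X - 1)
    (h4 : (D ^ 4) (Multiplicative.toAdd (π w)) = 0)
    (h3 : (D ^ 3) (Multiplicative.toAdd (π w)) ≠ 0)
    (hNc : ∀ u ∈ dSub (w : G) A, ∀ y ∈ dSub (w : G) A, u * y = y * u)
    (hmax : Nat.card (A ⊓ Subgroup.centralizer (dSub (w : G) A : Set G) ⊔ dSub (w : G) A : Subgroup G)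
      ≤ Nat.card A) : False := by
  set wb := Multiplicative.toAdd (π w) with hwb
  have hNY : dSub (w : G) A ≤ Y := by
    rw [dSub, Subgroup.closure_le]
    rintro _ ⟨a, ha, rfl⟩
    exact Y.mul_mem (hAY a ha w w.2) (Y.inv_mem w.2)
  -- `π` of commutators
  have hπ : ∀ (a : G) (ha : a ∈ A) (y : Y) (h : a * y * a⁻¹ * (y : G)⁻¹ ∈ Y),
      Multiplicative.toAdd (π ⟨a * y * a⁻¹ * (y : G)⁻¹, h⟩) =
        Multiplicative.toAdd (π ⟨a * y * a⁻¹, hAY a ha y y.2⟩) - Multiplicative.toAdd (π y) := by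
    intro a ha y h
    have e : (⟨a * y * a⁻¹ * (y : G)⁻¹, h⟩ : Y) = ⟨a * y * a⁻¹, hAY a ha y y.2⟩ * y⁻¹ := rfl
    rw [e, map_mul, map_inv, toAdd_mul, toAdd_inv, sub_eq_add_neg]
  have hπx : ∀ (y : Y) (h : x * y * x⁻¹ * (y : G)⁻¹ ∈ Y),
      Multiplicative.toAdd (π ⟨x * y * x⁻¹ * (y : G)⁻¹, h⟩) = D (Multiplicative.toAdd (π y)) := by
    intro y h
    rw [hπ x hxA y h, hx, hD]
    rfl
  have hd : x * w * x⁻¹ * (w : G)⁻¹ ∈ dSub (w : G) A := mem_dSub hxA
  set d : Y := ⟨x * w * x⁻¹ * (w : G)⁻¹, hNY hd⟩ with hddef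
  have hν : x * d * x⁻¹ * (d : G)⁻¹ ∈ dSub (w : G) A :=
    (dSub (w : G) A).mul_mem (conj_mem_dSub hxA hd) ((dSub (w : G) A).inv_mem hd)
  obtain ⟨a, ha, z, hzA, hzN, hνz⟩ := strong_replacement hAc hNc hmax hν
  obtain ⟨i, hi⟩ := hA a ha
  have hzY : z ∈ Y := hNY hzN
  have haw : a * w * a⁻¹ * (w : G)⁻¹ ∈ Y := hNY (mem_dSub ha)
  -- translate to `V`
  have e1 : Multiplicative.toAdd (π ⟨x * d * x⁻¹ * (d : G)⁻¹, hNY hν⟩) = (D ^ 2) wb := by
    rw [hπx, hddef, hπx]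
    rfl
  have e2 : Multiplicative.toAdd (π ⟨x * d * x⁻¹ * (d : G)⁻¹, hNY hν⟩) =
      ((X ^ i) wb - wb) + Multiplicative.toAdd (π ⟨z, hzY⟩) := by
    have : (⟨x * d * x⁻¹ * (d : G)⁻¹, hNY hν⟩ : Y) = ⟨a * w * a⁻¹ * (w : G)⁻¹, haw⟩ * ⟨z, hzY⟩ :=
      Subtype.ext hνz
    rw [this, map_mul, toAdd_mul, hπ a ha w haw, hi]
    rfl
  have e3 : D (Multiplicative.toAdd (π ⟨z, hzY⟩)) = 0 := by
    have h1 : x * z * x⁻¹ * z⁻¹ = 1 := by
      rw [hAc x hxA z hzA]; group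
    have h2 := hπx ⟨z, hzY⟩ (by rw [h1]; exact Y.one_mem)
    rw [← h2]
    have h3 : (⟨x * (⟨z, hzY⟩ : Y) * x⁻¹ * ((⟨z, hzY⟩ : Y) : G)⁻¹, by
      change x * z * x⁻¹ * z⁻¹ ∈ Y; rw [h1]; exact Y.one_mem⟩ : Y) = 1 := Subtype.ext h1
    rw [h3, map_one, toAdd_one]
  have e4 : (D ^ 3) wb = D ((X ^ i) wb) - D wb := by
    have h1 : (D ^ 3) wb = D ((D ^ 2) wb) := rfl
    rw [h1, ← e1, e2, map_add, e3, add_zero, map_sub]
  rw [sub_one_pow_apply X D hD h4 i] at e4
  have e5 : (D ^ 3) wb = i • (D ^ 2) wb + (i.choose 2) • (D ^ 3) wb := by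
    refine e4.trans ?_
    rw [add_assoc]
    exact add_sub_cancel_left _ _
  have d4 : D ((D ^ 3) wb) = 0 := h4
  have e6 : i • (D ^ 3) wb = 0 := by
    have h1 := congrArg D e5
    rw [map_add, map_nsmul, map_nsmul, d4, smul_zero, add_zero] at h1
    exact h1.symm
  have hpi : p ∣ i := by
    rcases (Nat.dvd_prime hp).mp (addOrderOf_dvd_of_nsmul_eq_zero (hV ((D ^ 3) wb))) with h | h
    · exact absurd (AddMonoid.addOrderOf_eq_one_iff.mp h) h3
    · rw [← h]; exact addOrderOf_dvd_of_nsmul_eq_zero e6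
  apply h3
  obtain ⟨j, hj⟩ := hpi
  obtain ⟨l, hl⟩ := prime_dvd_choose_two hp hp2 (⟨j, hj⟩ : p ∣ i)
  rw [e5, hl, hj, mul_comm p j, mul_comm p l, mul_smul, mul_smul, hV, hV, smul_zero, smul_zero, add_zero]

end Cfsg.Agent.H51
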