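import Mathlib
import Cfsg.Prelude.Def_Local
import Cfsg.Agent.Solv.Core
import Cfsg.Agent.H51.CSec
import Cfsg.Agent.H51.MinSec
import Cfsg.Agent.H51.AbelianNorm
import Cfsg.Agent.H51.AlgForm
import Cfsg.Agent.H51.StrongRepl

/-!
The main configuration for Thompson's theorem, `p ≥ 5`: an abelian subgroup of maximal order of a
`p`-constrained group `K A` with `K / O_p` an abelian `p'`-group centralizes `K / O_p`.
-/

set_option autoImplicit false

namespace Cfsg.Agent.H51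

open Cfsg
open scoped commutatorElement

section Core

variable {L : Type*} [Group L]

/-- the subgroup of `Y` corresponding to a subgroup of the section -/
def CSec.pull {Y U : Subgroup L} [hY : Y.Normal] [hU : U.Normal] (h : ⁅Y, Y⁆ ≤ U)
    (T : AddSubgroup (CSec Y U h)) : Subgroup L where
  carrier := {g | ∃ hg : g ∈ Y, Multiplicative.toAdd (CSec.mk h ⟨g, hg⟩) ∈ T}
  one_mem' := ⟨Y.one_mem, by
    change Multiplicative.toAdd (CSec.mk h 1) ∈ T
    rw [map_one, toAdd_one]; exact T.zero_mem⟩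
  mul_mem' := by
    rintro a b ⟨ha, ha'⟩ ⟨hb, hb'⟩
    refine ⟨Y.mul_mem ha hb, ?_⟩
    change Multiplicative.toAdd (CSec.mk h (⟨a, ha⟩ * ⟨b, hb⟩)) ∈ T
    rw [map_mul, toAdd_mul]; exact T.add_mem ha' hb'
  inv_mem' := by
    rintro a ⟨ha, ha'⟩
    refine ⟨Y.inv_mem ha, ?_⟩
    change Multiplicative.toAdd (CSec.mk h (⟨a, ha⟩⁻¹)) ∈ T
    rw [map_inv, toAdd_inv]; exact T.neg_mem ha'

theorem CSec.mem_pull {Y U : Subgroup L} [hY : Y.Normal] [hU : U.Normal] (h : ⁅Y, Y⁆ ≤ U)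
    (T : AddSubgroup (CSec Y U h)) {g : L} : g ∈ CSec.pull h T ↔
      ∃ hg : g ∈ Y, Multiplicative.toAdd (CSec.mk h ⟨g, hg⟩) ∈ T := Iff.rfl

theorem CSec.pull_le {Y U : Subgroup L} [hY : Y.Normal] [hU : U.Normal] (h : ⁅Y, Y⁆ ≤ U)
    (T : AddSubgroup (CSec Y U h)) : CSec.pull h T ≤ Y := fun _ hg => hg.1

theorem CSec.le_pull {Y U : Subgroup L} [hY : Y.Normal] [hU : U.Normal] (h : ⁅Y, Y⁆ ≤ U)
    (hUY : U ≤ Y) (T : AddSubgroup (CSec Y U h)) : U ≤ CSec.pull h T := by
  intro u hu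
  refine ⟨hUY hu, ?_⟩
  rw [(CSec.mk_eq_one_iff h ⟨u, hUY hu⟩).mpr hu, toAdd_one]
  exact T.zero_mem

theorem CSec.eq_top_of_pull {Y U : Subgroup L} [hY : Y.Normal] [hU : U.Normal] (h : ⁅Y, Y⁆ ≤ U)
    (T : AddSubgroup (CSec Y U h)) (hT : Y ≤ CSec.pull h T) : T = ⊤ := by
  rw [eq_top_iff]
  intro v _
  obtain ⟨y, hy⟩ := CSec.mk_surjective h (Multiplicative.ofAdd v)
  have hv : v = Multiplicative.toAdd (CSec.mk h y) := by rw [hy]; rfl
  rw [hv]
  exact (hT y.2).2

theorem CSec.eq_bot_of_pull {Y U : Subgroup L} [hY : Y.Normal] [hU : U.Normal] (h : ⁅Y, Y⁆ ≤ U)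
    (T : AddSubgroup (CSec Y U h)) (hT : CSec.pull h T ≤ U) : T = ⊥ := by
  rw [eq_bot_iff]
  intro v hvT
  obtain ⟨y, hy⟩ := CSec.mk_surjective h (Multiplicative.ofAdd v)
  have hv : v = Multiplicative.toAdd (CSec.mk h y) := by rw [hy]; rfl
  rw [hv] at hvT ⊢
  have h1 : (y : L) ∈ U := hT ⟨y.2, hvT⟩
  rw [(CSec.mk_eq_one_iff h y).mpr h1, toAdd_one]
  exact AddSubgroup.zero_mem _

/-- normality in `K A` -/
theorem normal_of_sup {K A T : Subgroup L} (hKA : K ⊔ A = ⊤) (h1 : ∀ k ∈ K, ∀ t ∈ T, k * t * k⁻¹ ∈ T)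
    (h2 : ∀ a ∈ A, ∀ t ∈ T, a * t * a⁻¹ ∈ T) : T.Normal := by
  have h3 : (⊤ : Subgroup L) ≤ Subgroup.normalizer (T : Set L) := by
    rw [← hKA]
    refine sup_le ?_ ?_
    · intro k hk
      rw [Subgroup.mem_normalizer_iff]
      intro t
      refine ⟨fun ht => h1 k hk t ht, fun ht => ?_⟩
      have h4 := h1 k⁻¹ (K.inv_mem hk) _ ht
      have e : k⁻¹ * (k * t * k⁻¹) * k⁻¹⁻¹ = t := by group
      rwa [e] at h4
    · intro k hk
      rw [Subgroup.mem_normalizer_iff]
      intro t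
      refine ⟨fun ht => h2 k hk t ht, fun ht => ?_⟩
      have h4 := h2 k⁻¹ (A.inv_mem hk) _ ht
      have e : k⁻¹ * (k * t * k⁻¹) * k⁻¹⁻¹ = t := by group
      rwa [e] at h4
  rw [← Subgroup.normalizer_eq_top_iff]
  exact top_le_iff.mp h3

variable [Finite L] {p : ℕ} [hp : Fact p.Prime] {H K A : Subgroup L} [hH : H.Normal] [hK : K.Normal]

/-- an abelian group acts on a chief factor through a cyclic group -/
theorem exists_gen_section (hHK : H ≤ K) (hKK : ⁅K, K⁆ ≤ H)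
    (hAc : ∀ a ∈ A, ∀ b ∈ A, a * b = b * a) (hAp : IsPGroup p A)
    (hKA : K ⊔ A = ⊤) (hirr : ∀ T : Subgroup L, T.Normal → H ≤ T → T ≤ K → T = H ∨ T = K) (hne : H ≠ K) :
    ∃ x ∈ A, ∃ k : ℕ, (∀ a ∈ A, ∃ i : ℕ, CSec.act hKK a = CSec.act hKK x ^ i) ∧
      (CSec.act hKK x) ^ (p ^ k) = 1 ∧ ∀ s, 0 < s → s < p ^ k → (CSec.act hKK x) ^ s ≠ 1 := by
  let ρ : A →* AddMonoid.End (CSec K H hKK) := (CSec.act hKK).comp A.subtype
  have hnt : Nontrivial (CSec K H hKK) := by
    by_contra hsub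
    rw [not_nontrivial_iff_subsingleton] at hsub
    apply hne
    apply le_antisymm hHK
    intro k hk
    rw [← CSec.mk_eq_one_iff hKK ⟨k, hk⟩]
    exact Multiplicative.toAdd.injective (Subsingleton.elim _ _)
  have hcomm : ∀ a b : A, ρ a * ρ b = ρ b * ρ a := by
    intro a b
    rw [← map_mul, ← map_mul]
    congr 1
    exact Subtype.ext (hAc a a.2 b b.2)
  have hirr' : ∀ T : AddSubgroup (CSec K H hKK), (∀ r, ∀ t ∈ T, ρ r t ∈ T) → T = ⊥ ∨ T = ⊤ := by
    intro T hT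
    have hn : (CSec.pull hKK T).Normal := by
      apply normal_of_sup hKA
      · intro k hk t ht
        have h1 : k * t * k⁻¹ * t⁻¹ ∈ H := hKK (Subgroup.commutator_mem_commutator hk ht.1)
        have e : k * t * k⁻¹ = (k * t * k⁻¹ * t⁻¹) * t := by group
        rw [e]
        exact Subgroup.mul_mem _ (CSec.le_pull hKK hHK T h1) ht
      · rintro a ha t ⟨ht, ht'⟩
        refine ⟨hK.conj_mem _ ht a, ?_⟩
        rw [← CSec.act_mk hKK a ⟨t, ht⟩]
        exact hT ⟨a, ha⟩ _ ht'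
    rcases hirr _ hn (CSec.le_pull hKK hHK T) (CSec.pull_le hKK T) with h | h
    · left
      exact CSec.eq_bot_of_pull hKK T h.le
    · right
      exact CSec.eq_top_of_pull hKK T h.ge
  obtain ⟨x, hx⟩ := exists_generator_of_irreducible hcomm hirr'
  have hord : ∃ k, orderOf (ρ x) = p ^ k := by
    obtain ⟨j, hj⟩ := hAp x
    have h1 : ρ x ^ p ^ j = 1 := by rw [← map_pow, hj, map_one]
    obtain ⟨k, -, hk⟩ := (Nat.dvd_prime_pow hp.out).mp (orderOf_dvd_of_pow_eq_one h1)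
    exact ⟨k, hk⟩
  obtain ⟨k, hk⟩ := hord
  refine ⟨x, x.2, k, fun a ha => ?_, ?_, ?_⟩
  · obtain ⟨i, hi⟩ := hx ⟨a, ha⟩
    exact ⟨i, hi⟩
  · rw [← hk]
    exact pow_orderOf_eq_one (ρ x)
  · intro s hs0 hs h
    rw [← hk] at hs
    exact absurd (orderOf_le_of_pow_eq_one hs0 (show ρ x ^ s = 1 from h)) (by omega)

/-- elements of `A` acting trivially on `K / H` are in `O_p(L)` -/
theorem mem_pCore_of_act (hHp : IsPGroup p H) (hKA : K ⊔ A = ⊤) (hAc : ∀ a ∈ A, ∀ b ∈ A, a * b = b * a)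
    (hAp : IsPGroup p A) {a : L} (ha : a ∈ A) (h : ∀ k ∈ K, ⁅a, k⁆ ∈ H) : a ∈ pCore p L := by
  let q := QuotientGroup.mk' H
  have hcen : q a ∈ Subgroup.center (L ⧸ H) := by
    have h1 : (⊤ : Subgroup L) ≤ (Subgroup.centralizer {q a}).comap q := by
      rw [← hKA]
      refine sup_le ?_ ?_
      · intro k hk
        rw [Subgroup.mem_comap, Subgroup.mem_centralizer_singleton_iff]
        have h2 : q ⁅a, k⁆ = 1 := (QuotientGroup.eq_one_iff _).mpr (h k hk)
        rw [map_commutatorElement, commutatorElement_eq_one_iff_mul_comm] at h2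
        exact h2.symm
      · intro b hb
        rw [Subgroup.mem_comap, Subgroup.mem_centralizer_singleton_iff, ← map_mul, ← map_mul, hAc b hb a ha]
    rw [Subgroup.mem_center_iff]
    intro g
    obtain ⟨g, rfl⟩ := QuotientGroup.mk'_surjective H g
    have h2 := h1 (Subgroup.mem_top g)
    rw [Subgroup.mem_comap, Subgroup.mem_centralizer_singleton_iff] at h2
    exact h2
  have hn : (Subgroup.zpowers (q a)).Normal := by
    refine ⟨fun n hn g => ?_⟩
    have h1 : n ∈ Subgroup.center (L ⧸ H) := by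
      rw [← Subgroup.zpowers_le] at hcen
      exact hcen hn
    rw [Subgroup.mem_center_iff.mp h1 g, mul_assoc, mul_inv_cancel, mul_one]
    exact hn
  have hpz : IsPGroup p (Subgroup.zpowers (q a)) := by
    rw [← MonoidHom.map_zpowers]
    apply IsPGroup.map
    exact hAp.to_le (by rwa [Subgroup.zpowers_le])
  have hN : (Subgroup.zpowers (q a)).comap q ≤ pCore p L := by
    apply Cfsg.Agent.Solv.le_pCore
    · exact hn.comap q
    · apply IsPGroup.comap_of_ker_isPGroup hpz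
      rw [QuotientGroup.ker_mk']
      exact hHp
  exact hN (Subgroup.mem_zpowers _)

/-- nonvanishing of the highest power -/
theorem exists_pow_ne_zero (hHK : H ≤ K) (hKK : ⁅K, K⁆ ≤ H) (hAc : ∀ a ∈ A, ∀ b ∈ A, a * b = b * a)
    (hKA : K ⊔ A = ⊤) (hirr : ∀ T : Subgroup L, T.Normal → H ≤ T → T ≤ K → T = H ∨ T = K)
    {E Y U : Subgroup L} [hY : Y.Normal] [hU : U.Normal] (hHE : H ≤ E) (hMS : IsMinSec p E K Y U)
    (hYY : ⁅Y, Y⁆ ≤ U) {x : L} (hx : x ∈ A) {k : ℕ}
    (hk : ∀ s, 0 < s → s < p ^ k → (CSec.act hKK x) ^ s ≠ 1) :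
    ∃ v : CSec Y U hYY, ((CSec.act hYY x - 1) ^ (p ^ k - 1)) v ≠ 0 := by
  have hVnt : Nontrivial (CSec Y U hYY) := by
    by_contra hsub
    rw [not_nontrivial_iff_subsingleton] at hsub
    apply hMS.ne
    apply le_antisymm hMS.lU
    intro y hy
    rw [← CSec.mk_eq_one_iff hYY ⟨y, hy⟩]
    exact Multiplicative.toAdd.injective (Subsingleton.elim _ _)
  have hEact : ∀ e ∈ E, CSec.act hYY e = 1 := by
    intro e he
    rw [CSec.act_eq_one_iff]
    intro y hy
    apply hMS.YE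
    rw [Subgroup.commutator_comm]
    exact Subgroup.commutator_mem_commutator he hy
  let R := K ⧸ H.subgroupOf K
  let ρ : R →* AddMonoid.End (CSec Y U hYY) :=
    QuotientGroup.lift (H.subgroupOf K) ((CSec.act hYY).comp K.subtype) (fun y hy => by
      exact hEact _ (hHE (Subgroup.mem_subgroupOf.mp hy)))
  have hρ : ∀ y : K, ρ (y : R) = CSec.act hYY (y : L) := fun y => rfl
  have hR : ∀ a b : R, a * b = b * a := by
    intro a b
    obtain ⟨a, rfl⟩ := QuotientGroup.mk_surjective a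
    obtain ⟨b, rfl⟩ := QuotientGroup.mk_surjective b
    rw [← QuotientGroup.mk_mul, ← QuotientGroup.mk_mul, QuotientGroup.eq, Subgroup.mem_subgroupOf]
    have h1 := hKK (Subgroup.commutator_mem_commutator (K.inv_mem b.2) (K.inv_mem a.2))
    have e : (((a * b)⁻¹ * (b * a) : K) : L) = ⁅(b : L)⁻¹, (a : L)⁻¹⁆ := by
      rw [commutatorElement_def]
      push_cast
      group
    rw [e]; exact h1
  have hpk : 0 < p ^ k := pow_pos hp.out.pos k
  obtain ⟨v, hv⟩ := exists_norm_ne_zero ρ hR (CSec.act hYY x) (secHom K H x) (by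
    intro r
    obtain ⟨r, rfl⟩ := QuotientGroup.mk_surjective r
    rw [secHom_mk, hρ, hρ, ← map_mul, ← map_mul]
    congr 1
    change x * r = x * r * x⁻¹ * x
    group) hpk (by
    intro s hs0 hs r
    -- `[K, x ^ s] H = K`
    obtain ⟨r, rfl⟩ := QuotientGroup.mk_surjective r
    set T : Subgroup L := H ⊔ Subgroup.closure {t | ∃ u ∈ K, t = ⁅x ^ s, u⁆} with hT
    have hxs : x ^ s ∈ A := A.pow_mem hx s
    have hTK : T ≤ K := by
      refine sup_le hHK ?_
      rw [Subgroup.closure_le]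
      rintro _ ⟨u, hu, rfl⟩
      exact K.mul_mem (hK.conj_mem _ hu _) (K.inv_mem hu)
    have hTn : T.Normal := by
      apply normal_of_sup hKA
      · intro k hk t ht
        have h1 : k * t * k⁻¹ * t⁻¹ ∈ H := hKK (Subgroup.commutator_mem_commutator hk (hTK ht))
        have e : k * t * k⁻¹ = (k * t * k⁻¹ * t⁻¹) * t := by group
        rw [e]
        exact Subgroup.mul_mem _ (Subgroup.mem_sup_left h1) ht
      · intro a ha t ht
        have h1 : T ≤ T.comap (MulAut.conj a).toMonoidHom := by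
          conv_lhs => rw [hT]
          refine sup_le ?_ ?_
          · intro h hh
            exact Subgroup.mem_sup_left (hH.conj_mem _ hh a)
          · rw [Subgroup.closure_le]
            rintro _ ⟨u, hu, rfl⟩
            apply Subgroup.mem_sup_right
            refine Subgroup.subset_closure ⟨a * u * a⁻¹, hK.conj_mem _ hu a, ?_⟩
            change a * ⁅x ^ s, u⁆ * a⁻¹ = _
            have h2 := hAc a ha _ hxs
            have h3 : a * x ^ s * a⁻¹ = x ^ s := by rw [h2]; group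
            calc a * ⁅x ^ s, u⁆ * a⁻¹ = ⁅a * x ^ s * a⁻¹, a * u * a⁻¹⁆ := by
                  rw [commutatorElement_def, commutatorElement_def]; group
              _ = _ := by rw [h3]
        exact h1 ht
    have hTe : T = K := by
      rcases hirr T hTn le_sup_left hTK with h | h
      · exfalso
        apply hk s hs0 hs
        rw [← map_pow, CSec.act_eq_one_iff]
        intro u hu
        rw [← h]
        exact Subgroup.mem_sup_right (Subgroup.subset_closure ⟨u, hu, rfl⟩)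
      · exact h
    have hle : T ≤ ((Subgroup.closure {t : R | ∃ u, t = ((secHom K H x) ^ s) u * u⁻¹}).comap
        (QuotientGroup.mk' (H.subgroupOf K))).map K.subtype := by
      rw [hT]
      refine sup_le ?_ ?_
      · intro h hh
        refine ⟨⟨h, hHK hh⟩, ?_, rfl⟩
        change QuotientGroup.mk' (H.subgroupOf K) ⟨h, hHK hh⟩ ∈ Subgroup.closure {t : R | ∃ u, t = ((secHom K H x) ^ s) u * u⁻¹}
        have h1 : QuotientGroup.mk' (H.subgroupOf K) ⟨h, hHK hh⟩ = 1 := by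
          rw [QuotientGroup.mk'_apply, QuotientGroup.eq_one_iff, Subgroup.mem_subgroupOf]
          exact hh
        rw [h1]; exact Subgroup.one_mem _
      · rw [Subgroup.closure_le]
        rintro _ ⟨u, hu, rfl⟩
        refine ⟨⟨⁅x ^ s, u⁆, K.mul_mem (hK.conj_mem _ hu _) (K.inv_mem hu)⟩, ?_, rfl⟩
        refine Subgroup.subset_closure ⟨((⟨u, hu⟩ : K) : R), ?_⟩
        rw [← map_pow]
        rfl
    have h1 : (r : L) ∈ T := by rw [hTe]; exact r.2
    obtain ⟨r', hr', hrr⟩ := hle h1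
    have h3 : r' = r := Subtype.ext hrr
    subst h3
    exact hr') (by
    intro W hW
    apply CSec.eq_top_of_pull hYY W
    refine hMS.comm.ge.trans ?_
    rw [Subgroup.commutator_le]
    intro y hy u hu
    have huK : u ∈ K := opSub_le p K hu
    have h1 := hW ((⟨u, huK⟩ : K) : R) (Multiplicative.toAdd (CSec.mk hYY (⟨y, hy⟩⁻¹)))
    rw [hρ, CSec.act_mk] at h1
    have h3 : u * y⁻¹ * u⁻¹ ∈ Y := hY.conj_mem _ (Y.inv_mem hy) u
    have e2 : ⁅y, u⁆ = y * (u * y⁻¹ * u⁻¹) := by rw [commutatorElement_def]; group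
    have h2 : ⁅y, u⁆ ∈ Y := by rw [e2]; exact Y.mul_mem hy h3
    refine ⟨h2, ?_⟩
    have e3 : (⟨⁅y, u⁆, h2⟩ : Y) = ⟨y, hy⟩ * ⟨u * y⁻¹ * u⁻¹, h3⟩ := Subtype.ext e2
    rw [e3, map_mul, toAdd_mul, add_comm]
    rw [map_inv, toAdd_inv, sub_neg_eq_add] at h1
    exact h1)
  refine ⟨v, ?_⟩
  rw [geom_sum_eq_sub_one_pow (p := p) (CSec.natCast_eq_zero hYY hMS.pow)] at hv
  exact hv

end Core

end Cfsg.Agent.H51
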