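import Mathlib
import Cfsg.Agent.H51.CoreFive
import Cfsg.Agent.H11.Act

/-!
The main configuration for Thompson's theorem, `p ≥ 5`, continued.
-/

set_option autoImplicit false

namespace Cfsg.Agent.H51

open Cfsg
open scoped commutatorElement

section Core

variable {L : Type*} [Group L] [Finite L] {p : ℕ} [hp : Fact p.Prime] {H K A : Subgroup L}
  [hH : H.Normal] [hK : K.Normal]

theorem arith_five {p k : ℕ} (hp5 : 5 ≤ p) (hk : 0 < k) (h : ¬ k + 5 ≤ p ^ k) : p = 5 ∧ k = 1 := by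
  by_cases hk1 : k = 1
  · subst hk1
    rw [pow_one] at h
    exact ⟨by omega, rfl⟩
  · exfalso
    apply h
    have h1 : ∀ j : ℕ, (j + 2) + 5 ≤ 5 ^ (j + 2) := by
      intro j
      induction j with
      | zero => norm_num
      | succ j ih =>
        rw [show j + 1 + 2 = (j + 2) + 1 from rfl, pow_succ]
        omega
    obtain ⟨j, rfl⟩ : ∃ j, k = j + 2 := ⟨k - 2, by omega⟩
    exact (h1 j).trans (Nat.pow_le_pow_left hp5 _)

omit [Finite L] hp in
/-- commuting generators -/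
theorem dSub_comm {w : L} {A : Subgroup L}
    (h : ∀ a ∈ A, ∀ b ∈ A, (a * w * a⁻¹ * w⁻¹) * (b * w * b⁻¹ * w⁻¹) = (b * w * b⁻¹ * w⁻¹) * (a * w * a⁻¹ * w⁻¹)) :
    ∀ u ∈ dSub w A, ∀ y ∈ dSub w A, u * y = y * u := by
  have h1 : ∀ a ∈ A, ∀ y ∈ dSub w A, (a * w * a⁻¹ * w⁻¹) * y = y * (a * w * a⁻¹ * w⁻¹) := by
    intro a ha y hy
    induction hy using Subgroup.closure_induction with
    | mem x hx => obtain ⟨b, hb, rfl⟩ := hx; exact h a ha b hb
    | one => rw [mul_one, one_mul]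
    | mul x y _ _ hx hy => exact ((show Commute _ _ from hx).mul_right hy).eq
    | inv x _ hx => exact (show Commute _ _ from hx).inv_right.eq
  intro u hu y hy
  induction hu using Subgroup.closure_induction with
  | mem x hx => obtain ⟨b, hb, rfl⟩ := hx; exact h1 b hb y hy
  | one => rw [mul_one, one_mul]
  | mul a b _ _ ha hb => exact ((show Commute _ _ from ha).mul_left hb).eq
  | inv x _ hx => exact (show Commute _ _ from hx).inv_left.eq

/-- the size of the commutator section -/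
theorem card_range_le (hAc : ∀ a ∈ A, ∀ b ∈ A, a * b = b * a) (hAp : IsPGroup p A)
    (hmax : ∀ F : Subgroup L, IsPGroup p F → (∀ a ∈ F, ∀ b ∈ F, a * b = b * a) → Nat.card F ≤ Nat.card A)
    {E Zs : Subgroup L} [hZn : Zs.Normal] (hZ0 : ⁅Zs, Zs⁆ ≤ (⊥ : Subgroup L)) (hZE : Zs ≤ E) (hEp : IsPGroup p E)
    (hEZ : ∀ e ∈ E, ∀ z ∈ Zs, e * z = z * e) {x : L} (hx : x ∈ A) {k : ℕ}
    (hxi : ∀ a ∈ A, ∃ i : ℕ, i < p ^ k ∧ a * (x ^ i)⁻¹ ∈ E) :
    Nat.card (AddMonoidHom.range ((CSec.act hZ0 x - 1 : AddMonoid.End (CSec Zs ⊥ hZ0)) :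
      CSec Zs ⊥ hZ0 →+ CSec Zs ⊥ hZ0)) ≤ p ^ k := by
  set A₀ := A ⊓ E with hA₀
  have hi : Nat.card (Zs ⊔ A₀ : Subgroup L) ≤ Nat.card A := by
    apply hmax
    · exact hEp.to_le (sup_le hZE inf_le_right)
    · have h1 : ∀ a ∈ A₀, ∀ y ∈ Zs ⊔ A₀, a * y = y * a := by
        intro a ha y hy
        have h2 : Zs ⊔ A₀ ≤ Subgroup.centralizer {a} := by
          refine sup_le ?_ ?_
          · intro z hz
            rw [Subgroup.mem_centralizer_singleton_iff]
            exact (hEZ a ha.2 z hz).symm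
          · intro b hb
            rw [Subgroup.mem_centralizer_singleton_iff]
            exact hAc b hb.1 a ha.1
        exact (Subgroup.mem_centralizer_singleton_iff.mp (h2 hy)).symm
      have h1' : ∀ a ∈ Zs, ∀ y ∈ Zs ⊔ A₀, a * y = y * a := by
        intro a ha y hy
        have h2 : Zs ⊔ A₀ ≤ E := sup_le hZE inf_le_right
        exact (hEZ y (h2 hy) a ha).symm
      intro a ha y hy
      have h2 : Zs ⊔ A₀ ≤ Subgroup.centralizer {y} := by
        refine sup_le ?_ ?_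
        · intro z hz
          rw [Subgroup.mem_centralizer_singleton_iff]
          exact h1' z hz y hy
        · intro b hb
          rw [Subgroup.mem_centralizer_singleton_iff]
          exact h1 b hb y hy
      exact Subgroup.mem_centralizer_singleton_iff.mp (h2 ha)
  have hii : Nat.card A ≤ Nat.card A₀ * p ^ k := by
    have h1 : Nat.card (A₀ × Fin (p ^ k)) = Nat.card A₀ * p ^ k := by
      rw [Nat.card_prod, Nat.card_eq_fintype_card (α := Fin (p ^ k)), Fintype.card_fin]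
    rw [← h1]
    apply Nat.card_le_card_of_surjective
      (fun q : A₀ × Fin (p ^ k) => (⟨(q.1 : L) * x ^ (q.2 : ℕ), A.mul_mem q.1.2.1 (A.pow_mem hx _)⟩ : A))
    intro a
    obtain ⟨i, hi, hiE⟩ := hxi a a.2
    refine ⟨⟨⟨a * (x ^ i)⁻¹, ⟨A.mul_mem a.2 (A.inv_mem (A.pow_mem hx i)), hiE⟩⟩, ⟨i, hi⟩⟩, ?_⟩
    apply Subtype.ext
    change (a : L) * (x ^ i)⁻¹ * x ^ i = a
    group
  have hiii : Nat.card (Zs ⊔ A₀ : Subgroup L) * Nat.card (Zs ⊓ A₀ : Subgroup L) = Nat.card Zs * Nat.card A₀ := by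
    rw [sup_comm, inf_comm, mul_comm (Nat.card Zs)]
    apply Cfsg.Agent.H11.card_sup_mul_card_inf
    rw [Subgroup.normalizer_eq_top_iff.mpr hZn]; exact le_top
  have hpos : 0 < Nat.card A₀ := Nat.card_pos
  have hZcard : Nat.card Zs ≤ p ^ k * Nat.card (Zs ⊓ A₀ : Subgroup L) := by
    apply Nat.le_of_mul_le_mul_right _ hpos
    calc Nat.card Zs * Nat.card A₀ = Nat.card (Zs ⊔ A₀ : Subgroup L) * Nat.card (Zs ⊓ A₀ : Subgroup L) := hiii.symm
      _ ≤ (Nat.card A₀ * p ^ k) * Nat.card (Zs ⊓ A₀ : Subgroup L) := Nat.mul_le_mul_right _ (hi.trans hii)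
      _ = p ^ k * Nat.card (Zs ⊓ A₀ : Subgroup L) * Nat.card A₀ := by ring
  set Z := CSec Zs ⊥ hZ0 with hZdef
  let δ : Z →+ Z := (CSec.act hZ0 x - 1 : AddMonoid.End (CSec Zs ⊥ hZ0))
  have hcardZ : Nat.card Z = Nat.card Zs := by
    apply Nat.card_congr
    symm
    apply Equiv.ofBijective (fun z : Zs => Multiplicative.toAdd (CSec.mk hZ0 z))
    constructor
    · intro a b hab
      have h1 : CSec.mk hZ0 a = CSec.mk hZ0 b := hab
      rw [CSec.mk_eq_iff, Subgroup.mem_bot, mul_inv_eq_one] at h1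
      exact Subtype.ext h1
    · intro v
      obtain ⟨y, hy⟩ := CSec.mk_surjective hZ0 (Multiplicative.ofAdd v)
      exact ⟨y, by change Multiplicative.toAdd (CSec.mk hZ0 y) = v; rw [hy]; rfl⟩
  have hker : Nat.card (Zs ⊓ A₀ : Subgroup L) ≤ Nat.card δ.ker := by
    apply Nat.card_le_card_of_injective
      (fun z : (Zs ⊓ A₀ : Subgroup L) => (⟨Multiplicative.toAdd (CSec.mk hZ0 ⟨z, z.2.1⟩), by
        rw [AddMonoidHom.mem_ker]
        have e : (⟨x * z * x⁻¹, hZn.conj_mem _ z.2.1 x⟩ : Zs) = ⟨z, z.2.1⟩ := by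
          apply Subtype.ext
          change x * z * x⁻¹ = z
          rw [hAc x hx z z.2.2.1]; group
        change Multiplicative.toAdd (CSec.mk hZ0 ⟨x * z * x⁻¹, hZn.conj_mem _ z.2.1 x⟩) -
          Multiplicative.toAdd (CSec.mk hZ0 ⟨z, z.2.1⟩) = 0
        rw [e, sub_self]⟩ : δ.ker))
    intro a b hab
    have h1 := congrArg Subtype.val hab
    have h2 : CSec.mk hZ0 ⟨a, a.2.1⟩ = CSec.mk hZ0 ⟨b, b.2.1⟩ := h1
    rw [CSec.mk_eq_iff, Subgroup.mem_bot, mul_inv_eq_one] at h2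
    exact Subtype.ext h2
  have hrk : Nat.card δ.range * Nat.card δ.ker = Nat.card Z := by
    have h1 : Nat.card (Z ⧸ δ.ker) = Nat.card δ.range :=
      Nat.card_congr (QuotientAddGroup.quotientKerEquivRange δ).toEquiv
    rw [← h1]
    exact (AddSubgroup.card_eq_card_quotient_mul_card_addSubgroup δ.ker).symm
  have hkpos : 0 < Nat.card δ.ker := Nat.card_pos
  apply Nat.le_of_mul_le_mul_right _ hkpos
  change Nat.card δ.range * Nat.card δ.ker ≤ _
  rw [hrk, hcardZ]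
  exact hZcard.trans (Nat.mul_le_mul_left _ hker)

end Core

end Cfsg.Agent.H51
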