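import Mathlib
import Cfsg.Agent.H51.CoreFive2

/-!
The main configuration for Thompson's theorem, `p ≥ 5`, concluded.
-/

set_option autoImplicit false

namespace Cfsg.Agent.H51

open Cfsg
open scoped commutatorElement

section Core

variable {L : Type*} [Group L] [Finite L] {p : ℕ} [hp : Fact p.Prime]

theorem core_five (hp5 : 5 ≤ p) (H K A : Subgroup L) [hH : H.Normal] [hK : K.Normal] (hHK : H ≤ K)
    (hHp : IsPGroup p H) (hKK : ⁅K, K⁆ ≤ H) (hcop : (H.relIndex K).Coprime p)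
    (hcent : Subgroup.centralizer (H : Set L) ≤ H)
    (hAc : ∀ a ∈ A, ∀ b ∈ A, a * b = b * a) (hAp : IsPGroup p A)
    (hKA : K ⊔ A = ⊤) (hirr : ∀ T : Subgroup L, T.Normal → H ≤ T → T ≤ K → T = H ∨ T = K)
    (hna : ∃ a ∈ A, ∃ u ∈ K, ⁅a, u⁆ ∉ H)
    (hmax : ∀ F : Subgroup L, IsPGroup p F → (∀ a ∈ F, ∀ b ∈ F, a * b = b * a) → Nat.card F ≤ Nat.card A) :
    False := by
  have hne : H ≠ K := by
    rintro rfl
    obtain ⟨a, ha, u, hu, h⟩ := hna
    exact h (H.mul_mem (hH.conj_mem _ hu a) (H.inv_mem hu))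
  obtain ⟨x, hx, k, hgen, hxpk, hxs⟩ := exists_gen_section hHK hKK hAc hAp hKA hirr hne
  set n := p ^ k with hn
  set E := pCore p L with hE
  have hEp : IsPGroup p E := Cfsg.Agent.Solv.pCore_isPGroup p
  have hHE : H ≤ E := Cfsg.Agent.Solv.le_pCore hH hHp
  -- `k > 0`
  have hk0 : 0 < k := by
    by_contra hk
    have hk' : k = 0 := by omega
    subst hk'
    rw [hn, pow_zero, pow_one] at hxpk
    obtain ⟨a, ha, u, hu, h⟩ := hna
    obtain ⟨i, hi⟩ := hgen a ha
    rw [hxpk, one_pow, CSec.act_eq_one_iff] at hi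
    exact h (hi u hu)
  have hnpos : 0 < n := pow_pos hp.out.pos k
  -- elements acting trivially
  have hAE : ∀ a ∈ A, CSec.act hKK a = 1 → a ∈ E := by
    intro a ha h
    rw [CSec.act_eq_one_iff] at h
    exact mem_pCore_of_act hHp hKA hAc hAp ha h
  have hxnE : x ^ n ∈ E := hAE _ (A.pow_mem hx n) (by rw [map_pow]; exact hxpk)
  have hrep : ∀ a ∈ A, ∃ i : ℕ, i < n ∧ a * (x ^ i)⁻¹ ∈ E := by
    intro a ha
    obtain ⟨i, hi⟩ := hgen a ha
    refine ⟨i % n, Nat.mod_lt _ hnpos, ?_⟩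
    apply hAE _ (A.mul_mem ha (A.inv_mem (A.pow_mem hx _)))
    have h1 : CSec.act hKK x ^ i = CSec.act hKK x ^ (i % n) := by
      conv_lhs => rw [← Nat.mod_add_div i n, pow_add, pow_mul, hxpk, one_pow, mul_one]
    rw [map_mul, hi, h1, ← map_pow, ← map_mul, mul_inv_cancel, map_one]
  -- `E` does not centralize `K₀`
  have hEK₀ : ¬ E ≤ Subgroup.centralizer (opSub p K : Set L) := by
    intro h
    have h1 : opSub p K ≤ H := by
      refine le_trans ?_ hcent
      intro y hy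
      rw [Subgroup.mem_centralizer_iff]
      intro z hz
      exact ((Subgroup.mem_centralizer_iff.mp (h (hHE hz))) y hy).symm
    apply hne
    apply le_antisymm hHK
    intro u hu
    obtain ⟨a, b, hab, ⟨j, hj⟩, hb⟩ := Cfsg.Agent.Transfer.exists_pow_decomp p u (orderOf_pos u).ne'
    rw [hab]
    apply H.mul_mem
    · -- the `p`-part
      have h2 : (u ^ a) ^ H.relIndex K ∈ H := by
        have h3 := Subgroup.pow_index_mem (H.subgroupOf K) ⟨u ^ a, K.pow_mem hu a⟩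
        exact Subgroup.mem_subgroupOf.mp h3
      have h3 : (u ^ a) ^ p ^ j ∈ H := by rw [← hj, pow_orderOf_eq_one]; exact H.one_mem
      rw [← QuotientGroup.eq_one_iff] at h2 h3 ⊢
      rw [QuotientGroup.mk_pow] at h2 h3
      have h4 := Nat.dvd_gcd (orderOf_dvd_of_pow_eq_one h2) (orderOf_dvd_of_pow_eq_one h3)
      rw [(hcop.pow_right j).gcd_eq_one, Nat.dvd_one, orderOf_eq_one_iff] at h4
      exact h4
    · exact h1 (mem_opSub (K.pow_mem hu b) hb)
  obtain ⟨Y, U, hMS⟩ := exists_minSec hEp hEK₀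
  have hYn := hMS.normal
  have hUn := hMS.nU
  have hYp : IsPGroup p Y := hEp.to_le hMS.le
  have hYY : ⁅Y, Y⁆ ≤ U := (Subgroup.commutator_mono le_rfl hMS.le).trans hMS.YE
  set V := CSec Y U hYY with hV
  set X : AddMonoid.End V := CSec.act hYY x with hX
  set D : AddMonoid.End V := X - 1 with hD
  obtain ⟨v, hv⟩ : ∃ v : V, (D ^ (n - 1)) v ≠ 0 :=
    exists_pow_ne_zero hHK hKK hAc hKA hirr hHE hMS hYY hx hxs
  have hEact : ∀ e ∈ E, CSec.act hYY e = 1 := by
    intro e he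
    rw [CSec.act_eq_one_iff]
    intro y hy
    apply hMS.YE
    rw [Subgroup.commutator_comm]
    exact Subgroup.commutator_mem_commutator he hy
  have hXn : X ^ n = 1 := by rw [hX, ← map_pow]; exact hEact _ hxnE
  have hDn : D ^ n = 0 := by
    rw [hD, hn, sub_one_pow_char_pow (CSec.natCast_eq_zero hYY hMS.pow), ← hn, hXn, sub_self]
  -- the commutator subgroup
  set Zs := ⁅Y, Y⁆ with hZs
  have hZn : Zs.Normal := inferInstance
  have hZY : Zs ≤ Y := hYY.trans hMS.lU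
  have hZE : Zs ≤ E := hZY.trans hMS.le
  have hZ0 : ⁅Zs, Zs⁆ ≤ (⊥ : Subgroup L) := by
    rw [Subgroup.commutator_le]
    intro a ha b hb
    rw [Subgroup.mem_bot, commutatorElement_eq_one_iff_mul_comm]
    exact hMS.EZ a (hZE ha) b hb
  set Z := CSec Zs ⊥ hZ0 with hZ
  set ξ : AddMonoid.End Z := CSec.act hZ0 x with hξ
  set δ : AddMonoid.End Z := ξ - 1 with hδ
  -- exponent `p`
  have hZexp : ∀ z ∈ Zs, z ^ p ∈ (⊥ : Subgroup L) := by
    intro z hz
    rw [Subgroup.mem_bot]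
    have hcl : Zs = Subgroup.closure {g | ∃ g₁ ∈ Y, ∃ g₂ ∈ Y, ⁅g₁, g₂⁆ = g} := Subgroup.commutator_def Y Y
    rw [hcl] at hz
    induction hz using Subgroup.closure_induction with
    | mem z hz =>
      obtain ⟨a, ha, b, hb, rfl⟩ := hz
      have hc : ⁅a, b⁆ ∈ Zs := Subgroup.commutator_mem_commutator ha hb
      have h1 : a * b * a⁻¹ = ⁅a, b⁆ * b := by rw [commutatorElement_def]; group
      have h2 : (a * b * a⁻¹) ^ p = ⁅a, b⁆ ^ p * b ^ p := by
        rw [h1]
        exact (show Commute ⁅a, b⁆ b from (hMS.EZ b (hMS.le hb) _ hc).symm).mul_pow p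
      have h3 : (a * b * a⁻¹) ^ p = b ^ p := by
        rw [conj_pow, ← hMS.cen (b ^ p) (hMS.pow b hb) a ha, mul_assoc, mul_inv_cancel, mul_one]
      rw [h3] at h2
      exact mul_eq_right.mp h2.symm
    | one => exact one_pow p
    | mul a b ha hb iha ihb =>
      rw [← hcl] at ha hb
      rw [(show Commute a b from hMS.EZ a (hZE ha) b hb).mul_pow, iha, ihb, mul_one]
    | inv a _ iha => rw [inv_pow, iha, inv_one]
  have hξn : ξ ^ n = 1 := by
    rw [hξ, ← map_pow, CSec.act_eq_one_iff]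
    intro z hz
    rw [Subgroup.mem_bot, commutatorElement_eq_one_iff_mul_comm]
    exact hMS.EZ _ hxnE z hz
  have hδn : δ ^ n = 0 := by
    rw [hδ, hn, sub_one_pow_char_pow (CSec.natCast_eq_zero hZ0 hZexp), ← hn, hξn, sub_self]
  have hδk : δ ^ (k + 1) = 0 := by
    refine pow_eq_zero_of_card_range hp.out (CSec.nsmul_eq_zero hZ0 hZexp) δ hδn ?_
    exact card_range_le hAc hAp hmax hZ0 hZE hEp hMS.EZ hx hrep
  -- the form
  obtain ⟨f, hf⟩ := exists_form Y Zs (CSec.mk hYY) (CSec.mk_surjective hYY) (CSec.mk hZ0)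
    (fun u hu y => hMS.cen u ((CSec.mk_eq_one_iff hYY u).mp hu) y y.2)
    (fun y y' => Subgroup.commutator_mem_commutator y.2 y'.2)
    (fun z hz y hy => (hMS.EZ y (hMS.le hy) z hz).symm)
  have hfeq : ∀ u v, f (X u) (X v) = ξ (f u v) := by
    intro u v
    obtain ⟨y, hy⟩ := CSec.mk_surjective hYY (Multiplicative.ofAdd u)
    obtain ⟨z, hz⟩ := CSec.mk_surjective hYY (Multiplicative.ofAdd v)
    have hu : u = Multiplicative.toAdd (CSec.mk hYY y) := by rw [hy]; rfl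
    have hv : v = Multiplicative.toAdd (CSec.mk hYY z) := by rw [hz]; rfl
    rw [hu, hv, hX, CSec.act_mk, CSec.act_mk, hf, hf, hξ, CSec.act_mk]
    congr 2
    apply Subtype.ext
    change ⁅x * y * x⁻¹, x * z * x⁻¹⁆ = x * ⁅(y : L), (z : L)⁆ * x⁻¹
    rw [commutatorElement_def, commutatorElement_def]; group
  have hfalt : ∀ u, f u u = 0 := by
    intro u
    obtain ⟨y, hy⟩ := CSec.mk_surjective hYY (Multiplicative.ofAdd u)
    have hu : u = Multiplicative.toAdd (CSec.mk hYY y) := by rw [hy]; rfl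
    rw [hu, hf]
    have h1 : (⟨⁅(y : L), (y : L)⁆, Subgroup.commutator_mem_commutator y.2 y.2⟩ : Zs) = 1 := by
      apply Subtype.ext
      change ⁅(y : L), (y : L)⁆ = 1
      rw [commutatorElement_eq_one_iff_mul_comm]
    rw [h1, map_one, toAdd_one]
  have hskew : ∀ u w, f u w = - f w u := by
    intro u w
    have h1 := hfalt (u + w)
    simp only [map_add, AddMonoidHom.add_apply, hfalt, zero_add, add_zero] at h1
    exact eq_neg_of_add_eq_zero_right h1
  have hc : ∀ u v, (δ ^ (k + 1)) (f u v) = 0 := by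
    intro u v
    rw [hδk]; rfl
  have hn5 : 5 ≤ n := by
    rw [hn]
    calc 5 ≤ p := hp5
      _ = p ^ 1 := (pow_one p).symm
      _ ≤ p ^ k := Nat.pow_le_pow_right hp.out.pos hk0
  have hXi1 : X * CSec.act hYY x⁻¹ = 1 := by rw [hX, ← map_mul, mul_inv_cancel, map_one]
  have hXi2 : CSec.act hYY x⁻¹ * X = 1 := by rw [hX, ← map_mul, inv_mul_cancel, map_one]
  have hDX : CSec.act hYY x⁻¹ * D = D * CSec.act hYY x⁻¹ := by
    rw [hD, mul_sub, sub_mul, hXi1, hXi2, mul_one, one_mul]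
  -- vanishing of `f` on deep terms
  have hf0 : ∀ a b, n - 3 ≤ a → n - 3 ≤ b → f ((D ^ a) v) ((D ^ b) v) = 0 := by
    intro a b ha hb
    by_cases hab : a = b
    · rw [hab]; exact hfalt _
    by_cases hbig : n + (k + 1) ≤ a + b + 0 + 1
    · have h1 := form_zero f X (CSec.act hYY x⁻¹) D ξ δ hXi1 hD hδ hDX hfeq hDn hc b a 0 v v hbig
      rw [pow_zero] at h1
      exact h1
    · have h2 : ¬ k + 5 ≤ p ^ k := by
        rw [← hn]; omega
      obtain ⟨h5, h1⟩ := arith_five hp5 hk0 h2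
      have hn5' : n = 5 := by rw [hn, h5, h1, pow_one]
      have hX5 : X ^ 5 = 1 := by rw [← hn5']; exact hXn
      have hc2 : ∀ u v, (δ ^ 2) (f u v) = 0 := by
        intro u v
        have := hc u v
        rwa [h1] at this
      have h5Z : ∀ z : Z, (5 : ℕ) • z = 0 := by
        intro z
        rw [← h5]; exact CSec.nsmul_eq_zero hZ0 hZexp z
      have h23 := form_five f X D ξ δ hD hδ hX5 hfeq hfalt hc2 h5Z v
      have hcase : (a = 2 ∧ b = 3) ∨ (a = 3 ∧ b = 2) := by omega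
      rcases hcase with ⟨rfl, rfl⟩ | ⟨rfl, rfl⟩
      · exact h23
      · rw [hskew, h23, neg_zero]
  -- `w`
  obtain ⟨w, hw⟩ := CSec.mk_surjective hYY (Multiplicative.ofAdd ((D ^ (n - 4)) v))
  have hwb : Multiplicative.toAdd (CSec.mk hYY w) = (D ^ (n - 4)) v := by rw [hw]; rfl
  set 𝒮 : AddSubgroup V := AddSubgroup.closure {u | ∃ a, n - 3 ≤ a ∧ u = (D ^ a) v} with h𝒮
  have h𝒮D : ∀ u ∈ 𝒮, D u ∈ 𝒮 := by
    intro u hu
    have h1 : 𝒮 ≤ 𝒮.comap (D : V →+ V) := by
      conv_lhs => rw [h𝒮]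
      rw [AddSubgroup.closure_le]
      rintro _ ⟨a, ha, rfl⟩
      refine AddSubgroup.subset_closure ⟨a + 1, by omega, ?_⟩
      rw [pow_succ']; rfl
    exact h1 hu
  have hXD : ∀ u, X u = u + D u := by
    intro u
    have h1 : D u = X u - u := rfl
    rw [h1]; abel
  have h𝒮X : ∀ u ∈ 𝒮, X u ∈ 𝒮 := by
    intro u hu
    rw [hXD]
    exact 𝒮.add_mem hu (h𝒮D u hu)
  have hw𝒮 : ∀ i : ℕ, (X ^ i) ((D ^ (n - 4)) v) - (D ^ (n - 4)) v ∈ 𝒮 := by
    intro i
    induction i with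
    | zero =>
      have : (X ^ 0) ((D ^ (n - 4)) v) = (D ^ (n - 4)) v := by rw [pow_zero]; rfl
      rw [this, sub_self]; exact 𝒮.zero_mem
    | succ i ih =>
      have h1 : (X ^ (i + 1)) ((D ^ (n - 4)) v) = X ((X ^ i) ((D ^ (n - 4)) v)) := by rw [pow_succ']; rfl
      have h2 : X ((X ^ i) ((D ^ (n - 4)) v)) - (D ^ (n - 4)) v =
          X ((X ^ i) ((D ^ (n - 4)) v) - (D ^ (n - 4)) v) + D ((D ^ (n - 4)) v) := by
        rw [map_sub, hXD ((D ^ (n - 4)) v)]
        abel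
      rw [h1, h2]
      refine 𝒮.add_mem (h𝒮X _ ih) (AddSubgroup.subset_closure ⟨n - 3, le_rfl, ?_⟩)
      have h3 : n - 3 = (n - 4) + 1 := by omega
      rw [h3, pow_succ']; rfl
  have hf𝒮 : ∀ u ∈ 𝒮, ∀ u' ∈ 𝒮, f u u' = 0 := by
    have h1 : ∀ a, n - 3 ≤ a → ∀ u' ∈ 𝒮, f ((D ^ a) v) u' = 0 := by
      intro a ha u' hu'
      have h2 : 𝒮 ≤ (f ((D ^ a) v)).ker := by
        rw [h𝒮, AddSubgroup.closure_le]
        rintro _ ⟨b, hb, rfl⟩
        exact hf0 a b ha hb
      exact h2 hu'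
    intro u hu u' hu'
    have h2 : 𝒮 ≤ (f u').ker := by
      rw [h𝒮, AddSubgroup.closure_le]
      rintro _ ⟨b, hb, rfl⟩
      change f u' ((D ^ b) v) = 0
      rw [hskew, h1 b hb u' hu', neg_zero]
    have h3 : f u' u = 0 := h2 hu
    rw [hskew, h3, neg_zero]
  -- the action of `A`
  have hAY : ∀ a ∈ A, ∀ y ∈ Y, a * y * a⁻¹ ∈ Y := fun a _ y hy => hYn.conj_mem _ hy a
  have hAact : ∀ a ∈ A, ∃ i : ℕ, CSec.act hYY a = X ^ i := by
    intro a ha
    obtain ⟨i, -, hi⟩ := hrep a ha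
    refine ⟨i, ?_⟩
    have h1 := hEact _ hi
    have e : a = (a * (x ^ i)⁻¹) * x ^ i := by group
    rw [e, map_mul, h1, one_mul, map_pow]
  have hdiff : ∀ a ∈ A, ∀ h : a * w * a⁻¹ * (w : L)⁻¹ ∈ Y,
      Multiplicative.toAdd (CSec.mk hYY ⟨a * w * a⁻¹ * (w : L)⁻¹, h⟩) ∈ 𝒮 := by
    intro a ha h
    obtain ⟨i, hi⟩ := hAact a ha
    have e : (⟨a * w * a⁻¹ * (w : L)⁻¹, h⟩ : Y) = ⟨a * w * a⁻¹, hAY a ha w w.2⟩ * w⁻¹ := rfl
    have h1 := CSec.act_mk hYY a w
    rw [e, map_mul, map_inv, toAdd_mul, toAdd_inv, ← sub_eq_add_neg, ← h1, hi, hwb]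
    exact hw𝒮 i
  have hNc : ∀ u ∈ dSub (w : L) A, ∀ y ∈ dSub (w : L) A, u * y = y * u := by
    apply dSub_comm
    intro a ha b hb
    have ha' : a * w * a⁻¹ * (w : L)⁻¹ ∈ Y := Y.mul_mem (hAY a ha w w.2) (Y.inv_mem w.2)
    have hb' : b * w * b⁻¹ * (w : L)⁻¹ ∈ Y := Y.mul_mem (hAY b hb w w.2) (Y.inv_mem w.2)
    have h1 := hf𝒮 _ (hdiff a ha ha') _ (hdiff b hb hb')
    rw [hf] at h1
    have h2 : CSec.mk hZ0 ⟨⁅a * w * a⁻¹ * (w : L)⁻¹, b * w * b⁻¹ * (w : L)⁻¹⁆,
        Subgroup.commutator_mem_commutator ha' hb'⟩ = 1 := h1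
    rw [CSec.mk_eq_one_iff, Subgroup.mem_bot, commutatorElement_eq_one_iff_mul_comm] at h2
    exact h2
  have hdY : dSub (w : L) A ≤ Y := by
    rw [dSub, Subgroup.closure_le]
    rintro _ ⟨a, ha, rfl⟩
    exact Y.mul_mem (hAY a ha w w.2) (Y.inv_mem w.2)
  refine no_length_four hp.out (by omega) (CSec.mk hYY) X hAc hAY hx (fun y => rfl) ?_
    (CSec.nsmul_eq_zero hYY hMS.pow) D hD (w := w) ?_ ?_ hNc ?_
  · intro a ha
    obtain ⟨i, hi⟩ := hAact a ha
    refine ⟨i, fun y => ?_⟩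
    rw [← hi]; rfl
  · rw [hwb]
    have h1 : (D ^ 4) ((D ^ (n - 4)) v) = (D ^ n) v := by
      have h2 : D ^ n = D ^ 4 * D ^ (n - 4) := by rw [← pow_add]; congr 1; omega
      rw [h2]; rfl
    rw [h1, hDn]; rfl
  · rw [hwb]
    have h1 : (D ^ 3) ((D ^ (n - 4)) v) = (D ^ (n - 1)) v := by
      have h2 : D ^ (n - 1) = D ^ 3 * D ^ (n - 4) := by rw [← pow_add]; congr 1; omega
      rw [h2]; rfl
    rw [h1]; exact hv
  · apply hmax
    · have h1 : IsPGroup p (A ⊔ Y : Subgroup L) := hAp.to_sup_of_normal_right hYp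
      refine h1.to_le (sup_le ?_ ?_)
      · exact inf_le_left.trans le_sup_left
      · exact hdY.trans le_sup_right
    · set N := dSub (w : L) A with hN
      set C := A ⊓ Subgroup.centralizer (N : Set L) with hC
      have hCN : ∀ c ∈ C, ∀ m ∈ N, c * m = m * c := fun c hc m hm =>
        (Subgroup.mem_centralizer_iff.mp hc.2 m hm).symm
      have h1 : ∀ a ∈ C ⊔ N, a ∈ Subgroup.centralizer (N : Set L) := by
        intro a ha
        have h2 : C ⊔ N ≤ Subgroup.centralizer (N : Set L) := by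
          refine sup_le inf_le_right ?_
          intro m hm
          rw [Subgroup.mem_centralizer_iff]
          intro m' hm'
          exact hNc m' hm' m hm
        exact h2 ha
      have h3 : ∀ a ∈ C ⊔ N, ∀ c ∈ C, c * a = a * c := by
        intro a ha c hc
        have h2 : C ⊔ N ≤ Subgroup.centralizer {c} := by
          refine sup_le ?_ ?_
          · intro z hz
            rw [Subgroup.mem_centralizer_singleton_iff]
            exact hAc z hz.1 c hc.1
          · intro m hm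
            rw [Subgroup.mem_centralizer_singleton_iff]
            exact (hCN c hc m hm).symm
        exact (Subgroup.mem_centralizer_singleton_iff.mp (h2 ha)).symm
      intro a ha b hb
      have h2 : C ⊔ N ≤ Subgroup.centralizer {a} := by
        refine sup_le ?_ ?_
        · intro c hc
          rw [Subgroup.mem_centralizer_singleton_iff]
          exact h3 a ha c hc
        · intro m hm
          rw [Subgroup.mem_centralizer_singleton_iff]
          exact (Subgroup.mem_centralizer_iff.mp (h1 a ha) m hm)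
      exact (Subgroup.mem_centralizer_singleton_iff.mp (h2 hb)).symm

end Core

end Cfsg.Agent.H51
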