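import Mathlib
import Cfsg.Prelude.Def_Transfer
import Cfsg.Agent.BG.OmegaOdd

/-!
Basic facts on extraspecial groups.
-/

set_option autoImplicit false

namespace Cfsg.Agent.H51

open Cfsg
open scoped commutatorElement

universe u

variable {P : Type u} [Group P] {p : ℕ}

theorem ext_comm_mem_center (hE : IsExtraspecial p P) (x y : P) : ⁅x, y⁆ ∈ Subgroup.center P := by
  have h : commutator P = Subgroup.center P := hE.1.2.2
  rw [← h]
  exact Subgroup.commutator_mem_commutator (Subgroup.mem_top x) (Subgroup.mem_top y)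

theorem pow_eq_one_of_mem_of_card {H : Subgroup P} {n : ℕ} (hH : Nat.card H = n) {x : P}
    (hx : x ∈ H) : x ^ n = 1 := by
  have := pow_card_eq_one' (x := (⟨x, hx⟩ : H))
  rw [hH] at this
  exact congrArg Subtype.val this

theorem ext_center_pow (hE : IsExtraspecial p P) {x : P} (hx : x ∈ Subgroup.center P) :
    x ^ p = 1 := pow_eq_one_of_mem_of_card hE.2 hx

/-- In a group with central commutator `⁅x,y⁆`, `⁅x^n,y⁆ = ⁅x,y⁆^n`. -/
theorem comm_pow_left {x y : P} (h : ⁅x, y⁆ ∈ Subgroup.center P) (n : ℕ) :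
    ⁅x ^ n, y⁆ = ⁅x, y⁆ ^ n := by
  induction n with
  | zero => simp
  | succ n ih =>
    have h1 : ⁅x ^ (n + 1), y⁆ = x ^ n * ⁅x, y⁆ * (x ^ n)⁻¹ * ⁅x ^ n, y⁆ := by
      simp only [commutatorElement_def, pow_succ]; group
    have h2 : x ^ n * ⁅x, y⁆ = ⁅x, y⁆ * x ^ n := Subgroup.mem_center_iff.mp h _
    rw [h1, h2, ih, pow_succ', mul_assoc ⁅x, y⁆, mul_inv_cancel, mul_one]

theorem ext_pow_mem_center (hE : IsExtraspecial p P) (x : P) : x ^ p ∈ Subgroup.center P := by
  rw [Subgroup.mem_center_iff]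
  intro y
  have h1 := comm_pow_left (ext_comm_mem_center hE x y) p
  rw [ext_center_pow hE (ext_comm_mem_center hE x y), commutatorElement_eq_one_iff_mul_comm] at h1
  exact h1.symm

theorem ext_mul_pow (hp2 : p ≠ 2) [hp : Fact p.Prime] (hE : IsExtraspecial p P) (x y : P) :
    (x * y) ^ p = x ^ p * y ^ p := by
  have hz : ⁅y⁻¹, x⁻¹⁆ ∈ Subgroup.center P := ext_comm_mem_center hE _ _
  have h1 := Cfsg.Agent.BG.mul_pow_of_comm (x := x) (y := y) (z := ⁅y⁻¹, x⁻¹⁆)
    (by rw [commutatorElement_def]; group)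
    ((Subgroup.mem_center_iff.mp hz x).symm) ((Subgroup.mem_center_iff.mp hz y).symm) p
  rw [h1]
  have h2 : ⁅y⁻¹, x⁻¹⁆ ^ (p.choose 2) = 1 := by
    have h3 : p ∣ p.choose 2 := hp.out.dvd_choose_self (by norm_num) (lt_of_le_of_ne hp.out.two_le hp2.symm)
    obtain ⟨k, hk⟩ := h3
    rw [hk, pow_mul, ext_center_pow hE hz, one_pow]
  rw [h2, mul_one]

/-- The `p`-th power homomorphism of an extraspecial group, `p` odd. -/
def extPow (hp2 : p ≠ 2) [hp : Fact p.Prime] (hE : IsExtraspecial p P) : P →* P where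
  toFun x := x ^ p
  map_one' := one_pow p
  map_mul' := ext_mul_pow hp2 hE

theorem mem_extPow_ker (hp2 : p ≠ 2) [hp : Fact p.Prime] (hE : IsExtraspecial p P) {x : P} :
    x ∈ (extPow hp2 hE).ker ↔ x ^ p = 1 := Iff.rfl

theorem center_le_extPow_ker (hp2 : p ≠ 2) [hp : Fact p.Prime] (hE : IsExtraspecial p P) :
    Subgroup.center P ≤ (extPow hp2 hE).ker := fun _ hx => ext_center_pow hE hx

theorem card_extPow_ker (hp2 : p ≠ 2) [hp : Fact p.Prime] [Finite P] (hE : IsExtraspecial p P)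
    (hcard : Nat.card P = p ^ 3) (hexp : Monoid.exponent P = p ^ 2) :
    Nat.card (extPow hp2 hE).ker = p ^ 2 := by
  have hpp := hp.out
  have h1 : (extPow hp2 hE).range ≤ Subgroup.center P := by
    rintro _ ⟨x, rfl⟩
    exact ext_pow_mem_center hE x
  have h2 : (extPow hp2 hE).range ≠ ⊥ := by
    intro h
    have h3 : ∀ x : P, x ^ p = 1 := by
      intro x
      have : (extPow hp2 hE) x ∈ (extPow hp2 hE).range := ⟨x, rfl⟩
      rw [h, Subgroup.mem_bot] at this
      exact this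
    have h4 := Monoid.exponent_dvd_of_forall_pow_eq_one h3
    rw [hexp] at h4
    have h5 := Nat.le_of_dvd hpp.pos h4
    nlinarith [hpp.two_le]
  have h3 : Nat.card (extPow hp2 hE).range = p := by
    have h4 := Subgroup.card_dvd_of_le h1
    rw [hE.2] at h4
    rcases (Nat.dvd_prime hpp).mp h4 with h5 | h5
    · exact absurd (Subgroup.eq_bot_of_card_eq _ h5) h2
    · exact h5
  have h4 := Subgroup.card_eq_card_quotient_mul_card_subgroup (extPow hp2 hE).ker
  rw [Nat.card_congr (QuotientGroup.quotientKerEquivRange (extPow hp2 hE)).toEquiv, h3, hcard] at h4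
  apply Nat.eq_of_mul_eq_mul_left hpp.pos
  rw [← h4]; ring

end Cfsg.Agent.H51
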