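import Cfsg.Agent.H51.G2W2
import Cfsg.Agent.H51.A8Sec

set_option autoImplicit false
set_option maxRecDepth 100000

/-!
Local structure of the groups of type G2.
-/

namespace Cfsg.Agent.H51.G2Loc

open Matrix Cfsg.Lie Cfsg.Agent.Chev Cfsg.Agent.ChevGrp Cfsg.Agent.ChevF Cfsg.Agent.H51.TwoPrime Cfsg.Agent.H51.ChevFus
  Cfsg.Agent.H51.G2W

/-- numerical values of the root coordinates -/
lemma vec_vals : ∀ s : Fin 12, vec chevG2 s 0 = ![-3, -3, -2, -1, -1, 0, 0, 1, 1, 2, 3, 3] s ∧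
    vec chevG2 s 1 = ![-2, -1, -1, -1, 0, -1, 1, 0, 1, 1, 1, 2] s := by decide +kernel

variable {K : Type*} [Field K]

theorem ev_formula {a : GL chevG2.Idx K} (ha : a ∈ chevG2.diagonalSubgroup K) (s : Fin chevG2.nroots) :
    ev a s = ev a (DData.dG2.rp.wsys.p (0 : Fin 2)) ^ vec chevG2 s 0 * ev a (DData.dG2.rp.wsys.p (1 : Fin 2)) ^ vec chevG2 s 1 := by
  have h := ev_eq_prod DData.dG2 hG2 ha s
  rw [h]
  exact Fin.prod_univ_two (fun i : Fin 2 => ev a (DData.dG2.rp.wsys.p i) ^ vec chevG2 s i)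

/-- trace of an element of the torus fixed by a rotation of order three -/
theorem trace_rot {a : GL chevG2.Idx K} (ha : a ∈ chevG2.diagonalSubgroup K) {u : Equiv.Perm (Fin chevG2.nroots)}
    (hu : u ∈ DData.dG2.rp.wsys.W) (h3 : u ^ 3 = 1) (h1 : u ≠ 1) (hfix : ∀ s, ev a (u s) = ev a s) :
    a = 1 ∨ Matrix.trace (a : Matrix chevG2.Idx chevG2.Idx K) = 5 := by
  set X := ev a (DData.dG2.rp.wsys.p (0 : Fin 2)) with hX
  set Y := ev a (DData.dG2.rp.wsys.p (1 : Fin 2)) with hY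
  have hX0 : X ≠ 0 := ev_ne_zero hG2 ha _
  have hY0 : Y ≠ 0 := ev_ne_zero hG2 ha _
  have hcol : ∀ j : Fin 2, vec chevG2 (u (DData.dG2.rp.wsys.p j) : Fin chevG2.nroots) 0 = wm2 DData.dG2 u 0 j ∧
      vec chevG2 (u (DData.dG2.rp.wsys.p j) : Fin chevG2.nroots) 1 = wm2 DData.dG2 u 1 j := fun j => ⟨rfl, rfl⟩
  have e0 := hfix (DData.dG2.rp.wsys.p (0 : Fin 2))
  have e1 := hfix (DData.dG2.rp.wsys.p (1 : Fin 2))
  rw [ev_formula ha (u _), ← hX, ← hY, (hcol 0).1, (hcol 0).2] at e0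
  rw [ev_formula ha (u _), ← hX, ← hY, (hcol 1).1, (hcol 1).2] at e1
  have hXY : X ^ 3 = 1 ∧ Y = 1 := by
    rcases (rot DData.dG2 hu h3 h1).2 with h | h
    · rw [h] at e0 e1
      have f0 : X ^ (-2 : ℤ) * Y ^ (-1 : ℤ) = X := e0
      have f1 : X ^ (3 : ℤ) * Y ^ (1 : ℤ) = Y := e1
      have g1 : X ^ 3 = 1 := by
        rw [_root_.zpow_one] at f1
        have : X ^ (3 : ℤ) = 1 := mul_right_cancel₀ hY0 (by rw [f1, one_mul])
        exact_mod_cast this
      refine ⟨g1, ?_⟩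
      have h2 : X ^ (-2 : ℤ) * Y ^ (-1 : ℤ) * (X ^ 2 * Y) = X * (X ^ 2 * Y) := by rw [f0]
      have h4 : X ^ (-2 : ℤ) * Y ^ (-1 : ℤ) * (X ^ 2 * Y) = 1 := by
        field_simp
      rw [h4] at h2
      have h5 : X * (X ^ 2 * Y) = X ^ 3 * Y := by ring
      rw [h5, g1, one_mul] at h2
      exact h2.symm
    · rw [h] at e0 e1
      have f0 : X ^ (1 : ℤ) * Y ^ (1 : ℤ) = X := e0
      have f1 : X ^ (-3 : ℤ) * Y ^ (-2 : ℤ) = Y := e1
      have g0 : Y = 1 := by
        rw [_root_.zpow_one, _root_.zpow_one] at f0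
        exact mul_left_cancel₀ hX0 (by rw [f0, mul_one])
      refine ⟨?_, g0⟩
      rw [g0] at f1
      have h2 : X ^ (-3 : ℤ) = 1 := by simpa using f1
      have h4 : (X ^ 3)⁻¹ = 1 := by
        rw [_root_.zpow_neg] at h2
        exact_mod_cast h2
      exact inv_eq_one.1 h4
  obtain ⟨hX3, hY1⟩ := hXY
  by_cases hX1 : X = 1
  · left
    apply ev_ext DData.dG2 hG2 ha (one_mem _)
    intro i
    rw [ev_one]
    have : ∀ i : Fin 2, ev a (DData.dG2.rp.wsys.p i) = 1 := by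
      intro i
      fin_cases i
      · exact hX1
      · exact hY1
    exact this i
  · right
    rw [trace_T hG2 ha]
    have hr : ((chevG2.rank : ℕ) : K) = 2 := by
      have : chevG2.rank = 2 := rfl
      rw [this]; norm_num
    have hsum : ∑ s : Fin chevG2.nroots, ev a s = ∑ s : Fin 12, X ^ (![-3, -3, -2, -1, -1, 0, 0, 1, 1, 2, 3, 3] s : ℤ) := by
      have : ∀ s : Fin 12, ev a (s : Fin chevG2.nroots) = X ^ (![-3, -3, -2, -1, -1, 0, 0, 1, 1, 2, 3, 3] s : ℤ) := by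
        intro s
        have h5 := ev_formula ha s
        rw [h5, ← hX, ← hY, hY1, _root_.one_zpow, mul_one, (vec_vals s).1]
      exact Finset.sum_congr rfl fun s _ => this s
    rw [hr, hsum]
    have hq : X ^ 2 + X + 1 = 0 := by
      have h5 : (X - 1) * (X ^ 2 + X + 1) = 0 := by ring_nf; rw [hX3]; ring
      rcases mul_eq_zero.1 h5 with h6 | h6
      · exact absurd (sub_eq_zero.1 h6) hX1
      · exact h6
    have i1 : X ^ (-1 : ℤ) = X ^ 2 := by
      rw [_root_.zpow_neg_one]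
      exact inv_eq_of_mul_eq_one_left (by rw [← hX3]; ring)
    have i2 : X ^ (-2 : ℤ) = X := by
      have : X ^ (-2 : ℤ) = X ^ (-1 : ℤ) * X ^ (-1 : ℤ) := by rw [← zpow_add₀ hX0]; norm_num
      rw [this, i1]
      calc X ^ 2 * X ^ 2 = X ^ 3 * X := by ring
        _ = X := by rw [hX3, one_mul]
    have i3 : X ^ (-3 : ℤ) = 1 := by
      have : X ^ (-3 : ℤ) = X ^ (-1 : ℤ) * X ^ (-2 : ℤ) := by rw [← zpow_add₀ hX0]; norm_num
      rw [this, i1, i2, ← hX3]; ring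
    have i4 : X ^ (3 : ℤ) = 1 := by exact_mod_cast hX3
    have i5 : X ^ (2 : ℤ) = X ^ 2 := by norm_cast
    simp only [Fin.sum_univ_succ, Fin.sum_univ_zero, Matrix.cons_val_zero, Matrix.cons_val_succ]
    simp only [Matrix.cons_val_zero, Matrix.cons_val_succ, i1, i2, i3, i4, i5, _root_.zpow_one, _root_.zpow_zero, add_zero]
    linear_combination 3 * hq

variable [Fintype K]

/-- the index of `N` is prime to three -/
theorem index_N (h3 : 3 ∣ Fintype.card K - 1) :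
    ¬ 3 ∣ (((chev DData.dG2 (good_of_mem hG2) K).N).subgroupOf (chevG2.group K)).index := by
  classical
  set R := chev DData.dG2 (good_of_mem hG2) K with hR
  haveI : Finite (GL chevG2.Idx K) := inferInstance
  set Q := Fintype.card K with hQ
  have hcG := Cfsg.Agent.S1059.result hQ.symm (F := K)
  have hcT : Nat.card (chevG2.diagonalSubgroup K) = (Q - 1) ^ 2 := by
    have := Cfsg.Agent.ChevU.card_diag (F := K) rfl (chevG2, 1) (by simp)
    rw [one_mul] at this; exact this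
  have hNle : R.N ≤ chevG2.group K := by
    have : R.Grp = chevG2.group K := chev_Grp _ _
    rw [← this]; exact RGrp.N_le_Grp
  have hcN : Nat.card R.N = 12 * (Q - 1) ^ 2 := by
    have h1 := Subgroup.card_eq_card_quotient_mul_card_subgroup R.nuHom.ker
    rw [RGrp.nuHom_ker] at h1
    have h2 : Nat.card (R.N ⧸ R.H.subgroupOf R.N) = 12 := by
      have h3 := Nat.card_congr (QuotientGroup.quotientKerEquivRange R.nuHom).toEquiv
      rw [RGrp.nuHom_range] at h3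
      have h4 := card_W_G2 DData.dG2
      rw [← RGrp.nuHom_ker]
      exact h3.trans h4
    have h5 : Nat.card (R.H.subgroupOf R.N) = (Q - 1) ^ 2 := by
      rw [← hcT]
      exact Nat.card_congr (Subgroup.subgroupOfEquivOfLe R.H_le_N).toEquiv
    rw [h2, h5] at h1
    exact h1
  have h4 := Subgroup.card_mul_index (R.N.subgroupOf (chevG2.group K))
  rw [Nat.card_congr (Subgroup.subgroupOfEquivOfLe hNle).toEquiv, hcN, hcG] at h4
  generalize (R.N.subgroupOf (chevG2.group K)).index = I at h4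
  intro hI
  obtain ⟨J, rfl⟩ := hI
  have hQ2 : 2 ≤ Q := by rw [hQ]; exact Fintype.one_lt_card
  obtain ⟨m, hm⟩ := h3
  have hm0 : 0 < m := by
    rcases Nat.eq_zero_or_pos m with h | h
    · rw [h] at hm; omega
    · exact h
  have hQm : Q = 3 * m + 1 := by omega
  rw [hQm] at h4
  have e1 : 3 * m + 1 - 1 = 3 * m := rfl
  have e2 : (3 * m + 1) ^ 2 - 1 = 3 * m * (3 * m + 2) := by
    apply Nat.sub_eq_of_eq_add; ring
  have e3 : (3 * m + 1) ^ 6 - 1 = 3 * m * ((3 * m + 1) ^ 5 + (3 * m + 1) ^ 4 + (3 * m + 1) ^ 3 + (3 * m + 1) ^ 2 + (3 * m + 1) + 1) := by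
    apply Nat.sub_eq_of_eq_add; ring
  rw [e1, e2, e3] at h4
  have h5 : 36 * J = (3 * m + 1) ^ 6 * (3 * m + 2) * ((3 * m + 1) ^ 5 + (3 * m + 1) ^ 4 + (3 * m + 1) ^ 3 + (3 * m + 1) ^ 2 + (3 * m + 1) + 1) := by
    apply Nat.eq_of_mul_eq_mul_left (show 0 < (3 * m) ^ 2 by positivity)
    calc (3 * m) ^ 2 * (36 * J) = 12 * (3 * m) ^ 2 * (3 * J) := by ring
      _ = _ := h4
      _ = _ := by ring
  have h6 : (((3 * m + 1) ^ 6 * (3 * m + 2) * ((3 * m + 1) ^ 5 + (3 * m + 1) ^ 4 + (3 * m + 1) ^ 3 + (3 * m + 1) ^ 2 + (3 * m + 1) + 1) : ℕ) : ZMod 9) = 0 := by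
    rw [← h5, ZMod.natCast_eq_zero_iff]
    exact Dvd.intro (4 * J) (by ring)
  have h7 : ∀ y : ZMod 9, (3 * y + 1) ^ 6 * (3 * y + 2) * ((3 * y + 1) ^ 5 + (3 * y + 1) ^ 4 + (3 * y + 1) ^ 3 + (3 * y + 1) ^ 2 + (3 * y + 1) + 1) ≠ 0 := by
    decide
  apply h7 (m : ZMod 9)
  rw [← h6]
  push_cast
  ring

end Cfsg.Agent.H51.G2Loc
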