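import Cfsg.Agent.H51.ChevFus
import Cfsg.Agent.ChevF.TorRows
import Cfsg.Agent.ChevGrp.DData

set_option autoImplicit false
set_option maxRecDepth 100000

/-!
The Weyl group of type G2 by matrices; traces of monomial elements of order three modulo the torus.
-/

namespace Cfsg.Agent.H51.G2W

open Matrix Cfsg.Lie Cfsg.Agent.Chev Cfsg.Agent.ChevGrp Cfsg.Agent.ChevF Cfsg.Agent.H51.ChevFus

/-- a pair of 2 by 2 integral matrices (action on roots, action on coroots) -/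
@[ext] structure M2 where
  a : ℤ
  b : ℤ
  c : ℤ
  d : ℤ
  e : ℤ
  f : ℤ
  g : ℤ
  h : ℤ
deriving DecidableEq

namespace M2

/-- product -/
def mul (x y : M2) : M2 :=
  ⟨x.a * y.a + x.b * y.c, x.a * y.b + x.b * y.d, x.c * y.a + x.d * y.c, x.c * y.b + x.d * y.d,
   x.e * y.e + x.f * y.g, x.e * y.f + x.f * y.h, x.g * y.e + x.h * y.g, x.g * y.f + x.h * y.h⟩

/-- first matrix -/
def m1 (x : M2) : Matrix (Fin 2) (Fin 2) ℤ := !![x.a, x.b; x.c, x.d]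

/-- second matrix -/
def m2 (x : M2) : Matrix (Fin 2) (Fin 2) ℤ := !![x.e, x.f; x.g, x.h]

theorem m1_mul (x y : M2) : (x.mul y).m1 = x.m1 * y.m1 := by
  simp [m1, mul, Matrix.mul_fin_two]

theorem m2_mul (x y : M2) : (x.mul y).m2 = x.m2 * y.m2 := by
  simp [m2, mul, Matrix.mul_fin_two]

/-- identity -/
def one : M2 := ⟨1, 0, 0, 1, 1, 0, 0, 1⟩

/-- reflection 0 -/
def r0 : M2 := ⟨-1, 3, 0, 1, -1, 1, 0, 1⟩

/-- reflection 1 -/
def r1 : M2 := ⟨1, 0, 1, -1, 1, 0, 3, -1⟩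

/-- the twelve elements -/
def LL : List M2 :=
  [⟨1, 0, 0, 1, 1, 0, 0, 1⟩,
   ⟨-1, 3, 0, 1, -1, 1, 0, 1⟩,
   ⟨1, 0, 1, -1, 1, 0, 3, -1⟩,
   ⟨-1, 3, -1, 2, -1, 1, -3, 2⟩,
   ⟨2, -3, 1, -1, 2, -1, 3, -1⟩,
   ⟨-2, 3, -1, 2, -2, 1, -3, 2⟩,
   ⟨2, -3, 1, -2, 2, -1, 3, -2⟩,
   ⟨-2, 3, -1, 1, -2, 1, -3, 1⟩,
   ⟨1, -3, 1, -2, 1, -1, 3, -2⟩,
   ⟨-1, 0, -1, 1, -1, 0, -3, 1⟩,
   ⟨1, -3, 0, -1, 1, -1, 0, -1⟩,
   ⟨-1, 0, 0, -1, -1, 0, 0, -1⟩]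

theorem clo : (LL.all fun x => LL.any (fun y => decide (r0.mul x = y)) && LL.any (fun y => decide (r1.mul x = y))) = true := by
  decide +kernel

/-- order condition -/
def chk (x : M2) : Bool :=
  let x2 := x.mul x
  let x3 := x2.mul x
  decide (x3.mul x3 = one) &&
    (decide (x = one) || !decide (x3 = one) ||
      (decide (x.e + x.h = -1) && (decide (x.a = -2 ∧ x.b = 3 ∧ x.c = -1 ∧ x.d = 1) || decide (x.a = 1 ∧ x.b = -3 ∧ x.c = 1 ∧ x.d = -2))))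

theorem chk_all : LL.all chk = true := by decide +kernel

end M2

end Cfsg.Agent.H51.G2W
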