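import Cfsg.Agent.H51.G2W

set_option autoImplicit false
set_option maxRecDepth 100000

/-!
Traces of monomial and diagonal elements in Chevalley groups; the case of type G2.
-/

namespace Cfsg.Agent.H51.G2W

open Matrix Cfsg.Lie Cfsg.Agent.Chev Cfsg.Agent.ChevGrp Cfsg.Agent.ChevF Cfsg.Agent.H51.ChevFus M2

section gen

variable {D : ChevalleyDatum} (E : DData D) {K : Type*} [Field K]

/-- coroot coordinates of the images of the fundamental roots -/
noncomputable def wc (u : Equiv.Perm (Fin D.nroots)) : Matrix (Fin D.rank) (Fin D.rank) ℤ :=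
  Matrix.of fun i j => cc D (u (E.rp.wsys.p j)) i

lemma wc_apply (u : Equiv.Perm (Fin D.nroots)) (i j : Fin D.rank) : wc E u i j = cc D (u (E.rp.wsys.p j)) i := rfl

/-- dual fundamental reflection -/
def Sm (D : ChevalleyDatum) (i : Fin D.rank) : Matrix (Fin D.rank) (Fin D.rank) ℤ :=
  1 - Matrix.of fun (k j : Fin D.rank) => if k = i then D.cartan j (D.simple i) else 0

lemma wc_one (G : Good D) : wc E 1 = 1 := by
  ext i j
  rw [wc_apply, Equiv.Perm.one_apply, p_val, G.cc_simple j j.2 i i.2, Matrix.one_apply]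
  by_cases h : i = j
  · rw [if_pos h, if_pos (by rw [h])]
  · rw [if_neg h, if_neg (by rw [Fin.val_inj]; exact fun h' => h h'.symm)]

lemma wc_w_mul (G : Good D) (i : Fin D.rank) (u : Equiv.Perm (Fin D.nroots)) :
    wc E (E.rp.wsys.w i * u) = Sm D i * wc E u := by
  ext k j
  rw [Sm, Matrix.sub_mul, Matrix.one_mul, Matrix.sub_apply, wc_apply, wc_apply,
    Equiv.Perm.mul_apply, w_val, G.cc_w i i.2 _ (u (E.rp.wsys.p j)).2 k k.2]
  congr 1
  rw [Matrix.mul_apply]
  simp only [Matrix.of_apply, wc_apply]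
  by_cases h : k = i
  · subst h
    rw [if_pos rfl, Finset.sum_range]
    refine Finset.sum_congr rfl fun j _ => ?_
    rw [if_pos rfl, mul_comm]
  · rw [if_neg (by rw [Fin.val_inj]; exact h)]
    symm
    apply Finset.sum_eq_zero
    intro j _
    rw [if_neg h, zero_mul]

lemma hR_simple (G : Good D) {k : ℕ} (hk : k < D.rank) : hR D K (D.simple k) = hB D K k := by
  funext x
  rcases x with j | v
  · rw [hR_apply_inl, hB_apply_inl, G.cc_simple k hk j j.2]
    by_cases h : (j : ℕ) = k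
    · rw [if_pos h, if_pos h.symm]; simp
    · rw [if_neg h, if_neg (fun h' => h h'.symm)]; simp
  · rw [hR_apply_inr, hB_apply_inr]

lemma nd_hR (hD : D ∈ data) (L : List (Fin D.rank)) (s : Fin D.nroots) :
    (((chev E (good_of_mem hD) K).nd L : GL D.Idx K) : Matrix D.Idx D.Idx K) *ᵥ hR D K s =
      hR D K (E.rp.wsys.wd L s : Fin D.nroots) := by
  induction L with
  | nil => simp
  | cons i L ih =>
    rw [RGrp.nd_cons, WSys.wd_cons, Equiv.Perm.mul_apply, Units.val_mul, ← Matrix.mulVec_mulVec, ih, chev_nn]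
    have h := hR_w (F := K) (good_of_mem hD).toGood2 i.2 (E.rp.wsys.wd L s).2
    rw [w_val]
    exact h

lemma nd_eB (hD : D ∈ data) (L : List (Fin D.rank)) (s : Fin D.nroots) :
    ∃ c : K, (((chev E (good_of_mem hD) K).nd L : GL D.Idx K) : Matrix D.Idx D.Idx K) *ᵥ eB D K s =
      c • eB D K (E.rp.wsys.wd L s : Fin D.nroots) := by
  induction L with
  | nil => exact ⟨1, by simp⟩
  | cons i L ih =>
    obtain ⟨c, hc⟩ := ih
    have h := n_mulVec_eB (F := K) (good_of_mem hD).toGood2 i.2 (E.rp.wsys.wd L s).2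
    refine ⟨c * ((eta D i (E.rp.wsys.wd L s : Fin D.nroots) : ℤ) : K), ?_⟩
    rw [RGrp.nd_cons, WSys.wd_cons, Equiv.Perm.mul_apply, Units.val_mul, ← Matrix.mulVec_mulVec, hc, chev_nn,
      Matrix.mulVec_smul, w_val, mul_smul]
    exact congrArg _ h

/-- trace of an element of `N` acting without fixed roots -/
theorem trace_N (hD : D ∈ data) {n : GL D.Idx K} (hn : n ∈ (chev E (good_of_mem hD) K).N)
    {u : Equiv.Perm (Fin D.nroots)} (hu : (chev E (good_of_mem hD) K).Act n u) (hfix : ∀ s, u s ≠ s) :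
    Matrix.trace (n : Matrix D.Idx D.Idx K) = ∑ k : Fin D.rank, ((wc E u k k : ℤ) : K) := by
  have G := good_of_mem hD
  obtain ⟨L, k, hk, rfl⟩ := RGrp.exists_nd hn
  have h1 : u = E.rp.wsys.wd L := by
    have := ((RGrp.act_nd (R := chev E (good_of_mem hD) K) L).mul (RGrp.act_H hk)).unique hu
    rw [mul_one] at this; exact this.symm
  obtain ⟨χ, rfl⟩ := exists_tor hD hk
  have key : ∀ (A : Matrix D.Idx D.Idx K) (i : D.Idx), Matrix.diag A i = (A *ᵥ Pi.single i 1) i := by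
    intro A i; rw [Matrix.mulVec_single_one]; rfl
  unfold Matrix.trace
  rw [Fintype.sum_sum_type]
  have e1 : ∀ s : Fin D.nroots, Matrix.diag ((((chev E (good_of_mem hD) K).nd L * ChevU.torHom D K χ : GL D.Idx K)) :
      Matrix D.Idx D.Idx K) (Sum.inr s) = 0 := by
    intro s
    rw [key]
    have h2 : (Pi.single (Sum.inr s) 1 : D.Idx → K) = eB D K s := by rw [eB_of_lt s.2]
    rw [h2, Units.val_mul, ← Matrix.mulVec_mulVec, ChevU.coe_torHom, tD_mulVec_eB χ s.2, Matrix.mulVec_smul]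
    obtain ⟨c, hc⟩ := nd_eB (K := K) E hD L s
    rw [hc, Pi.smul_apply, Pi.smul_apply, eB_apply_inr]
    have h3 : ((E.rp.wsys.wd L s : Fin D.nroots) : ℕ) ≠ (s : ℕ) := by
      rw [← h1]; intro h; exact hfix s (Fin.ext h)
    rw [if_neg (by first | exact h3 | exact fun h => h3 h.symm)]
    simp
  have e2 : ∀ j : Fin D.rank, Matrix.diag ((((chev E (good_of_mem hD) K).nd L * ChevU.torHom D K χ : GL D.Idx K)) :
      Matrix D.Idx D.Idx K) (Sum.inl j) = ((wc E u j j : ℤ) : K) := by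
    intro j
    rw [key]
    have h2 : (Pi.single (Sum.inl j) 1 : D.Idx → K) = hB D K j := by rw [hB_of_lt j.2]
    rw [h2, Units.val_mul, ← Matrix.mulVec_mulVec, ChevU.coe_torHom, tD_mulVec_hB χ j.2, ← hR_simple G j.2]
    have h3 := nd_hR (K := K) E hD L (E.rp.wsys.p j)
    rw [p_val] at h3
    rw [h3, hR_apply_inl, h1]
    rfl
  rw [Finset.sum_congr rfl fun s _ => e1 s, Finset.sum_congr rfl fun j _ => e2 j, Finset.sum_const_zero, add_zero]

/-- trace of a diagonal element -/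
theorem trace_T (hD : D ∈ data) {a : GL D.Idx K} (ha : a ∈ D.diagonalSubgroup K) :
    Matrix.trace (a : Matrix D.Idx D.Idx K) = (D.rank : K) + ∑ s : Fin D.nroots, ev a s := by
  obtain ⟨χ, rfl⟩ := exists_tor hD ha
  unfold Matrix.trace
  rw [Fintype.sum_sum_type, ChevU.coe_torHom]
  unfold tD
  simp only [Matrix.diag_apply, Matrix.diagonal_apply_eq, Sum.elim_inl, Sum.elim_inr, Finset.sum_const,
    Finset.card_univ, Fintype.card_fin, nsmul_eq_mul, mul_one]
  congr 1
  exact Finset.sum_congr rfl fun s _ => (ev_torHom χ s).symm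

end gen

lemma hG2 : chevG2 ∈ data := by simp [data]

/-- fundamental reflections in rank two -/
def Rm2 (i : Fin 2) : Matrix (Fin 2) (Fin 2) ℤ := Rm chevG2 i
/-- dual fundamental reflections in rank two -/
def Sm2 (i : Fin 2) : Matrix (Fin 2) (Fin 2) ℤ := Sm chevG2 i

lemma Rm2_eq : ∀ i : Fin 2, Rm2 i = m1 (([r0, r1] : List M2).get ⟨i, i.2⟩) := by decide +kernel
lemma Sm2_eq : ∀ i : Fin 2, Sm2 i = m2 (([r0, r1] : List M2).get ⟨i, i.2⟩) := by decide +kernel

variable (E : DData chevG2)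

/-- matrix on roots -/
noncomputable def wm2 (u : Equiv.Perm (Fin chevG2.nroots)) : Matrix (Fin 2) (Fin 2) ℤ := wm E u
/-- matrix on coroots -/
noncomputable def wc2 (u : Equiv.Perm (Fin chevG2.nroots)) : Matrix (Fin 2) (Fin 2) ℤ := wc E u
/-- fundamental reflections as permutations -/
noncomputable def w2 (i : Fin 2) : Equiv.Perm (Fin chevG2.nroots) := E.rp.wsys.w i

lemma wm2_w (i : Fin 2) (u : Equiv.Perm (Fin chevG2.nroots)) : wm2 E (w2 E i * u) = Rm2 i * wm2 E u :=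
  wm_w_mul E (good_of_mem hG2) i u
lemma wc2_w (i : Fin 2) (u : Equiv.Perm (Fin chevG2.nroots)) : wc2 E (w2 E i * u) = Sm2 i * wc2 E u :=
  wc_w_mul E (good_of_mem hG2) i u
lemma W2_ind {Q : Equiv.Perm (Fin chevG2.nroots) → Prop} (h1 : Q 1)
    (h2 : ∀ i : Fin 2, ∀ u ∈ E.rp.wsys.W, Q u → Q (w2 E i * u))
    {u : Equiv.Perm (Fin chevG2.nroots)} (hu : u ∈ E.rp.wsys.W) : Q u :=
  E.rp.wsys.W_induction (Q := Q) h1 (fun i u hu h => h2 i u hu h) hu

theorem mem_W {u : Equiv.Perm (Fin chevG2.nroots)} (hu : u ∈ E.rp.wsys.W) :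
    ∃ x ∈ LL, wm2 E u = x.m1 ∧ wc2 E u = x.m2 := by
  refine W2_ind E (Q := fun u => ∃ x ∈ LL, wm2 E u = x.m1 ∧ wc2 E u = x.m2) ?_ ?_ hu
  · refine ⟨one, by decide +kernel, ?_, ?_⟩
    · have : wm2 E 1 = 1 := wm_one E (good_of_mem hG2)
      rw [this]; decide
    · have : wc2 E 1 = 1 := wc_one E (good_of_mem hG2)
      rw [this]; decide
  · rintro i u - ⟨x, hx, h1, h2⟩
    have hc := clo
    rw [List.all_eq_true] at hc
    have hc := hc x hx
    rw [Bool.and_eq_true, List.any_eq_true, List.any_eq_true] at hc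
    obtain ⟨⟨y, hy, hy'⟩, ⟨z, hz, hz'⟩⟩ := hc
    have hy' := of_decide_eq_true hy'
    have hz' := of_decide_eq_true hz'
    rw [wm2_w, wc2_w, Rm2_eq, Sm2_eq, h1, h2]
    fin_cases i
    · refine ⟨y, hy, ?_, ?_⟩
      · rw [← hy', m1_mul]; rfl
      · rw [← hy', m2_mul]; rfl
    · refine ⟨z, hz, ?_, ?_⟩
      · rw [← hz', m1_mul]; rfl
      · rw [← hz', m2_mul]; rfl

theorem wm2_inj {u v : Equiv.Perm (Fin chevG2.nroots)} (hu : u ∈ E.rp.wsys.W) (hv : v ∈ E.rp.wsys.W)
    (h : wm2 E u = wm2 E v) : u = v := wm_inj E (good_of_mem hG2) hu hv h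
theorem wm2_pow {u : Equiv.Perm (Fin chevG2.nroots)} (hu : u ∈ E.rp.wsys.W) (k : ℕ) : wm2 E (u ^ k) = wm2 E u ^ k :=
  wm_pow E (good_of_mem hG2) hu k
theorem wm2_one : wm2 E 1 = 1 := wm_one E (good_of_mem hG2)

theorem m1_inj_of {x y : M2} (h1 : x.m1 = y.m1) : x.a = y.a ∧ x.b = y.b ∧ x.c = y.c ∧ x.d = y.d := by
  have e : ∀ i j : Fin 2, x.m1 i j = y.m1 i j := fun i j => by rw [h1]
  exact ⟨e 0 0, e 0 1, e 1 0, e 1 1⟩

theorem LL_inj : ∀ x ∈ LL, ∀ y ∈ LL, x.a = y.a → x.b = y.b → x.c = y.c → x.d = y.d → x = y := by decide +kernel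

theorem six {u : Equiv.Perm (Fin chevG2.nroots)} (hu : u ∈ E.rp.wsys.W) : u ^ 6 = 1 := by
  obtain ⟨x, hx, h1, -⟩ := mem_W E hu
  have hc := chk_all
  rw [List.all_eq_true] at hc
  have hc := hc x hx
  unfold chk at hc
  rw [Bool.and_eq_true] at hc
  have h6 := of_decide_eq_true hc.1
  apply wm2_inj E (pow_mem hu 6) (one_mem _)
  rw [wm2_pow E hu, wm2_one, h1]
  have := congrArg m1 h6
  simp only [m1_mul] at this
  have e1 : m1 one = 1 := by decide
  rw [e1] at this
  rw [← this]; simp only [pow_succ, pow_zero, one_mul, mul_assoc]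

/-- rotations of order three -/
theorem rot {u : Equiv.Perm (Fin chevG2.nroots)} (hu : u ∈ E.rp.wsys.W) (h3 : u ^ 3 = 1) (h1 : u ≠ 1) :
    (wc2 E u 0 0 + wc2 E u 1 1 = -1) ∧ (wm2 E u = !![-2, 3; -1, 1] ∨ wm2 E u = !![1, -3; 1, -2]) := by
  obtain ⟨x, hx, h, h'⟩ := mem_W E hu
  have hc := chk_all
  rw [List.all_eq_true] at hc
  have hc := hc x hx
  unfold chk at hc
  simp only [Bool.and_eq_true, Bool.or_eq_true, Bool.not_eq_true', decide_eq_true_eq, decide_eq_false_iff_not] at hc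
  have hx1 : x ≠ one := by
    intro hx1
    apply h1
    apply wm2_inj E hu (one_mem _)
    rw [h, wm2_one, hx1]; decide
  have hx3 : (x.mul x).mul x = one := by
    -- closure under products
    have hcube : ∀ y ∈ LL, (y.mul y).mul y ∈ LL := by decide +kernel
    have hone : one ∈ LL := by decide +kernel
    have e : ((x.mul x).mul x).m1 = one.m1 := by
      rw [m1_mul, m1_mul, ← h]
      have := wm2_pow E hu 3
      rw [h3, wm2_one] at this
      have e1 : m1 one = 1 := by decide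
      rw [e1, this]; simp only [pow_succ, pow_zero, one_mul, mul_assoc]
    obtain ⟨e1, e2, e3, e4⟩ := m1_inj_of e
    exact LL_inj _ (hcube x hx) _ hone e1 e2 e3 e4
  rcases hc.2 with (h5 | h5) | ⟨h5, h6⟩
  · exact absurd h5 hx1
  · exact absurd hx3 h5
  · refine ⟨?_, ?_⟩
    · rw [h']; exact h5
    · rw [h]
      rcases h6 with ⟨i1, i2, i3, i4⟩ | ⟨i1, i2, i3, i4⟩
      · left; simp [m1, i1, i2, i3, i4]
      · right; simp [m1, i1, i2, i3, i4]

end Cfsg.Agent.H51.G2W
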