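import Mathlib
import Cfsg.Agent.H46.Qd2
import Cfsg.Agent.H4.CardSL
import Cfsg.Agent.Extra.Basic

/-!
The Sylow `p`-subgroups of `Qd(p)`.
-/

set_option autoImplicit false

namespace Cfsg.Agent.H51

open Cfsg Matrix
open scoped Pointwise commutatorElement
open Cfsg.Agent.H46

section Heis

variable {p : ℕ} [hp : Fact p.Prime]

def heisT (a : ZMod p) : SpecialLinearGroup (Fin 2) (ZMod p) := ⟨!![1, a; 0, 1], by simp⟩

theorem heisT_coe (a : ZMod p) : (heisT a : Matrix (Fin 2) (Fin 2) (ZMod p)) = !![1, a; 0, 1] := rfl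

theorem heisT_mul (a b : ZMod p) : heisT a * heisT b = heisT (a + b) := by
  apply Subtype.ext
  change (!![1, a; 0, 1] : Matrix (Fin 2) (Fin 2) (ZMod p)) * !![1, b; 0, 1] = !![1, a + b; 0, 1]
  ext i j
  fin_cases i <;> fin_cases j <;> simp [Matrix.mul_apply, Fin.sum_univ_two, add_comm]

theorem heisT_inj {a b : ZMod p} (h : heisT a = heisT b) : a = b := by
  have := congrArg (fun M : SpecialLinearGroup (Fin 2) (ZMod p) => (M : Matrix (Fin 2) (Fin 2) (ZMod p)) 0 1) h
  simpa [heisT_coe] using this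

theorem heisT_zero : heisT (0 : ZMod p) = 1 := by
  ext i j
  rw [heisT_coe]
  fin_cases i <;> fin_cases j <;> simp

/-- Elements of the Heisenberg group inside `Qd(p)`. -/
def heis (a x y : ZMod p) : ↥(qdOver (ZMod p)) := qdElt (heisT a) ![x, y]

theorem heis_mul (a x y b x' y' : ZMod p) :
    heis a x y * heis b x' y' = heis (a + b) (x + x' + a * y') (y + y') := by
  rw [heis, heis, heis, qdElt_mul, heisT_mul]
  congr 1
  ext i
  fin_cases i
  · simp [heisT_coe, Matrix.mulVec, dotProduct, Fin.sum_univ_two]; ring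
  · simp [heisT_coe, Matrix.mulVec, dotProduct, Fin.sum_univ_two]; ring

theorem heis_inj {a x y b x' y' : ZMod p} (h : heis a x y = heis b x' y') :
    a = b ∧ x = x' ∧ y = y' := by
  obtain ⟨h1, h2⟩ := qdElt_injective h
  refine ⟨heisT_inj h1, ?_, ?_⟩
  · simpa using congrFun h2 0
  · simpa using congrFun h2 1

theorem heis_one : heis (0 : ZMod p) 0 0 = 1 := by
  rw [heis, heisT_zero, ← qdElt_one]
  congr 1
  ext i
  fin_cases i <;> simp

/-- The Heisenberg group inside `Qd(p)`. -/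
def heisSub (p : ℕ) [Fact p.Prime] : Subgroup ↥(qdOver (ZMod p)) where
  carrier := {g | ∃ a x y, g = heis a x y}
  one_mem' := ⟨0, 0, 0, heis_one.symm⟩
  mul_mem' := by
    rintro _ _ ⟨a, x, y, rfl⟩ ⟨b, x', y', rfl⟩
    exact ⟨_, _, _, heis_mul _ _ _ _ _ _⟩
  inv_mem' := by
    rintro _ ⟨a, x, y, rfl⟩
    refine ⟨-a, -x + a * y, -y, ?_⟩
    rw [inv_eq_iff_mul_eq_one, heis_mul, ← heis_one]
    congr 1
    · ring
    · ring
    · ring

theorem mem_heisSub {g : ↥(qdOver (ZMod p))} : g ∈ heisSub p ↔ ∃ a x y, g = heis a x y := Iff.rfl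

noncomputable def heisEquiv (p : ℕ) [Fact p.Prime] :
    (ZMod p × ZMod p × ZMod p) ≃ ↥(heisSub p) :=
  Equiv.ofBijective (fun t => ⟨heis t.1 t.2.1 t.2.2, _, _, _, rfl⟩) ⟨by
    rintro ⟨a, x, y⟩ ⟨b, x', y'⟩ h
    obtain ⟨h1, h2, h3⟩ := heis_inj (congrArg Subtype.val h)
    exact Prod.ext h1 (Prod.ext h2 h3), by
    rintro ⟨_, a, x, y, rfl⟩
    exact ⟨(a, x, y), rfl⟩⟩

theorem card_heisSub : Nat.card ↥(heisSub p) = p ^ 3 := by
  rw [← Nat.card_congr (heisEquiv p), Nat.card_prod, Nat.card_prod, Nat.card_zmod]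
  ring

theorem card_qd : Nat.card ↥(qdOver (ZMod p)) = p ^ 3 * (p ^ 2 - 1) := by
  have h1 : Nat.card (SpecialLinearGroup (Fin 2) (ZMod p)) = p * (p ^ 2 - 1) := by
    have h2 := Cfsg.Agent.H4.card_SL_mul (F := ZMod p) 2 (by norm_num)
    rw [Matrix.card_GL_field, ZMod.card, Fin.prod_univ_two] at h2
    have hp1 := hp.out.one_lt
    have h3 : p ^ 2 - p ^ 1 = (p - 1) * p := by
      rw [pow_one, sq, Nat.sub_mul, one_mul]
    simp only [Fin.val_zero, pow_zero, Fin.val_one] at h2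
    rw [h3] at h2
    have h4 : (p - 1) * Nat.card (SpecialLinearGroup (Fin 2) (ZMod p)) =
        (p - 1) * (p * (p ^ 2 - 1)) := by
      rw [h2]; ring
    exact Nat.eq_of_mul_eq_mul_left (by omega) h4
  rw [← Nat.card_congr (qdEquiv (F := ZMod p)), Nat.card_prod, h1, Nat.card_fun, Nat.card_zmod]
  simp
  ring

theorem not_dvd_index_heisSub : ¬ p ∣ (heisSub p).index := by
  have h1 := (heisSub p).card_mul_index
  rw [card_heisSub, card_qd] at h1
  have h2 : (heisSub p).index = p ^ 2 - 1 :=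
    Nat.eq_of_mul_eq_mul_left (pow_pos hp.out.pos 3) h1
  rw [h2]
  intro h
  have h3 : p ∣ p ^ 2 := dvd_pow_self p (by norm_num)
  have hp1 := hp.out.one_lt
  have h5 : 1 ≤ p ^ 2 := Nat.one_le_pow _ _ (by omega)
  have h4 := (Nat.dvd_sub_iff_right h5 h3).mp h
  exact hp1.ne' (Nat.dvd_one.mp h4)

theorem isPGroup_heisSub : IsPGroup p ↥(heisSub p) := IsPGroup.of_card card_heisSub

/-- The Heisenberg group as a Sylow subgroup of `Qd(p)`. -/
noncomputable def heisSylow (p : ℕ) [Fact p.Prime] : Sylow p ↥(qdOver (ZMod p)) :=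
  isPGroup_heisSub.toSylow not_dvd_index_heisSub

theorem heisSylow_coe : (heisSylow p : Subgroup ↥(qdOver (ZMod p))) = heisSub p :=
  IsPGroup.toSylow_coe _ _

theorem heis_pow (a x y : ZMod p) (n : ℕ) :
    heis a x y ^ n =
      heis ((n : ZMod p) * a) ((n : ZMod p) * x + ((n.choose 2 : ℕ) : ZMod p) * (a * y)) ((n : ZMod p) * y) := by
  induction n with
  | zero => rw [pow_zero, ← heis_one]; congr 1 <;> simp
  | succ n ih =>
    rw [pow_succ, ih, heis_mul]
    have : ((n + 1).choose 2 : ℕ) = n + n.choose 2 := by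
      rw [Nat.choose_succ_succ' n 1, Nat.choose_one_right]
    congr 1
    · push_cast; ring
    · rw [this]; push_cast; ring
    · push_cast; ring

theorem heis_pow_p (hp2 : p ≠ 2) (a x y : ZMod p) : heis a x y ^ p = 1 := by
  rw [heis_pow, ← heis_one]
  have h1 : ((p : ℕ) : ZMod p) = 0 := ZMod.natCast_self p
  have h2 : ((p.choose 2 : ℕ) : ZMod p) = 0 := by
    rw [ZMod.natCast_eq_zero_iff]
    have := hp.out.two_le
    exact hp.out.dvd_choose_self (by norm_num) (by omega)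
  rw [h1, h2]
  congr 1 <;> ring

theorem mem_center_heisSub {a x y : ZMod p} :
    (⟨heis a x y, _, _, _, rfl⟩ : ↥(heisSub p)) ∈ Subgroup.center ↥(heisSub p) ↔ a = 0 ∧ y = 0 := by
  rw [Subgroup.mem_center_iff]
  constructor
  · intro h
    have h1 := congrArg Subtype.val (h ⟨heis 1 0 0, _, _, _, rfl⟩)
    have h2 := congrArg Subtype.val (h ⟨heis 0 0 1, _, _, _, rfl⟩)
    simp only [Subgroup.coe_mul, heis_mul] at h1 h2
    obtain ⟨-, h3, -⟩ := heis_inj h1
    obtain ⟨-, h4, -⟩ := heis_inj h2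
    constructor
    · have : x = x + a := by simpa using h4
      simpa using this
    · have : x + y = x := by simpa using h3
      simpa using this
  · rintro ⟨rfl, rfl⟩ ⟨_, b, x', y', rfl⟩
    apply Subtype.ext
    simp only [Subgroup.coe_mul, heis_mul]
    congr 1 <;> ring

noncomputable def centerEquiv (p : ℕ) [Fact p.Prime] :
    ZMod p ≃ ↥(Subgroup.center ↥(heisSub p)) :=
  Equiv.ofBijective (fun x => ⟨⟨heis 0 x 0, _, _, _, rfl⟩, mem_center_heisSub.mpr ⟨rfl, rfl⟩⟩) ⟨by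
    intro x x' h
    have h1 : (heis 0 x 0 : ↥(qdOver (ZMod p))) = heis 0 x' 0 :=
      congrArg (fun t : ↥(Subgroup.center ↥(heisSub p)) => ((t : ↥(heisSub p)) : ↥(qdOver (ZMod p)))) h
    exact (heis_inj h1).2.1, by
    rintro ⟨⟨_, a, x, y, rfl⟩, h⟩
    obtain ⟨rfl, rfl⟩ := mem_center_heisSub.mp h
    exact ⟨x, rfl⟩⟩

theorem card_center_heisSub : Nat.card ↥(Subgroup.center ↥(heisSub p)) = p := by
  rw [← Nat.card_congr (centerEquiv p), Nat.card_zmod]

theorem commutator_heisSub_le : commutator ↥(heisSub p) ≤ Subgroup.center ↥(heisSub p) := by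
  rw [commutator_def, Subgroup.commutator_le]
  rintro ⟨_, a, x, y, rfl⟩ - ⟨_, b, x', y', rfl⟩ -
  have key : heis a x y * heis b x' y' = heis 0 (a * y' - b * y) 0 * (heis b x' y' * heis a x y) := by
    rw [heis_mul, heis_mul, heis_mul]
    congr 1 <;> ring
  have h1 : ⁅(⟨heis a x y, a, x, y, rfl⟩ : ↥(heisSub p)), (⟨heis b x' y', b, x', y', rfl⟩ : ↥(heisSub p))⁆ =
      (⟨heis 0 (a * y' - b * y) 0, 0, a * y' - b * y, 0, rfl⟩ : ↥(heisSub p)) := by
    rw [commutatorElement_def]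
    apply Subtype.ext
    push_cast
    rw [key]
    group
  rw [h1]
  exact mem_center_heisSub.mpr ⟨rfl, rfl⟩

theorem ges_heisSub : Cfsg.Agent.Extra.GES p ↥(heisSub p) :=
  ⟨card_center_heisSub, commutator_heisSub_le⟩

end Heis

end Cfsg.Agent.H51
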