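import Mathlib

set_option autoImplicit false

/-!
Products of two matrices of prescribed trace and determinant in dimension two.
-/

namespace Cfsg.Agent.H51.SqA

open Matrix

variable {F : Type*} [Field F]

/-- product of matrices with prescribed trace and determinant -/
def Prd (t1 d1 t2 d2 : F) (N : Matrix (Fin 2) (Fin 2) F) : Prop :=
  ∃ A B : Matrix (Fin 2) (Fin 2) F, A * B = N ∧ A.trace = t1 ∧ A.det = d1 ∧ B.trace = t2 ∧ B.det = d2

lemma prd_tri {t1 d1 t2 d2 r s m : F} (hd : d1 ≠ 0) (hrs : r * s = d1 * d2) (hm : m ≠ 0) (h : t1 * s ≠ d1 * t2) :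
    Prd t1 d1 t2 d2 !![r, m; 0, s] := by
  have hc : (t1 * s - d1 * t2) ≠ 0 := sub_ne_zero.2 h
  set c : F := (t1 * s - d1 * t2) / m with hcdef
  have hc0 : c ≠ 0 := div_ne_zero hc hm
  have hcm : c * m = t1 * s - d1 * t2 := by rw [hcdef]; field_simp
  refine ⟨!![t1, -d1 / c; c, 0], !![0, s / c; -(c * r) / d1, t2], ?_, ?_, ?_, ?_, ?_⟩
  · rw [Matrix.mul_fin_two]
    ext i j
    fin_cases i <;> fin_cases j
    · simp; field_simp
    · simp
      field_simp
      linear_combination -hcm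
    · simp
    · simp
      field_simp
  · simp [Matrix.trace_fin_two]
  · simp [Matrix.det_fin_two]; field_simp
  · simp [Matrix.trace_fin_two]
  · simp [Matrix.det_fin_two]
    field_simp
    linear_combination hrs

lemma prd_conj {t1 d1 t2 d2 : F} {N P Q : Matrix (Fin 2) (Fin 2) F} (h : Prd t1 d1 t2 d2 N) (hPQ : P * Q = 1) :
    Prd t1 d1 t2 d2 (P * N * Q) := by
  obtain ⟨A, B, h1, h2, h3, h4, h5⟩ := h
  have hQP : Q * P = 1 := mul_eq_one_comm.1 hPQ
  have hdet : P.det * Q.det = 1 := by rw [← Matrix.det_mul, hPQ, Matrix.det_one]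
  refine ⟨P * A * Q, P * B * Q, ?_, ?_, ?_, ?_, ?_⟩
  · calc P * A * Q * (P * B * Q) = P * A * (Q * P) * B * Q := by simp only [Matrix.mul_assoc]
      _ = P * (A * B) * Q := by rw [hQP, Matrix.mul_one]; simp only [Matrix.mul_assoc]
      _ = _ := by rw [h1]
  · rw [Matrix.trace_mul_comm, ← Matrix.mul_assoc, hQP, Matrix.one_mul, h2]
  · rw [Matrix.det_mul, Matrix.det_mul, h3]; linear_combination d1 * hdet
  · rw [Matrix.trace_mul_comm, ← Matrix.mul_assoc, hQP, Matrix.one_mul, h4]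
  · rw [Matrix.det_mul, Matrix.det_mul, h5]; linear_combination d2 * hdet

lemma prd_c {t1 d1 t2 d2 r s a b c d : F} (hd : d1 ≠ 0) (hrs : r * s = d1 * d2) (hc : c ≠ 0) (h : t1 * s ≠ d1 * t2)
    (htr : a + d = r + s) (hdet : a * d - b * c = r * s) : Prd t1 d1 t2 d2 !![a, b; c, d] := by
  have h1 := prd_conj (P := !![r - d, 1; c, 0]) (Q := !![0, 1 / c; 1, (d - r) / c]) (prd_tri (m := 1) hd hrs one_ne_zero h) (by
    rw [Matrix.mul_fin_two]
    ext i j
    fin_cases i <;> fin_cases j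
    · simp
    · simp; field_simp; ring
    · simp
    · simp; field_simp)
  have e : !![r - d, 1; c, 0] * !![r, 1; 0, s] * !![0, 1 / c; 1, (d - r) / c] = !![a, b; c, d] := by
    rw [Matrix.mul_fin_two, Matrix.mul_fin_two]
    have hs : s = a + d - r := by rw [htr]; ring
    subst hs
    ext i j
    fin_cases i <;> fin_cases j
    · simp
    · simp; field_simp; linear_combination hdet
    · simp
    · simp; field_simp; try ring
  rwa [e] at h1

lemma prd_diag {t1 d1 t2 d2 r s : F} (hd : d1 ≠ 0) (hrs : r * s = d1 * d2) (hne : r ≠ s) (h : t1 * s ≠ d1 * t2) :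
    Prd t1 d1 t2 d2 !![r, 0; 0, s] := by
  have hne' : r - s ≠ 0 := sub_ne_zero.2 hne
  have h1 := prd_conj (P := !![1, 1 / (r - s); 0, 1]) (Q := !![1, -(1 / (r - s)); 0, 1]) (prd_tri (m := 1) hd hrs one_ne_zero h) (by
    rw [Matrix.mul_fin_two]
    ext i j
    fin_cases i <;> fin_cases j <;> simp)
  have e : !![1, 1 / (r - s); 0, 1] * !![r, 1; 0, s] * !![1, -(1 / (r - s)); 0, 1] = !![r, 0; 0, s] := by
    rw [Matrix.mul_fin_two, Matrix.mul_fin_two]
    ext i j
    fin_cases i <;> fin_cases j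
    · simp
    · simp; field_simp; ring
    · simp
    · simp
  rwa [e] at h1

lemma prd_scalar {t1 d1 t2 d2 r : F} (hd : d1 ≠ 0) (hrs : r * r = d1 * d2) (h : r * t1 = d1 * t2) :
    Prd t1 d1 t2 d2 !![r, 0; 0, r] := by
  refine ⟨!![t1, -d1; 1, 0], !![0, r; -(r / d1), r * t1 / d1], ?_, ?_, ?_, ?_, ?_⟩
  · rw [Matrix.mul_fin_two]
    ext i j
    fin_cases i <;> fin_cases j
    · simp; field_simp
    · simp; field_simp; ring
    · simp
    · simp
  · simp [Matrix.trace_fin_two]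
  · simp [Matrix.det_fin_two]
  · simp [Matrix.trace_fin_two]; field_simp; linear_combination h
  · simp [Matrix.det_fin_two]; field_simp; linear_combination hrs

lemma c_ne_zero {t d : F} (hirr : ∀ z : F, z * z - t * z + d ≠ 0) {A : Matrix (Fin 2) (Fin 2) F} (h1 : A.trace = t)
    (h2 : A.det = d) : A 1 0 ≠ 0 := by
  intro hc
  rw [Matrix.trace_fin_two] at h1
  rw [Matrix.det_fin_two, hc, mul_zero, sub_zero] at h2
  apply hirr (A 0 0)
  rw [← h1, ← h2]; ring

lemma comp_form {t d : F} (hirr : ∀ z : F, z * z - t * z + d ≠ 0) {A : Matrix (Fin 2) (Fin 2) F} (h1 : A.trace = t)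
    (h2 : A.det = d) : ∃ P Q : Matrix (Fin 2) (Fin 2) F, P * Q = 1 ∧ A = P * !![0, -d; 1, t] * Q := by
  have hc := c_ne_zero hirr h1 h2
  refine ⟨!![1, A 0 0; 0, A 1 0], !![1, -(A 0 0) / A 1 0; 0, 1 / A 1 0], ?_, ?_⟩
  · rw [Matrix.mul_fin_two]
    ext i j
    fin_cases i <;> fin_cases j
    · simp
    · simp; field_simp; ring
    · simp
    · simp; field_simp
  · rw [Matrix.trace_fin_two] at h1
    rw [Matrix.det_fin_two] at h2
    rw [Matrix.mul_fin_two, Matrix.mul_fin_two]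
    ext i j
    fin_cases i <;> fin_cases j
    · simp
    · simp; field_simp; rw [← h1, ← h2]; ring
    · simp
    · simp; field_simp; rw [← h1]; ring

lemma conj_of_irr {t d : F} (hirr : ∀ z : F, z * z - t * z + d ≠ 0) {A B : Matrix (Fin 2) (Fin 2) F} (h1 : A.trace = t)
    (h2 : A.det = d) (h3 : B.trace = t) (h4 : B.det = d) :
    ∃ P Q : Matrix (Fin 2) (Fin 2) F, P * Q = 1 ∧ B = P * A * Q := by
  obtain ⟨P, Q, i1, i2⟩ := comp_form hirr h1 h2
  obtain ⟨P', Q', i3, i4⟩ := comp_form hirr h3 h4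
  have i1' : Q * P = 1 := mul_eq_one_comm.1 i1
  refine ⟨P' * Q, P * Q', ?_, ?_⟩
  · calc P' * Q * (P * Q') = P' * (Q * P) * Q' := by simp only [Matrix.mul_assoc]
      _ = 1 := by rw [i1', Matrix.mul_one, i3]
  · rw [i4, i2]
    calc P' * !![0, -d; 1, t] * Q' = P' * (Q * P) * !![0, -d; 1, t] * (Q * P) * Q' := by
          rw [i1', Matrix.mul_one, Matrix.mul_one]
      _ = _ := by simp only [Matrix.mul_assoc]

lemma diag_form {l m : F} (hlm : l ≠ m) {A : Matrix (Fin 2) (Fin 2) F} (hc : A 1 0 ≠ 0) (h1 : A.trace = l + m)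
    (h2 : A.det = l * m) : ∃ P Q : Matrix (Fin 2) (Fin 2) F, P * Q = 1 ∧ A = P * !![l, 0; 0, m] * Q := by
  have hne : l - m ≠ 0 := sub_ne_zero.2 hlm
  rw [Matrix.trace_fin_two] at h1
  rw [Matrix.det_fin_two] at h2
  have hP : !![l - A 1 1, m - A 1 1; A 1 0, A 1 0] * !![1 / (l - m), -(m - A 1 1) / (A 1 0 * (l - m)); -1 / (l - m), (l - A 1 1) / (A 1 0 * (l - m))] =
      (1 : Matrix (Fin 2) (Fin 2) F) := by
    rw [Matrix.mul_fin_two]
    ext i j
    fin_cases i <;> fin_cases j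
    · simp; field_simp; ring
    · simp; field_simp; ring
    · simp; field_simp; ring
    · simp; field_simp; ring
  refine ⟨_, _, hP, ?_⟩
  have hAP : A * !![l - A 1 1, m - A 1 1; A 1 0, A 1 0] = !![l - A 1 1, m - A 1 1; A 1 0, A 1 0] * !![l, 0; 0, m] := by
    have ha : A 0 0 = l + m - A 1 1 := by linear_combination h1
    rw [Matrix.eta_fin_two A]
    rw [Matrix.mul_fin_two, Matrix.mul_fin_two]
    ext i j
    fin_cases i <;> fin_cases j
    · simp; rw [ha] at h2 ⊢; linear_combination -h2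
    · simp; rw [ha] at h2 ⊢; linear_combination -h2
    · simp; ring
    · simp; ring
  rw [← hAP, Matrix.mul_assoc, hP, Matrix.mul_one]

end Cfsg.Agent.H51.SqA
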