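import Cfsg.Agent.H51.SqA

set_option autoImplicit false

/-!
Selection of torus parts.
-/

namespace Cfsg.Agent.H51.SqA

open Matrix

variable {F : Type*} [Field F]

lemma sel {t d a b c e : F} (hd0 : d ≠ 0) (hd1 : d ≠ 1) (ht : t ≠ 0) (hdet : a * e - b * c = d * d) :
    ∃ s : F, Prd t d t d !![a, a * s + b; c, c * s + e] := by
  by_cases hc : c = 0
  · subst hc
    have hae : a * e = d * d := by linear_combination hdet
    have ha : a ≠ 0 := by
      rintro rfl
      rw [zero_mul] at hae
      exact hd0 (mul_self_eq_zero.1 hae.symm)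
    by_cases he : e = d
    · subst he
      have had : a = e := mul_right_cancel₀ hd0 hae
      subst had
      refine ⟨-b / a, ?_⟩
      have e1 : !![a, a * (-b / a) + b; 0, 0 * (-b / a) + a] = !![a, 0; 0, a] := by
        ext i j
        fin_cases i <;> fin_cases j
        · simp
        · simp; field_simp; ring
        · simp
        · simp
      rw [e1]
      exact prd_scalar hd0 rfl rfl
    · refine ⟨(1 - b) / a, ?_⟩
      have e1 : !![a, a * ((1 - b) / a) + b; 0, 0 * ((1 - b) / a) + e] = !![a, 1; 0, e] := by
        ext i j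
        fin_cases i <;> fin_cases j
        · simp
        · simp; field_simp; ring
        · simp
        · simp
      rw [e1]
      refine prd_tri hd0 hae one_ne_zero ?_
      intro h
      apply he
      apply mul_left_cancel₀ ht
      rw [h, mul_comm]
  · refine ⟨(1 + d * d - a - e) / c, ?_⟩
    have h1 : c * ((1 + d * d - a - e) / c) = 1 + d * d - a - e := by field_simp
    refine prd_c (r := 1) (s := d * d) hd0 (one_mul _) hc ?_ ?_ ?_
    · intro h
      apply hd1
      have h2 : (t * d) * d = (t * d) * 1 := by linear_combination h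
      exact mul_left_cancel₀ (mul_ne_zero ht hd0) h2
    · rw [h1]; ring
    · linear_combination hdet

/-- torus part for the big cell -/
lemma selw {t d a b e : F} (hd0 : d ≠ 0) (hd1 : d ≠ 1) (ht : t ≠ 0) (ha : a ≠ 0) (he : e ≠ 0) :
    ∃ c : F, c ≠ 0 ∧ (Prd t d t d !![c⁻¹ * a, c⁻¹ * b; 0, e] ∨ Prd t d (t / d) (1 / d) !![c⁻¹ * a, c⁻¹ * b; 0, e]) := by
  have hc1 : a * e / (d * d) ≠ 0 := div_ne_zero (mul_ne_zero ha he) (mul_ne_zero hd0 hd0)
  have hc2 : a * e ≠ 0 := mul_ne_zero ha he
  have hr1 : (a * e / (d * d))⁻¹ * a * e = d * d := by field_simp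
  have hr2 : (a * e)⁻¹ * a * e = d * (1 / d) := by field_simp
  have hcond1 : e ≠ d → t * e ≠ d * t := by
    intro h h'
    apply h
    apply mul_left_cancel₀ ht
    rw [h', mul_comm]
  have hcond2 : e ≠ 1 → t * e ≠ d * (t / d) := by
    intro h h'
    apply h
    apply mul_left_cancel₀ ht
    rw [h']; field_simp
  by_cases hb : b = 0
  · subst hb
    by_cases hed : e = d
    · subst hed
      refine ⟨a * e / (e * e), hc1, Or.inl ?_⟩
      have e1 : !![(a * e / (e * e))⁻¹ * a, (a * e / (e * e))⁻¹ * 0; 0, e] = !![e, 0; 0, e] := by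
        ext i j
        fin_cases i <;> fin_cases j
        · simp; field_simp
        · simp
        · simp
        · simp
      rw [e1]
      exact prd_scalar hd0 rfl rfl
    · by_cases hed2 : e = -d
      · have hne : d ≠ -d := by rw [← hed2]; exact fun h => hed h.symm
        by_cases he1 : e = 1
        · subst he1
          refine ⟨a * 1, hc2, Or.inr ?_⟩
          have e1 : !![(a * 1)⁻¹ * a, (a * 1)⁻¹ * 0; 0, (1 : F)] = !![1, 0; 0, 1] := by
            ext i j
            fin_cases i <;> fin_cases j
            · simp; field_simp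
            · simp
            · simp
            · simp
          rw [e1]
          exact prd_scalar hd0 (by field_simp) (by field_simp)
        · refine ⟨a * e, hc2, Or.inr ?_⟩
          rw [mul_zero]
          refine prd_diag hd0 hr2 ?_ (hcond2 he1)
          intro h
          rw [h] at hr2
          have h2 : e * e = 1 := by rw [hr2]; field_simp
          rcases mul_self_eq_one_iff.1 h2 with h3 | h3
          · exact he1 h3
          · apply hd1
            rw [hed2] at h3
            exact neg_injective h3
      · refine ⟨a * e / (d * d), hc1, Or.inl ?_⟩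
        rw [mul_zero]
        refine prd_diag hd0 hr1 ?_ (hcond1 hed)
        intro h
        rw [h] at hr1
        rcases mul_self_eq_mul_self_iff.1 hr1 with h3 | h3
        · exact hed h3
        · exact hed2 h3
  · by_cases hed : e = d
    · subst hed
      exact ⟨a * e, hc2, Or.inr (prd_tri hd0 hr2 (mul_ne_zero (inv_ne_zero hc2) hb) (hcond2 hd1))⟩
    · exact ⟨a * e / (d * d), hc1, Or.inl (prd_tri hd0 hr1 (mul_ne_zero (inv_ne_zero hc1) hb) (hcond1 hed))⟩

end Cfsg.Agent.H51.SqA
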