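import Cfsg.Agent.H51.G2Loc
import Cfsg.Agent.H51.SqA

set_option autoImplicit false
set_option maxRecDepth 100000

/-!
The Levi subgroup of type A1 (long root) of the groups of type G2.
-/

namespace Cfsg.Agent.H51.SqB

open Matrix Cfsg.Lie Cfsg.Agent.Chev Cfsg.Agent.ChevGrp Cfsg.Agent.ChevF Cfsg.Agent.H51.G2W

/-- goodness -/
lemma hG : Good chevG2 := good_of_mem hG2

/-- goodness -/
lemma hg2 : Good2 chevG2 := hG.toGood2

lemma lt12 {r : ℕ} (h : r < 12) : r < chevG2.nroots := h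

variable {K : Type*} [Field K]

/-- group with root subgroups -/
noncomputable abbrev RR (K : Type*) [Field K] : RGrp DData.dG2.rp.wsys (GL chevG2.Idx K) :=
  chev DData.dG2 (good_of_mem hG2) K

/-- diagonal subgroup -/
abbrev TT (K : Type*) [Field K] : Subgroup (GL chevG2.Idx K) := chevG2.diagonalSubgroup K

/-- root elements -/
noncomputable abbrev xx (r : ℕ) (t : K) : GL chevG2.Idx K := xU hg2 r t

/-- positive radical -/
def UP (K : Type*) [Field K] : Subgroup (GL chevG2.Idx K) := gen (Inst.XF chevG2 K) (fun s => 7 ≤ (s : ℕ))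

/-- negative radical -/
def UN (K : Type*) [Field K] : Subgroup (GL chevG2.Idx K) := gen (Inst.XF chevG2 K) (fun s => (s : ℕ) ≤ 4)

/-- Levi subgroup -/
def LL (K : Type*) [Field K] : Subgroup (GL chevG2.Idx K) :=
  TT K ⊔ gen (Inst.XF chevG2 K) (fun s => (s : ℕ) = 5 ∨ (s : ℕ) = 6)

lemma xx_XF {r : Fin chevG2.nroots} (t : K) : xx (r : ℕ) t ∈ Inst.XF chevG2 K r := Inst.xU_mem _ _ _

lemma mem_XF {r : Fin chevG2.nroots} {g : GL chevG2.Idx K} : g ∈ Inst.XF chevG2 K r ↔ ∃ t : K, g = xx (r : ℕ) t :=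
  Inst.mem_rootSubgroup hg2 r.2

lemma xx_UP {r : ℕ} (h : r < 12) (h7 : 7 ≤ r) (t : K) : xx r t ∈ UP K :=
  mem_gen (X := Inst.XF chevG2 K) (r := (⟨r, h⟩ : Fin chevG2.nroots)) h7 (xx_XF t)

lemma xx_UN {r : ℕ} (h7 : r ≤ 4) (t : K) : xx r t ∈ UN K :=
  mem_gen (X := Inst.XF chevG2 K) (r := (⟨r, lt12 (by omega)⟩ : Fin chevG2.nroots)) h7 (xx_XF t)

lemma xx_LL {r : ℕ} (h7 : r = 5 ∨ r = 6) (t : K) : xx r t ∈ LL K :=
  Subgroup.mem_sup_right (mem_gen (X := Inst.XF chevG2 K) (r := (⟨r, lt12 (by omega)⟩ : Fin chevG2.nroots)) h7 (xx_XF t))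

lemma TT_LL : TT K ≤ LL K := le_sup_left

lemma xx_add {r : ℕ} (h : r < 12) (t u : K) : xx r t * xx r u = xx r (t + u) := Inst.xU_add hg2 (lt12 h) t u
lemma xx_zero (r : ℕ) : xx r (0 : K) = 1 := Inst.xU_zero hg2 r
lemma xx_neg (r : ℕ) (t : K) : xx r (-t) = (xx r t)⁻¹ := Inst.xU_neg hg2 r t

lemma xx_inj {r : ℕ} (h : r < 12) {t u : K} (e : xx r t = xx r u) : t = u := by
  by_contra hne
  have h1 : xx r (t - u) = 1 := by
    rw [sub_eq_add_neg, ← xx_add h, xx_neg, e, mul_inv_cancel]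
  exact Inst.xU_ne_one hG (lt12 h) (sub_ne_zero.2 hne) h1

lemma vals0 : ∀ s : Fin 12, (0 < vec chevG2 s 0 ↔ 7 ≤ (s : ℕ)) ∧ (vec chevG2 s 0 < 0 ↔ (s : ℕ) ≤ 4) := by decide +kernel

lemma neg_val : ∀ s : Fin 12, chevG2.neg s = 11 - s := by decide +kernel

/-- conjugation by root elements -/
lemma norm_of {P : Fin chevG2.nroots → Prop} {r : Fin chevG2.nroots}
    (hr : ∀ s : Fin chevG2.nroots, P s → s ≠ r ∧ (s : ℕ) ≠ chevG2.neg r ∧
      ∀ (u : Fin chevG2.nroots) (a b : ℕ), 0 < a → 0 < b →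
        (∀ j < chevG2.rank, vec chevG2 u j = (a : ℤ) * vec chevG2 r j + (b : ℤ) * vec chevG2 s j) → P u)
    {x : GL chevG2.Idx K} (hx : x ∈ Inst.XF chevG2 K r) : x ∈ Subgroup.normalizer (gen (Inst.XF chevG2 K) P : Set (GL chevG2.Idx K)) := by
  rw [Subgroup.mem_normalizer_iff]
  intro u
  constructor
  · exact Inst.norm_gen hG hr hx u
  · intro h
    have := Inst.norm_gen hG hr (inv_mem hx) _ h
    have e : x⁻¹ * (x * u * x⁻¹) * x⁻¹⁻¹ = u := by group
    rwa [e] at this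

lemma T_norm {P : Fin chevG2.nroots → Prop} {h : GL chevG2.Idx K} (hh : h ∈ TT K) :
    h ∈ Subgroup.normalizer (gen (Inst.XF chevG2 K) P : Set (GL chevG2.Idx K)) := by
  have key : ∀ h ∈ TT K, ∀ x ∈ gen (Inst.XF chevG2 K) P, h * x * h⁻¹ ∈ gen (Inst.XF chevG2 K) P :=
    (RR K).H_norm_gen P
  rw [Subgroup.mem_normalizer_iff]
  intro u
  constructor
  · exact key h hh u
  · intro h'
    have := key h⁻¹ (inv_mem hh) _ h'
    have e : h⁻¹ * (h * u * h⁻¹) * h⁻¹⁻¹ = u := by group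
    rwa [e] at this

lemma LL_norm_UP : LL K ≤ Subgroup.normalizer (UP K : Set (GL chevG2.Idx K)) := by
  refine sup_le (fun h hh => T_norm hh) (gen_le.2 fun r hr x hx => norm_of ?_ hx)
  intro s hs
  have hs' := (vals0 s).1.2 hs
  have hr0 : vec chevG2 r 0 = 0 := by
    rcases hr with h | h <;> rw [h] <;> decide +kernel
  refine ⟨by rintro rfl; omega, ?_, ?_⟩
  · rw [neg_val r]; omega
  · intro u a b ha hb h
    have h0 := h 0 (by decide)
    rw [hr0, mul_zero, zero_add] at h0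
    apply (vals0 u).1.1
    rw [h0]
    exact mul_pos (by exact_mod_cast hb) hs'

lemma LL_norm_UN : LL K ≤ Subgroup.normalizer (UN K : Set (GL chevG2.Idx K)) := by
  refine sup_le (fun h hh => T_norm hh) (gen_le.2 fun r hr x hx => norm_of ?_ hx)
  intro s hs
  have hs' := (vals0 s).2.2 hs
  have hr0 : vec chevG2 r 0 = 0 := by
    rcases hr with h | h <;> rw [h] <;> decide +kernel
  refine ⟨by rintro rfl; omega, ?_, ?_⟩
  · rw [neg_val r]; omega
  · intro u a b ha hb h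
    have h0 := h 0 (by decide)
    rw [hr0, mul_zero, zero_add] at h0
    apply (vals0 u).2.1
    rw [h0]
    exact mul_neg_of_pos_of_neg (by exact_mod_cast hb) hs'

lemma conj_UP {l : GL chevG2.Idx K} (hl : l ∈ LL K) {u : GL chevG2.Idx K} (hu : u ∈ UP K) : l * u * l⁻¹ ∈ UP K :=
  (Subgroup.mem_normalizer_iff.1 (LL_norm_UP hl) u).1 hu

lemma conj_UP' {l : GL chevG2.Idx K} (hl : l ∈ LL K) {u : GL chevG2.Idx K} (hu : u ∈ UP K) : l⁻¹ * u * l ∈ UP K := by
  have := conj_UP (inv_mem hl) hu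
  rwa [inv_inv] at this

lemma conj_UN {l : GL chevG2.Idx K} (hl : l ∈ LL K) {u : GL chevG2.Idx K} (hu : u ∈ UN K) : l * u * l⁻¹ ∈ UN K :=
  (Subgroup.mem_normalizer_iff.1 (LL_norm_UN hl) u).1 hu

lemma conj_UN' {l : GL chevG2.Idx K} (hl : l ∈ LL K) {u : GL chevG2.Idx K} (hu : u ∈ UN K) : l⁻¹ * u * l ∈ UN K := by
  have := conj_UN (inv_mem hl) hu
  rwa [inv_inv] at this

/-! ### the two dimensional representation -/

/-- `g` acts on the span of `e_8, e_7` by `m` -/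
def Rl (g : GL chevG2.Idx K) (m : Matrix (Fin 2) (Fin 2) K) : Prop :=
  (g : Matrix chevG2.Idx chevG2.Idx K) *ᵥ eB chevG2 K 8 = m 0 0 • eB chevG2 K 8 + m 1 0 • eB chevG2 K 7 ∧
  (g : Matrix chevG2.Idx chevG2.Idx K) *ᵥ eB chevG2 K 7 = m 0 1 • eB chevG2 K 8 + m 1 1 • eB chevG2 K 7

lemma Rl.mul {g h : GL chevG2.Idx K} {m m' : Matrix (Fin 2) (Fin 2) K} (hg : Rl g m) (hh : Rl h m') : Rl (g * h) (m * m') := by
  obtain ⟨h1, h2⟩ := hg
  obtain ⟨h3, h4⟩ := hh
  constructor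
  · rw [Units.val_mul, ← Matrix.mulVec_mulVec, h3, Matrix.mulVec_add, Matrix.mulVec_smul, Matrix.mulVec_smul, h1, h2]
    simp only [Matrix.mul_apply, Fin.sum_univ_two]
    module
  · rw [Units.val_mul, ← Matrix.mulVec_mulVec, h4, Matrix.mulVec_add, Matrix.mulVec_smul, Matrix.mulVec_smul, h1, h2]
    simp only [Matrix.mul_apply, Fin.sum_univ_two]
    module

lemma Rl.one : Rl (1 : GL chevG2.Idx K) 1 := by
  constructor <;> simp

/-- index 8 -/
def i8 : Fin chevG2.nroots := ⟨8, by decide⟩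
/-- index 7 -/
def i7 : Fin chevG2.nroots := ⟨7, by decide⟩

lemma eB88 : eB chevG2 K 8 (Sum.inr i8) = 1 := by rw [eB_apply_inr]; rfl
lemma eB78 : eB chevG2 K 7 (Sum.inr i8) = 0 := by rw [eB_apply_inr]; rfl
lemma eB87 : eB chevG2 K 8 (Sum.inr i7) = 0 := by rw [eB_apply_inr]; rfl
lemma eB77 : eB chevG2 K 7 (Sum.inr i7) = 1 := by rw [eB_apply_inr]; rfl

lemma Rl.unique {g : GL chevG2.Idx K} {m m' : Matrix (Fin 2) (Fin 2) K} (h : Rl g m) (h' : Rl g m') : m = m' := by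
  have e : ∀ a b c d : K, a • eB chevG2 K 8 + b • eB chevG2 K 7 = c • eB chevG2 K 8 + d • eB chevG2 K 7 → a = c ∧ b = d := by
    intro a b c d h
    have h1 := congrFun h (Sum.inr i8)
    have h2 := congrFun h (Sum.inr i7)
    rw [Pi.add_apply, Pi.add_apply, Pi.smul_apply, Pi.smul_apply, Pi.smul_apply, Pi.smul_apply] at h1 h2
    rw [eB88, eB78] at h1
    rw [eB87, eB77] at h2
    constructor
    · simpa using h1
    · simpa using h2
  obtain ⟨h1, h2⟩ := e _ _ _ _ (h.1.symm.trans h'.1)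
  obtain ⟨h3, h4⟩ := e _ _ _ _ (h.2.symm.trans h'.2)
  ext i j
  fin_cases i <;> fin_cases j
  · exact h1
  · exact h3
  · exact h2
  · exact h4

lemma Rl_x5 (t : K) : Rl (xx 5 t) !![1, 0; t, 1] := by
  constructor
  · have h : (xx 5 t : Matrix chevG2.Idx chevG2.Idx K) *ᵥ eB chevG2 K 8 = _ :=
      x_mulVec_eB hG.rows (r := 5) (s := 8) (lt12 (by norm_num)) (lt12 (by norm_num)) (by norm_num) (by decide) t
    rw [h]
    have e : chevG2.chainEntry 5 8 = [(7, 1)] := by decide +kernel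
    rw [e]
    simp
  · have h : (xx 5 t : Matrix chevG2.Idx chevG2.Idx K) *ᵥ eB chevG2 K 7 = _ :=
      x_mulVec_eB hG.rows (r := 5) (s := 7) (lt12 (by norm_num)) (lt12 (by norm_num)) (by norm_num) (by decide) t
    rw [h]
    have e : chevG2.chainEntry 5 7 = [] := by decide +kernel
    rw [e]
    simp

lemma Rl_x6 (t : K) : Rl (xx 6 t) !![1, t; 0, 1] := by
  constructor
  · have h : (xx 6 t : Matrix chevG2.Idx chevG2.Idx K) *ᵥ eB chevG2 K 8 = _ :=
      x_mulVec_eB hG.rows (r := 6) (s := 8) (lt12 (by norm_num)) (lt12 (by norm_num)) (by norm_num) (by decide) t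
    rw [h]
    have e : chevG2.chainEntry 6 8 = [] := by decide +kernel
    rw [e]
    simp
  · have h : (xx 6 t : Matrix chevG2.Idx chevG2.Idx K) *ᵥ eB chevG2 K 7 = _ :=
      x_mulVec_eB hG.rows (r := 6) (s := 7) (lt12 (by norm_num)) (lt12 (by norm_num)) (by norm_num) (by decide) t
    rw [h]
    have e : chevG2.chainEntry 6 7 = [(8, 1)] := by decide +kernel
    rw [e]
    simp [add_comm]

lemma Rl_T {h : GL chevG2.Idx K} (hh : h ∈ TT K) :
    Rl h !![ev h i8, 0; 0, ev h i7] := by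
  obtain ⟨χ, rfl⟩ := exists_tor hG2 hh
  constructor
  · rw [ev_torHom, ev_torHom, ChevU.coe_torHom, tD_mulVec_eB χ (lt12 (by norm_num))]
    simp [i8]
  · rw [ev_torHom, ev_torHom, ChevU.coe_torHom, tD_mulVec_eB χ (lt12 (by norm_num))]
    simp [i7]

/-- the element `n` of the Levi subgroup -/
noncomputable def nb (K : Type*) [Field K] : GL chevG2.Idx K := Inst.nU hG 6 (1 : K)

lemma nb_eq : nb K = xx 6 1 * xx 5 (-1) * xx 6 1 := by
  have h := Inst.nU_eq (F := K) hG 6 1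
  rw [inv_one] at h
  exact h

lemma nb_LL : nb K ∈ LL K := by
  rw [nb_eq]
  exact mul_mem (mul_mem (xx_LL (Or.inr rfl) _) (xx_LL (Or.inl rfl) _)) (xx_LL (Or.inr rfl) _)

lemma Rl_nb : Rl (nb K) !![0, 1; -1, 0] := by
  rw [nb_eq]
  have h := ((Rl_x6 (1 : K)).mul (Rl_x5 (-1))).mul (Rl_x6 1)
  have e : (!![1, 1; 0, 1] * !![1, 0; -1, 1] * !![1, 1; 0, 1] : Matrix (Fin 2) (Fin 2) K) = !![0, 1; -1, 0] := by
    rw [Matrix.mul_fin_two, Matrix.mul_fin_two]
    simp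
  rwa [e] at h

end Cfsg.Agent.H51.SqB
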