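import Cfsg.Agent.H51.SqB

set_option autoImplicit false
set_option maxRecDepth 100000

/-!
The Levi subgroup of type A1 (long root) of the groups of type G2 is GL(2).
-/

namespace Cfsg.Agent.H51.SqC

open Matrix Cfsg.Lie Cfsg.Agent.Chev Cfsg.Agent.ChevGrp Cfsg.Agent.ChevF Cfsg.Agent.H51.G2W Cfsg.Agent.H51.SqB

variable {K : Type*} [Field K]

/-- index 0 -/
def j0 : Fin chevG2.rank := ⟨0, by decide⟩
/-- index 1 -/
def j1 : Fin chevG2.rank := ⟨1, by decide⟩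

lemma p1_val : ((DData.dG2.rp.wsys.p j1 : Fin chevG2.nroots) : ℕ) = 6 :=
  (p_val DData.dG2 j1).trans (by decide)

lemma p0_val : ((DData.dG2.rp.wsys.p j0 : Fin chevG2.nroots) : ℕ) = 7 :=
  (p_val DData.dG2 j0).trans (by decide)

lemma np1_val : ((DData.dG2.rp.wsys.neg (DData.dG2.rp.wsys.p j1) : Fin chevG2.nroots) : ℕ) = 5 := by
  have h : ((DData.dG2.rp.wsys.neg (DData.dG2.rp.wsys.p j1) : Fin chevG2.nroots) : ℕ) =
      chevG2.neg ((DData.dG2.rp.wsys.p j1 : Fin chevG2.nroots) : ℕ) := DData.dG2.hneg _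
  rw [h, p1_val]; decide

lemma X_p1 {g : GL chevG2.Idx K} : g ∈ (RR K).X (DData.dG2.rp.wsys.p j1) ↔ ∃ a : K, g = xx 6 a := by
  have h : g ∈ (RR K).X (DData.dG2.rp.wsys.p j1) ↔ _ := mem_XF
  rw [h, p1_val]

lemma X_p0 {g : GL chevG2.Idx K} : g ∈ (RR K).X (DData.dG2.rp.wsys.p j0) ↔ ∃ a : K, g = xx 7 a := by
  have h : g ∈ (RR K).X (DData.dG2.rp.wsys.p j0) ↔ _ := mem_XF
  rw [h, p0_val]

lemma X_np1 {g : GL chevG2.Idx K} : g ∈ (RR K).X (DData.dG2.rp.wsys.neg (DData.dG2.rp.wsys.p j1)) ↔ ∃ a : K, g = xx 5 a := by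
  have h : g ∈ (RR K).X (DData.dG2.rp.wsys.neg (DData.dG2.rp.wsys.p j1)) ↔ _ := mem_XF
  rw [h, np1_val]

/-- the element `n` of the torus normalizer for the short root -/
noncomputable def na (K : Type*) [Field K] : GL chevG2.Idx K := Inst.nU hG 7 (1 : K)

lemma nn1 : (RR K).nn j1 = nb K := by
  have h : chevG2.simple (j1 : ℕ) = 6 := by decide
  exact (chev_nn _ _ _).trans (congrArg (fun r => Inst.nU hG r (1 : K)) h)

lemma nn0 : (RR K).nn j0 = na K := by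
  have h : chevG2.simple (j0 : ℕ) = 7 := by decide
  exact (chev_nn _ _ _).trans (congrArg (fun r => Inst.nU hG r (1 : K)) h)

lemma nb_T {h : GL chevG2.Idx K} (hh : h ∈ TT K) : nb K * h * (nb K)⁻¹ ∈ TT K := by
  rw [← nn1]; exact (RR K).nn_H j1 h hh

lemma nb_sq : nb K * nb K ∈ TT K := by
  rw [← nn1]; exact (RR K).nn_sq j1

lemma na_T {h : GL chevG2.Idx K} (hh : h ∈ TT K) : na K * h * (na K)⁻¹ ∈ TT K := by
  rw [← nn0]; exact (RR K).nn_H j0 h hh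

lemma na_sq : na K * na K ∈ TT K := by
  rw [← nn0]; exact (RR K).nn_sq j0

/-- conjugation by torus elements -/
lemma T_xx {h : GL chevG2.Idx K} (hh : h ∈ TT K) {r : ℕ} (hr : r < 12) (a : K) : ∃ b : K, h * xx r a * h⁻¹ = xx r b :=
  ⟨_, diag_mul_xU hG2 hh ⟨r, lt12 hr⟩ a⟩

lemma T_xx' {h : GL chevG2.Idx K} (hh : h ∈ TT K) {r : ℕ} (hr : r < 12) (a : K) : ∃ b : K, h⁻¹ * xx r a * h = xx r b := by
  obtain ⟨b, hb⟩ := T_xx (inv_mem hh) hr a
  rw [inv_inv] at hb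
  exact ⟨b, hb⟩

lemma nb_x6 (a : K) : ∃ b : K, nb K * xx 6 a * (nb K)⁻¹ = xx 5 b := by
  have h := (RR K).nn_X j1 (DData.dG2.rp.wsys.p j1) (xx 6 a) (X_p1.2 ⟨a, rfl⟩)
  rw [DData.dG2.rp.wsys.w_p, nn1] at h
  exact X_np1.1 h

lemma rank1 (a : K) (ha : xx 5 a ≠ 1) : ∃ b c : K, ∃ h ∈ TT K, xx 5 a = xx 6 b * nb K * h * xx 6 c := by
  obtain ⟨x, hx, h, hh, y, hy, e⟩ := (RR K).rank1 j1 (xx 5 a) (X_np1.2 ⟨a, rfl⟩) ha
  obtain ⟨b, rfl⟩ := X_p1.1 hx
  obtain ⟨c, rfl⟩ := X_p1.1 hy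
  rw [nn1] at e
  exact ⟨b, c, h, hh, e⟩

/-- Bruhat form of the Levi subgroup -/
def BF (g : GL chevG2.Idx K) : Prop :=
  (∃ t ∈ TT K, ∃ a : K, g = t * xx 6 a) ∨ (∃ t ∈ TT K, ∃ a b : K, g = xx 6 a * t * nb K * xx 6 b)

lemma BF.t {g : GL chevG2.Idx K} (h : BF g) {t : GL chevG2.Idx K} (ht : t ∈ TT K) : BF (t * g) := by
  rcases h with ⟨s, hs, a, rfl⟩ | ⟨s, hs, a, b, rfl⟩
  · exact Or.inl ⟨t * s, mul_mem ht hs, a, by group⟩
  · obtain ⟨c, hc⟩ := T_xx ht (r := 6) (by norm_num) a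
    exact Or.inr ⟨t * s, mul_mem ht hs, c, b, by rw [← hc]; group⟩

lemma BF.x {g : GL chevG2.Idx K} (h : BF g) (c : K) : BF (xx 6 c * g) := by
  rcases h with ⟨s, hs, a, rfl⟩ | ⟨s, hs, a, b, rfl⟩
  · obtain ⟨d, hd⟩ := T_xx' hs (r := 6) (by norm_num) c
    exact Or.inl ⟨s, hs, d + a, by rw [← xx_add (by norm_num), ← hd]; group⟩
  · exact Or.inr ⟨s, hs, c + a, b, by rw [← xx_add (by norm_num)]; group⟩

lemma BF.n {g : GL chevG2.Idx K} (h : BF g) : BF (nb K * g) := by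
  rcases h with ⟨s, hs, a, rfl⟩ | ⟨s, hs, a, b, rfl⟩
  · exact Or.inr ⟨_, nb_T hs, 0, a, by rw [xx_zero]; group⟩
  · by_cases ha : xx 6 a = 1
    · rw [ha]
      exact Or.inl ⟨nb K * s * (nb K)⁻¹ * (nb K * nb K), mul_mem (nb_T hs) nb_sq, b, by group⟩
    · obtain ⟨c, hc⟩ := nb_x6 a
      have hc1 : xx 5 c ≠ 1 := by
        rw [← hc]; intro h; apply ha
        have : xx 6 a = (nb K)⁻¹ * (nb K * xx 6 a * (nb K)⁻¹) * nb K := by group
        rw [this, h]; group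
      obtain ⟨d, e, k, hk, hk'⟩ := rank1 c hc1
      have ht' : nb K * s * nb K ∈ TT K := by
        have := mul_mem (nb_T hs) nb_sq
        have e : nb K * s * (nb K)⁻¹ * (nb K * nb K) = nb K * s * nb K := by group
        rwa [e] at this
      have e1 : nb K * (xx 6 a * s * nb K * xx 6 b) = xx 6 d * (nb K * (k * (xx 6 e * ((nb K * s * nb K) * xx 6 b)))) := by
        calc nb K * (xx 6 a * s * nb K * xx 6 b) = (nb K * xx 6 a * (nb K)⁻¹) * ((nb K * s * nb K) * xx 6 b) := by group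
          _ = _ := by rw [hc, hk']; group
      rw [e1]
      apply BF.x
      -- `n k x t x`
      obtain ⟨f, hf⟩ := T_xx' ht' (r := 6) (by norm_num) e
      refine Or.inr ⟨nb K * (k * (nb K * s * nb K)) * (nb K)⁻¹, nb_T (mul_mem hk ht'), 0, f + b, ?_⟩
      rw [xx_zero, ← xx_add (by norm_num), ← hf]; group

lemma LL_BF {g : GL chevG2.Idx K} (hg : g ∈ LL K) : BF g := by
  have hcl : g ∈ Subgroup.closure ((TT K : Set (GL chevG2.Idx K)) ∪ {x | ∃ a : K, x = xx 5 a ∨ x = xx 6 a}) := by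
    have hle : LL K ≤ Subgroup.closure ((TT K : Set (GL chevG2.Idx K)) ∪ {x | ∃ a : K, x = xx 5 a ∨ x = xx 6 a}) := by
      refine sup_le (fun h hh => Subgroup.subset_closure (Or.inl hh)) ?_
      rw [gen_le]
      intro r hr x hx
      obtain ⟨a, rfl⟩ := mem_XF.1 hx
      refine Subgroup.subset_closure (Or.inr ⟨a, ?_⟩)
      rcases hr with h | h
      · left; rw [h]
      · right; rw [h]
    exact hle hg
  clear hg
  have step5 : ∀ g : GL chevG2.Idx K, BF g → ∀ a : K, BF (xx 5 a * g) := by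
    intro g hg a
    by_cases ha : xx 5 a = 1
    · rw [ha, one_mul]; exact hg
    · obtain ⟨b, c, h, hh, e⟩ := rank1 a ha
      have e1 : xx 5 a * g = xx 6 b * (nb K * (h * (xx 6 c * g))) := by rw [e]; group
      rw [e1]
      exact (((hg.x c).t hh).n).x b
  induction hcl using Subgroup.closure_induction_left with
  | one => exact Or.inl ⟨1, one_mem _, 0, by rw [xx_zero, mul_one]⟩
  | mul_left y hy z hz ih =>
    rcases hy with hy | ⟨a, rfl | rfl⟩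
    · exact ih.t hy
    · exact step5 _ ih a
    · exact ih.x a
  | inv_mul_cancel y hy z hz ih =>
    rcases hy with hy | ⟨a, rfl | rfl⟩
    · exact ih.t (inv_mem hy)
    · rw [← xx_neg]; exact step5 _ ih _
    · rw [← xx_neg]; exact ih.x _

lemma ev_i8 {h : GL chevG2.Idx K} (hh : h ∈ TT K) : ev h i8 = ev h i7 * ev h (DData.dG2.rp.wsys.p j1) := by
  have h1 := G2Loc.ev_formula hh i8
  have e1 : vec chevG2 (i8 : Fin chevG2.nroots) 0 = 1 := by decide +kernel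
  have e2 : vec chevG2 (i8 : Fin chevG2.nroots) 1 = 1 := by decide +kernel
  rw [e1, e2, _root_.zpow_one, _root_.zpow_one] at h1
  have h2 : DData.dG2.rp.wsys.p j0 = i7 := Fin.ext p0_val
  rw [h1]
  exact congrArg (fun s => ev h s * ev h (DData.dG2.rp.wsys.p j1)) h2

lemma T_one {h : GL chevG2.Idx K} (hh : h ∈ TT K) (h7 : ev h i7 = 1) (h8 : ev h i8 = 1) : h = 1 := by
  apply ev_ext DData.dG2 hG2 hh (one_mem _)
  intro i
  rw [ev_one]
  have h2 : DData.dG2.rp.wsys.p j0 = i7 := Fin.ext p0_val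
  have h3 := ev_i8 hh
  rw [h7, h8, one_mul] at h3
  have : ∀ i : Fin 2, ev h (DData.dG2.rp.wsys.p i) = 1 := by
    intro i
    fin_cases i
    · exact (congrArg (ev h) h2).trans h7
    · exact h3.symm
  exact this i

lemma exists_Rl {g : GL chevG2.Idx K} (hg : g ∈ LL K) : ∃ m, Rl g m := by
  rcases LL_BF hg with ⟨t, ht, a, rfl⟩ | ⟨t, ht, a, b, rfl⟩
  · exact ⟨_, (Rl_T ht).mul (Rl_x6 a)⟩
  · exact ⟨_, (((Rl_x6 a).mul (Rl_T ht)).mul Rl_nb).mul (Rl_x6 b)⟩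

lemma Rl_inj_one {g : GL chevG2.Idx K} (hg : g ∈ LL K) (h : Rl g 1) : g = 1 := by
  rcases LL_BF hg with ⟨t, ht, a, rfl⟩ | ⟨t, ht, a, b, rfl⟩
  · have h1 := h.unique ((Rl_T ht).mul (Rl_x6 a))
    rw [Matrix.mul_fin_two] at h1
    have e1 := congrFun (congrFun h1 0) 0
    have e2 := congrFun (congrFun h1 1) 1
    have e3 := congrFun (congrFun h1 0) 1
    simp at e1 e2 e3
    have h8 := ev_ne_zero hG2 ht i8
    have ha : a = 0 := by
      rcases e3 with h | h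
      · exact absurd h h8
      · exact h
    rw [T_one ht e2.symm e1.symm, ha, xx_zero, mul_one]
  · exfalso
    have h1 := h.unique ((((Rl_x6 a).mul (Rl_T ht)).mul Rl_nb).mul (Rl_x6 b))
    rw [Matrix.mul_fin_two, Matrix.mul_fin_two, Matrix.mul_fin_two] at h1
    have e1 := congrFun (congrFun h1 1) 0
    simp at e1
    exact ev_ne_zero hG2 ht i7 e1

lemma Rl_inv {g : GL chevG2.Idx K} (hg : g ∈ LL K) {m : Matrix (Fin 2) (Fin 2) K} (h : Rl g m) : Rl g⁻¹ m⁻¹ ∧ m * m⁻¹ = 1 ∧ m⁻¹ * m = 1 := by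
  obtain ⟨m', hm'⟩ := exists_Rl (inv_mem hg)
  have h1 := h.mul hm'
  rw [mul_inv_cancel] at h1
  have h2 := h1.unique Rl.one
  have h3 : m⁻¹ = m' := Matrix.inv_eq_right_inv h2
  rw [h3]
  exact ⟨hm', h2, mul_eq_one_comm.1 h2⟩

lemma Rl_inj {g h : GL chevG2.Idx K} (hg : g ∈ LL K) (hh : h ∈ LL K) {m : Matrix (Fin 2) (Fin 2) K} (h1 : Rl g m) (h2 : Rl h m) :
    g = h := by
  obtain ⟨h3, h4, -⟩ := Rl_inv hh h2
  have h5 := h1.mul h3
  rw [h4] at h5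
  exact mul_inv_eq_one.1 (Rl_inj_one (mul_mem hg (inv_mem hh)) h5)

end Cfsg.Agent.H51.SqC
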