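import Cfsg.Agent.H51.SqC

set_option autoImplicit false
set_option maxRecDepth 100000

/-!
Surjectivity onto GL(2); values of coroots; extension of scalars; centralizers of regular elements.
-/

namespace Cfsg.Agent.H51.SqD

open Matrix Cfsg.Lie Cfsg.Agent.Chev Cfsg.Agent.ChevGrp Cfsg.Agent.ChevF Cfsg.Agent.H51.G2W Cfsg.Agent.H51.SqB
  Cfsg.Agent.H51.SqC

section fin

variable {K : Type*} [Field K] [Fintype K]

lemma exists_T {x y : K} (hx : x ≠ 0) (hy : y ≠ 0) : ∃ h ∈ TT K, ev h i8 = x ∧ ev h i7 = y := by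
  classical
  have hcT : Nat.card (chevG2.diagonalSubgroup K) = (Fintype.card K - 1) ^ chevG2.rank := by
    have := Cfsg.Agent.ChevU.card_diag (F := K) rfl (chevG2, 1) (by simp)
    rw [one_mul] at this; exact this
  set χ : ℕ → Kˣ := fun j => if j = 0 then Units.mk0 y hy else Units.mk0 (x / y) (div_ne_zero hx hy) with hχ
  refine ⟨ChevU.torHom chevG2 K χ, torHom_mem hG2 hcT χ, ?_, ?_⟩
  · rw [ev_torHom]
    have e1 : vec chevG2 (i8 : Fin chevG2.nroots) 0 = 1 := by decide +kernel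
    have e2 : vec chevG2 (i8 : Fin chevG2.nroots) 1 = 1 := by decide +kernel
    have e : chr chevG2 χ (i8 : Fin chevG2.nroots) = χ 0 * χ 1 := by
      unfold chr
      have hr : chevG2.rank = 2 := rfl
      rw [hr, Finset.prod_range_succ, Finset.prod_range_one, e1, e2, _root_.zpow_one, _root_.zpow_one]
    rw [e, hχ]
    simp
    field_simp
  · rw [ev_torHom]
    have e1 : vec chevG2 (i7 : Fin chevG2.nroots) 0 = 1 := by decide +kernel
    have e2 : vec chevG2 (i7 : Fin chevG2.nroots) 1 = 0 := by decide +kernel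
    have e : chr chevG2 χ (i7 : Fin chevG2.nroots) = χ 0 := by
      unfold chr
      have hr : chevG2.rank = 2 := rfl
      rw [hr, Finset.prod_range_succ, Finset.prod_range_one, e1, e2, _root_.zpow_one, _root_.zpow_zero, mul_one]
    rw [e, hχ]
    simp

lemma surj_aux {a b c d : K} (hd : d ≠ 0) (hdet : a * d - b * c ≠ 0) : ∃ g ∈ LL K, Rl g !![a, b; c, d] := by
  obtain ⟨h, hh, h8, h7⟩ := exists_T (x := (a * d - b * c) / d) (y := d) (div_ne_zero hdet hd) hd
  refine ⟨xx 6 (b / d) * h * xx 5 (c / d), mul_mem (mul_mem (xx_LL (Or.inr rfl) _) (TT_LL hh)) (xx_LL (Or.inl rfl) _), ?_⟩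
  have h1 := ((Rl_x6 (b / d)).mul (Rl_T hh)).mul (Rl_x5 (c / d))
  rw [h8, h7, Matrix.mul_fin_two, Matrix.mul_fin_two] at h1
  have e : !![a, b; c, d] = !![(1 * ((a * d - b * c) / d) + b / d * 0) * 1 + (1 * 0 + b / d * d) * (c / d),
      (1 * ((a * d - b * c) / d) + b / d * 0) * 0 + (1 * 0 + b / d * d) * 1;
      (0 * ((a * d - b * c) / d) + 1 * 0) * 1 + (0 * 0 + 1 * d) * (c / d),
      (0 * ((a * d - b * c) / d) + 1 * 0) * 0 + (0 * 0 + 1 * d) * 1] := by
    ext i j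
    fin_cases i <;> fin_cases j
    · simp; field_simp; ring
    · simp; field_simp
    · simp; field_simp
    · simp
  rw [e]; exact h1

theorem surj (m : Matrix (Fin 2) (Fin 2) K) (hm : m.det ≠ 0) : ∃ g ∈ LL K, Rl g m := by
  rw [Matrix.eta_fin_two m] at hm ⊢
  rw [Matrix.det_fin_two_of] at hm
  generalize m 0 0 = a at *
  generalize m 0 1 = b at *
  generalize m 1 0 = c at *
  generalize m 1 1 = d at *
  by_cases hd : d = 0
  · have hc : c ≠ 0 := by
      rintro rfl; apply hm; rw [hd]; ring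
    obtain ⟨g, hg, h⟩ := surj_aux (a := a) (b := a + b) (c := c) (d := c + d) (by rw [hd, add_zero]; exact hc) (by
      intro h; apply hm; rw [← h]; ring)
    refine ⟨g * xx 6 (-1), mul_mem hg (xx_LL (Or.inr rfl) _), ?_⟩
    have h1 := h.mul (Rl_x6 (-1))
    rw [Matrix.mul_fin_two] at h1
    have e : !![a, b; c, d] = !![a * 1 + (a + b) * 0, a * -1 + (a + b) * 1; c * 1 + (c + d) * 0, c * -1 + (c + d) * 1] := by
      ext i j
      fin_cases i <;> fin_cases j <;> simp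
    rw [e]; exact h1
  · exact surj_aux hd hm

end fin

section any

variable {K : Type*} [Field K]

lemma hU_T {r : ℕ} (hr : r < 12) {c : K} (hc : c ≠ 0) : Inst.hU hG r c ∈ TT K := Inst.hU_mem hG (lt12 hr) hc

lemma ev_hU {r : ℕ} (hr : r < 12) {c : K} (hc : c ≠ 0) (s : Fin chevG2.nroots) :
    ev (Inst.hU hG r c) s = c ^ pr chevG2 r s := by
  unfold ev
  rw [Inst.val_hU' hG (lt12 hr) hc]
  unfold hD
  rw [Matrix.diagonal_apply_eq, Sum.elim_inr]

lemma ev_inv' {h : GL chevG2.Idx K} (hh : h ∈ TT K) (s : Fin chevG2.nroots) : ev h⁻¹ s = (ev h s)⁻¹ := by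
  have h1 := ev_mul hG2 hh (inv_mem hh) s
  rw [mul_inv_cancel, ev_one] at h1
  exact (inv_eq_of_mul_eq_one_right h1.symm).symm

/-- conjugating `n_r l u` -/
lemma torAdj {r : ℕ} (hr7 : 7 ≤ r) (hr : r < 12) {c : K} (hc : c ≠ 0) {l u : GL chevG2.Idx K} (hl : l ∈ LL K) (hu : u ∈ UP K) :
    ∃ a b : K, ∃ u' ∈ UP K, Inst.nU hG r (1 : K) * l * u = xx r a * xx (11 - r) b * ((Inst.hU hG r c)⁻¹ * l) * u' := by
  have e1 : Inst.nU hG r (1 : K) = (Inst.hU hG r c)⁻¹ * Inst.nU hG r c := by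
    unfold Inst.hU
    rw [Inst.nU_neg]; group
  have e2 := Inst.nU_eq (F := K) hG r c
  have e3 : chevG2.neg r = 11 - r := neg_val ⟨r, hr⟩
  rw [e3] at e2
  have hT := hU_T hr hc
  obtain ⟨a, ha⟩ := T_xx' hT hr c
  obtain ⟨b, hb⟩ := T_xx' hT (r := 11 - r) (by omega) (-c⁻¹)
  refine ⟨a, b, (l⁻¹ * xx r c * l) * u, mul_mem (conj_UP' hl (xx_UP hr hr7 c)) hu, ?_⟩
  have e4 : Inst.nU hG r c = xx r c * xx (11 - r) (-c⁻¹) * xx r c := e2
  rw [e1, e4, ← ha, ← hb]
  group

/-- commuting root elements -/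
lemma xcomm {r s : ℕ} (hr : r < 12) (hs : s < 12) (h1 : s ≠ r) (h2 : s ≠ 11 - r) (h : chevG2.commTerms r s = []) (t u : K) :
    xx r t * xx s u = xx s u * xx r t := by
  have e3 : chevG2.neg r = 11 - r := neg_val ⟨r, hr⟩
  have h3 := hG.comm (lt12 hr) (lt12 hs) h1 (by rw [e3]; exact h2) t u
  have h4 : chevG2.commWord K r s t u = [] := by
    unfold ChevalleyDatum.commWord
    rw [h]; rfl
  rw [h4] at h3
  have h5 : chevG2.wordMat K [] = 1 := by simp [ChevalleyDatum.wordMat]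
  rw [h5, mul_one] at h3
  exact (Units.ext h3).symm

end any

end Cfsg.Agent.H51.SqD
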