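import Cfsg.Agent.H51.SqD

set_option autoImplicit false
set_option maxRecDepth 100000

/-!
Centralizers of regular elements in the unipotent radicals; the longest element; extension of scalars.
-/

namespace Cfsg.Agent.H51.SqE

open Matrix Cfsg.Lie Cfsg.Agent.Chev Cfsg.Agent.ChevGrp Cfsg.Agent.ChevF Cfsg.Agent.H51.G2W Cfsg.Agent.H51.SqB
  Cfsg.Agent.H51.SqC Cfsg.Agent.H51.SqD

section cent

variable {K : Type*} [Field K]

/-- closedness check -/
def chkQ (r : ℕ) (L : List ℕ) : Bool :=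
  L.all fun s => (List.range 12).all fun u => [1, 2].all fun (a : ℤ) => [1, 2].all fun (b : ℤ) =>
    !(decide (vec chevG2 u 0 = a * vec chevG2 r 0 + b * vec chevG2 s 0) &&
      decide (vec chevG2 u 1 = a * vec chevG2 r 1 + b * vec chevG2 s 1)) || L.contains u

lemma vec0_le : ∀ u : Fin 12, vec chevG2 u 0 ≤ 3 := by decide +kernel

/-- subgroup generated by the root subgroups in a list -/
def GL' (K : Type*) [Field K] (L : List ℕ) : Subgroup (GL chevG2.Idx K) := gen (Inst.XF chevG2 K) (fun s => (s : ℕ) ∈ L)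

lemma GL'_mono {L L' : List ℕ} (h : ∀ s ∈ L, s ∈ L') : GL' K L ≤ GL' K L' := by
  unfold GL'
  exact gen_mono fun s hs => h _ hs

lemma cent_step {t : GL chevG2.Idx K} (ht : t ∈ TT K) {r : Fin chevG2.nroots} (hr7 : 7 ≤ (r : ℕ)) {L : List ℕ}
    (hL : ∀ s ∈ L, 7 ≤ s ∧ s ≠ (r : ℕ)) (hchk : chkQ r L = true)
    (a : ℕ → ℤ) (ha : Grade.fn chevG2 a r < 0) (haQ : ∀ s ∈ L, 0 ≤ Grade.fn chevG2 a s)
    (hev : ev t r ≠ 1) {u : GL chevG2.Idx K} (hu : u ∈ GL' K ((r : ℕ) :: L)) (hc : t * u = u * t) : u ∈ GL' K L := by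
  have hnorm : ∀ x ∈ Inst.XF chevG2 K r, ∀ v ∈ GL' K L, x * v * x⁻¹ ∈ GL' K L := by
    intro x hx
    refine Inst.norm_gen hG ?_ hx
    intro s hs
    obtain ⟨h1, h2⟩ := hL s hs
    refine ⟨fun h => h2 (by rw [h]), ?_, ?_⟩
    · rw [neg_val r]; omega
    · intro u a b ha hb h
      have h0 := h 0 (by decide)
      have h3 := h 1 (by decide)
      have p1 := (vals0 r).1.2 hr7
      have p2 := (vals0 s).1.2 h1
      have p3 := vec0_le u
      have ha1 : (1 : ℤ) ≤ a := by exact_mod_cast ha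
      have hb1 : (1 : ℤ) ≤ b := by exact_mod_cast hb
      have q1 : (a : ℤ) ≤ a * vec chevG2 r 0 := by nlinarith
      have q2 : (b : ℤ) ≤ b * vec chevG2 s 0 := by nlinarith
      have ha2 : (a : ℤ) ≤ 2 := by omega
      have hb2 : (b : ℤ) ≤ 2 := by omega
      unfold chkQ at hchk
      rw [List.all_eq_true] at hchk
      have c1 := hchk s hs
      rw [List.all_eq_true] at c1
      have c2 := c1 u (List.mem_range.2 u.2)
      rw [List.all_eq_true] at c2
      have c3 := c2 (a : ℤ) (by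
        have : (a : ℤ) = 1 ∨ (a : ℤ) = 2 := by omega
        rcases this with h | h <;> rw [h] <;> simp)
      rw [List.all_eq_true] at c3
      have c4 := c3 (b : ℤ) (by
        have : (b : ℤ) = 1 ∨ (b : ℤ) = 2 := by omega
        rcases this with h | h <;> rw [h] <;> simp)
      rw [Bool.or_eq_true] at c4
      rcases c4 with c5 | c5
      · exfalso
        rw [Bool.not_eq_true', Bool.and_eq_false_iff] at c5
        rcases c5 with c5 | c5
        · exact (of_decide_eq_false c5) h0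
        · exact (of_decide_eq_false c5) h3
      · have c6 := List.contains_iff_mem.1 c5
        exact c6
  have hsup : u ∈ Inst.XF chevG2 K r ⊔ GL' K L := by
    have : GL' K ((r : ℕ) :: L) ≤ Inst.XF chevG2 K r ⊔ GL' K L := by
      unfold GL'
      rw [gen_le]
      intro s hs
      rcases List.mem_cons.1 hs with h | h
      · have : s = r := Fin.ext h
        rw [this]; exact le_sup_left
      · exact (le_gen (X := Inst.XF chevG2 K) (P := fun s : Fin chevG2.nroots => (s : ℕ) ∈ L) h).trans le_sup_right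
    exact this hu
  obtain ⟨x, hx, v, hv, rfl⟩ := mem_sup_of_normalizes hnorm hsup
  obtain ⟨c, rfl⟩ := mem_XF.1 hx
  have htx : t * xx (r : ℕ) c * t⁻¹ = xx (r : ℕ) (ev t r * c) := diag_mul_xU hG2 ht r c
  have htv : t * v * t⁻¹ ∈ GL' K L := (Subgroup.mem_normalizer_iff.1 (T_norm ht) v).1 hv
  have e1 : xx (r : ℕ) (-c + ev t r * c) = v * (t * v * t⁻¹)⁻¹ := by
    rw [← xx_add r.2, xx_neg, ← htx]
    have : t * (xx (r : ℕ) c * v) * t⁻¹ = xx (r : ℕ) c * v := by rw [hc]; group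
    calc (xx (r : ℕ) c)⁻¹ * (t * xx (r : ℕ) c * t⁻¹) = (xx (r : ℕ) c)⁻¹ * (t * (xx (r : ℕ) c * v) * t⁻¹) * (t * v * t⁻¹)⁻¹ := by group
      _ = _ := by rw [this]; group
  have e2 : xx (r : ℕ) (-c + ev t r * c) = 1 := by
    refine Grade.inter_trivial hG a (P := fun s : Fin chevG2.nroots => (s : ℕ) ∈ L) (Q := fun s => s = r)
      (fun s hs => haQ s hs) (fun s hs => by rw [hs]; exact ha) ?_ ?_
    · rw [e1]; exact Subgroup.mem_sup_left (mul_mem hv (inv_mem htv))
    · exact mem_gen (X := Inst.XF chevG2 K) (P := fun s => s = r) rfl (xx_XF _)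
  have e3 := xx_inj (r := (r : ℕ)) r.2 (e2.trans (xx_zero (K := K) r).symm)
  have e4 : c = 0 := by
    have : (ev t r - 1) * c = 0 := by rw [← e3]; ring
    rcases mul_eq_zero.1 this with h | h
    · exact absurd (sub_eq_zero.1 h) hev
    · exact h
  rw [e4, xx_zero, one_mul]; exact hv

lemma cent_UP {t : GL chevG2.Idx K} (ht : t ∈ TT K) (hev : ∀ r : Fin chevG2.nroots, 7 ≤ (r : ℕ) → ev t r ≠ 1)
    {u : GL chevG2.Idx K} (hu : u ∈ UP K) (hc : t * u = u * t) : u = 1 := by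
  have h0 : u ∈ GL' K (7 :: [8, 9, 10, 11]) := by
    refine gen_mono (X := Inst.XF chevG2 K) (fun s hs => ?_) hu
    have := s.2
    have h12 : chevG2.nroots = 12 := rfl
    simp only [List.mem_cons, List.not_mem_nil]
    omega
  have h1 := cent_step ht (r := ⟨7, lt12 (by norm_num)⟩) (le_refl 7) (L := [8, 9, 10, 11]) (by decide) (by decide +kernel)
    (fun j => if j = 0 then -1 else 3) (by decide +kernel) (by decide +kernel) (hev _ (le_refl 7)) h0 hc
  have h1' : u ∈ GL' K (10 :: [8, 9, 11]) := GL'_mono (by decide) h1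
  have h2 := cent_step ht (r := ⟨10, lt12 (by norm_num)⟩) (by norm_num) (L := [8, 9, 11]) (by decide) (by decide +kernel)
    (fun j => if j = 0 then -1 else 2) (by decide +kernel) (by decide +kernel) (hev _ (by norm_num)) h1' hc
  have h2' : u ∈ GL' K (9 :: [8, 11]) := GL'_mono (by decide) h2
  have h3 := cent_step ht (r := ⟨9, lt12 (by norm_num)⟩) (by norm_num) (L := [8, 11]) (by decide) (by decide +kernel)
    (fun j => if j = 0 then -2 else 3) (by decide +kernel) (by decide +kernel) (hev _ (by norm_num)) h2' hc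
  have h3' : u ∈ GL' K (11 :: [8]) := GL'_mono (by decide) h3
  have h4 := cent_step ht (r := ⟨11, lt12 (by norm_num)⟩) (by norm_num) (L := [8]) (by decide) (by decide +kernel)
    (fun j => if j = 0 then -1 else 1) (by decide +kernel) (by decide +kernel) (hev _ (by norm_num)) h3' hc
  have h5 := cent_step ht (r := ⟨8, lt12 (by norm_num)⟩) (by norm_num) (L := []) (by decide) (by decide +kernel)
    (fun j => if j = 0 then -1 else 0) (by decide +kernel) (by decide +kernel) (hev _ (by norm_num)) h4 hc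
  have h6 : GL' K [] = ⊥ := by
    rw [eq_bot_iff]
    unfold GL'
    rw [gen_le]
    intro s hs
    exact absurd hs (by simp)
  rw [h6] at h5
  exact Subgroup.mem_bot.1 h5

end cent

section words

/-- action of a word on root indices -/
def wf (L : List (Fin chevG2.rank)) (s : ℕ) : ℕ := L.foldr (fun i x => chevG2.reflectRoot i x) s

lemma wd_val (L : List (Fin chevG2.rank)) (s : Fin chevG2.nroots) :
    ((DData.dG2.rp.wsys.wd L s : Fin chevG2.nroots) : ℕ) = wf L s := by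
  induction L with
  | nil => rfl
  | cons i L ih =>
    rw [WSys.wd_cons, Equiv.Perm.mul_apply, w_val, ih]
    rfl

/-- longest word -/
def w0 : List (Fin chevG2.rank) := [j0, j1, j0, j1, j0, j1]

lemma w0_val' : ∀ s : Fin 12, wf w0 s = 11 - s := by decide +kernel

lemma w0_val (s : Fin chevG2.nroots) : wf w0 s = 11 - (s : ℕ) := w0_val' s

variable {K : Type*} [Field K]

/-- longest element -/
noncomputable def n0 (K : Type*) [Field K] : GL chevG2.Idx K := (RR K).nd w0

lemma n0_N : n0 K ∈ (RR K).N := RGrp.nd_mem_N _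

lemma n0_act : (RR K).Act (n0 K) (DData.dG2.rp.wsys.wd w0) := RGrp.act_nd _

lemma n0_T {h : GL chevG2.Idx K} (hh : h ∈ TT K) : n0 K * h * (n0 K)⁻¹ ∈ TT K := RGrp.nd_H (R := RR K) w0 hh

lemma ev_n0 {h : GL chevG2.Idx K} (hh : h ∈ TT K) : n0 K * h * (n0 K)⁻¹ = h⁻¹ := by
  apply ev_ext DData.dG2 hG2 (n0_T hh) (inv_mem hh)
  intro i
  rw [ev_inv' hh]
  set s := DData.dG2.rp.wsys.p i with hs
  have h1 := N_conj_ev DData.dG2 hG2 n0_N n0_act hh (DData.dG2.rp.wsys.neg s)
  have h2 : DData.dG2.rp.wsys.wd w0 (DData.dG2.rp.wsys.neg s) = s := by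
    apply Fin.ext
    rw [wd_val, w0_val]
    have h3 : ((DData.dG2.rp.wsys.neg s : Fin chevG2.nroots) : ℕ) = chevG2.neg (s : ℕ) := DData.dG2.hneg _
    rw [h3, neg_val s]
    have := s.2
    have h12 : chevG2.nroots = 12 := rfl
    omega
  rw [h2] at h1
  refine h1.trans ?_
  obtain ⟨χ, rfl⟩ := exists_tor hG2 hh
  rw [ev_torHom, ev_torHom]
  have h3 : ((DData.dG2.rp.wsys.neg s : Fin chevG2.nroots) : ℕ) = chevG2.neg (s : ℕ) := DData.dG2.hneg _
  rw [h3, chr_neg hG.toGood1 s.2, Units.val_inv_eq_inv_val]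

lemma n0_UN {u : GL chevG2.Idx K} (hu : u ∈ UN K) : n0 K * u * (n0 K)⁻¹ ∈ UP K := by
  refine RGrp.act_gen (R := RR K) n0_act (P := fun s => (s : ℕ) ≤ 4) (Q := fun s => 7 ≤ (s : ℕ)) ?_ u hu
  intro r hr
  rw [wd_val, w0_val]
  have := r.2
  omega

lemma n0_LL {u : GL chevG2.Idx K} (hu : u ∈ LL K) : n0 K * u * (n0 K)⁻¹ ∈ LL K := by
  have h : LL K ≤ (LL K).comap (MulAut.conj (n0 K)).toMonoidHom := by
    refine sup_le (fun h hh => TT_LL (n0_T hh)) ?_
    intro x hx
    refine Subgroup.mem_sup_right ?_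
    refine RGrp.act_gen (R := RR K) n0_act (P := fun s => (s : ℕ) = 5 ∨ (s : ℕ) = 6) (Q := fun s => (s : ℕ) = 5 ∨ (s : ℕ) = 6) ?_ x hx
    intro r hr
    rw [wd_val, w0_val]
    omega
  exact h hu

lemma cent_UN {t : GL chevG2.Idx K} (ht : t ∈ TT K) (hev : ∀ r : Fin chevG2.nroots, 7 ≤ (r : ℕ) → ev t r ≠ 1)
    {u : GL chevG2.Idx K} (hu : u ∈ UN K) (hc : t * u = u * t) : u = 1 := by
  have h1 : n0 K * u * (n0 K)⁻¹ = 1 := by
    refine cent_UP ht hev (n0_UN hu) ?_
    have h2 : (n0 K * t * (n0 K)⁻¹) * (n0 K * u * (n0 K)⁻¹) = (n0 K * u * (n0 K)⁻¹) * (n0 K * t * (n0 K)⁻¹) := by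
      calc (n0 K * t * (n0 K)⁻¹) * (n0 K * u * (n0 K)⁻¹) = n0 K * (t * u) * (n0 K)⁻¹ := by group
        _ = _ := by rw [hc]; group
    rw [ev_n0 ht] at h2
    calc t * (n0 K * u * (n0 K)⁻¹) = t * ((n0 K * u * (n0 K)⁻¹) * t⁻¹) * t := by group
      _ = t * (t⁻¹ * (n0 K * u * (n0 K)⁻¹)) * t := by rw [h2]
      _ = _ := by group
  have : u = (n0 K)⁻¹ * (n0 K * u * (n0 K)⁻¹) * n0 K := by group
  rw [this, h1]; group

end words

section ext

variable {F K : Type*} [Field F] [Field K] (σ : F →+* K)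

/-- scalar extension -/
noncomputable abbrev gm : GL chevG2.Idx F →* GL chevG2.Idx K := glMap chevG2.Idx σ

lemma gm_T {g : GL chevG2.Idx F} (hg : g ∈ TT F) : gm σ g ∈ TT K := glMap_mem_diag σ hg

lemma gm_gen {P : Fin chevG2.nroots → Prop} {g : GL chevG2.Idx F} (hg : g ∈ gen (Inst.XF chevG2 F) P) :
    gm σ g ∈ gen (Inst.XF chevG2 K) P := by
  have h : gen (Inst.XF chevG2 F) P ≤ (gen (Inst.XF chevG2 K) P).comap (gm σ) := by
    rw [gen_le]
    intro r hr x hx
    exact mem_gen (X := Inst.XF chevG2 K) hr (glMap_mem_root σ r hx)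
  exact h hg

lemma gm_UP {g : GL chevG2.Idx F} (hg : g ∈ UP F) : gm σ g ∈ UP K := gm_gen σ hg
lemma gm_UN {g : GL chevG2.Idx F} (hg : g ∈ UN F) : gm σ g ∈ UN K := gm_gen σ hg
lemma gm_LL {g : GL chevG2.Idx F} (hg : g ∈ LL F) : gm σ g ∈ LL K := by
  have h : LL F ≤ (LL K).comap (gm σ) :=
    sup_le (fun h hh => TT_LL (gm_T σ hh)) (fun h hh => Subgroup.mem_sup_right (gm_gen σ hh))
  exact h hg

lemma gm_n0 : gm σ (n0 F) = n0 K := glMap_nd DData.dG2 hG σ w0

lemma gm_Rl {g : GL chevG2.Idx F} {m : Matrix (Fin 2) (Fin 2) F} (h : Rl g m) : Rl (gm σ g) (m.map σ) := by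
  have hE : ∀ s, eB chevG2 K s = fun i => σ (eB chevG2 F s i) := by
    intro s
    funext i
    rcases i with i | i
    · rw [eB_apply_inl, eB_apply_inl, map_zero]
    · rw [eB_apply_inr, eB_apply_inr]
      split_ifs <;> simp
  have hM : ∀ v : chevG2.Idx → F, ((gm σ g : GL chevG2.Idx K) : Matrix chevG2.Idx chevG2.Idx K) *ᵥ (fun i => σ (v i)) =
      fun i => σ ((((g : GL chevG2.Idx F) : Matrix chevG2.Idx chevG2.Idx F) *ᵥ v) i) := by
    intro v
    funext i
    rw [glMap_coe]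
    simp only [Matrix.mulVec, dotProduct, Matrix.map_apply, map_sum, map_mul]
  obtain ⟨h1, h2⟩ := h
  constructor
  · rw [hE 8, hE 7, hM, h1]
    funext i
    simp
  · rw [hE 8, hE 7, hM, h2]
    funext i
    simp

end ext

end Cfsg.Agent.H51.SqE
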