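import Cfsg.Agent.H51.SqE

set_option autoImplicit false
set_option maxRecDepth 100000

/-!
Regular elements of the Levi subgroup and their classes.
-/

namespace Cfsg.Agent.H51.SqF

open Matrix Cfsg.Lie Cfsg.Agent.Chev Cfsg.Agent.ChevGrp Cfsg.Agent.ChevF Cfsg.Agent.H51.G2W Cfsg.Agent.H51.SqB
  Cfsg.Agent.H51.SqC Cfsg.Agent.H51.SqD Cfsg.Agent.H51.SqE Cfsg.Agent.H51.SqA

/-- a regular elliptic pair of eigenvalues -/
structure Sg (F K : Type*) [Field F] [Field K] where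
  io : F →+* K
  lam : K
  mu : K
  tau : F
  del : F
  htau : io tau = lam + mu
  hdel : io del = lam * mu
  irr : ∀ z : F, z * z - tau * z + del ≠ 0
  tau0 : tau ≠ 0
  del0 : del ≠ 0
  del1 : del ≠ 1
  lam0 : lam ≠ 0
  mu0 : mu ≠ 0
  ne : lam ≠ mu
  r1 : lam ≠ 1
  r2 : mu ≠ 1
  r4 : mu * (mu * lam) ≠ 1
  r5 : mu * lam * lam ≠ 1

/-- centralizes no nontrivial element of the radicals -/
def CU {F : Type*} [Field F] (y : GL chevG2.Idx F) : Prop :=
  (∀ u ∈ UP F, y * u = u * y → u = 1) ∧ (∀ u ∈ UN F, y * u = u * y → u = 1)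

section

variable {K : Type*} [Field K]

/-- index 9 -/
def i9 : Fin chevG2.nroots := ⟨9, by decide⟩
/-- index 10 -/
def i10 : Fin chevG2.nroots := ⟨10, by decide⟩
/-- index 11 -/
def i11 : Fin chevG2.nroots := ⟨11, by decide⟩

lemma ev_vals {h : GL chevG2.Idx K} (hh : h ∈ TT K) :
    ev h i9 = ev h i7 * ev h i8 ∧ ev h i10 = ev h i7 * (ev h i7 * ev h i8) ∧ ev h i11 = ev h i7 * ev h i8 * ev h i8 := by
  have h8 := ev_i8 hh
  have h2 : DData.dG2.rp.wsys.p j0 = i7 := Fin.ext p0_val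
  have hf : ∀ s : Fin chevG2.nroots, ev h s = ev h i7 ^ vec chevG2 s 0 * ev h (DData.dG2.rp.wsys.p j1) ^ vec chevG2 s 1 := by
    intro s
    refine (G2Loc.ev_formula hh s).trans ?_
    exact congrArg (fun r => ev h r ^ vec chevG2 s 0 * ev h (DData.dG2.rp.wsys.p j1) ^ vec chevG2 s 1) h2
  set a := ev h i7 with ha
  set b := ev h (DData.dG2.rp.wsys.p j1) with hb
  have v9 : vec chevG2 (i9 : Fin chevG2.nroots) 0 = 2 ∧ vec chevG2 (i9 : Fin chevG2.nroots) 1 = 1 := by decide +kernel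
  have v10 : vec chevG2 (i10 : Fin chevG2.nroots) 0 = 3 ∧ vec chevG2 (i10 : Fin chevG2.nroots) 1 = 1 := by decide +kernel
  have v11 : vec chevG2 (i11 : Fin chevG2.nroots) 0 = 3 ∧ vec chevG2 (i11 : Fin chevG2.nroots) 1 = 2 := by decide +kernel
  have z2 : ∀ c : K, c ^ (2 : ℤ) = c ^ 2 := fun c => by norm_cast
  have z3 : ∀ c : K, c ^ (3 : ℤ) = c ^ 3 := fun c => by norm_cast
  refine ⟨?_, ?_, ?_⟩
  · rw [hf i9, v9.1, v9.2, h8, z2, _root_.zpow_one]; ring
  · rw [hf i10, v10.1, v10.2, h8, z3, _root_.zpow_one]; ring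
  · rw [hf i11, v11.1, v11.2, h8, z3, z2]; ring

lemma reg_of {h : GL chevG2.Idx K} (hh : h ∈ TT K) (h1 : ev h i7 ≠ 1) (h2 : ev h i8 ≠ 1) (h3 : ev h i7 * ev h i8 ≠ 1)
    (h4 : ev h i7 * (ev h i7 * ev h i8) ≠ 1) (h5 : ev h i7 * ev h i8 * ev h i8 ≠ 1) (r : Fin chevG2.nroots) (hr : 7 ≤ (r : ℕ)) :
    ev h r ≠ 1 := by
  obtain ⟨e1, e2, e3⟩ := ev_vals hh
  have hlt := r.2
  have h12 : chevG2.nroots = 12 := rfl
  have : (r : ℕ) = 7 ∨ (r : ℕ) = 8 ∨ (r : ℕ) = 9 ∨ (r : ℕ) = 10 ∨ (r : ℕ) = 11 := by omega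
  rcases this with h | h | h | h | h
  · rw [show r = i7 from Fin.ext h]; exact h1
  · rw [show r = i8 from Fin.ext h]; exact h2
  · rw [show r = i9 from Fin.ext h, e1]; exact h3
  · rw [show r = i10 from Fin.ext h, e2]; exact h4
  · rw [show r = i11 from Fin.ext h, e3]; exact h5

end

variable {F K : Type*} [Field F] [Field K] (S : Sg F K)

lemma del_one : S.mu * S.lam ≠ 1 := by
  intro h
  apply S.del1
  apply S.io.injective
  rw [S.hdel, map_one, mul_comm]; exact h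

/-- diagonalisation over the large field -/
lemma exists_diag [Fintype K] {y : GL chevG2.Idx F} (hy : y ∈ LL F) {m : Matrix (Fin 2) (Fin 2) F} (hm : Rl y m)
    (htr : m.trace = S.tau) (hdet : m.det = S.del) :
    ∃ z ∈ LL K, ∃ t ∈ TT K, ev t i8 = S.lam ∧ ev t i7 = S.mu ∧ gm S.io y = z * t * z⁻¹ := by
  have hc := c_ne_zero S.irr htr hdet
  have h1 : (m.map S.io).trace = S.lam + S.mu := by
    rw [← S.htau, ← htr, Matrix.trace_fin_two, Matrix.trace_fin_two, Matrix.map_apply, Matrix.map_apply, map_add]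
  have h2 : (m.map S.io).det = S.lam * S.mu := by
    rw [← S.hdel, ← hdet, Matrix.det_fin_two, Matrix.det_fin_two]
    simp only [Matrix.map_apply, map_sub, map_mul]
  obtain ⟨P, Q, hPQ, e⟩ := diag_form S.ne (A := m.map S.io) (by
    rw [Matrix.map_apply]; exact (map_ne_zero S.io).2 hc) h1 h2
  have hP : P.det ≠ 0 := by
    intro h
    have := congrArg Matrix.det hPQ
    rw [Matrix.det_mul, h, zero_mul, Matrix.det_one] at this
    exact zero_ne_one this
  obtain ⟨z, hz, hzP⟩ := surj P hP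
  obtain ⟨t, ht, h8, h7⟩ := exists_T S.lam0 S.mu0
  have hQ : P⁻¹ = Q := Matrix.inv_eq_right_inv hPQ
  refine ⟨z, hz, t, ht, h8, h7, ?_⟩
  refine Rl_inj (gm_LL S.io hy) (mul_mem (mul_mem hz (TT_LL ht)) (inv_mem hz)) (m := m.map S.io) (gm_Rl S.io hm) ?_
  rw [e, ← hQ, ← h8, ← h7]
  exact (hzP.mul (Rl_T ht)).mul (Rl_inv hz hzP).1

/-- elements of the first type have no fixed points -/
lemma CU_one [Fintype K] {y : GL chevG2.Idx F} (hy : y ∈ LL F) {m : Matrix (Fin 2) (Fin 2) F} (hm : Rl y m)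
    (htr : m.trace = S.tau) (hdet : m.det = S.del) : CU y := by
  obtain ⟨z, hz, t, ht, h8, h7, e⟩ := exists_diag S hy hm htr hdet
  have hreg : ∀ r : Fin chevG2.nroots, 7 ≤ (r : ℕ) → ev t r ≠ 1 := by
    refine reg_of ht ?_ ?_ ?_ ?_ ?_
    · rw [h7]; exact S.r2
    · rw [h8]; exact S.r1
    · rw [h7, h8]; exact del_one S
    · rw [h7, h8]; exact S.r4
    · rw [h7, h8]; exact S.r5
  have key : ∀ u : GL chevG2.Idx F, y * u = u * y → t * (z⁻¹ * gm S.io u * z) = (z⁻¹ * gm S.io u * z) * t := by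
    intro u hu
    have h1 : z * t * z⁻¹ * gm S.io u = gm S.io u * (z * t * z⁻¹) := by
      rw [← e, ← map_mul, ← map_mul, hu]
    calc t * (z⁻¹ * gm S.io u * z) = z⁻¹ * (z * t * z⁻¹ * gm S.io u) * z := by group
      _ = _ := by rw [h1]; group
  constructor
  · intro u hu hc
    have h1 := cent_UP ht hreg (conj_UP' hz (gm_UP S.io hu)) (key u hc)
    apply glMap_injective S.io
    rw [map_one]
    have : gm S.io u = z * (z⁻¹ * gm S.io u * z) * z⁻¹ := by group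
    rw [this, h1]; group
  · intro u hu hc
    have h1 := cent_UN ht hreg (conj_UN' hz (gm_UN S.io hu)) (key u hc)
    apply glMap_injective S.io
    rw [map_one]
    have : gm S.io u = z * (z⁻¹ * gm S.io u * z) * z⁻¹ := by group
    rw [this, h1]; group

lemma CU_inv {y : GL chevG2.Idx F} (h : CU y⁻¹) : CU y := by
  have key : ∀ u : GL chevG2.Idx F, y * u = u * y → y⁻¹ * u = u * y⁻¹ := by
    intro u hu
    calc y⁻¹ * u = y⁻¹ * (u * y) * y⁻¹ := by group
      _ = _ := by rw [← hu]; group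
  exact ⟨fun u hu hc => h.1 u hu (key u hc), fun u hu hc => h.2 u hu (key u hc)⟩

/-- the two types -/
def Ty (m : Matrix (Fin 2) (Fin 2) F) : Prop :=
  (m.trace = S.tau ∧ m.det = S.del) ∨ (m.trace = S.tau / S.del ∧ m.det = 1 / S.del)

lemma inv_tr {m : Matrix (Fin 2) (Fin 2) F} (hm : m.det ≠ 0) : m⁻¹.trace = m.trace / m.det ∧ m⁻¹.det = 1 / m.det := by
  constructor
  · rw [Matrix.inv_def, Ring.inverse_eq_inv, Matrix.trace_smul, Matrix.adjugate_fin_two, Matrix.trace_fin_two, Matrix.trace_fin_two]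
    simp
    field_simp
    ring
  · rw [Matrix.det_nonsing_inv, Ring.inverse_eq_inv, one_div]

lemma CU_ty [Fintype K] {y : GL chevG2.Idx F} (hy : y ∈ LL F) {m : Matrix (Fin 2) (Fin 2) F} (hm : Rl y m)
    (hT : Ty S m) : CU y := by
  have hd := S.del0
  rcases hT with ⟨h1, h2⟩ | ⟨h1, h2⟩
  · exact CU_one S hy hm h1 h2
  · apply CU_inv
    have hdet : m.det ≠ 0 := by rw [h2]; exact one_div_ne_zero hd
    obtain ⟨h3, h4⟩ := inv_tr hdet
    refine CU_one S (inv_mem hy) (Rl_inv hy hm).1 ?_ ?_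
    · rw [h3, h1, h2]; field_simp
    · rw [h4, h2]; field_simp

/-- the type of `n0 y n0⁻¹` -/
lemma ty_n0 [Fintype K] {y : GL chevG2.Idx F} (hy : y ∈ LL F) {m : Matrix (Fin 2) (Fin 2) F} (hm : Rl y m)
    (htr : m.trace = S.tau) (hdet : m.det = S.del) :
    ∃ m', Rl (n0 F * y * (n0 F)⁻¹) m' ∧ m'.trace = S.tau / S.del ∧ m'.det = 1 / S.del := by
  obtain ⟨z, hz, t, ht, h8, h7, e⟩ := exists_diag S hy hm htr hdet
  obtain ⟨m', hm'⟩ := exists_Rl (n0_LL hy)
  refine ⟨m', hm', ?_⟩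
  have e1 : gm S.io (n0 F * y * (n0 F)⁻¹) = (n0 K * z * (n0 K)⁻¹) * t⁻¹ * (n0 K * z * (n0 K)⁻¹)⁻¹ := by
    rw [map_mul, map_mul, map_inv, gm_n0, e, ← ev_n0 ht]; group
  have hzz := n0_LL hz
  obtain ⟨P, hP⟩ := exists_Rl hzz
  have h1 := gm_Rl S.io hm'
  rw [e1] at h1
  have h2 := h1.unique ((hP.mul (Rl_T (inv_mem ht))).mul (Rl_inv hzz hP).1)
  obtain ⟨-, hPP, hPP'⟩ := Rl_inv hzz hP
  rw [ev_inv' ht, ev_inv' ht, h8, h7] at h2
  have hl := S.lam0
  have hmu := S.mu0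
  have hd := S.del0
  constructor
  · apply S.io.injective
    have h3 := congrArg Matrix.trace h2
    rw [Matrix.trace_mul_comm, ← Matrix.mul_assoc, hPP', Matrix.one_mul, Matrix.trace_fin_two, Matrix.trace_fin_two_of,
      Matrix.map_apply, Matrix.map_apply, ← map_add] at h3
    rw [Matrix.trace_fin_two, h3, map_div₀, S.htau, S.hdel]
    field_simp
    ring
  · apply S.io.injective
    have h3 := congrArg Matrix.det h2
    have h4 : P.det * P⁻¹.det = 1 := by rw [← Matrix.det_mul, hPP, Matrix.det_one]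
    have h5 : (m'.map S.io).det = S.io m'.det := by
      rw [Matrix.det_fin_two, Matrix.det_fin_two]
      simp only [Matrix.map_apply, map_sub, map_mul]
    rw [h5, Matrix.det_mul, Matrix.det_mul, Matrix.det_fin_two_of] at h3
    rw [h3, map_div₀, map_one, S.hdel]
    have : P.det * (S.lam⁻¹ * S.mu⁻¹ - 0 * 0) * P⁻¹.det = (P.det * P⁻¹.det) * (S.lam⁻¹ * S.mu⁻¹) := by ring
    rw [this, h4]
    field_simp

end Cfsg.Agent.H51.SqF
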