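import Cfsg.Agent.H51.SqF
import Cfsg.Agent.H51.SqA2

set_option autoImplicit false
set_option maxRecDepth 100000

/-!
Products of two conjugates of a regular element of the Levi subgroup.
-/

namespace Cfsg.Agent.H51.SqG

open Matrix Cfsg.Lie Cfsg.Agent.Chev Cfsg.Agent.ChevGrp Cfsg.Agent.ChevF Cfsg.Agent.H51.G2W Cfsg.Agent.H51.SqB
  Cfsg.Agent.H51.SqC Cfsg.Agent.H51.SqD Cfsg.Agent.H51.SqE Cfsg.Agent.H51.SqA Cfsg.Agent.H51.SqF

section cov

variable {G : Type*} [Group G]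

lemma cov {U : Subgroup G} [Finite U] {x : G} (hn : x ∈ Subgroup.normalizer (U : Set G))
    (hC : ∀ u ∈ U, x * u = u * x → u = 1) {u : G} (hu : u ∈ U) : ∃ w ∈ U, w * x * w⁻¹ = x * u := by
  have hx : ∀ w ∈ U, x⁻¹ * w * x ∈ U := by
    intro w hw
    have := (Subgroup.mem_normalizer_iff.1 (inv_mem hn) w).1 hw
    rwa [inv_inv] at this
  let f : U → U := fun w => ⟨(x⁻¹ * w * x) * (w : G)⁻¹, mul_mem (hx _ w.2) (inv_mem w.2)⟩
  have hinj : Function.Injective f := by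
    intro w v h
    have h1 : (x⁻¹ * w * x) * (w : G)⁻¹ = (x⁻¹ * v * x) * (v : G)⁻¹ := congrArg (fun z : U => (z : G)) h
    have h1' : (w : G) * x * (w : G)⁻¹ = v * x * (v : G)⁻¹ := by
      have := congrArg (fun z => x * z) h1
      simpa [mul_assoc] using this
    have h2 : (v : G)⁻¹ * w = 1 := by
      apply hC _ (mul_mem (inv_mem v.2) w.2)
      calc x * ((v : G)⁻¹ * w) = (v : G)⁻¹ * (v * x * (v : G)⁻¹) * w := by group
        _ = _ := by rw [← h1']; group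
    exact Subtype.ext (inv_mul_eq_one.1 h2).symm
  obtain ⟨w, hw⟩ := Finite.injective_iff_surjective.1 hinj ⟨u, hu⟩
  have h1 : (x⁻¹ * w * x) * (w : G)⁻¹ = u := congrArg (fun z : U => (z : G)) hw
  exact ⟨w, w.2, by rw [← h1]; group⟩

lemma cov' {U : Subgroup G} [Finite U] {x : G} (hn : x ∈ Subgroup.normalizer (U : Set G))
    (hC : ∀ u ∈ U, x * u = u * x → u = 1) {u : G} (hu : u ∈ U) : ∃ w ∈ U, w * x * w⁻¹ = u * x := by
  have h1 : x⁻¹ * u * x ∈ U := by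
    have := (Subgroup.mem_normalizer_iff.1 (inv_mem hn) u).1 hu
    rwa [inv_inv] at this
  obtain ⟨w, hw, h⟩ := cov hn hC h1
  exact ⟨w, hw, by rw [h]; group⟩

end cov

section group

variable {F : Type*} [Field F]

/-- the group -/
abbrev GF (F : Type*) [Field F] : Subgroup (GL chevG2.Idx F) := chevG2.group F

lemma gen_GF (P : Fin chevG2.nroots → Prop) : gen (Inst.XF chevG2 F) P ≤ GF F := by
  exact (gen_mono fun _ _ => trivial).trans (gen_all (F := F) DData.dG2 hG).le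

lemma UP_GF : UP F ≤ GF F := gen_GF _
lemma UN_GF : UN F ≤ GF F := gen_GF _
lemma TT_GF : TT F ≤ GF F := H_le_group (F := F) DData.dG2 hG
lemma LL_GF : LL F ≤ GF F := sup_le TT_GF (gen_GF _)
lemma N_GF : (RR F).N ≤ GF F := by
  have h : (RR F).Grp = GF F := chev_Grp _ _
  rw [← h]; exact RGrp.N_le_Grp

/-- products of two conjugates of `x` -/
def Gd (x g : GL chevG2.Idx F) : Prop := ∃ u ∈ GF F, ∃ v ∈ GF F, g = (u * x * u⁻¹) * (v * x * v⁻¹)

lemma Gd.conj {x g : GL chevG2.Idx F} (h : Gd x g) {w : GL chevG2.Idx F} (hw : w ∈ GF F) : Gd x (w * g * w⁻¹) := by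
  obtain ⟨u, hu, v, hv, rfl⟩ := h
  exact ⟨w * u, mul_mem hw hu, w * v, mul_mem hw hv, by group⟩

lemma Gd.of_conj {x g : GL chevG2.Idx F} {w : GL chevG2.Idx F} (hw : w ∈ GF F) (h : Gd x (w * g * w⁻¹)) : Gd x g := by
  have := h.conj (inv_mem hw)
  have e : w⁻¹ * (w * g * w⁻¹) * w⁻¹⁻¹ = g := by group
  rwa [e] at this

lemma Gd.of_conj' {x g : GL chevG2.Idx F} {w : GL chevG2.Idx F} (hw : w ∈ GF F) (h : Gd x (w⁻¹ * g * w)) : Gd x g := by
  refine Gd.of_conj (inv_mem hw) ?_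
  rwa [inv_inv]

end group

section main

variable {F K : Type*} [Field F] [Fintype F] [Field K] [Fintype K] (S : Sg F K)

include S in
lemma exists_x0 : ∃ x ∈ LL F, Rl x !![0, -S.del; 1, S.tau] :=
  surj _ (by rw [Matrix.det_fin_two_of]; simpa using S.del0)

/-- the element -/
noncomputable def x0 : GL chevG2.Idx F := (exists_x0 S).choose

lemma x0_LL : x0 S ∈ LL F := (exists_x0 S).choose_spec.1
lemma x0_Rl : Rl (x0 S) !![0, -S.del; 1, S.tau] := (exists_x0 S).choose_spec.2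

lemma x0_tr : (!![0, -S.del; 1, S.tau] : Matrix (Fin 2) (Fin 2) F).trace = S.tau := by simp [Matrix.trace_fin_two]
lemma x0_det : (!![0, -S.del; 1, S.tau] : Matrix (Fin 2) (Fin 2) F).det = S.del := by simp [Matrix.det_fin_two]

/-- conjugacy inside the Levi subgroup -/
lemma conj_LL {t d : F} (hirr : ∀ z : F, z * z - t * z + d ≠ 0) {y y' : GL chevG2.Idx F} (hy : y ∈ LL F) (hy' : y' ∈ LL F)
    {m m' : Matrix (Fin 2) (Fin 2) F} (hm : Rl y m) (hm' : Rl y' m') (h1 : m.trace = t) (h2 : m.det = d) (h3 : m'.trace = t)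
    (h4 : m'.det = d) : ∃ g ∈ LL F, y' = g * y * g⁻¹ := by
  obtain ⟨P, Q, hPQ, e⟩ := conj_of_irr hirr h1 h2 h3 h4
  have hP : P.det ≠ 0 := by
    intro h
    have := congrArg Matrix.det hPQ
    rw [Matrix.det_mul, h, zero_mul, Matrix.det_one] at this
    exact zero_ne_one this
  obtain ⟨g, hg, hgP⟩ := surj P hP
  refine ⟨g, hg, Rl_inj hy' (mul_mem (mul_mem hg hy) (inv_mem hg)) hm' ?_⟩
  have h5 := (hgP.mul hm).mul (Rl_inv hg hgP).1
  rw [Matrix.inv_eq_right_inv hPQ] at h5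
  rw [e]; exact h5

lemma ty_conj {y : GL chevG2.Idx F} (hy : y ∈ LL F) {m : Matrix (Fin 2) (Fin 2) F} (hm : Rl y m) (hT : Ty S m) :
    ∃ g ∈ GF F, y = g * x0 S * g⁻¹ := by
  rcases hT with ⟨h1, h2⟩ | ⟨h1, h2⟩
  · obtain ⟨g, hg, e⟩ := conj_LL S.irr (x0_LL S) hy (x0_Rl S) hm (x0_tr S) (x0_det S) h1 h2
    exact ⟨g, LL_GF hg, e⟩
  · obtain ⟨m', hm', h3, h4⟩ := ty_n0 S (x0_LL S) (x0_Rl S) (x0_tr S) (x0_det S)
    have hd := S.del0
    have hirr : ∀ z : F, z * z - S.tau / S.del * z + 1 / S.del ≠ 0 := by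
      intro z hz
      have hz0 : z ≠ 0 := by
        rintro rfl
        simp at hz
        exact hd hz
      apply S.irr (1 / z)
      have h5 : S.del * z * z - S.tau * z + 1 = 0 := by
        have : S.del * z * z - S.tau * z + 1 = S.del * (z * z - S.tau / S.del * z + 1 / S.del) := by field_simp
        rw [this, hz, mul_zero]
      field_simp
      linear_combination h5
    obtain ⟨g, hg, e⟩ := conj_LL hirr (n0_LL (x0_LL S)) hy hm' hm h3 h4 h1 h2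
    refine ⟨g * n0 F, mul_mem (LL_GF hg) (N_GF n0_N), ?_⟩
    rw [e]; group

/-- the basic criterion -/
lemma good_of {l u v : GL chevG2.Idx F} (hl : l ∈ LL F) (hu : u ∈ UP F) (hv : v ∈ UN F) {m : Matrix (Fin 2) (Fin 2) F}
    (hm : Rl l m) (h : Prd S.tau S.del S.tau S.del m ∨ Prd S.tau S.del (S.tau / S.del) (1 / S.del) m) : Gd (x0 S) (v * l * u) := by
  have hAB : ∃ A B : Matrix (Fin 2) (Fin 2) F, A * B = m ∧ Ty S A ∧ Ty S B ∧ A.det ≠ 0 ∧ B.det ≠ 0 := by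
    have hd := S.del0
    rcases h with ⟨A, B, h1, h2, h3, h4, h5⟩ | ⟨A, B, h1, h2, h3, h4, h5⟩
    · exact ⟨A, B, h1, Or.inl ⟨h2, h3⟩, Or.inl ⟨h4, h5⟩, by rw [h3]; exact hd, by rw [h5]; exact hd⟩
    · exact ⟨A, B, h1, Or.inl ⟨h2, h3⟩, Or.inr ⟨h4, h5⟩, by rw [h3]; exact hd, by rw [h5]; exact one_div_ne_zero hd⟩
  obtain ⟨A, B, h1, hA, hB, hdA, hdB⟩ := hAB
  obtain ⟨a, ha, haA⟩ := surj A hdA
  obtain ⟨b, hb, hbB⟩ := surj B hdB
  have hlab : l = a * b := Rl_inj hl (mul_mem ha hb) hm (by rw [← h1]; exact haA.mul hbB)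
  haveI : Finite (GL chevG2.Idx F) := inferInstance
  haveI : Finite (UP F) := inferInstance
  haveI : Finite (UN F) := inferInstance
  obtain ⟨w, hw, e1⟩ := cov' (LL_norm_UN ha) (CU_ty S ha haA hA).2 hv
  obtain ⟨w', hw', e2⟩ := cov (LL_norm_UP hb) (CU_ty S hb hbB hB).1 hu
  obtain ⟨g, hg, e3⟩ := ty_conj S ha haA hA
  obtain ⟨g', hg', e4⟩ := ty_conj S hb hbB hB
  refine ⟨w * g, mul_mem (UN_GF hw) hg, w' * g', mul_mem (UP_GF hw') hg', ?_⟩
  have e5 : w * g * x0 S * (w * g)⁻¹ = v * a := by rw [← e1, e3]; group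
  have e6 : w' * g' * x0 S * (w' * g')⁻¹ = b * u := by rw [← e2, e4]; group
  rw [e5, e6, hlab]; group

/-- the criterion for the cells of middle length -/
lemma lemA {r : ℕ} (hr7 : 7 ≤ r) (hr : r < 12) (hx : ∀ a : F, (Inst.nU hG r (1 : F))⁻¹ * xx 6 a * Inst.nU hG r 1 ∈ UP F)
    (hsum : pr chevG2 r 8 + pr chevG2 r 7 = 1) {l u : GL chevG2.Idx F} (hl : l ∈ LL F) (hu : u ∈ UP F) :
    Gd (x0 S) (Inst.nU hG r (1 : F) * l * u) := by
  obtain ⟨m, hm⟩ := exists_Rl hl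
  have hdm : m.det ≠ 0 := by
    intro h
    have := congrArg Matrix.det (Rl_inv hl hm).2.1
    rw [Matrix.det_mul, h, zero_mul, Matrix.det_one] at this
    exact zero_ne_one this
  have hd := S.del0
  set c : F := m.det / (S.del * S.del) with hc
  have hc0 : c ≠ 0 := div_ne_zero hdm (mul_ne_zero hd hd)
  have hT := hU_T (K := F) hr hc0
  have e8 : ev (Inst.hU hG r c)⁻¹ i8 = (c ^ pr chevG2 r 8)⁻¹ := by rw [ev_inv' hT, ev_hU hr hc0]; rfl
  have e7 : ev (Inst.hU hG r c)⁻¹ i7 = (c ^ pr chevG2 r 7)⁻¹ := by rw [ev_inv' hT, ev_hU hr hc0]; rfl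
  have hm1 := (Rl_T (inv_mem hT)).mul hm
  rw [e8, e7] at hm1
  have hcc : (c ^ pr chevG2 r 8)⁻¹ * (c ^ pr chevG2 r 7)⁻¹ = c⁻¹ := by
    rw [← mul_inv, ← zpow_add₀ hc0, hsum, _root_.zpow_one]
  have hdet1 : (!![(c ^ pr chevG2 r 8)⁻¹, 0; 0, (c ^ pr chevG2 r 7)⁻¹] * m).det = S.del * S.del := by
    rw [Matrix.det_mul, Matrix.det_fin_two_of, mul_zero, sub_zero, hcc, hc]
    field_simp
  set m1 := !![(c ^ pr chevG2 r 8)⁻¹, 0; 0, (c ^ pr chevG2 r 7)⁻¹] * m with hm1def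
  rw [Matrix.det_fin_two] at hdet1
  obtain ⟨s, hs⟩ := sel hd S.del1 S.tau0 hdet1
  -- conjugate by `y = x_6(s)`
  have hy : xx 6 s ∈ LL F := xx_LL (Or.inr rfl) s
  have hyG := LL_GF hy
  have hnG : Inst.nU hG r (1 : F) ∈ GF F := nU_mem_group (F := F) DData.dG2 hG (lt12 hr) 1
  apply Gd.of_conj' hyG
  set n := Inst.nU hG r (1 : F) with hn
  have hz : n⁻¹ * (xx 6 s)⁻¹ * n ∈ UP F := by
    rw [← xx_neg]; exact hx _
  have hly : l * xx 6 s ∈ LL F := mul_mem hl hy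
  have e1 : (xx 6 s)⁻¹ * (n * l * u) * xx 6 s =
      n * (l * xx 6 s) * (((l * xx 6 s)⁻¹ * (n⁻¹ * (xx 6 s)⁻¹ * n) * (l * xx 6 s)) * ((xx 6 s)⁻¹ * u * xx 6 s)) := by group
  rw [e1]
  obtain ⟨a, b, u', hu', e2⟩ := torAdj hr7 hr hc0 hly (mul_mem (conj_UP' hly hz) (conj_UP' hy hu))
  rw [e2]
  have hxa : xx r a ∈ UP F := xx_UP hr hr7 a
  apply Gd.of_conj' (UP_GF hxa)
  have e3 : (xx r a)⁻¹ * (xx r a * xx (11 - r) b * ((Inst.hU hG r c)⁻¹ * (l * xx 6 s)) * u') * xx r a =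
      xx (11 - r) b * ((Inst.hU hG r c)⁻¹ * (l * xx 6 s)) * (u' * xx r a) := by group
  rw [e3]
  refine good_of S (mul_mem (inv_mem (TT_LL hT)) hly) (mul_mem hu' hxa) (xx_UN (by omega) b)
    (m := !![m1 0 0, m1 0 0 * s + m1 0 1; m1 1 0, m1 1 0 * s + m1 1 1]) ?_ (Or.inl hs)
  have h5 := hm1.mul (Rl_x6 s)
  have e4 : m1 * !![1, s; 0, 1] = !![m1 0 0, m1 0 0 * s + m1 0 1; m1 1 0, m1 1 0 * s + m1 1 1] := by
    conv_lhs => rw [Matrix.eta_fin_two m1]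
    rw [Matrix.mul_fin_two]
    simp
  rw [e4, mul_assoc] at h5
  exact h5

end main

end Cfsg.Agent.H51.SqG
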