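import Cfsg.Agent.H51.SqG

set_option autoImplicit false
set_option maxRecDepth 100000

/-!
Every nontrivial element is a product of two conjugates: analysis by double cosets.
-/

namespace Cfsg.Agent.H51.SqH

open Matrix Cfsg.Lie Cfsg.Agent.Chev Cfsg.Agent.ChevGrp Cfsg.Agent.ChevF Cfsg.Agent.H51.G2W Cfsg.Agent.H51.SqB
  Cfsg.Agent.H51.SqC Cfsg.Agent.H51.SqD Cfsg.Agent.H51.SqE Cfsg.Agent.H51.SqA Cfsg.Agent.H51.SqF Cfsg.Agent.H51.SqG

section gen

variable {F : Type*} [Field F]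

/-- parabolic subgroup -/
def PP (F : Type*) [Field F] : Subgroup (GL chevG2.Idx F) := LL F ⊔ UP F

lemma mem_PP {p : GL chevG2.Idx F} (hp : p ∈ PP F) : ∃ l ∈ LL F, ∃ u ∈ UP F, p = l * u :=
  mem_sup_of_normalizes (fun _ ha _ hc => conj_UP ha hc) hp

lemma LL_PP : LL F ≤ PP F := le_sup_left
lemma UP_PP : UP F ≤ PP F := le_sup_right

lemma pos_iff (r : Fin chevG2.nroots) : DData.dG2.rp.wsys.Pos r ↔ 6 ≤ (r : ℕ) := Inst.lt_of_pos DData.dG2 r hG

lemma Ui_eq : (RR F).Ui j1 = UP F := by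
  have h6 := p1_val
  unfold RGrp.Ui UP
  apply le_antisymm
  · refine gen_mono fun s hs => ?_
    have h1 := (pos_iff s).1 hs.1
    have h2 : (s : ℕ) ≠ 6 := fun h => hs.2 (Fin.ext (h.trans h6.symm))
    omega
  · refine gen_mono fun s hs => ⟨(pos_iff s).2 (by omega), fun h => ?_⟩
    have : (s : ℕ) = 6 := by rw [h]; exact h6
    omega

lemma mem_BB {b : GL chevG2.Idx F} (hb : b ∈ (RR F).B) : ∃ t ∈ TT F, ∃ c : F, ∃ u ∈ UP F, b = t * xx 6 c * u := by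
  obtain ⟨t, ht, v, hv, rfl⟩ := RGrp.mem_B'.1 hb
  obtain ⟨x, hx, u, hu, rfl⟩ := RGrp.mem_U j1 hv
  obtain ⟨c, rfl⟩ := X_p1.1 hx
  rw [Ui_eq] at hu
  exact ⟨t, ht, c, u, hu, by group⟩

lemma BB_PP : (RR F).B ≤ PP F := by
  intro b hb
  obtain ⟨t, ht, c, u, hu, rfl⟩ := mem_BB hb
  exact mul_mem (mul_mem (LL_PP (TT_LL ht)) (LL_PP (xx_LL (Or.inr rfl) c))) (UP_PP hu)

lemma PP_GF : PP F ≤ GF F := sup_le LL_GF UP_GF
lemma BB_GF : (RR F).B ≤ GF F := BB_PP.trans PP_GF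

/-- the root element normalizer for `3a+b` -/
noncomputable def ne (F : Type*) [Field F] : GL chevG2.Idx F := Inst.nU hG 10 (1 : F)
/-- the root element normalizer for `3a+2b` -/
noncomputable def ng (F : Type*) [Field F] : GL chevG2.Idx F := Inst.nU hG 11 (1 : F)

lemma ne_eq : ne F = na F * nb F * (na F)⁻¹ := by
  have h := Inst.nn_nU (F := F) hG (i := 0) (by decide) (r := 6) (lt12 (by norm_num)) 1
  have e1 : chevG2.reflectRoot 0 6 = 10 := by decide +kernel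
  have e2 : eta chevG2 0 6 = 1 := by decide +kernel
  rw [e1, e2, Int.cast_one, one_mul] at h
  exact h.symm

lemma ng_eq : ng F = nb F * ne F * (nb F)⁻¹ := by
  have h := Inst.nn_nU (F := F) hG (i := 1) (by decide) (r := 10) (lt12 (by norm_num)) 1
  have e1 : chevG2.reflectRoot 1 10 = 11 := by decide +kernel
  have e2 : eta chevG2 1 10 = 1 := by decide +kernel
  rw [e1, e2, Int.cast_one, one_mul] at h
  exact h.symm

lemma act_na : (RR F).Act (na F) (DData.dG2.rp.wsys.w j0) := by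
  have h := RGrp.act_nn (R := RR F) j0
  rwa [nn0] at h

lemma act_nb : (RR F).Act (nb F) (DData.dG2.rp.wsys.w j1) := by
  have h := RGrp.act_nn (R := RR F) j1
  rwa [nn1] at h

lemma na_N : na F ∈ (RR F).N := by
  have h := (RR F).nn_mem_N j0
  rwa [nn0] at h

lemma nb_N : nb F ∈ (RR F).N := by
  have h := (RR F).nn_mem_N j1
  rwa [nn1] at h

lemma act_ne : (RR F).Act (ne F) (DData.dG2.rp.wsys.wd [j0, j1, j0]) := by
  have h := (act_na.mul (act_nb (F := F))).mul act_na.inv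
  rw [← ne_eq, WSys.w_inv] at h
  have e : DData.dG2.rp.wsys.wd [j0, j1, j0] = DData.dG2.rp.wsys.w j0 * DData.dG2.rp.wsys.w j1 * DData.dG2.rp.wsys.w j0 := by
    rw [WSys.wd_cons, WSys.wd_cons, WSys.wd_cons, WSys.wd_nil]; group
  rw [e]; exact h

lemma ne_N : ne F ∈ (RR F).N := by
  rw [ne_eq]; exact mul_mem (mul_mem na_N nb_N) (inv_mem na_N)

lemma act_ng : (RR F).Act (ng F * na F) (DData.dG2.rp.wsys.wd [j1, j0, j1, j0, j1, j0]) := by
  have h := (((act_nb (F := F)).mul act_ne).mul act_nb.inv).mul act_na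
  rw [← ng_eq, WSys.w_inv] at h
  have e : DData.dG2.rp.wsys.wd [j1, j0, j1, j0, j1, j0] =
      DData.dG2.rp.wsys.w j1 * DData.dG2.rp.wsys.wd [j0, j1, j0] * DData.dG2.rp.wsys.w j1 * DData.dG2.rp.wsys.w j0 := by
    simp only [WSys.wd_cons, WSys.wd_nil]; group
  rw [e]; exact h

lemma ng_N : ng F ∈ (RR F).N := by
  rw [ng_eq]; exact mul_mem (mul_mem nb_N ne_N) (inv_mem nb_N)

lemma w0_alt : DData.dG2.rp.wsys.wd [j1, j0, j1, j0, j1, j0] = DData.dG2.rp.wsys.wd w0 := by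
  apply Equiv.ext
  intro s
  apply Fin.ext
  rw [wd_val, wd_val]
  have h : ∀ s : Fin 12, wf [j1, j0, j1, j0, j1, j0] s = wf w0 s := by decide +kernel
  exact h s

/-- the Weyl group elements -/
def list12 : List (List (Fin chevG2.rank)) :=
  [[], [j0], [j1], [j0, j1], [j1, j0], [j0, j1, j0], [j1, j0, j1], [j0, j1, j0, j1], [j1, j0, j1, j0],
   [j0, j1, j0, j1, j0], [j1, j0, j1, j0, j1], w0]

lemma list12_closed : ∀ i : Fin chevG2.rank, ∀ L ∈ list12, ∃ L' ∈ list12, ∀ s : Fin 12, wf (i :: L) s = wf L' s := by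
  decide +kernel

lemma mem_list12 {u : Equiv.Perm (Fin chevG2.nroots)} (hu : u ∈ DData.dG2.rp.wsys.W) :
    ∃ L ∈ list12, u = DData.dG2.rp.wsys.wd L := by
  refine DData.dG2.rp.wsys.W_induction (Q := fun u => ∃ L ∈ list12, u = DData.dG2.rp.wsys.wd L) ?_ ?_ hu
  · exact ⟨[], by simp [list12], by rw [WSys.wd_nil]⟩
  · rintro i u - ⟨L, hL, rfl⟩
    obtain ⟨L', hL', h⟩ := list12_closed i L hL
    refine ⟨L', hL', ?_⟩
    rw [← WSys.wd_cons]
    apply Equiv.ext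
    intro s
    apply Fin.ext
    rw [wd_val, wd_val]
    exact h s

/-- the two possibilities for multiplication by a fundamental reflection on the right -/
lemma bn' {g : GL chevG2.Idx F} (hg : g ∈ (RR F).N) {b : GL chevG2.Idx F} (hb : b ∈ (RR F).B) :
    ∃ b₁ ∈ (RR F).B, ∃ b₂ ∈ (RR F).B, g * b * (na F)⁻¹ = b₁ * (g * (na F)⁻¹) * b₂ ∨ g * b * (na F)⁻¹ = b₁ * g * b₂ := by
  have h := RGrp.bn (R := RR F) j0 (inv_mem hg) (inv_mem hb)
  rw [nn0] at h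
  rcases h with ⟨b₁, h1, b₂, h2, e⟩ | ⟨b₁, h1, b₂, h2, e⟩
  · refine ⟨b₂⁻¹, inv_mem h2, b₁⁻¹, inv_mem h1, Or.inl ?_⟩
    have := congrArg (fun z => z⁻¹) e
    simpa [mul_assoc] using this
  · refine ⟨b₂⁻¹, inv_mem h2, b₁⁻¹, inv_mem h1, Or.inr ?_⟩
    have := congrArg (fun z => z⁻¹) e
    simpa [mul_assoc] using this

end gen

section main

variable {F K : Type*} [Field F] [Fintype F] [Field K] [Fintype K] (S : Sg F K)

lemma good_na {p q : GL chevG2.Idx F} (hp : p ∈ PP F) (hq : q ∈ PP F) : Gd (x0 S) (p * na F * q) := by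
  apply Gd.of_conj' (PP_GF hp)
  obtain ⟨l, hl, u, hu, e⟩ := mem_PP (mul_mem hq hp)
  have e1 : p⁻¹ * (p * na F * q) * p = na F * l * u := by
    rw [mul_assoc (na F), ← e]; group
  rw [e1]
  refine lemA S (r := 7) (by norm_num) (by norm_num) ?_ (by decide +kernel) hl hu
  intro a
  have h := act_na.conj' (X_p1 (K := F).2 ⟨a, rfl⟩)
  refine mem_gen (X := Inst.XF chevG2 F) (P := fun s => 7 ≤ (s : ℕ)) (r := (DData.dG2.rp.wsys.w j0)⁻¹ (DData.dG2.rp.wsys.p j1)) ?_ h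
  rw [WSys.w_inv, w_val, p1_val]
  decide +kernel

lemma good_ne {p q : GL chevG2.Idx F} (hp : p ∈ PP F) (hq : q ∈ PP F) : Gd (x0 S) (p * ne F * q) := by
  apply Gd.of_conj' (PP_GF hp)
  obtain ⟨l, hl, u, hu, e⟩ := mem_PP (mul_mem hq hp)
  have e1 : p⁻¹ * (p * ne F * q) * p = ne F * l * u := by
    rw [mul_assoc (ne F), ← e]; group
  rw [e1]
  refine lemA S (r := 10) (by norm_num) (by norm_num) ?_ (by decide +kernel) hl hu
  intro a
  have h := act_ne.conj' (X_p1 (K := F).2 ⟨a, rfl⟩)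
  refine mem_gen (X := Inst.XF chevG2 F) (P := fun s => 7 ≤ (s : ℕ)) (r := (DData.dG2.rp.wsys.wd [j0, j1, j0])⁻¹ (DData.dG2.rp.wsys.p j1)) ?_ h
  have e2 : (DData.dG2.rp.wsys.wd [j0, j1, j0])⁻¹ = DData.dG2.rp.wsys.wd [j0, j1, j0] := by
    simp only [WSys.wd_cons, WSys.wd_nil, _root_.mul_inv_rev, WSys.w_inv, inv_one]; group
  rw [e2, wd_val, p1_val]
  decide +kernel

lemma ng_comm {s : ℕ} (hs : s < 12) (h1 : s ≠ 11) (h2 : s ≠ 0) (h3 : chevG2.commTerms 11 s = []) (h4 : chevG2.commTerms 0 s = []) (t : F) :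
    ng F * xx s t = xx s t * ng F := by
  have e : ng F = xx 11 1 * xx 0 (-1) * xx 11 1 := by
    have h := Inst.nU_eq (F := F) hG 11 1
    rw [inv_one] at h
    exact h
  have c1 := xcomm (K := F) (r := 11) (s := s) (by norm_num) hs h1 (by simpa using h2) h3 1 t
  have c2 := xcomm (K := F) (r := 0) (s := s) (by norm_num) hs h2 (by simpa using h1) h4 (-1) t
  rw [e]
  calc xx 11 1 * xx 0 (-1) * xx 11 1 * xx s t = xx 11 1 * xx 0 (-1) * (xx 11 1 * xx s t) := by group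
    _ = xx 11 1 * (xx 0 (-1) * xx s t) * xx 11 1 := by rw [c1]; group
    _ = (xx 11 1 * xx s t) * xx 0 (-1) * xx 11 1 := by rw [c2]; group
    _ = _ := by rw [c1]; group

/-- the big cell -/
lemma lemW {h u : GL chevG2.Idx F} {b : F} (hh : h ∈ TT F) (hu : u ∈ UP F) : Gd (x0 S) (ng F * na F * (h * xx 6 b) * u) := by
  have hl : h * xx 6 b ∈ LL F := mul_mem (TT_LL hh) (xx_LL (Or.inr rfl) b)
  obtain ⟨a1, b1, u1, hu1, e1⟩ := torAdj (K := F) (r := 7) (by norm_num) (by norm_num) (c := 1) one_ne_zero hl hu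
  have hT7 := hU_T (K := F) (r := 7) (by norm_num) (c := 1) one_ne_zero
  set h' := (Inst.hU hG 7 (1 : F))⁻¹ * h with hh'def
  have hh' : h' ∈ TT F := mul_mem (inv_mem hT7) hh
  have hl' : h' * xx 6 b ∈ LL F := mul_mem (TT_LL hh') (xx_LL (Or.inr rfl) b)
  have e1' : na F * (h * xx 6 b) * u = xx 7 a1 * xx 4 b1 * (h' * xx 6 b) * u1 := by
    rw [hh'def, mul_assoc _ h]; exact e1
  obtain ⟨c, hc0, hsel⟩ := selw (b := ev h' i8 * b) S.del0 S.del1 S.tau0 (ev_ne_zero hG2 hh' i8) (ev_ne_zero hG2 hh' i7)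
  obtain ⟨a2, b2, u2, hu2, e2⟩ := torAdj (K := F) (r := 11) (by norm_num) (by norm_num) hc0 hl' hu1
  have c1 := ng_comm (F := F) (s := 7) (by norm_num) (by norm_num) (by norm_num) (by decide +kernel) (by decide +kernel) a1
  have c2 := ng_comm (F := F) (s := 4) (by norm_num) (by norm_num) (by norm_num) (by decide +kernel) (by decide +kernel) b1
  have c3 := xcomm (K := F) (r := 11) (s := 4) (by norm_num) (by norm_num) (by norm_num) (by norm_num) (by decide +kernel) a2 b1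
  have e2' : ng F * (h' * xx 6 b) * u1 = xx 11 a2 * xx 0 b2 * ((Inst.hU hG 11 c)⁻¹ * (h' * xx 6 b)) * u2 := e2
  have e3 : ng F * na F * (h * xx 6 b) * u =
      (xx 7 a1 * xx 11 a2) * ((xx 4 b1 * xx 0 b2) * ((Inst.hU hG 11 c)⁻¹ * (h' * xx 6 b)) * u2) := by
    calc ng F * na F * (h * xx 6 b) * u = ng F * (na F * (h * xx 6 b) * u) := by group
      _ = (ng F * xx 7 a1) * xx 4 b1 * (h' * xx 6 b) * u1 := by rw [e1']; group
      _ = xx 7 a1 * (ng F * xx 4 b1) * (h' * xx 6 b) * u1 := by rw [c1]; group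
      _ = xx 7 a1 * xx 4 b1 * (ng F * (h' * xx 6 b) * u1) := by rw [c2]; group
      _ = xx 7 a1 * (xx 4 b1 * xx 11 a2) * xx 0 b2 * ((Inst.hU hG 11 c)⁻¹ * (h' * xx 6 b)) * u2 := by rw [e2']; group
      _ = _ := by rw [← c3]; group
  rw [e3]
  have hx : xx 7 a1 * xx 11 a2 ∈ UP F := mul_mem (xx_UP (by norm_num) (by norm_num) a1) (xx_UP (by norm_num) (by norm_num) a2)
  apply Gd.of_conj' (UP_GF hx)
  have e4 : (xx 7 a1 * xx 11 a2)⁻¹ * ((xx 7 a1 * xx 11 a2) * ((xx 4 b1 * xx 0 b2) * ((Inst.hU hG 11 c)⁻¹ * (h' * xx 6 b)) * u2)) *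
      (xx 7 a1 * xx 11 a2) = (xx 4 b1 * xx 0 b2) * ((Inst.hU hG 11 c)⁻¹ * (h' * xx 6 b)) * (u2 * (xx 7 a1 * xx 11 a2)) := by group
  rw [e4]
  have hT := hU_T (K := F) (r := 11) (by norm_num) hc0
  have e8 : ev (Inst.hU hG 11 c)⁻¹ i8 = c⁻¹ := by
    rw [ev_inv' hT, ev_hU (by norm_num) hc0]
    have : pr chevG2 11 (i8 : Fin chevG2.nroots) = 1 := by decide +kernel
    rw [this, _root_.zpow_one]
  have e7 : ev (Inst.hU hG 11 c)⁻¹ i7 = 1 := by
    rw [ev_inv' hT, ev_hU (by norm_num) hc0]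
    have : pr chevG2 11 (i7 : Fin chevG2.nroots) = 0 := by decide +kernel
    rw [this, _root_.zpow_zero, inv_one]
  refine good_of S (mul_mem (inv_mem (TT_LL hT)) hl') (mul_mem hu2 hx)
    (mul_mem (xx_UN (by norm_num) b1) (xx_UN (by norm_num) b2))
    (m := !![c⁻¹ * ev h' i8, c⁻¹ * (ev h' i8 * b); 0, ev h' i7]) ?_ hsel
  have h5 := (Rl_T (inv_mem hT)).mul ((Rl_T hh').mul (Rl_x6 b))
  rw [e8, e7, Matrix.mul_fin_two, Matrix.mul_fin_two] at h5
  have e9 : !![c⁻¹ * (ev h' i8 * 1 + 0 * 0) + 0 * (0 * 1 + ev h' i7 * 0), c⁻¹ * (ev h' i8 * b + 0 * 1) + 0 * (0 * b + ev h' i7 * 1);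
      0 * (ev h' i8 * 1 + 0 * 0) + 1 * (0 * 1 + ev h' i7 * 0), 0 * (ev h' i8 * b + 0 * 1) + 1 * (0 * b + ev h' i7 * 1)] =
      !![c⁻¹ * ev h' i8, c⁻¹ * (ev h' i8 * b); 0, ev h' i7] := by
    simp
  rw [e9] at h5
  exact h5

end main

end Cfsg.Agent.H51.SqH
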