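import Cfsg.Agent.H51.SqH
import Cfsg.Agent.ChevGrp.Rows

set_option autoImplicit false
set_option maxRecDepth 100000

/-!
Every nontrivial element is a product of two conjugates: conclusion.
-/

namespace Cfsg.Agent.H51.SqI

open Matrix Cfsg.Lie Cfsg.Agent.Chev Cfsg.Agent.ChevGrp Cfsg.Agent.ChevF Cfsg.Agent.H51.G2W Cfsg.Agent.H51.SqB
  Cfsg.Agent.H51.SqC Cfsg.Agent.H51.SqD Cfsg.Agent.H51.SqE Cfsg.Agent.H51.SqA Cfsg.Agent.H51.SqF Cfsg.Agent.H51.SqG
  Cfsg.Agent.H51.SqH

section main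

variable {F K : Type*} [Field F] [Fintype F] [Field K] [Fintype K] (S : Sg F K)

lemma nb_PP : nb F ∈ PP F := LL_PP nb_LL
lemma T_PP : TT F ≤ PP F := TT_LL.trans LL_PP
lemma na_GF : na F ∈ GF F := N_GF na_N

/-- elements in the double coset of a nontrivial element of the Weyl group -/
lemma good_word {L : List (Fin chevG2.rank)} (hL : L ∈ list12) (hL1 : L ≠ []) {b : GL chevG2.Idx F} (hb : b ∈ (RR F).B) :
    Gd (x0 S) ((RR F).nd L * b) := by
  have hbP := BB_PP hb
  have hnb := nb_PP (F := F)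
  have sq : na F * na F ∈ PP F := T_PP na_sq
  -- the words with one factor `na`
  have g1 : ∀ p ∈ PP F, ∀ q ∈ PP F, Gd (x0 S) (p * na F * q) := fun p hp q hq => good_na S hp hq
  have g2 : ∀ p ∈ PP F, ∀ q ∈ PP F, Gd (x0 S) (p * (na F * nb F * na F) * q) := by
    intro p hp q hq
    have e : p * (na F * nb F * na F) * q = p * ne F * ((na F * na F) * q) := by rw [SqH.ne_eq]; group
    rw [e]; exact good_ne S hp (mul_mem sq hq)
  simp only [list12, List.mem_cons, List.not_mem_nil, or_false] at hL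
  rcases hL with rfl | rfl | rfl | rfl | rfl | rfl | rfl | rfl | rfl | rfl | rfl | rfl
  · exact absurd rfl hL1
  · -- a
    have := g1 1 (one_mem _) b hbP
    simp only [RGrp.nd_cons, RGrp.nd_nil, nn0, mul_one]
    rwa [one_mul] at this
  · -- b
    simp only [RGrp.nd_cons, RGrp.nd_nil, nn1, mul_one]
    apply Gd.of_conj na_GF
    have e : na F * (nb F * b) * (na F)⁻¹ = (na F * nb F) * b * (na F)⁻¹ := by group
    rw [e]
    obtain ⟨b₁, h1, b₂, h2, h | h⟩ := bn' (mul_mem na_N nb_N) hb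
    · rw [h]
      have e2 : b₁ * (na F * nb F * (na F)⁻¹) * b₂ = b₁ * ne F * b₂ := by rw [SqH.ne_eq]
      rw [e2]; exact good_ne S (BB_PP h1) (BB_PP h2)
    · rw [h]
      have e2 : b₁ * (na F * nb F) * b₂ = b₁ * na F * (nb F * b₂) := by group
      rw [e2]; exact g1 _ (BB_PP h1) _ (mul_mem hnb (BB_PP h2))
  · -- ab
    simp only [RGrp.nd_cons, RGrp.nd_nil, nn0, nn1, mul_one]
    have e : na F * nb F * b = 1 * na F * (nb F * b) := by group
    rw [e]; exact g1 _ (one_mem _) _ (mul_mem hnb hbP)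
  · -- ba
    simp only [RGrp.nd_cons, RGrp.nd_nil, nn0, nn1, mul_one]
    exact g1 _ hnb _ hbP
  · -- aba
    simp only [RGrp.nd_cons, RGrp.nd_nil, nn0, nn1, mul_one]
    have e : na F * (nb F * na F) * b = 1 * (na F * nb F * na F) * b := by group
    rw [e]; exact g2 _ (one_mem _) _ hbP
  · -- bab
    simp only [RGrp.nd_cons, RGrp.nd_nil, nn0, nn1, mul_one]
    have e : nb F * (na F * nb F) * b = nb F * na F * (nb F * b) := by group
    rw [e]; exact g1 _ hnb _ (mul_mem hnb hbP)
  · -- abab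
    simp only [RGrp.nd_cons, RGrp.nd_nil, nn0, nn1, mul_one]
    have e : na F * (nb F * (na F * nb F)) * b = 1 * (na F * nb F * na F) * (nb F * b) := by group
    rw [e]; exact g2 _ (one_mem _) _ (mul_mem hnb hbP)
  · -- baba
    simp only [RGrp.nd_cons, RGrp.nd_nil, nn0, nn1, mul_one]
    have e : nb F * (na F * (nb F * na F)) * b = nb F * (na F * nb F * na F) * b := by group
    rw [e]; exact g2 _ hnb _ hbP
  · -- ababa
    simp only [RGrp.nd_cons, RGrp.nd_nil, nn0, nn1, mul_one]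
    apply Gd.of_conj' na_GF
    have hw : nb F * na F * nb F * na F ∈ (RR F).N := mul_mem (mul_mem (mul_mem nb_N na_N) nb_N) na_N
    have e : (na F)⁻¹ * (na F * (nb F * (na F * (nb F * na F))) * b) * na F =
        ((nb F * na F * nb F * na F) * b * (na F)⁻¹) * (na F * na F) := by group
    rw [e]
    obtain ⟨b₁, h1, b₂, h2, h | h⟩ := bn' hw hb
    · rw [h]
      have e2 : b₁ * (nb F * na F * nb F * na F * (na F)⁻¹) * b₂ * (na F * na F) = (b₁ * nb F) * na F * (nb F * b₂ * (na F * na F)) := by group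
      rw [e2]; exact g1 _ (mul_mem (BB_PP h1) hnb) _ (mul_mem (mul_mem hnb (BB_PP h2)) sq)
    · rw [h]
      have e2 : b₁ * (nb F * na F * nb F * na F) * b₂ * (na F * na F) = (b₁ * nb F) * (na F * nb F * na F) * (b₂ * (na F * na F)) := by group
      rw [e2]; exact g2 _ (mul_mem (BB_PP h1) hnb) _ (mul_mem (BB_PP h2) sq)
  · -- babab
    simp only [RGrp.nd_cons, RGrp.nd_nil, nn0, nn1, mul_one]
    have e : nb F * (na F * (nb F * (na F * nb F))) * b = nb F * (na F * nb F * na F) * (nb F * b) := by group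
    rw [e]; exact g2 _ hnb _ (mul_mem hnb hbP)
  · -- longest
    have h1 := act_ng (F := F)
    rw [w0_alt] at h1
    have h2 := RGrp.inv_mul_mem_H (mul_mem ng_N na_N) n0_N h1 (n0_act (K := F))
    have h3 : ((ng F * na F)⁻¹ * n0 F) * b ∈ (RR F).B := mul_mem ((RR F).H_le_B h2) hb
    obtain ⟨t, ht, c, u, hu, e⟩ := mem_BB h3
    have e1 : (RR F).nd w0 * b = ng F * na F * (t * xx 6 c) * u := by
      have e2 : n0 F * b = ng F * na F * (((ng F * na F)⁻¹ * n0 F) * b) := by group
      have e3 : (RR F).nd w0 * b = n0 F * b := rfl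
      rw [e3, e2, e]; group
    rw [e1]
    exact lemW S ht hu

theorem main {g : GL chevG2.Idx F} (hg : g ∈ GF F) (hg1 : g ≠ 1) : Gd (x0 S) g := by
  have hGrp : (RR F).Grp = GF F := chev_Grp _ _
  have hB : (RR F).B = chevG2.borelSubgroup F := chev_B _ _
  -- some conjugate is not in `B`
  obtain ⟨w, hw, hwB⟩ : ∃ w ∈ GF F, w * g * w⁻¹ ∉ (RR F).B := by
    by_contra hcon
    push Not at hcon
    apply hg1
    have hcore := core_trivial (F := F) DData.dG2 hG
    have h1 : (⟨g, hg⟩ : GF F) ∈ ((chevG2.borelSubgroup F).subgroupOf (chevG2.group F)).normalCore := by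
      intro a
      rw [Subgroup.mem_subgroupOf]
      have := hcon (a : GL chevG2.Idx F) a.2
      rw [hB] at this
      exact this
    rw [hcore, Subgroup.mem_bot] at h1
    exact congrArg (fun z : GF F => (z : GL chevG2.Idx F)) h1
  apply Gd.of_conj hw
  have hwg : w * g * w⁻¹ ∈ (RR F).Grp := by
    rw [hGrp]; exact mul_mem (mul_mem hw hg) (inv_mem hw)
  obtain ⟨b, hb, m, hm, b', hb', e⟩ := RGrp.exists_bnb hwg
  obtain ⟨u, hu⟩ := RGrp.exists_act hm
  obtain ⟨L, hL, hL'⟩ := mem_list12 hu.1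
  have hH := RGrp.inv_mul_mem_H (RGrp.nd_mem_N (R := RR F) L) hm (RGrp.act_nd (R := RR F) L) (by rw [← hL']; exact hu)
  have hL1 : L ≠ [] := by
    rintro rfl
    apply hwB
    rw [e]
    rw [RGrp.nd_nil, inv_one, one_mul] at hH
    exact mul_mem (mul_mem hb ((RR F).H_le_B hH)) hb'
  rw [e]
  apply Gd.of_conj' (BB_GF hb)
  have e2 : b⁻¹ * (b * m * b') * b = (RR F).nd L * ((((RR F).nd L)⁻¹ * m) * (b' * b)) := by group
  rw [e2]
  exact good_word S hL hL1 (mul_mem ((RR F).H_le_B hH) (mul_mem hb' hb))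

/-- the order of the element -/
theorem pow_x0 {n : ℕ} (hn : ∀ a : K, a ≠ 0 → a ^ n = 1) : x0 S ^ n = 1 := by
  obtain ⟨z, hz, t, ht, h8, h7, e⟩ := exists_diag S (x0_LL S) (x0_Rl S) (x0_tr S) (x0_det S)
  apply glMap_injective S.io
  rw [map_one, map_pow]
  have h1 : gm S.io (x0 S) ^ n = z * t ^ n * z⁻¹ := by
    rw [e]; exact conj_pow
  have h2 : t ^ n = 1 := by
    apply ev_ext DData.dG2 hG2 (pow_mem ht n) (one_mem _)
    intro i
    rw [ev_one, ev_pow hG2 ht, hn _ (ev_ne_zero hG2 ht _)]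
  rw [h1, h2]; group

end main

/-- existence of the eigenvalues -/
theorem exists_Sg {F : Type*} [Field F] [Fintype F] (h3 : 3 ≤ Fintype.card F) :
    ∃ (K : Type) (_ : Field K) (_ : Fintype K), Fintype.card K = Fintype.card F ^ 2 ∧ Nonempty (Sg F K) := by
  classical
  set q := Fintype.card F with hq
  obtain ⟨K, i1, i2, ι, σ, hcard, hσ, hσι, hfix⟩ := exists_ext (F := F) (N := 2) hq.symm (by norm_num)
  refine ⟨K, i1, i2, hcard, ?_⟩
  obtain ⟨g, hg⟩ := IsCyclic.exists_generator (α := Kˣ)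
  have hord : orderOf g = q ^ 2 - 1 := by
    rw [orderOf_eq_card_of_forall_mem_zpowers hg, Nat.card_eq_fintype_card, Fintype.card_units, hcard]
  set l : K := (g : K) with hl
  have hl0 : l ≠ 0 := g.ne_zero
  have key : ∀ n, 0 < n → n < q ^ 2 - 1 → l ^ n ≠ 1 := by
    intro n hn hn' h
    have h1 : g ^ n = 1 := Units.ext (by rw [Units.val_pow_eq_pow_val, Units.val_one]; exact h)
    have h2 := Nat.le_of_dvd hn (orderOf_dvd_of_pow_eq_one h1)
    omega
  have hqq : q ^ 2 = q * q := sq q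
  have hq3 : 3 * q ≤ q * q := Nat.mul_le_mul_right q h3
  have hlqq : (l ^ q) ^ q = l := by
    rw [← pow_mul, ← hqq, ← hcard]; exact FiniteField.pow_card l
  obtain ⟨tau, htau⟩ := hfix (l + l ^ q) (by
    rw [map_add, hσ, map_pow, hσ, hlqq, add_comm])
  obtain ⟨del, hdel⟩ := hfix (l * l ^ q) (by
    rw [map_mul, hσ, map_pow, hσ, hlqq, mul_comm])
  have hF : ∀ z : F, z ≠ 0 → z ^ (q - 1) = 1 := fun z hz => FiniteField.pow_card_sub_one_eq_one z hz
  have hnotF : ∀ z : F, ι z ≠ l := by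
    intro z hz
    have hz0 : z ≠ 0 := by
      rintro rfl
      rw [map_zero] at hz
      exact hl0 hz.symm
    apply key (q - 1) (by omega) (by omega)
    rw [← hz, ← map_pow, hF z hz0, map_one]
  refine ⟨⟨ι, l, l ^ q, tau, del, htau, hdel, ?_, ?_, ?_, ?_, hl0, pow_ne_zero _ hl0, ?_, ?_, ?_, ?_, ?_⟩⟩
  · -- irr
    intro z hz
    have h1 : (ι z - l) * (ι z - l ^ q) = 0 := by
      have h2 := congrArg ι hz
      rw [map_add, map_sub, map_mul, map_mul, htau, hdel, map_zero] at h2
      linear_combination h2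
    rcases mul_eq_zero.1 h1 with h2 | h2
    · exact hnotF z (sub_eq_zero.1 h2)
    · have h4 : ι z = l ^ q := sub_eq_zero.1 h2
      have h5 := hσι z
      rw [h4, map_pow, hσ, hlqq] at h5
      exact hnotF z (h4.trans h5.symm)
  · -- tau ≠ 0
    rintro rfl
    rw [map_zero] at htau
    have h1 : l ^ q = -l := by linear_combination -htau
    have h2 : l ^ (2 * (q - 1)) = 1 := by
      have h3 : l ^ (2 * (q - 1)) * (l * l) = 1 * (l * l) := by
        have e : l ^ (2 * (q - 1)) * (l * l) = l ^ q * l ^ q := by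
          rw [← pow_add, ← pow_two, ← pow_add]; congr 1; omega
        rw [e, h1]; ring
      exact mul_right_cancel₀ (mul_ne_zero hl0 hl0) h3
    exact key (2 * (q - 1)) (by omega) (by omega) h2
  · -- del ≠ 0
    rintro rfl
    rw [map_zero] at hdel
    exact mul_ne_zero hl0 (pow_ne_zero _ hl0) hdel.symm
  · -- del ≠ 1
    rintro rfl
    rw [map_one] at hdel
    apply key (q + 1) (by omega) (by omega)
    rw [pow_succ, mul_comm]; exact hdel.symm
  · intro h
    apply key (q - 1) (by omega) (by omega)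
    have h2 : l ^ (q - 1) * l = 1 * l := by
      rw [← pow_succ, one_mul]
      have : q - 1 + 1 = q := by omega
      rw [this]; exact h.symm
    exact mul_right_cancel₀ hl0 h2
  · intro h; exact key 1 one_pos (by omega) (by rw [pow_one]; exact h)
  · intro h; exact key q (by omega) (by omega) h
  · intro h
    apply key (q + (q + 1)) (by omega) (by omega)
    rw [pow_add, pow_add, pow_one]; exact h
  · intro h
    apply key (q + 1 + 1) (by omega) (by omega)
    rw [pow_add, pow_add, pow_one]; exact h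

end Cfsg.Agent.H51.SqI
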