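import Mathlib
import Cfsg.Prelude.Def_Local
import Cfsg.Prelude.Def_PLocal
import Cfsg.Agent.H91.CoprimeAb
import Cfsg.Agent.ZJ.NPCThm
import Cfsg.Agent.H51.CoreFive3

/-!
Abelian subgroups of maximal order, `p ≥ 5`.
-/

set_option autoImplicit false

namespace Cfsg.Agent.H51

open Cfsg
open scoped commutatorElement

universe u

/-- A nontrivially acted abelian `p'`-group has a nontrivially acted irreducible subgroup. -/
theorem exists_irreducible {X : Type*} [Group X] [Finite X] (A Q : Subgroup X)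
    (hQc : ∀ a ∈ Q, ∀ b ∈ Q, a * b = b * a)
    (hAQ : A ≤ Subgroup.normalizer (Q : Set X)) (hcop : (Nat.card A).Coprime (Nat.card Q))
    (hne : ¬ Q ≤ Subgroup.centralizer (A : Set X)) :
    ∃ K : Subgroup X, K ≤ Q ∧ A ≤ Subgroup.normalizer (K : Set X) ∧
      ¬ K ≤ Subgroup.centralizer (A : Set X) ∧
      ∀ T : Subgroup X, T ≤ K → A ≤ Subgroup.normalizer (T : Set X) → T = ⊥ ∨ T = K := by
  have hfin : {K : Subgroup X | K ≤ Q ∧ A ≤ Subgroup.normalizer (K : Set X) ∧
      ¬ K ≤ Subgroup.centralizer (A : Set X)}.Finite := Set.toFinite _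
  obtain ⟨K, ⟨h1, h2, h3⟩, hmin⟩ := hfin.exists_minimal ⟨Q, le_rfl, hAQ, hne⟩
  have hKc : IsMulCommutative K := (Cfsg.Agent.H11.comm_iff K).mpr (fun a ha b hb => hQc a (h1 ha) b (h1 hb))
  have hcopK : (Nat.card A).Coprime (Nat.card K) := hcop.coprime_dvd_right (Subgroup.card_dvd_of_le h1)
  obtain ⟨h4, h5⟩ := Cfsg.Agent.H91.abelian_decomp (G := X) (A := A) (V := K) h2 hcopK
  have hRK : ⁅K, A⁆ ≤ K := Subgroup.le_normalizer_iff_commutator_le_left.mp h2
  have hRne : ¬ ⁅K, A⁆ ≤ Subgroup.centralizer (A : Set X) := by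
    intro h
    have h6 : ⁅K, A⁆ = ⊥ := by
      rw [eq_bot_iff, ← h4]
      exact le_inf (le_inf hRK h) le_rfl
    rw [h6, sup_bot_eq] at h5
    apply h3
    rw [← h5]
    exact inf_le_right
  have hR : ⁅K, A⁆ = K := le_antisymm hRK
    (hmin ⟨hRK.trans h1, Subgroup.normalizer_commutator_ge_right K A, hRne⟩ hRK)
  have hC : K ⊓ Subgroup.centralizer (A : Set X) = ⊥ := by
    rw [eq_bot_iff, ← h4, hR]
    exact le_inf le_rfl inf_le_left
  refine ⟨K, h1, h2, h3, fun T hTK hAT => ?_⟩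
  by_cases hT : T ≤ Subgroup.centralizer (A : Set X)
  · left
    rw [eq_bot_iff, ← hC]
    exact le_inf hTK hT
  · right
    exact le_antisymm hTK (hmin ⟨hTK.trans h1, hAT, hT⟩ hTK)

/-- `p`-elements centralizing a normal subgroup of `p`-power index lie in `O_p` -/
theorem mem_pCore_of_centralizes {X : Type*} [Group X] [Finite X] {p : ℕ} [hp : Fact p.Prime]
    {M : Subgroup X} [M.Normal] (hM : IsPGroup p (X ⧸ M)) {a : X}
    (ha : a ∈ Subgroup.centralizer (M : Set X)) (hap : ∃ k, a ^ p ^ k = 1) :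
    a ∈ pCore p X := by
  set N := Subgroup.centralizer (M : Set X) with hN
  have hNn : N.Normal := inferInstance
  let f : N →* X ⧸ M := (QuotientGroup.mk' M).comp N.subtype
  have hker : f.ker ≤ Subgroup.center N := by
    intro y hy
    have hyM : (y : X) ∈ M := (QuotientGroup.eq_one_iff _).mp hy
    rw [Subgroup.mem_center_iff]
    intro z
    apply Subtype.ext
    exact ((Subgroup.mem_centralizer_iff.mp z.2) y hyM).symm
  have hnilQ : Group.IsNilpotent (X ⧸ M) := hM.isNilpotent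
  have hnil : Group.IsNilpotent N := Subgroup.isNilpotent_of_ker_le_center f hker
  have hap' : IsPGroup p (Subgroup.zpowers (⟨a, ha⟩ : N)) := by
    obtain ⟨k, hk⟩ := hap
    rintro ⟨y, hy⟩
    obtain ⟨m, rfl⟩ := Subgroup.mem_zpowers_iff.mp hy
    refine ⟨k, ?_⟩
    apply Subtype.ext
    apply Subtype.ext
    change (a ^ m) ^ p ^ k = 1
    rw [← zpow_natCast, ← zpow_mul, mul_comm, zpow_mul, zpow_natCast, hk, one_zpow]
  obtain ⟨P, hP⟩ := hap'.exists_le_sylow
  have hPn : (P : Subgroup N).Normal := by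
    have := (Group.isNilpotent_of_finite_tfae (G := N)).out 0 3
    exact (this.mp hnil) p hp P
  have h3 : (P : Subgroup N) ≤ pCore p N := Cfsg.Agent.Solv.le_pCore hPn P.isPGroup'
  exact Cfsg.Agent.Solv.map_subtype_pCore_le p N ⟨⟨a, ha⟩, h3 (hP (Subgroup.mem_zpowers _)), rfl⟩

/-- in the reduced configuration, abelian subgroups of maximal order lie in `O_p(G)` -/
theorem le_pCore_of_special {G : Type u} [Group G] [Finite G] {p : ℕ} [hp : Fact p.Prime] (hp5 : 5 ≤ p)
    (P : Sylow p G) (M : Subgroup G) (hsp : Cfsg.Agent.ZJ.IsSpecialNPC P M) {A : Subgroup G}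
    (hA : A ∈ Cfsg.Agent.ZJ.maxIn (fun A : Subgroup G => IsMulCommutative A) (P : Subgroup G)) :
    A ≤ pCore p G := by
  intro a₀ ha₀
  by_contra hcon
  set O := pCore p G with hO
  have hOn : O.Normal := inferInstance
  have hOp : IsPGroup p O := Cfsg.Agent.Solv.pCore_isPGroup p
  have hMn := hsp.normal
  have hAc := (Cfsg.Agent.H11.comm_iff A).mp hA.2.1
  have hAp : IsPGroup p A := P.isPGroup'.to_le hA.1
  let q := QuotientGroup.mk' O
  have hqs : Function.Surjective q := QuotientGroup.mk'_surjective O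
  have hqk : ∀ g, q g = 1 ↔ g ∈ O := fun g => QuotientGroup.eq_one_iff g
  set Mb := M.map q with hMb
  set Ab := A.map q with hAb
  have hMbn : Mb.Normal := hMn.map q hqs
  have hMbc : ∀ a ∈ Mb, ∀ b ∈ Mb, a * b = b * a := by
    rintro _ ⟨a, ha, rfl⟩ _ ⟨b, hb, rfl⟩
    rw [← commutatorElement_eq_one_iff_mul_comm, ← map_commutatorElement, hqk]
    exact hsp.comm (Subgroup.commutator_mem_commutator ha hb)
  have hMbcard : Nat.card Mb = O.relIndex M := by
    have h1 := Subgroup.relIndex_ker q (K := M)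
    rw [QuotientGroup.ker_mk'] at h1
    exact h1.symm
  have hAbp : IsPGroup p Ab := hAp.map q
  have hcop : (Nat.card Ab).Coprime (Nat.card Mb) := by
    obtain ⟨k, hk⟩ := IsPGroup.iff_card.mp hAbp
    rw [hk, hMbcard]
    exact (hsp.cop.symm).pow_left k
  have hne : ¬ Mb ≤ Subgroup.centralizer (Ab : Set (G ⧸ O)) := by
    intro h
    apply hcon
    have h1 : IsPGroup p ((G ⧸ O) ⧸ Mb) := by
      intro y
      obtain ⟨y, rfl⟩ := QuotientGroup.mk'_surjective Mb y
      obtain ⟨g, rfl⟩ := hqs y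
      obtain ⟨k, hk⟩ := hsp.quot g
      refine ⟨k, ?_⟩
      rw [← map_pow, ← map_pow]
      exact (QuotientGroup.eq_one_iff _).mpr ⟨_, hk, rfl⟩
    have h2 : q a₀ ∈ pCore p (G ⧸ O) := by
      apply mem_pCore_of_centralizes h1
      · rw [Subgroup.mem_centralizer_iff]
        intro m hm
        exact ((Subgroup.mem_centralizer_iff.mp (h hm)) (q a₀) ⟨a₀, ha₀, rfl⟩).symm
      · obtain ⟨k, hk⟩ := hAp ⟨a₀, ha₀⟩
        refine ⟨k, ?_⟩
        rw [← map_pow, show a₀ ^ p ^ k = 1 from congrArg Subtype.val hk, map_one]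
    have h3 : pCore p (G ⧸ O) = ⊥ := Cfsg.Agent.Solv.pCore_quotient_pCore p
    rw [h3, Subgroup.mem_bot] at h2
    exact (hqk a₀).mp h2
  obtain ⟨Kb, h1, h2, h3, h4⟩ := exists_irreducible Ab Mb hMbc
    (by rw [Subgroup.normalizer_eq_top_iff.mpr hMbn]; exact le_top) hcop hne
  set K := Kb.comap q with hK
  have hOK : O ≤ K := by
    intro x hx
    rw [hK, Subgroup.mem_comap, (hqk x).mpr hx]
    exact Kb.one_mem
  have hKM : K ≤ M := by
    intro x hx
    obtain ⟨m, hm, hmx⟩ := h1 hx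
    have h5 : m⁻¹ * x ∈ O := by
      rw [← hqk, map_mul, map_inv, hmx, inv_mul_cancel]
    have e : x = m * (m⁻¹ * x) := by group
    rw [e]
    exact M.mul_mem hm (hsp.le h5)
  have hmapK : K.map q = Kb := Subgroup.map_comap_eq_self_of_surjective hqs Kb
  have hAK : A ≤ Subgroup.normalizer (K : Set G) := by
    intro a ha
    rw [Subgroup.mem_normalizer_iff]
    intro x
    have h5 := (Subgroup.mem_normalizer_iff.mp (h2 ⟨a, ha, rfl⟩)) (q x)
    rw [hK, Subgroup.mem_comap, Subgroup.mem_comap, map_mul, map_mul, map_inv]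
    exact h5
  set L := K ⊔ A with hL
  have hLK : L ≤ Subgroup.normalizer (K : Set G) := sup_le Subgroup.le_normalizer hAK
  have hKL : K ≤ L := le_sup_left
  have hAL : A ≤ L := le_sup_right
  have hOL : O ≤ L := hOK.trans hKL
  have hHn : (O.subgroupOf L).Normal := inferInstance
  have hKn : (K.subgroupOf L).Normal := (Subgroup.normal_subgroupOf_iff_le_normalizer hKL).mpr hLK
  have hKK : ∀ a ∈ K, ∀ b ∈ K, ⁅a, b⁆ ∈ O := fun a ha b hb =>
    hsp.comm (Subgroup.commutator_mem_commutator (hKM ha) (hKM hb))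
  have hcent : Subgroup.centralizer (O : Set G) ≤ O := hsp.cent
  apply core_five (L := L) hp5 (O.subgroupOf L) (K.subgroupOf L) (A.subgroupOf L)
  · exact Subgroup.comap_mono hOK
  · exact hOp.comap_subtype
  · rw [Subgroup.commutator_le]
    intro a ha b hb
    rw [Subgroup.mem_subgroupOf] at ha hb ⊢
    exact hKK a ha b hb
  · rw [Subgroup.relIndex_subgroupOf hKL]
    exact Nat.Coprime.coprime_dvd_left (Dvd.intro _ (Subgroup.relIndex_mul_relIndex O K M hOK hKM)) hsp.cop
  · intro x hx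
    rw [Subgroup.mem_subgroupOf]
    apply hcent
    rw [Subgroup.mem_centralizer_iff]
    intro y hy
    have h5 := Subgroup.mem_centralizer_iff.mp hx ⟨y, hOL hy⟩ hy
    exact congrArg Subtype.val h5
  · intro a ha b hb
    exact Subtype.ext (hAc a ha b hb)
  · exact hAp.comap_subtype
  · rw [eq_top_iff]
    intro x _
    have h5 : L ≤ ((K.subgroupOf L) ⊔ (A.subgroupOf L)).map L.subtype := by
      rw [Subgroup.map_sup, Subgroup.map_subgroupOf_eq_of_le hKL, Subgroup.map_subgroupOf_eq_of_le hAL]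
    obtain ⟨x', hx', hxx⟩ := h5 x.2
    have h6 : x' = x := Subtype.ext hxx
    subst h6
    exact hx'
  · intro T hT hOT hTK
    set T' := T.map L.subtype with hT'
    have hT'K : T' ≤ K := by
      rw [hT', ← Subgroup.map_subgroupOf_eq_of_le hKL]
      exact Subgroup.map_mono hTK
    have hOT' : O ≤ T' := by
      rw [hT', ← Subgroup.map_subgroupOf_eq_of_le hOL]
      exact Subgroup.map_mono hOT
    have hTb : T'.map q ≤ Kb := by
      rw [← hmapK]
      exact Subgroup.map_mono hT'K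
    have hAT : Ab ≤ Subgroup.normalizer ((T'.map q : Subgroup (G ⧸ O)) : Set (G ⧸ O)) := by
      have hkey : ∀ a ∈ A, ∀ t ∈ T', a * t * a⁻¹ ∈ T' := by
        rintro a ha _ ⟨t, ht, rfl⟩
        exact ⟨⟨a, hAL ha⟩ * t * ⟨a, hAL ha⟩⁻¹, hT.conj_mem _ ht _, rfl⟩
      rintro _ ⟨a, ha, rfl⟩
      rw [Subgroup.mem_normalizer_iff]
      intro y
      constructor
      · rintro ⟨t, ht, rfl⟩
        refine ⟨a * t * a⁻¹, hkey a ha t ht, ?_⟩
        rw [map_mul, map_mul, map_inv]
      · rintro ⟨t, ht, hty⟩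
        refine ⟨a⁻¹ * t * a⁻¹⁻¹, hkey _ (A.inv_mem ha) t ht, ?_⟩
        rw [map_mul, map_mul, map_inv, map_inv, hty]
        simp [mul_assoc]
    rcases h4 _ hTb hAT with h5 | h5
    · left
      apply le_antisymm _ hOT
      intro t ht
      rw [Subgroup.mem_subgroupOf, ← hqk]
      have h6 : q (t : G) ∈ T'.map q := ⟨t, ⟨t, ht, rfl⟩, rfl⟩
      rw [h5, Subgroup.mem_bot] at h6
      exact h6
    · right
      apply le_antisymm hTK
      intro t ht
      rw [Subgroup.mem_subgroupOf] at ht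
      have h6 : q (t : G) ∈ T'.map q := by rw [h5]; exact ht
      obtain ⟨s, hs, hst⟩ := h6
      have h7 : s⁻¹ * t ∈ O := by rw [← hqk, map_mul, map_inv, hst, inv_mul_cancel]
      have h8 : (t : G) ∈ T' := by
        have e : (t : G) = s * (s⁻¹ * t) := by group
        rw [e]
        exact T'.mul_mem hs (hOT' h7)
      obtain ⟨t', ht', htt⟩ := h8
      have h9 : t' = t := Subtype.ext htt
      subst h9
      exact ht'
  · by_contra hcon2
    push Not at hcon2
    apply h3
    rw [← hmapK]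
    rintro _ ⟨u, hu, rfl⟩
    rw [Subgroup.mem_centralizer_iff]
    rintro _ ⟨a, ha, rfl⟩
    have h5 := hcon2 ⟨a, hAL ha⟩ ha ⟨u, hKL hu⟩ hu
    rw [Subgroup.mem_subgroupOf] at h5
    have h6 : q ⁅a, u⁆ = 1 := (hqk _).mpr h5
    rw [map_commutatorElement, commutatorElement_eq_one_iff_mul_comm] at h6
    exact h6
  · intro F hF hFc
    have hF' : IsPGroup p (F.map L.subtype) := hF.map _
    obtain ⟨P', hP'⟩ := hF'.exists_le_sylow
    obtain ⟨g, hg⟩ := MulAction.exists_smul_eq G P' P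
    have h5 : (P : Subgroup G) = (P' : Subgroup G).map (MulAut.conj g).toMonoidHom := by
      rw [← hg]; rfl
    have h6 := hA.2.2 ((F.map L.subtype).map (MulAut.conj g).toMonoidHom) (by
      rw [h5]; exact Subgroup.map_mono hP') (by
      apply Cfsg.Agent.ZJ.comm_map
      apply Cfsg.Agent.ZJ.comm_map
      exact (Cfsg.Agent.H11.comm_iff F).mpr hFc)
    rw [Cfsg.Agent.ZJ.card_conj_map, Cfsg.Agent.ZJ.card_map_subtype] at h6
    rw [Nat.card_congr (Subgroup.subgroupOfEquivOfLe hAL).toEquiv]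
    exact h6

end Cfsg.Agent.H51
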