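import Cfsg.Agent.H80.TitsDef
import Cfsg.Agent.H68.TitsRed2
import Cfsg.Agent.Uni36.TitsH

set_option autoImplicit false
set_option maxRecDepth 100000

/-!
The Tits group: products of two elements of order five, assembly.
-/

namespace Cfsg.Agent.H51.TitsAsm

open Cfsg.Lie Cfsg.Agent.Chev Cfsg.Agent.ChevGrp Cfsg.Agent.ChevGrp.DData Cfsg.Agent.ChevWeyl Cfsg.Agent.ChevTw
  Cfsg.Agent.Tw3 Cfsg.Agent.ChevGrp.RGrp Cfsg.Agent.Tw4 Cfsg.Agent.Uni36 Cfsg.Agent.H80.Tits Cfsg.Agent.H68.TitsRed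

section sgn

variable {G : Type*} [Group G] {L : Subgroup G} (f : ↥L →* ℤˣ)

/-- elements with prescribed sign -/
def Sn (g : G) (s : ℤˣ) : Prop := ∃ h : g ∈ L, f ⟨g, h⟩ = s

variable {f}

lemma Sn.mul {g g' : G} {s s' : ℤˣ} (h : Sn f g s) (h' : Sn f g' s') : Sn f (g * g') (s * s') := by
  obtain ⟨a, ha⟩ := h
  obtain ⟨b, hb⟩ := h'
  refine ⟨mul_mem a b, ?_⟩
  have e : (⟨g * g', mul_mem a b⟩ : ↥L) = ⟨g, a⟩ * ⟨g', b⟩ := rfl
  rw [e, map_mul, ha, hb]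

lemma Sn.inv {g : G} {s : ℤˣ} (h : Sn f g s) : Sn f g⁻¹ s⁻¹ := by
  obtain ⟨a, ha⟩ := h
  refine ⟨inv_mem a, ?_⟩
  have e : (⟨g⁻¹, inv_mem a⟩ : ↥L) = ⟨g, a⟩⁻¹ := rfl
  rw [e, map_inv, ha]

lemma Sn.one : Sn f (1 : G) 1 := ⟨one_mem _, by
  have e : (⟨1, one_mem _⟩ : ↥L) = 1 := rfl
  rw [e, map_one]⟩

lemma Sn.pow {g : G} {s : ℤˣ} (h : Sn f g s) (n : ℕ) : Sn f (g ^ n) (s ^ n) := by
  induction n with
  | zero => rw [pow_zero, pow_zero]; exact Sn.one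
  | succ n ih => rw [pow_succ, pow_succ]; exact ih.mul h

lemma Sn.mem {g : G} {s : ℤˣ} (h : Sn f g s) : g ∈ L := h.1

lemma Sn.eq {g : G} {s s' : ℤˣ} (h : Sn f g s) (h' : Sn f g s') : s = s' := by
  rw [← h.2, ← h'.2]

lemma Sn.conj {g c : G} {s : ℤˣ} (h : Sn f g s) (hc : c ∈ L) : Sn f (c * g * c⁻¹) s := by
  obtain ⟨t, ht⟩ : ∃ t, Sn f c t := ⟨_, hc, rfl⟩
  have := (ht.mul h).mul ht.inv
  rwa [mul_inv_cancel_comm] at this

lemma Sn.of {g : G} (h : g ∈ L) : ∃ s, Sn f g s := ⟨_, h, rfl⟩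

end sgn

lemma hK2 : ∀ t : ZMod 2, t = 0 ∨ t = 1 := by decide

section T

variable (Z : Sg (ZMod 2))

lemma nn0_eq : (twF Z).tw.nn 0 = nn8 0 := by
  have hnn : (twF Z).tw.nn 0 = (RF (ZMod 2)).nd (LF 0) := rfl
  obtain ⟨p1, -, -, p2, n1, -, -, n2, -⟩ := simple_F4
  have h1 : (RF (ZMod 2)).nd (LF 0) = (RF (ZMod 2)).nn i0 * ((RF (ZMod 2)).nn i3 * 1) := rfl
  have h2 : (RF (ZMod 2)).nn i0 = nF 33 := by rw [nn_eq_nF]; exact congrArg nF p1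
  have h3 : (RF (ZMod 2)).nn i3 = nF 24 := by rw [nn_eq_nF]; exact congrArg nF p2
  rw [hnn, h1, mul_one, h2, h3, nF_eq Z.two 33 14 n1, nF_eq Z.two 24 23 n2]
  unfold nn8 nnW
  simp only [wF_cons, wF_nil, mul_one, mul_assoc]

lemma nn1_eq : (twF Z).tw.nn 1 = nn8 1 := by
  have hnn : (twF Z).tw.nn 1 = (RF (ZMod 2)).nd (LF 1) := rfl
  obtain ⟨-, p1, p2, -, -, n1, n2, -⟩ := simple_F4
  have h1 : (RF (ZMod 2)).nd (LF 1) = (RF (ZMod 2)).nn i1 * ((RF (ZMod 2)).nn i2 * ((RF (ZMod 2)).nn i1 *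
    ((RF (ZMod 2)).nn i2 * 1))) := rfl
  have h2 : (RF (ZMod 2)).nn i1 = nF 27 := by rw [nn_eq_nF]; exact congrArg nF p1
  have h3 : (RF (ZMod 2)).nn i2 = nF 25 := by rw [nn_eq_nF]; exact congrArg nF p2
  rw [hnn, h1, mul_one, h2, h3, nF_eq Z.two 27 20 n1, nF_eq Z.two 25 22 n2]
  unfold nn8 nnW
  simp only [wF_cons, wF_nil, mul_one, mul_assoc]

lemma nd15 : (twF Z).tw.nd (word16 15) = nWd [0, 1, 0, 1, 0, 1, 0, 1] := by
  have hw : word16 15 = [0, 1, 0, 1, 0, 1, 0, 1] := rfl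
  rw [hw]
  unfold nWd
  simp only [nd_cons, nd_nil, nn0_eq, nn1_eq, List.map_cons, List.map_nil, List.prod_cons, List.prod_nil]

lemma nd13 : (twF Z).tw.nd (word16 13) = nWd [0, 1, 0, 1, 0, 1, 0] := by
  have hw : word16 13 = [0, 1, 0, 1, 0, 1, 0] := rfl
  rw [hw]
  unfold nWd
  simp only [nd_cons, nd_nil, nn0_eq, nn1_eq, List.map_cons, List.map_nil, List.prod_cons, List.prod_nil]

lemma nd14 : (twF Z).tw.nd (word16 14) = nWd [1, 0, 1, 0, 1, 0, 1] := by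
  have hw : word16 14 = [1, 0, 1, 0, 1, 0, 1] := rfl
  rw [hw]
  unfold nWd
  simp only [nd_cons, nd_nil, nn0_eq, nn1_eq, List.map_cons, List.map_nil, List.prod_cons, List.prod_nil]

lemma exists_u {u : GF} (hu : u ∈ (twF Z).tw.U) : ∃ a : ℕ → ℕ, (∀ i, a i < mO i) ∧ u = ev g8 (nfL a) := by
  rw [← U_range Z hK2] at hu
  obtain ⟨y, rfl⟩ := hu
  obtain ⟨a, ha, rfl⟩ := exists_nfL y
  exact ⟨a, ha, toF4_ev Z _⟩

lemma ev_split (a : ℕ → ℕ) : ev (g8 (K := ZMod 2)) (nfL a) =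
    g8 0 ^ a 0 * (ev g8 (w6 (a 1) (a 2) (a 3) (a 4) (a 5) (a 6)) * g8 7 ^ a 7) := by
  have e1 : nfL a = List.replicate (a 0) 0 ++ (w6 (a 1) (a 2) (a 3) (a 4) (a 5) (a 6) ++ List.replicate (a 7) 7) := by
    simp [nfL, w6, List.range_succ]
  rw [e1]
  simp only [ev_append, ev_replicate]

lemma w6_Ui {i : Fin 2} (a : ℕ → ℕ) (h : ∀ k < 8, 0 < k → k < 7 → rt k ≠ S16.p i) :
    ev (g8 (K := ZMod 2)) (w6 (a 1) (a 2) (a 3) (a 4) (a 5) (a 6)) ∈ (twF Z).tw.Ui i := by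
  unfold w6
  simp only [ev_append, ev_replicate]
  have hm : ∀ k, 0 < k → k < 7 → (g8 k : GF) ∈ (twF Z).tw.Ui i := fun k h1 h2 =>
    g8_mem_Ui Z hK2 (by omega) (h k (by omega) h1 h2)
  exact mul_mem (mul_mem (mul_mem (mul_mem (mul_mem (pow_mem (hm 1 (by norm_num) (by norm_num)) _)
    (pow_mem (hm 2 (by norm_num) (by norm_num)) _)) (pow_mem (hm 3 (by norm_num) (by norm_num)) _))
    (pow_mem (hm 4 (by norm_num) (by norm_num)) _)) (pow_mem (hm 5 (by norm_num) (by norm_num)) _))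
    (pow_mem (hm 6 (by norm_num) (by norm_num)) _)

lemma a0_of {a : ℕ → ℕ} (ha : a 0 < 2) (hz0 : ev (g8 (K := ZMod 2)) (nfL a) ∈ (twF Z).tw.Ui 0) : a 0 = 0 := by
  rw [ev_split] at hz0
  have hw0 := w6_Ui Z (i := 0) a (fun k hk h1 h2 => rt_ne.1 k hk (by omega))
  have h7 : (g8 7 : GF) ∈ (twF Z).tw.Ui 0 := g8_mem_Ui Z hK2 (by norm_num) (rt_ne.1 7 (by norm_num) (by norm_num))
  have h1 : (g8 0 : GF) ^ a 0 ∈ (twF Z).tw.Ui 0 := by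
    have h2 := mul_mem hz0 (inv_mem (mul_mem hw0 (pow_mem h7 (a 7))))
    rwa [mul_inv_cancel_right] at h2
  have h2 : (g8 0 : GF) ^ a 0 ∈ (twF Z).tw.X (S16.p 0) := by
    have h3 : (twF Z).tw.X (S16.p 0) = Subgroup.zpowers (g8 0) := X_0 Z hK2
    rw [h3]; exact Subgroup.npow_mem_zpowers _ _
  have h3 := X_inf_Ui h2 h1
  by_contra h5
  have h6 : a 0 = 1 := by omega
  rw [h6, pow_one] at h3
  exact g8_0_ne Z h3

lemma a7_of {a : ℕ → ℕ} (ha : a 7 < 4) (hz1 : ev (g8 (K := ZMod 2)) (nfL a) ∈ (twF Z).tw.Ui 1) : a 7 = 0 := by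
  rw [ev_split] at hz1
  have hw1 := w6_Ui Z (i := 1) a (fun k hk h1 h2 => rt_ne.2 k hk (by omega))
  have h0 : (g8 0 : GF) ∈ (twF Z).tw.Ui 1 := g8_mem_Ui Z hK2 (by norm_num) (rt_ne.2 0 (by norm_num) (by norm_num))
  set w := ev (g8 (K := ZMod 2)) (w6 (a 1) (a 2) (a 3) (a 4) (a 5) (a 6)) with hwdef
  have h1 : (g8 7 : GF) ^ a 7 ∈ (twF Z).tw.Ui 1 := by
    have h2 := mul_mem (inv_mem (mul_mem (pow_mem h0 (a 0)) hw1)) hz1
    have e : (g8 0 ^ a 0 * w)⁻¹ * (g8 0 ^ a 0 * (w * g8 7 ^ a 7)) = (g8 7 ^ a 7 : GF) := by group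
    rwa [e] at h2
  have h2 : (g8 7 : GF) ^ a 7 ∈ (twF Z).tw.X (S16.p 1) := by
    have h3 : (twF Z).tw.X (S16.p 1) = Subgroup.zpowers (g8 7) := X_7 Z hK2
    rw [h3]; exact Subgroup.npow_mem_zpowers _ _
  have h3 := X_inf_Ui h2 h1
  have h5 := g8_7_sq_ne (K := ZMod 2) Z
  have h6 := rel4 (K := ZMod 2) Z 7 (by norm_num)
  have h8 : a 7 = 0 ∨ a 7 = 1 ∨ a 7 = 2 ∨ a 7 = 3 := by omega
  rcases h8 with h | h | h | h
  · exact h
  · exfalso; apply h5; rw [h, pow_one] at h3; rw [h3, one_pow]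
  · exfalso; apply h5; rw [h] at h3; exact h3
  · exfalso; apply h5
    rw [h] at h3
    rw [pow_succ, h3, one_mul] at h6
    rw [h6, one_pow]

variable {Z}

lemma Sn_ev {f : ↥(twF Z).G1 →* ℤˣ} (hf : ∀ k (h : g8 k ∈ (twF Z).G1), k < 8 → f ⟨g8 k, h⟩ = sU k) (a : ℕ → ℕ) :
    Sn f (ev g8 (nfL a)) ((-1) ^ (a 1 + a 3 + a 5 + a 7)) := by
  have h0 : ∀ k (s : ℤˣ), k < 8 → sU k = s → Sn f (g8 k) s := fun k s hk hs => ⟨g8_mem_G1 Z hK2 hk, by rw [hf k _ hk, hs]⟩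
  have e1 : ev (g8 (K := ZMod 2)) (nfL a) = g8 0 ^ a 0 * g8 1 ^ a 1 * g8 2 ^ a 2 * g8 3 ^ a 3 * g8 4 ^ a 4 * g8 5 ^ a 5 *
      g8 6 ^ a 6 * g8 7 ^ a 7 := by
    simp [nfL, List.range_succ, ev_replicate, mul_assoc]
  have k0 := (h0 0 1 (by norm_num) (by decide)).pow (a 0)
  have k1 := (h0 1 (-1) (by norm_num) (by decide)).pow (a 1)
  have k2 := (h0 2 1 (by norm_num) (by decide)).pow (a 2)
  have k3 := (h0 3 (-1) (by norm_num) (by decide)).pow (a 3)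
  have k4 := (h0 4 1 (by norm_num) (by decide)).pow (a 4)
  have k5 := (h0 5 (-1) (by norm_num) (by decide)).pow (a 5)
  have k6 := (h0 6 1 (by norm_num) (by decide)).pow (a 6)
  have k7 := (h0 7 (-1) (by norm_num) (by decide)).pow (a 7)
  rw [e1]
  have := (((((((k0.mul k1).mul k2).mul k3).mul k4).mul k5).mul k6).mul k7)
  have e2 : (1 : ℤˣ) ^ a 0 * (-1) ^ a 1 * 1 ^ a 2 * (-1) ^ a 3 * 1 ^ a 4 * (-1) ^ a 5 * 1 ^ a 6 * (-1) ^ a 7 =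
      (-1) ^ (a 1 + a 3 + a 5 + a 7) := by
    simp only [one_pow, one_mul, mul_one, pow_add]
  rwa [e2] at this

theorem tits_of (F : Facts Z) (h5 : ∀ h : GF, h ∈ (twF Z).G1 → h ^ 5 = 1 → h ≠ 1 → ∃ c ∈ (twF Z).G1, h = c * x5 * c⁻¹) :
    ∃ x : ↥(commutator ↥(twF Z).G1), Odd (orderOf x) ∧ ∀ g : ↥(commutator ↥(twF Z).G1), g ≠ 1 →
      ∃ u v : ↥(commutator ↥(twF Z).G1), g = (u * x * u⁻¹) * (v * x * v⁻¹) := by
  have hfin : Finite ↥(twF Z).G1 := finite_G1 Z hK2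
  obtain ⟨f, hf, hker⟩ := exists_sg Z hK2
  have hT : ∀ x : ↥(twF Z).G1, x ∈ commutator ↥(twF Z).G1 ↔ f x = 1 := fun x => by rw [hker, MonoidHom.mem_ker]
  have s0 : Sn f (g8 0) 1 := ⟨g8_mem_G1 Z hK2 (by norm_num), by rw [hf 0 _ (by norm_num)]; decide⟩
  have s7 : Sn f (g8 7) (-1) := ⟨g8_mem_G1 Z hK2 (by norm_num), by rw [hf 7 _ (by norm_num)]; decide⟩
  have s77 : Sn f (g8 7 * g8 7) 1 := by
    have := s7.mul s7
    have e : (-1 : ℤˣ) * -1 = 1 := by decide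
    rwa [e] at this
  have hn0 : Sn f (nn8 0) 1 := by
    obtain ⟨c, hc, e⟩ := F.nsq0
    have e' : nn8 0 = c * g8 0 * c⁻¹ := by rw [← e]; group
    rw [e']; exact s0.conj hc
  have hn1 : Sn f (nn8 1) 1 := by
    obtain ⟨c, hc, e⟩ := F.nsq1
    have e' : nn8 1 = c * (g8 7 * g8 7) * c⁻¹ := by rw [← e]; group
    rw [e']; exact s77.conj hc
  have hn : ∀ j, Sn f (nn8 j) 1 := by
    intro j
    rcases j with _ | j
    · exact hn0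
    · exact hn1
  have hW : ∀ w, Sn f (nWd w) 1 := by
    intro w
    induction w with
    | nil => exact Sn.one
    | cons j w ih =>
      have e : nWd (j :: w) = nn8 j * nWd w := by unfold nWd; rw [List.map_cons, List.prod_cons]
      rw [e]
      have := (hn j).mul ih
      rwa [one_mul] at this
  have hev := fun a => Sn_ev hf a
  have hx5 : Sn f x5 1 := by
    have := s77.mul hn1
    rwa [one_mul] at this
  have huw : ∀ a w, Sn f (uw a w) ((-1) ^ (a 1 + a 3 + a 5 + a 7)) := by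
    intro a w
    have := (hev a).mul (hW w)
    rwa [mul_one] at this
  have hpm : ∀ s : ℤˣ, s = 1 ∨ s = -1 := fun s => Int.units_eq_one_or s
  obtain ⟨z, hz, hzx⟩ : ∃ z, Sn f z (-1) ∧ z * x5 = x5 * z := by
    obtain ⟨a, b, w, -, -, h1, h2⟩ := F.cen
    refine ⟨uw a w * ev g8 (nfL b), ?_, h2⟩
    have h3 := (huw a w).mul (hev b)
    rw [← pow_add, Odd.neg_one_pow (Nat.odd_iff.2 h1)] at h3
    exact h3
  have adj : ∀ u ∈ (twF Z).G1, ∃ u', Sn f u' 1 ∧ u' * x5 * u'⁻¹ = u * x5 * u⁻¹ := by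
    intro u hu
    obtain ⟨s, hs⟩ := Sn.of (f := f) hu
    rcases hpm s with rfl | rfl
    · exact ⟨u, hs, rfl⟩
    · refine ⟨u * z, ?_, ?_⟩
      · have := hs.mul hz
        have e : (-1 : ℤˣ) * -1 = 1 := by decide
        rwa [e] at this
      · calc u * z * x5 * (u * z)⁻¹ = u * (z * x5) * z⁻¹ * u⁻¹ := by group
          _ = _ := by rw [hzx]; group
  have key : ∀ g : GF, Sn f g 1 → g ≠ 1 → ∃ u v, Sn f u 1 ∧ Sn f v 1 ∧ g = (u * x5 * u⁻¹) * (v * x5 * v⁻¹) := by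
    intro g hg hg1
    have hgG : g ∈ (twF Z).tw.Grp := by rw [TwData.tw_Grp]; exact hg.mem
    obtain ⟨c, hc, h⟩ := red2 (twF Z).tw (H_bot Z hK2) hgG hg1
    have hcG : c ∈ (twF Z).G1 := by rw [← TwData.tw_Grp]; exact hc
    have hcg : Sn f (c * g * c⁻¹) 1 := hg.conj hcG
    have hE : ∀ a w, c * g * c⁻¹ = uw a w → Ev8 a := by
      intro a w e
      rw [e] at hcg
      have h1 := (huw a w).eq hcg
      unfold Ev8
      by_contra h2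
      have h3 : Odd (a 1 + a 3 + a 5 + a 7) := by rw [Nat.odd_iff]; omega
      rw [h3.neg_one_pow] at h1
      exact absurd h1 (by decide)
    have hgood : Good5 Z (c * g * c⁻¹) := by
      rcases h with ⟨u, hu, e⟩ | ⟨u, hu, e⟩ | ⟨u, hu, e⟩
      · obtain ⟨a, ha, rfl⟩ := exists_u Z hu
        rw [nd15] at e
        rw [e]
        exact F.main15 a (fun i _ => ha i) (hE a _ e)
      · obtain ⟨a, ha, rfl⟩ := exists_u Z ((twF Z).tw.Ui_le_U 1 hu)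
        rw [nd13] at e
        rw [e]
        exact F.main13 a (fun i _ => ha i) (hE a _ e) (a7_of Z (ha 7) hu)
      · obtain ⟨a, ha, rfl⟩ := exists_u Z ((twF Z).tw.Ui_le_U 0 hu)
        rw [nd14] at e
        rw [e]
        exact F.main14 a (fun i _ => ha i) (hE a _ e) (a0_of Z (ha 0) hu)
    obtain ⟨y, hy, hy5, hy1, hye5, hye1⟩ := hgood
    obtain ⟨c1, hc1, e1⟩ := h5 y⁻¹ (inv_mem hy) (by rw [inv_pow, hy5, inv_one]) (fun h => hy1 (inv_eq_one.1 h))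
    obtain ⟨c2, hc2, e2⟩ := h5 (y * (c * g * c⁻¹)) (mul_mem hy hcg.mem) hye5 hye1
    obtain ⟨u, hu, eu⟩ := adj (c⁻¹ * c1) (mul_mem (inv_mem hcG) hc1)
    obtain ⟨v, hv, ev'⟩ := adj (c⁻¹ * c2) (mul_mem (inv_mem hcG) hc2)
    refine ⟨u, v, hu, hv, ?_⟩
    rw [eu, ev']
    calc g = c⁻¹ * (y⁻¹ * (y * (c * g * c⁻¹))) * c := by group
      _ = c⁻¹ * ((c1 * x5 * c1⁻¹) * (c2 * x5 * c2⁻¹)) * c := by rw [e2, e1]
      _ = _ := by group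
  refine ⟨⟨⟨x5, hx5.1⟩, (hT _).2 hx5.2⟩, ?_, ?_⟩
  · refine Odd.of_dvd_nat (n := 5) (by decide) (orderOf_dvd_of_pow_eq_one ?_)
    apply Subtype.ext
    apply Subtype.ext
    exact F.hx5
  · rintro ⟨⟨g, hgG⟩, hgT⟩ hg1
    have h1 : g ≠ 1 := by
      rintro rfl
      exact hg1 rfl
    obtain ⟨u, v, hu, hv, e⟩ := key g ⟨hgG, (hT _).1 hgT⟩ h1
    refine ⟨⟨⟨u, hu.1⟩, (hT _).2 hu.2⟩, ⟨⟨v, hv.1⟩, (hT _).2 hv.2⟩, ?_⟩
    apply Subtype.ext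
    apply Subtype.ext
    exact e

end T

theorem trM {M N : Type*} [Group M] [Group N] (e : M ≃* N)
    (h : ∃ x : N, Odd (orderOf x) ∧ ∀ g : N, g ≠ 1 → ∃ u v : N, g = (u * x * u⁻¹) * (v * x * v⁻¹)) :
    ∃ x : M, Odd (orderOf x) ∧ ∀ g : M, g ≠ 1 → ∃ u v : M, g = (u * x * u⁻¹) * (v * x * v⁻¹) := by
  obtain ⟨x, hx, h⟩ := h
  refine ⟨e.symm x, by rwa [MulEquiv.orderOf_eq], fun g hg => ?_⟩
  obtain ⟨u, v, huv⟩ := h (e g) (fun h1 => hg ((map_eq_one_iff e e.injective).1 h1))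
  refine ⟨e.symm u, e.symm v, ?_⟩
  apply e.injective
  rw [huv]
  simp

/-- the Tits group -/
theorem tits_all (hF : ∀ Z : Sg (ZMod 2), Facts Z)
    (h5 : ∀ Z : Sg (ZMod 2), ∀ h : GF, h ∈ (twF Z).G1 → h ^ 5 = 1 → h ≠ 1 → ∃ c ∈ (twF Z).G1, h = c * x5 * c⁻¹) :
    ∃ x : Cfsg.Lie.TitsGroup, Odd (orderOf x) ∧ ∀ g : Cfsg.Lie.TitsGroup, g ≠ 1 →
      ∃ u v : Cfsg.Lie.TitsGroup, g = (u * x * u⁻¹) * (v * x * v⁻¹) := by
  obtain ⟨Z, ⟨e⟩⟩ := exists_equiv_tits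
  have h1 := tits_of (hF Z) (h5 Z)
  revert h1
  exact trM e.symm

end Cfsg.Agent.H51.TitsAsm
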