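import Cfsg.Agent.H51.TitsAsm

set_option autoImplicit false
set_option maxRecDepth 100000

/-!
The Tits group: elements of order five.
-/

namespace Cfsg.Agent.H51.TitsSyl

open Cfsg.Lie Cfsg.Agent.Chev Cfsg.Agent.ChevGrp Cfsg.Agent.ChevGrp.DData Cfsg.Agent.ChevWeyl Cfsg.Agent.ChevTw
  Cfsg.Agent.Tw3 Cfsg.Agent.ChevGrp.RGrp Cfsg.Agent.Tw4 Cfsg.Agent.Uni36 Cfsg.Agent.H80.Tits Cfsg.Agent.H51.TitsAsm

/-- Sylow 5-subgroups of order 25 -/
theorem h5_gen {L : Type*} [Group L] [Finite L] (hcard : Nat.card L = 35942400) {X Y : L} (hX : X ^ 5 = 1) (hX1 : X ≠ 1)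
    (hY : Y ^ 5 = 1) (hXY : X * Y = Y * X) (hne : ∀ i < 5, Y ≠ X ^ i)
    (hc : ∀ i < 5, ∀ k < 5, (i ≠ 0 ∨ k ≠ 0) → ∃ c, c * X = X ^ i * Y ^ k * c) (h : L) (h5 : h ^ 5 = 1) (h1 : h ≠ 1) :
    ∃ c, h = c * X * c⁻¹ := by
  classical
  have : Fact (Nat.Prime 5) := ⟨by norm_num⟩
  have oX : orderOf X = 5 := orderOf_eq_prime hX hX1
  have hY1 : Y ≠ 1 := by
    have := hne 0 (by norm_num)
    rwa [pow_zero] at this
  have oY : orderOf Y = 5 := orderOf_eq_prime hY hY1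
  have hYX : Y ∉ Subgroup.zpowers X := by
    intro hm
    rw [mem_zpowers_iff_mem_range_orderOf, Finset.mem_image] at hm
    obtain ⟨i, hi, e⟩ := hm
    rw [Finset.mem_range, oX] at hi
    exact hne i hi e.symm
  have hYk : ∀ k < 5, k ≠ 0 → Y ^ k ∉ Subgroup.zpowers X := by
    intro k hk hk0 hm
    apply hYX
    have h2 : Y ∈ Subgroup.zpowers (Y ^ k) := by
      rw [mem_zpowers_pow_iff, oY]
      interval_cases k
      · exact absurd rfl hk0
      · norm_num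
      · norm_num
      · norm_num
      · norm_num
    exact (Subgroup.zpowers_le.2 hm) h2
  have hpz : ∀ z : L, z ^ 5 = 1 → IsPGroup 5 ↥(Subgroup.zpowers z) := by
    rintro z hz ⟨w, hw⟩
    refine ⟨1, Subtype.ext ?_⟩
    obtain ⟨n, rfl⟩ := Subgroup.mem_zpowers_iff.1 hw
    show (z ^ n) ^ 5 ^ 1 = 1
    rw [pow_one, ← zpow_natCast, ← zpow_mul, mul_comm, zpow_mul, zpow_natCast, hz, one_zpow]
  have hnorm : Subgroup.zpowers Y ≤ Subgroup.normalizer (Subgroup.zpowers X : Set L) := by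
    refine le_trans ?_ (Subgroup.centralizer_le_normalizer _)
    rw [Subgroup.zpowers_le, Subgroup.mem_centralizer_iff]
    intro g hg
    obtain ⟨n, rfl⟩ := Subgroup.mem_zpowers_iff.1 hg
    exact ((show Commute X Y from hXY).zpow_left n).eq
  have hP : IsPGroup 5 ↥(Subgroup.zpowers X ⊔ Subgroup.zpowers Y) := IsPGroup.to_sup_of_normal_left' (hpz X hX) (hpz Y hY) hnorm
  obtain ⟨S, hS⟩ := hP.exists_le_sylow
  have hXS : X ∈ (S : Subgroup L) := hS (Subgroup.mem_sup_left (Subgroup.mem_zpowers X))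
  have hYS : Y ∈ (S : Subgroup L) := hS (Subgroup.mem_sup_right (Subgroup.mem_zpowers Y))
  have hcS : Nat.card S = 25 := by
    have h2 := S.card_eq_multiplicity
    have h3 : Nat.factorization (Nat.card L) 5 = 2 := by
      rw [hcard]
      have e : (35942400 : ℕ) = 5 ^ 2 * 1437696 := by norm_num
      rw [e, Nat.factorization_mul (by norm_num) (by norm_num), Nat.Prime.factorization_pow (by norm_num)]
      have e2 : Nat.factorization 1437696 5 = 0 := Nat.factorization_eq_zero_of_not_dvd (by norm_num)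
      simp [e2]
    rw [h3] at h2
    exact h2
  have hinj : Function.Injective (fun p : Fin 5 × Fin 5 =>
      (⟨X ^ (p.1 : ℕ) * Y ^ (p.2 : ℕ), mul_mem (pow_mem hXS _) (pow_mem hYS _)⟩ : ↥(S : Subgroup L))) := by
    have hkk : ∀ i k i' k' : ℕ, i < 5 → k < 5 → i' < 5 → k' < 5 → k' ≤ k → X ^ i * Y ^ k = X ^ i' * Y ^ k' → i = i' ∧ k = k' := by
      intro i k i' k' hi hk hi' hk' hle e
      have e1 : Y ^ (k - k') = (X ^ i)⁻¹ * X ^ i' := by
        have e2 : Y ^ k = Y ^ (k - k') * Y ^ k' := by rw [← pow_add, Nat.sub_add_cancel hle]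
        rw [e2, ← mul_assoc] at e
        rw [← mul_right_cancel e]; group
      have e3 : k - k' = 0 := by
        by_contra h0
        apply hYk (k - k') (by omega) h0
        rw [e1]
        exact mul_mem (inv_mem (Subgroup.npow_mem_zpowers _ _)) (Subgroup.npow_mem_zpowers _ _)
      have e4 : k = k' := by omega
      subst e4
      have e5 := mul_right_cancel e
      exact ⟨pow_injOn_Iio_orderOf (by rw [oX]; exact hi) (by rw [oX]; exact hi') e5, rfl⟩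
    rintro ⟨i, k⟩ ⟨i', k'⟩ e
    have e' : X ^ (i : ℕ) * Y ^ (k : ℕ) = X ^ (i' : ℕ) * Y ^ (k' : ℕ) := congrArg Subtype.val e
    rcases le_total (k' : ℕ) (k : ℕ) with hle | hle
    · obtain ⟨h2, h3⟩ := hkk i k i' k' i.2 k.2 i'.2 k'.2 hle e'
      exact Prod.ext (Fin.ext h2) (Fin.ext h3)
    · obtain ⟨h2, h3⟩ := hkk i' k' i k i'.2 k'.2 i.2 k.2 hle e'.symm
      exact Prod.ext (Fin.ext h2.symm) (Fin.ext h3.symm)
  have hbij := hinj.bijective_of_nat_card_le (by rw [hcS]; simp)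
  have hall : ∀ z ∈ (S : Subgroup L), z ≠ 1 → ∃ c, z = c * X * c⁻¹ := by
    intro z hz hz1
    obtain ⟨⟨i, k⟩, e⟩ := hbij.2 ⟨z, hz⟩
    have e' : X ^ (i : ℕ) * Y ^ (k : ℕ) = z := congrArg Subtype.val e
    have hik : (i : ℕ) ≠ 0 ∨ (k : ℕ) ≠ 0 := by
      by_contra hcon
      push Not at hcon
      apply hz1
      rw [← e', hcon.1, hcon.2, pow_zero, pow_zero, mul_one]
    obtain ⟨c, hcc⟩ := hc i i.2 k k.2 hik
    refine ⟨c, ?_⟩
    rw [hcc, ← e']; group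
  obtain ⟨S', hS'⟩ := (hpz h h5).exists_le_sylow
  obtain ⟨g, hg⟩ := MulAction.exists_smul_eq L S' S
  have hmem : g * h * g⁻¹ ∈ (S : Subgroup L) := by
    rw [← hg, Sylow.coe_subgroup_smul, Subgroup.mem_pointwise_smul_iff_inv_smul_mem, MulAut.smul_def, ← map_inv,
      MulAut.conj_apply, inv_inv]
    have e : g⁻¹ * (g * h * g⁻¹) * g = h := by group
    rw [e]
    exact hS' (Subgroup.mem_zpowers h)
  have hne1 : g * h * g⁻¹ ≠ 1 := by
    intro e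
    apply h1
    have : h = g⁻¹ * (g * h * g⁻¹) * g := by group
    rw [this, e]; group
  obtain ⟨c, hcc⟩ := hall _ hmem hne1
  refine ⟨g⁻¹ * c, ?_⟩
  have : h = g⁻¹ * (g * h * g⁻¹) * g := by group
  rw [this, hcc]; group

theorem h5_sub {G : Type*} [Group G] (L : Subgroup G) [Finite ↥L] (hcard : Nat.card L = 35942400) {x y : G} (hx : x ∈ L)
    (hy : y ∈ L) (hx5 : x ^ 5 = 1) (hx1 : x ≠ 1) (hy5 : y ^ 5 = 1) (hxy : x * y = y * x) (hne : ∀ i < 5, y ≠ x ^ i)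
    (hc : ∀ i < 5, ∀ k < 5, (i ≠ 0 ∨ k ≠ 0) → ∃ c ∈ L, c * x = x ^ i * y ^ k * c) :
    ∀ h : G, h ∈ L → h ^ 5 = 1 → h ≠ 1 → ∃ c ∈ L, h = c * x * c⁻¹ := by
  intro h hh h5 h1
  obtain ⟨c, e⟩ := h5_gen hcard (X := (⟨x, hx⟩ : ↥L)) (Y := ⟨y, hy⟩) (Subtype.ext hx5)
    (fun e => hx1 (congrArg Subtype.val e)) (Subtype.ext hy5) (Subtype.ext hxy)
    (fun i hi e => hne i hi (congrArg Subtype.val e))
    (fun i hi k hk hik => by
      obtain ⟨c, hc, e⟩ := hc i hi k hk hik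
      exact ⟨⟨c, hc⟩, Subtype.ext e⟩) ⟨h, hh⟩ (Subtype.ext h5) (fun e => h1 (congrArg Subtype.val e))
  exact ⟨c, c.2, congrArg Subtype.val e⟩

variable {Z : Sg (ZMod 2)}

lemma card_G1 : Nat.card ↥(twF Z).G1 = 35942400 := by
  have := finite_G1 Z hK2
  have e0 := TwData.tw_Grp (twF Z)
  have hfin : Finite ↥(twF Z).tw.Grp := by rw [e0]; infer_instance
  have h1 := card_GrpK Z hK2
  rw [e0] at h1
  rw [h1]

theorem h5_of (F : Facts Z) : ∀ h : GF, h ∈ (twF Z).G1 → h ^ 5 = 1 → h ≠ 1 → ∃ c ∈ (twF Z).G1, h = c * x5 * c⁻¹ := by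
  have hfin : Finite ↥(twF Z).G1 := finite_G1 Z hK2
  obtain ⟨y, hy, hy5, hxy, hne, hc⟩ := F.y5
  have g7 : (g8 7 : GF) ∈ (twF Z).G1 := g8_mem_G1 Z hK2 (by norm_num)
  have hn1 : nn8 1 ∈ (twF Z).G1 := by
    obtain ⟨c, hc, e⟩ := F.nsq1
    have e' : nn8 1 = c * (g8 7 * g8 7) * c⁻¹ := by rw [← e]; group
    rw [e']; exact mul_mem (mul_mem hc (mul_mem g7 g7)) (inv_mem hc)
  have hx : x5 ∈ (twF Z).G1 := mul_mem (mul_mem g7 g7) hn1
  exact h5_sub (twF Z).G1 card_G1 hx hy F.hx5 F.hx5_ne hy5 hxy hne hc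

/-- the Tits group -/
theorem tits_facts (hF : ∀ Z : Sg (ZMod 2), Facts Z) :
    ∃ x : Cfsg.Lie.TitsGroup, Odd (orderOf x) ∧ ∀ g : Cfsg.Lie.TitsGroup, g ≠ 1 →
      ∃ u v : Cfsg.Lie.TitsGroup, g = (u * x * u⁻¹) * (v * x * v⁻¹) :=
  tits_all hF fun Z => h5_of (hF Z)

end Cfsg.Agent.H51.TitsSyl
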