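import Cfsg.Agent.H51.SqH
import Cfsg.Agent.Tw3.SimpD4

set_option autoImplicit false
set_option maxRecDepth 100000

/-!
Systems of root subgroups of type G2: radicals of the two parabolic subgroups, centralizers of torus elements.
-/

namespace Cfsg.Agent.H51.TqA

open Cfsg.Lie Cfsg.Agent.Chev Cfsg.Agent.ChevGrp Cfsg.Agent.ChevF Cfsg.Agent.H51.G2W Cfsg.Agent.H51.SqC Cfsg.Agent.H51.SqE

/-- the root system -/
noncomputable abbrev S := DData.dG2.rp.wsys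

lemma pos_iff (r : Fin chevG2.nroots) : S.Pos r ↔ 6 ≤ (r : ℕ) := SqH.pos_iff r

lemma neg_val (r : Fin chevG2.nroots) : ((S.neg r : Fin chevG2.nroots) : ℕ) = 11 - r := by
  have h3 : ((S.neg r : Fin chevG2.nroots) : ℕ) = chevG2.neg (r : ℕ) := DData.dG2.hneg _
  rw [h3, SqB.neg_val r]

variable {Γ : Type*} [Group Γ]

lemma le_norm {K U : Subgroup Γ} (h : ∀ k ∈ K, ∀ u ∈ U, k * u * k⁻¹ ∈ U) : K ≤ Subgroup.normalizer (U : Set Γ) := by
  intro k hk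
  rw [Subgroup.mem_normalizer_iff]
  intro u
  constructor
  · exact h k hk u
  · intro hu
    have := h k⁻¹ (inv_mem hk) _ hu
    have e : k⁻¹ * (k * u * k⁻¹) * k⁻¹⁻¹ = u := by group
    rwa [e] at this

lemma of_norm {K U : Subgroup Γ} (h : K ≤ Subgroup.normalizer (U : Set Γ)) {k u : Γ} (hk : k ∈ K) (hu : u ∈ U) : k * u * k⁻¹ ∈ U :=
  (Subgroup.mem_normalizer_iff.1 (h hk) u).1 hu

lemma of_norm' {K U : Subgroup Γ} (h : K ≤ Subgroup.normalizer (U : Set Γ)) {k u : Γ} (hk : k ∈ K) (hu : u ∈ U) : k⁻¹ * u * k ∈ U := by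
  have := of_norm h (inv_mem hk) hu
  rwa [inv_inv] at this

variable (R : RGrp S Γ)

/-- Levi subgroup -/
noncomputable def Lv (j : Fin chevG2.rank) : Subgroup Γ := R.Li j ⊔ R.H

/-- opposite radical -/
noncomputable def Vi (j : Fin chevG2.rank) : Subgroup Γ := gen R.X (fun r => ¬ S.Pos r ∧ r ≠ S.neg (S.p j))

/-- longest element -/
noncomputable def n0 : Γ := R.nd w0

variable {R}

lemma H_Lv {j : Fin chevG2.rank} : R.H ≤ Lv R j := le_sup_right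
lemma X_Lv {j : Fin chevG2.rank} : R.X (S.p j) ≤ Lv R j := le_sup_left.trans le_sup_left
lemma Y_Lv {j : Fin chevG2.rank} : R.X (S.neg (S.p j)) ≤ Lv R j := le_sup_right.trans le_sup_left

lemma Lv_norm_Ui (j : Fin chevG2.rank) : Lv R j ≤ Subgroup.normalizer (R.Ui j : Set Γ) := by
  refine sup_le (sup_le ?_ ?_) ?_
  · exact le_norm (R.XU j)
  · exact le_norm (RGrp.Xneg_norm j)
  · exact le_norm (R.H_norm_gen _)

lemma act_n0 : R.Act (n0 R) (S.wd w0) := RGrp.act_nd _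

lemma w0_w0 (r : Fin chevG2.nroots) : (S.wd w0 r : Fin chevG2.nroots) = S.neg r := by
  apply Fin.ext
  rw [wd_val, w0_val, neg_val]

lemma n0_gen {P Q : Fin chevG2.nroots → Prop} (h : ∀ r, P r → Q (S.neg r)) {x : Γ} (hx : x ∈ gen R.X P) :
    n0 R * x * (n0 R)⁻¹ ∈ gen R.X Q := by
  refine RGrp.act_gen act_n0 (fun r hr => ?_) x hx
  rw [w0_w0]; exact h r hr

lemma n0_gen' {P Q : Fin chevG2.nroots → Prop} (h : ∀ r, P r → Q (S.neg r)) {x : Γ} (hx : x ∈ gen R.X P) :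
    (n0 R)⁻¹ * x * n0 R ∈ gen R.X Q := by
  have h1 : (S.wd w0)⁻¹ = S.wd w0 := by
    apply Equiv.ext
    intro r
    rw [Equiv.Perm.inv_eq_iff_eq]
    rw [w0_w0, w0_w0, WSys.neg_neg]
  refine RGrp.act_gen' act_n0 (fun r hr => ?_) x hx
  rw [h1, w0_w0]; exact h r hr

lemma n0_N : n0 R ∈ R.N := RGrp.nd_mem_N _

lemma npos_neg (r : Fin chevG2.nroots) : ¬ S.Pos (S.neg r) ↔ S.Pos r := by
  rw [S.pos_neg_iff]; simp

lemma n0_Vi {j : Fin chevG2.rank} {u : Γ} (hu : u ∈ Vi R j) : n0 R * u * (n0 R)⁻¹ ∈ R.Ui j := by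
  refine n0_gen (fun r hr => ⟨?_, ?_⟩) hu
  · rw [S.pos_neg_iff]; exact hr.1
  · intro h; exact hr.2 (by rw [← h, WSys.neg_neg])

lemma n0_Vi' {j : Fin chevG2.rank} {u : Γ} (hu : u ∈ Vi R j) : (n0 R)⁻¹ * u * n0 R ∈ R.Ui j := by
  refine n0_gen' (fun r hr => ⟨?_, ?_⟩) hu
  · rw [S.pos_neg_iff]; exact hr.1
  · intro h; exact hr.2 (by rw [← h, WSys.neg_neg])

lemma n0_Ui {j : Fin chevG2.rank} {u : Γ} (hu : u ∈ R.Ui j) : n0 R * u * (n0 R)⁻¹ ∈ Vi R j := by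
  refine n0_gen (fun r hr => ⟨?_, ?_⟩) hu
  · rw [npos_neg]; exact hr.1
  · intro h
    apply hr.2
    have := congrArg S.neg h
    rwa [WSys.neg_neg, WSys.neg_neg] at this

lemma n0_Ui' {j : Fin chevG2.rank} {u : Γ} (hu : u ∈ R.Ui j) : (n0 R)⁻¹ * u * n0 R ∈ Vi R j := by
  refine n0_gen' (fun r hr => ⟨?_, ?_⟩) hu
  · rw [npos_neg]; exact hr.1
  · intro h
    apply hr.2
    have := congrArg S.neg h
    rwa [WSys.neg_neg, WSys.neg_neg] at this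

lemma Li_gen (j : Fin chevG2.rank) : R.Li j = gen R.X (fun r => r = S.p j ∨ r = S.neg (S.p j)) := by
  apply le_antisymm
  · exact sup_le (le_gen (P := fun r => r = S.p j ∨ r = S.neg (S.p j)) (Or.inl rfl)) (le_gen (P := fun r => r = S.p j ∨ r = S.neg (S.p j)) (Or.inr rfl))
  · rw [gen_le]
    rintro r (rfl | rfl)
    · exact le_sup_left
    · exact le_sup_right

lemma n0_Lv {j : Fin chevG2.rank} {u : Γ} (hu : u ∈ Lv R j) : n0 R * u * (n0 R)⁻¹ ∈ Lv R j := by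
  have h : Lv R j ≤ (Lv R j).comap (MulAut.conj (n0 R)).toMonoidHom := by
    refine sup_le ?_ (fun h hh => H_Lv (RGrp.N_conj_H n0_N hh))
    intro x hx
    refine Subgroup.mem_sup_left ?_
    rw [Li_gen] at hx ⊢
    refine n0_gen ?_ hx
    rintro r (rfl | rfl)
    · right; rfl
    · left; exact WSys.neg_neg _ _
  exact h hu

lemma Lv_norm_Vi (j : Fin chevG2.rank) : Lv R j ≤ Subgroup.normalizer (Vi R j : Set Γ) := by
  apply le_norm
  intro k hk u hu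
  have h1 := of_norm (Lv_norm_Ui j) (n0_Lv hk) (n0_Vi hu)
  have h2 := n0_Ui' h1
  have e : (n0 R)⁻¹ * (n0 R * k * (n0 R)⁻¹ * (n0 R * u * (n0 R)⁻¹) * (n0 R * k * (n0 R)⁻¹)⁻¹) * n0 R = k * u * k⁻¹ := by group
  rwa [e] at h2

/-! ### centralizers -/

/-- `t` centralizes no nontrivial element of the root subgroup -/
def Ct (R : RGrp S Γ) (t : Γ) (r : Fin chevG2.nroots) : Prop := ∀ x ∈ R.X r, t * x = x * t → x = 1

lemma X_inf_Ui {j : Fin chevG2.rank} {x : Γ} (hx : x ∈ R.X (S.p j)) (hx' : x ∈ R.Ui j) : x = 1 := by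
  have h1 := RGrp.nn_Ui j x hx'
  have h2 := R.nn_X j _ x hx
  rw [S.w_p] at h2
  have h3 : R.nn j * x * (R.nn j)⁻¹ = 1 := by
    refine R.U_inf_V (R.Ui_le_U j h1) (R.X_le_V ?_ h2)
    rw [npos_neg]; exact S.pos_p j
  have e : x = (R.nn j)⁻¹ * (R.nn j * x * (R.nn j)⁻¹) * R.nn j := by group
  rw [e, h3]; group

lemma split (j : Fin chevG2.rank) {t u : Γ} (ht : t ∈ R.H) (hu : u ∈ R.U) (hc : t * u = u * t) :
    ∃ x ∈ R.X (S.p j), ∃ v ∈ R.Ui j, u = x * v ∧ t * x = x * t ∧ t * v = v * t := by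
  obtain ⟨x, hx, v, hv, rfl⟩ := RGrp.mem_U j hu
  have h1 := R.H_X t ht _ x hx
  have h2 := of_norm (Lv_norm_Ui j) (H_Lv ht) hv
  have h3 : x⁻¹ * (t * x * t⁻¹) = 1 := by
    refine X_inf_Ui (mul_mem (inv_mem hx) h1) ?_
    have e : x⁻¹ * (t * x * t⁻¹) = v * (t * v * t⁻¹)⁻¹ := by
      have : t * (x * v) * t⁻¹ = x * v := by rw [hc]; group
      calc x⁻¹ * (t * x * t⁻¹) = x⁻¹ * (t * (x * v) * t⁻¹) * (t * v * t⁻¹)⁻¹ := by group
        _ = _ := by rw [this]; group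
    rw [e]; exact mul_mem hv (inv_mem h2)
  have h4 : t * x = x * t := by
    calc t * x = x * (x⁻¹ * (t * x * t⁻¹)) * t := by group
      _ = _ := by rw [h3, mul_one]
  refine ⟨x, hx, v, hv, rfl, h4, ?_⟩
  calc t * v = x⁻¹ * (x * t) * v := by group
    _ = x⁻¹ * (t * (x * v)) := by rw [← h4]; group
    _ = _ := by rw [hc]; group

/-- one step of the descent, without fixed points -/
lemma stepT (j : Fin chevG2.rank) {t u : Γ} (ht : t ∈ R.H) (hu : u ∈ R.U) (hc : t * u = u * t) (hC : Ct R t (S.p j)) :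
    R.nn j * t * (R.nn j)⁻¹ ∈ R.H ∧ R.nn j * u * (R.nn j)⁻¹ ∈ R.U ∧
    (R.nn j * t * (R.nn j)⁻¹) * (R.nn j * u * (R.nn j)⁻¹) = (R.nn j * u * (R.nn j)⁻¹) * (R.nn j * t * (R.nn j)⁻¹) := by
  obtain ⟨x, hx, v, hv, rfl, h1, h2⟩ := split j ht hu hc
  have h3 := hC x hx h1
  subst h3
  rw [one_mul] at hc ⊢
  refine ⟨R.nn_H j t ht, R.Ui_le_U j (RGrp.nn_Ui j v hv), ?_⟩
  calc (R.nn j * t * (R.nn j)⁻¹) * (R.nn j * v * (R.nn j)⁻¹) = R.nn j * (t * v) * (R.nn j)⁻¹ := by group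
    _ = _ := by rw [hc]; group

/-- one step of the descent -/
lemma stepS (j : Fin chevG2.rank) {t u : Γ} (ht : t ∈ R.H) (hu : u ∈ R.U) (hc : t * u = u * t) :
    ∃ x ∈ R.X (S.p j), ∃ v, u = x * v ∧ R.nn j * t * (R.nn j)⁻¹ ∈ R.H ∧ R.nn j * v * (R.nn j)⁻¹ ∈ R.U ∧
    (R.nn j * t * (R.nn j)⁻¹) * (R.nn j * v * (R.nn j)⁻¹) = (R.nn j * v * (R.nn j)⁻¹) * (R.nn j * t * (R.nn j)⁻¹) := by
  obtain ⟨x, hx, v, hv, rfl, h1, h2⟩ := split j ht hu hc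
  refine ⟨x, hx, v, rfl, R.nn_H j t ht, R.Ui_le_U j (RGrp.nn_Ui j v hv), ?_⟩
  calc (R.nn j * t * (R.nn j)⁻¹) * (R.nn j * v * (R.nn j)⁻¹) = R.nn j * (t * v) * (R.nn j)⁻¹ := by group
    _ = _ := by rw [h2]; group

lemma stepU (j : Fin chevG2.rank) {t u : Γ} (ht : t ∈ R.H) (hu : u ∈ R.Ui j) (hc : t * u = u * t) :
    R.nn j * t * (R.nn j)⁻¹ ∈ R.H ∧ R.nn j * u * (R.nn j)⁻¹ ∈ R.U ∧
    (R.nn j * t * (R.nn j)⁻¹) * (R.nn j * u * (R.nn j)⁻¹) = (R.nn j * u * (R.nn j)⁻¹) * (R.nn j * t * (R.nn j)⁻¹) := by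
  refine ⟨R.nn_H j t ht, R.Ui_le_U j (RGrp.nn_Ui j u hu), ?_⟩
  calc (R.nn j * t * (R.nn j)⁻¹) * (R.nn j * u * (R.nn j)⁻¹) = R.nn j * (t * u) * (R.nn j)⁻¹ := by group
    _ = _ := by rw [hc]; group

/-- conjugation by a word maps positive elements to negative ones -/
lemma to_V {L : List (Fin chevG2.rank)} {r : Fin chevG2.nroots} (h : wf L r < 6) {x : Γ} (hx : x ∈ R.X r) :
    R.nd L * x * (R.nd L)⁻¹ ∈ R.V := by
  have h1 := (RGrp.act_nd (R := R) L).conj hx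
  refine R.X_le_V ?_ h1
  rw [pos_iff, wd_val]; omega

lemma w0_to_V {L : List (Fin chevG2.rank)} (hL : ∀ r : Fin chevG2.nroots, 6 ≤ (r : ℕ) → wf L r < 6) {x : Γ} (hx : x ∈ R.U) :
    R.nd L * x * (R.nd L)⁻¹ ∈ R.V := by
  refine RGrp.act_gen (RGrp.act_nd L) (P := S.Pos) (Q := fun r => ¬ S.Pos r) ?_ x hx
  intro r hr
  have := hL r ((pos_iff r).1 hr)
  rw [pos_iff, wd_val]; omega

end Cfsg.Agent.H51.TqA
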