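import Cfsg.Agent.H51.TqA

set_option autoImplicit false
set_option maxRecDepth 100000

/-!
Relations in the twisted groups of type D4 (triality).
-/

namespace Cfsg.Agent.H51.TqB

open Cfsg.Lie Cfsg.Agent.Chev Cfsg.Agent.ChevGrp Cfsg.Agent.ChevF Cfsg.Agent.H51.G2W Cfsg.Agent.H51.SqC Cfsg.Agent.H51.SqE
  Cfsg.Agent.H51.TqA

variable {Γ : Type*} [Group Γ] {K : Type*} [Field K]

/-- automorphism on units -/
def pu (φ : K ≃+* K) : Kˣ →* Kˣ := Units.map (φ : K →* K)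

/-- norm -/
def Nm (φ : K ≃+* K) (c : Kˣ) : Kˣ := c * (pu φ c * pu φ (pu φ c))

lemma pu_val (φ : K ≃+* K) (c : Kˣ) : ((pu φ c : Kˣ) : K) = φ c := rfl

lemma Nm_mul (φ : K ≃+* K) (c d : Kˣ) : Nm φ (c * d) = Nm φ c * Nm φ d := by
  unfold Nm
  rw [map_mul, map_mul]
  apply Units.ext
  push_cast
  ring

lemma Nm_inv (φ : K ≃+* K) (c : Kˣ) : Nm φ c⁻¹ = (Nm φ c)⁻¹ := by
  unfold Nm
  rw [map_inv, map_inv, mul_inv, mul_inv]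

lemma Nm_fix {φ : K ≃+* K} {d : Kˣ} (hd : φ d = d) : Nm φ d = d * (d * d) := by
  have : pu φ d = d := Units.ext hd
  unfold Nm
  rw [this, this]

lemma fix_Nm {φ : K ≃+* K} (h3 : ∀ t, φ (φ (φ t)) = t) (c : Kˣ) : φ (Nm φ c) = Nm φ c := by
  unfold Nm
  simp only [Units.val_mul, map_mul, pu_val, h3]
  ring

/-- the relations -/
structure Rel (K : Type*) [Field K] (R : RGrp S Γ) where
  φ : K ≃+* K
  h3 : ∀ t, φ (φ (φ t)) = t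
  X : K → Γ
  Y : K → Γ
  Z : K → Γ
  W : K → Γ
  h : Kˣ → Γ
  b : Kˣ → Γ
  X_add : ∀ s t, X (s + t) = X s * X t
  Z_add : ∀ s t, Z (s + t) = Z s * Z t
  X_inj : ∀ s t, X s = X t → s = t
  Z_inj : ∀ s t, Z s = Z t → s = t
  mem_X : ∀ g, g ∈ R.X (S.p j0) ↔ ∃ t, X t = g
  mem_Y : ∀ g, g ∈ R.X (S.neg (S.p j0)) ↔ ∃ t, Y t = g
  mem_Z : ∀ g, g ∈ R.X (S.p j1) ↔ ∃ t, φ t = t ∧ Z t = g
  mem_W : ∀ g, g ∈ R.X (S.neg (S.p j1)) ↔ ∃ t, φ t = t ∧ W t = g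
  h_mul : ∀ c d, h (c * d) = h c * h d
  b_mul : ∀ c d, b (c * d) = b c * b d
  mem_H : ∀ g, g ∈ R.H ↔ ∃ c d : Kˣ, φ d = d ∧ g = h c * b d
  hbc : ∀ c d, h c * b d = b d * h c
  hX : ∀ (c : Kˣ) (u : K), h c * X u * (h c)⁻¹ = X (((c * c : Kˣ) : K) * u)
  bX : ∀ (d : Kˣ) (u : K), φ d = d → b d * X u * (b d)⁻¹ = X (((d⁻¹ : Kˣ) : K) * u)
  hZ : ∀ (c : Kˣ) (u : K), φ u = u → h c * Z u * (h c)⁻¹ = Z ((((Nm φ c)⁻¹ : Kˣ) : K) * u)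
  bZ : ∀ (d : Kˣ) (u : K), φ d = d → φ u = u → b d * Z u * (b d)⁻¹ = Z (((d * d : Kˣ) : K) * u)
  nh : ∀ c, R.nn j0 * h c * (R.nn j0)⁻¹ = h c⁻¹
  nb : ∀ d : Kˣ, φ d = d → R.nn j0 * b d * (R.nn j0)⁻¹ = h d * b d
  mh : ∀ c, R.nn j1 * h c * (R.nn j1)⁻¹ = h c * b (Nm φ c)
  mb : ∀ d : Kˣ, φ d = d → R.nn j1 * b d * (R.nn j1)⁻¹ = b d⁻¹
  nsq : R.nn j0 * R.nn j0 = h (-1)
  msq : R.nn j1 * R.nn j1 = b (-1)
  hn : ∀ c : Kˣ, X c * Y (-((c⁻¹ : Kˣ) : K)) * X c = h c * R.nn j0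
  bm : ∀ d : Kˣ, φ d = d → Z d * W (-((d⁻¹ : Kˣ) : K)) * Z d = b d * R.nn j1
  nX : ∀ u, R.nn j0 * X u * (R.nn j0)⁻¹ = Y (-u)
  mZ : ∀ u, φ u = u → R.nn j1 * Z u * (R.nn j1)⁻¹ = W (-u)
  comm1 : ∀ x ∈ R.X (⟨9, by decide⟩ : Fin chevG2.nroots), ∀ y ∈ R.X (⟨6, by decide⟩ : Fin chevG2.nroots), x * y = y * x
  comm2 : ∀ x ∈ R.X (⟨4, by decide⟩ : Fin chevG2.nroots), ∀ y ∈ R.X (⟨6, by decide⟩ : Fin chevG2.nroots), x * y = y * x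
  comm3 : ∀ x ∈ R.X (⟨6, by decide⟩ : Fin chevG2.nroots), ∀ y ∈ R.X (⟨11, by decide⟩ : Fin chevG2.nroots), x * y = y * x

namespace Rel

variable {R : RGrp S Γ} (r : Rel K R)

/-- torus element -/
def tt (c d : Kˣ) : Γ := r.h c * r.b d

lemma h_one : r.h 1 = 1 := by
  have := r.h_mul 1 1
  rw [mul_one] at this
  exact mul_eq_left.1 this.symm

lemma b_one : r.b 1 = 1 := by
  have := r.b_mul 1 1
  rw [mul_one] at this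
  exact mul_eq_left.1 this.symm

lemma h_inv (c : Kˣ) : r.h c⁻¹ = (r.h c)⁻¹ := by
  rw [eq_inv_iff_mul_eq_one, ← r.h_mul, inv_mul_cancel, r.h_one]

lemma b_inv (c : Kˣ) : r.b c⁻¹ = (r.b c)⁻¹ := by
  rw [eq_inv_iff_mul_eq_one, ← r.b_mul, inv_mul_cancel, r.b_one]

lemma X_zero : r.X 0 = 1 := by
  have := r.X_add 0 0
  rw [add_zero] at this
  exact mul_eq_left.1 this.symm

lemma Z_zero : r.Z 0 = 1 := by
  have := r.Z_add 0 0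
  rw [add_zero] at this
  exact mul_eq_left.1 this.symm

lemma X_neg (u : K) : r.X (-u) = (r.X u)⁻¹ := by
  rw [eq_inv_iff_mul_eq_one, ← r.X_add, neg_add_cancel, r.X_zero]

lemma Z_neg (u : K) : r.Z (-u) = (r.Z u)⁻¹ := by
  rw [eq_inv_iff_mul_eq_one, ← r.Z_add, neg_add_cancel, r.Z_zero]

lemma tt_mul (c d c' d' : Kˣ) : r.tt c d * r.tt c' d' = r.tt (c * c') (d * d') := by
  unfold tt
  rw [r.h_mul, r.b_mul]
  calc r.h c * r.b d * (r.h c' * r.b d') = r.h c * (r.b d * r.h c') * r.b d' := by group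
    _ = r.h c * (r.h c' * r.b d) * r.b d' := by rw [r.hbc]
    _ = _ := by group

lemma tt_one : r.tt 1 1 = 1 := by
  unfold tt; rw [r.h_one, r.b_one, one_mul]

lemma tt_inv (c d : Kˣ) : (r.tt c d)⁻¹ = r.tt c⁻¹ d⁻¹ := by
  rw [inv_eq_iff_mul_eq_one, r.tt_mul, mul_inv_cancel, mul_inv_cancel, r.tt_one]

lemma tt_H {c d : Kˣ} (hd : r.φ d = d) : r.tt c d ∈ R.H := (r.mem_H _).2 ⟨c, d, hd, rfl⟩

lemma h_eq (c : Kˣ) : r.h c = r.tt c 1 := by unfold tt; rw [r.b_one, mul_one]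
lemma b_eq (d : Kˣ) : r.b d = r.tt 1 d := by unfold tt; rw [r.h_one, one_mul]

lemma tX {c d : Kˣ} (hd : r.φ d = d) (u : K) : r.tt c d * r.X u * (r.tt c d)⁻¹ = r.X (((c * c * d⁻¹ : Kˣ) : K) * u) := by
  have e : r.tt c d * r.X u * (r.tt c d)⁻¹ = r.h c * (r.b d * r.X u * (r.b d)⁻¹) * (r.h c)⁻¹ := by unfold tt; group
  rw [e, r.bX d u hd, r.hX]
  congr 1
  push_cast
  ring

lemma tZ {c d : Kˣ} (hd : r.φ d = d) {u : K} (hu : r.φ u = u) :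
    r.tt c d * r.Z u * (r.tt c d)⁻¹ = r.Z (((d * d * (Nm r.φ c)⁻¹ : Kˣ) : K) * u) := by
  have e : r.tt c d * r.Z u * (r.tt c d)⁻¹ = r.h c * (r.b d * r.Z u * (r.b d)⁻¹) * (r.h c)⁻¹ := by unfold tt; group
  have h1 : r.φ (((d * d : Kˣ) : K) * u) = ((d * d : Kˣ) : K) * u := by
    rw [Units.val_mul, map_mul, map_mul, hd, hu]
  rw [e, r.bZ d u hd hu, r.hZ _ _ h1]
  congr 1
  push_cast
  ring

lemma nt {c d : Kˣ} (hd : r.φ d = d) : R.nn j0 * r.tt c d * (R.nn j0)⁻¹ = r.tt (c⁻¹ * d) d := by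
  have e : R.nn j0 * r.tt c d * (R.nn j0)⁻¹ = (R.nn j0 * r.h c * (R.nn j0)⁻¹) * (R.nn j0 * r.b d * (R.nn j0)⁻¹) := by unfold tt; group
  rw [e, r.nh, r.nb d hd]
  unfold tt
  rw [r.h_mul, mul_assoc]

lemma mt {c d : Kˣ} (hd : r.φ d = d) : R.nn j1 * r.tt c d * (R.nn j1)⁻¹ = r.tt c (Nm r.φ c * d⁻¹) := by
  have e : R.nn j1 * r.tt c d * (R.nn j1)⁻¹ = (R.nn j1 * r.h c * (R.nn j1)⁻¹) * (R.nn j1 * r.b d * (R.nn j1)⁻¹) := by unfold tt; group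
  rw [e, r.mh, r.mb d hd]
  unfold tt
  rw [r.b_mul, mul_assoc]

lemma nsq' : R.nn j0 * R.nn j0 = r.tt (-1) 1 := by rw [r.nsq, r.h_eq]

lemma nt' {c d : Kˣ} (hd : r.φ d = d) : (R.nn j0)⁻¹ * r.tt c d * R.nn j0 = r.tt (c⁻¹ * d) d := by
  have h1 := r.nt (c := c⁻¹ * d) hd
  have e : (c⁻¹ * d)⁻¹ * d = c := by rw [mul_inv, inv_inv, inv_mul_cancel_right]
  rw [e] at h1
  rw [← h1]; group

lemma fixN (c : Kˣ) : r.φ (Nm r.φ c) = Nm r.φ c := fix_Nm r.h3 c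

lemma mt' {c d : Kˣ} (hd : r.φ d = d) : (R.nn j1)⁻¹ * r.tt c d * R.nn j1 = r.tt c (Nm r.φ c * d⁻¹) := by
  have hd' : r.φ ((Nm r.φ c * d⁻¹ : Kˣ) : K) = ((Nm r.φ c * d⁻¹ : Kˣ) : K) := by
    rw [Units.val_mul, map_mul, r.fixN, Units.val_inv_eq_inv_val, map_inv₀, hd]
  have h1 := r.mt (c := c) hd'
  have e : Nm r.φ c * (Nm r.φ c * d⁻¹)⁻¹ = d := by rw [mul_inv, inv_inv, mul_inv_cancel_left]
  rw [e] at h1
  rw [← h1]; group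

/-- the rank one relation -/
lemma rn (v : Kˣ) : r.Y (v : K) = r.X ((v⁻¹ : Kˣ) : K) * (r.h (-v⁻¹) * R.nn j0) * r.X ((v⁻¹ : Kˣ) : K) := by
  have h1 := r.hn (-v⁻¹)
  have e : -(((-v⁻¹)⁻¹ : Kˣ) : K) = (v : K) := by
    rw [inv_neg, inv_inv, Units.val_neg, _root_.neg_neg]
  rw [e, Units.val_neg, r.X_neg] at h1
  rw [← h1]; group

lemma rm {v : Kˣ} (hv : r.φ v = v) : r.W (v : K) = r.Z ((v⁻¹ : Kˣ) : K) * (r.b (-v⁻¹) * R.nn j1) * r.Z ((v⁻¹ : Kˣ) : K) := by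
  have h1 := r.bm (-v⁻¹) (by rw [Units.val_neg, map_neg, Units.val_inv_eq_inv_val, map_inv₀, hv])
  have e : -(((-v⁻¹)⁻¹ : Kˣ) : K) = (v : K) := by
    rw [inv_neg, inv_inv, Units.val_neg, _root_.neg_neg]
  rw [e, Units.val_neg, r.Z_neg] at h1
  rw [← h1]; group

lemma X_mem (u : K) : r.X u ∈ R.X (S.p j0) := (r.mem_X _).2 ⟨u, rfl⟩
lemma Z_mem {u : K} (hu : r.φ u = u) : r.Z u ∈ R.X (S.p j1) := (r.mem_Z _).2 ⟨u, hu, rfl⟩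
lemma Y_mem (u : K) : r.Y u ∈ R.X (S.neg (S.p j0)) := (r.mem_Y _).2 ⟨u, rfl⟩
lemma W_mem {u : K} (hu : r.φ u = u) : r.W u ∈ R.X (S.neg (S.p j1)) := (r.mem_W _).2 ⟨u, hu, rfl⟩

include r in
lemma n_Lv : R.nn j0 ∈ Lv R j0 := by
  have h1 := r.hn 1
  rw [r.h_one, one_mul] at h1
  rw [← h1]
  exact mul_mem (mul_mem (X_Lv (r.X_mem _)) (Y_Lv (r.Y_mem _))) (X_Lv (r.X_mem _))

include r in
lemma m_Lv : R.nn j1 ∈ Lv R j1 := by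
  have h1 := r.bm 1 (by rw [Units.val_one, map_one])
  rw [r.b_one, one_mul] at h1
  have h0 : r.φ (((1 : Kˣ) : K)) = ((1 : Kˣ) : K) := by rw [Units.val_one, map_one]
  have h2 : r.φ (-(((1 : Kˣ)⁻¹ : Kˣ) : K)) = -(((1 : Kˣ)⁻¹ : Kˣ) : K) := by rw [inv_one, map_neg, Units.val_one, map_one]
  rw [← h1]
  exact mul_mem (mul_mem (X_Lv (r.Z_mem h0)) (Y_Lv (r.W_mem h2))) (X_Lv (r.Z_mem h0))

end Rel

/-! ### reflections -/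

/-- `ν` is a reflection in the root `s`, with torus adjustment `a` -/
def Adj (R : RGrp S Γ) (ν : Γ) (s : Fin chevG2.nroots) (a : Γ) : Prop :=
  ∃ z ∈ R.X s, ∃ w ∈ R.X (S.neg s), ∃ z' ∈ R.X s, ν = z * w * z' * a⁻¹

lemma Adj.conj {R : RGrp S Γ} {ν : Γ} {s : Fin chevG2.nroots} {a : Γ} (h : Adj R ν s a) {g : Γ} {u : Equiv.Perm (Fin chevG2.nroots)}
    (hg : R.Act g u) : Adj R (g * ν * g⁻¹) (u s) (g * a * g⁻¹) := by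
  obtain ⟨z, hz, w, hw, z', hz', rfl⟩ := h
  have hw' := hg.conj hw
  rw [S.W_neg hg.1] at hw'
  exact ⟨_, hg.conj hz, _, hw', _, hg.conj hz', by group⟩

lemma Adj.use {R : RGrp S Γ} {j : Fin chevG2.rank} {ν : Γ} {s : Fin chevG2.nroots} {a : Γ} (h : Adj R ν s a) (ha : a ∈ R.H)
    (hs : S.Pos s) (hsp : s ≠ S.p j) {l u : Γ} (hl : l ∈ Lv R j) (hu : u ∈ R.Ui j) :
    ∃ z ∈ R.X s, ∃ w ∈ R.X (S.neg s), ∃ u' ∈ R.Ui j, ν * l * u = z * w * (a⁻¹ * l) * u' := by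
  obtain ⟨z, hz, w, hw, z', hz', rfl⟩ := h
  have hal : a⁻¹ * l ∈ Lv R j := mul_mem (inv_mem (H_Lv ha)) hl
  refine ⟨z, hz, w, hw, (a⁻¹ * l)⁻¹ * z' * (a⁻¹ * l) * u, mul_mem (of_norm' (Lv_norm_Ui j) hal (R.X_le_Ui hs hsp hz')) hu, ?_⟩
  group

lemma adj_n {R : RGrp S Γ} (r : Rel K R) (c : Kˣ) : Adj R (R.nn j0) (S.p j0) (r.h c) := by
  have h1 := r.hn c
  refine ⟨(r.h c)⁻¹ * r.X c * r.h c, ?_, (r.h c)⁻¹ * r.Y (-((c⁻¹ : Kˣ) : K)) * r.h c, ?_, (r.h c)⁻¹ * r.X c * r.h c, ?_, ?_⟩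
  · have := R.H_X _ (inv_mem (r.h_eq c ▸ r.tt_H (c := c) (d := 1) (by simp))) _ _ (r.X_mem c)
    rwa [inv_inv] at this
  · have := R.H_X _ (inv_mem (r.h_eq c ▸ r.tt_H (c := c) (d := 1) (by simp))) _ _ (r.Y_mem (-((c⁻¹ : Kˣ) : K)))
    rwa [inv_inv] at this
  · have := R.H_X _ (inv_mem (r.h_eq c ▸ r.tt_H (c := c) (d := 1) (by simp))) _ _ (r.X_mem c)
    rwa [inv_inv] at this
  · calc R.nn j0 = (r.h c)⁻¹ * (r.h c * R.nn j0) := by group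
      _ = _ := by rw [← h1]; group

lemma adj_m {R : RGrp S Γ} (r : Rel K R) {d : Kˣ} (hd : r.φ d = d) : Adj R (R.nn j1) (S.p j1) (r.b d) := by
  have h1 := r.bm d hd
  have hdi : r.φ (-((d⁻¹ : Kˣ) : K)) = -((d⁻¹ : Kˣ) : K) := by rw [map_neg, Units.val_inv_eq_inv_val, map_inv₀, hd]
  have hbH : r.b d ∈ R.H := r.b_eq d ▸ r.tt_H (c := 1) hd
  refine ⟨(r.b d)⁻¹ * r.Z d * r.b d, ?_, (r.b d)⁻¹ * r.W (-((d⁻¹ : Kˣ) : K)) * r.b d, ?_, (r.b d)⁻¹ * r.Z d * r.b d, ?_, ?_⟩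
  · have := R.H_X _ (inv_mem hbH) _ _ (r.Z_mem hd)
    rwa [inv_inv] at this
  · have := R.H_X _ (inv_mem hbH) _ _ (r.W_mem hdi)
    rwa [inv_inv] at this
  · have := R.H_X _ (inv_mem hbH) _ _ (r.Z_mem hd)
    rwa [inv_inv] at this
  · calc R.nn j1 = (r.b d)⁻¹ * (r.b d * R.nn j1) := by group
      _ = _ := by rw [← h1]; group

end Cfsg.Agent.H51.TqB
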