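import Cfsg.Agent.H51.TqB

set_option autoImplicit false
set_option maxRecDepth 100000

/-!
Products of two conjugates of an element of a Levi subgroup: criterion, Bruhat form of the Levi subgroup.
-/

namespace Cfsg.Agent.H51.TqC

open Cfsg.Lie Cfsg.Agent.Chev Cfsg.Agent.ChevGrp Cfsg.Agent.ChevF Cfsg.Agent.H51.G2W Cfsg.Agent.H51.SqC Cfsg.Agent.H51.SqE
  Cfsg.Agent.H51.TqA Cfsg.Agent.H51.TqB

variable {Γ : Type*} [Group Γ] {R : RGrp S Γ}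

lemma X_Grp (s : Fin chevG2.nroots) : R.X s ≤ R.Grp := RGrp.X_le_Grp s
lemma H_Grp : R.H ≤ R.Grp := R.H_le_B.trans R.B_le_Grp
lemma U_Grp : R.U ≤ R.Grp := R.U_le_B.trans R.B_le_Grp
lemma Ui_Grp {j : Fin chevG2.rank} : R.Ui j ≤ R.Grp := (R.Ui_le_U j).trans U_Grp
lemma Vi_Grp {j : Fin chevG2.rank} : Vi R j ≤ R.Grp := by
  unfold Vi
  rw [gen_le]
  intro s _
  exact X_Grp s
lemma Lv_Grp {j : Fin chevG2.rank} : Lv R j ≤ R.Grp := sup_le (sup_le (X_Grp _) (X_Grp _)) H_Grp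

/-- products of two conjugates -/
def Gd (R : RGrp S Γ) (x g : Γ) : Prop := ∃ u ∈ R.Grp, ∃ v ∈ R.Grp, g = (u * x * u⁻¹) * (v * x * v⁻¹)

lemma Gd.conj {x g : Γ} (h : Gd R x g) {w : Γ} (hw : w ∈ R.Grp) : Gd R x (w * g * w⁻¹) := by
  obtain ⟨u, hu, v, hv, rfl⟩ := h
  exact ⟨w * u, mul_mem hw hu, w * v, mul_mem hw hv, by group⟩

lemma Gd.of_conj {x g : Γ} {w : Γ} (hw : w ∈ R.Grp) (h : Gd R x (w * g * w⁻¹)) : Gd R x g := by
  have := h.conj (inv_mem hw)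
  have e : w⁻¹ * (w * g * w⁻¹) * w⁻¹⁻¹ = g := by group
  rwa [e] at this

lemma Gd.of_conj' {x g : Γ} {w : Γ} (hw : w ∈ R.Grp) (h : Gd R x (w⁻¹ * g * w)) : Gd R x g := by
  refine Gd.of_conj (inv_mem hw) ?_
  rwa [inv_inv]

/-- centralizes no nontrivial element of the radicals -/
def CU (R : RGrp S Γ) (j : Fin chevG2.rank) (y : Γ) : Prop :=
  (∀ u ∈ R.Ui j, y * u = u * y → u = 1) ∧ (∀ u ∈ Vi R j, y * u = u * y → u = 1)

lemma CU.conj {j : Fin chevG2.rank} {y : Γ} (h : CU R j y) {g : Γ} (hg : g ∈ Lv R j) : CU R j (g * y * g⁻¹) := by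
  have key : ∀ u, g * y * g⁻¹ * u = u * (g * y * g⁻¹) → y * (g⁻¹ * u * g) = (g⁻¹ * u * g) * y := by
    intro u hu
    calc y * (g⁻¹ * u * g) = g⁻¹ * (g * y * g⁻¹ * u) * g := by group
      _ = _ := by rw [hu]; group
  constructor
  · intro u hu hc
    have := h.1 _ (of_norm' (Lv_norm_Ui j) hg hu) (key u hc)
    calc u = g * (g⁻¹ * u * g) * g⁻¹ := by group
      _ = 1 := by rw [this]; group
  · intro u hu hc
    have := h.2 _ (of_norm' (Lv_norm_Vi j) hg hu) (key u hc)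
    calc u = g * (g⁻¹ * u * g) * g⁻¹ := by group
      _ = 1 := by rw [this]; group

/-- admissible elements of the class -/
def Ad (R : RGrp S Γ) (j : Fin chevG2.rank) (x y : Γ) : Prop := y ∈ Lv R j ∧ (∃ g ∈ R.Grp, y = g * x * g⁻¹) ∧ CU R j y

lemma Ad.conj {j : Fin chevG2.rank} {x y : Γ} (h : Ad R j x y) {g : Γ} (hg : g ∈ Lv R j) : Ad R j x (g * y * g⁻¹) := by
  obtain ⟨h1, ⟨w, hw, h2⟩, h3⟩ := h
  refine ⟨mul_mem (mul_mem hg h1) (inv_mem hg), ⟨g * w, mul_mem (Lv_Grp hg) hw, ?_⟩, h3.conj hg⟩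
  rw [h2]; group

/-- products of two admissible elements -/
def Pr (R : RGrp S Γ) (j : Fin chevG2.rank) (x l : Γ) : Prop := ∃ y₁ y₂, Ad R j x y₁ ∧ Ad R j x y₂ ∧ l = y₁ * y₂

lemma Pr.conj {j : Fin chevG2.rank} {x l : Γ} (h : Pr R j x l) {g : Γ} (hg : g ∈ Lv R j) : Pr R j x (g * l * g⁻¹) := by
  obtain ⟨y₁, y₂, h1, h2, rfl⟩ := h
  exact ⟨_, _, h1.conj hg, h2.conj hg, by group⟩

/-- the basic criterion -/
lemma good_of [Finite Γ] {j : Fin chevG2.rank} {x l u v : Γ} (hl : Pr R j x l) (hu : u ∈ R.Ui j) (hv : v ∈ Vi R j) :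
    Gd R x (v * l * u) := by
  obtain ⟨a, b, ⟨ha, ⟨g, hg, e3⟩, hCa⟩, ⟨hb, ⟨g', hg', e4⟩, hCb⟩, rfl⟩ := hl
  obtain ⟨w, hw, e1⟩ := SqG.cov' (Lv_norm_Vi j ha) hCa.2 hv
  obtain ⟨w', hw', e2⟩ := SqG.cov (Lv_norm_Ui j hb) hCb.1 hu
  refine ⟨w * g, mul_mem (Vi_Grp hw) hg, w' * g', mul_mem (Ui_Grp hw') hg', ?_⟩
  have e5 : w * g * x * (w * g)⁻¹ = v * a := by rw [← e1, e3]; group
  have e6 : w' * g' * x * (w' * g')⁻¹ = b * u := by rw [← e2, e4]; group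
  rw [e5, e6]; group

/-- Bruhat form in a Levi subgroup -/
lemma Lv_form {j : Fin chevG2.rank} {l : Γ} (hl : l ∈ Lv R j) :
    (∃ a ∈ R.X (S.p j), ∃ h ∈ R.H, l = a * h) ∨
    ∃ a ∈ R.X (S.p j), ∃ h ∈ R.H, ∃ b ∈ R.X (S.p j), l = a * h * R.nn j * b := by
  have hX : ∀ h ∈ R.H, ∀ x ∈ R.X (S.p j), h * x * h⁻¹ ∈ R.X (S.p j) := fun h hh x hx => R.H_X h hh _ x hx
  have hX' : ∀ h ∈ R.H, ∀ x ∈ R.X (S.p j), h⁻¹ * x * h ∈ R.X (S.p j) := fun h hh x hx => by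
    have := hX h⁻¹ (inv_mem hh) x hx
    rwa [inv_inv] at this
  obtain ⟨M, hM⟩ : ∃ M : Γ → Prop, ∀ y, M y ↔ ((∃ a ∈ R.X (S.p j), ∃ h ∈ R.H, y = a * h) ∨
      ∃ a ∈ R.X (S.p j), ∃ h ∈ R.H, ∃ b ∈ R.X (S.p j), y = a * h * R.nn j * b) := ⟨_, fun _ => Iff.rfl⟩
  have hMX : ∀ x ∈ R.X (S.p j), ∀ y, M y → M (x * y) := by
    intro x hx y hy
    rcases (hM y).1 hy with ⟨a, ha, h, hh, rfl⟩ | ⟨a, ha, h, hh, b, hb, rfl⟩
    · exact (hM _).2 (Or.inl ⟨x * a, mul_mem hx ha, h, hh, by group⟩)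
    · exact (hM _).2 (Or.inr ⟨x * a, mul_mem hx ha, h, hh, b, hb, by group⟩)
  have hMH : ∀ x ∈ R.H, ∀ y, M y → M (x * y) := by
    intro x hx y hy
    rcases (hM y).1 hy with ⟨a, ha, h, hh, rfl⟩ | ⟨a, ha, h, hh, b, hb, rfl⟩
    · exact (hM _).2 (Or.inl ⟨x * a * x⁻¹, hX x hx a ha, x * h, mul_mem hx hh, by group⟩)
    · exact (hM _).2 (Or.inr ⟨x * a * x⁻¹, hX x hx a ha, x * h, mul_mem hx hh, b, hb, by group⟩)
  have hMn : ∀ y, M y → M (R.nn j * y) := by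
    intro y hy
    rcases (hM y).1 hy with ⟨a, ha, h, hh, rfl⟩ | ⟨a, ha, h, hh, b, hb, rfl⟩
    · exact (hM _).2 (Or.inr ⟨1, one_mem _, R.nn j * h * (R.nn j)⁻¹, R.nn_H j h hh, h⁻¹ * a * h, hX' h hh a ha, by group⟩)
    · have hsq : R.nn j * h * (R.nn j)⁻¹ * (R.nn j * R.nn j) ∈ R.H := mul_mem (R.nn_H j h hh) (R.nn_sq j)
      by_cases ha1 : a = 1
      · subst ha1
        refine (hM _).2 (Or.inl ⟨(R.nn j * h * (R.nn j)⁻¹ * (R.nn j * R.nn j)) * b * (R.nn j * h * (R.nn j)⁻¹ * (R.nn j * R.nn j))⁻¹,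
          hX _ hsq b hb, _, hsq, by group⟩)
      · have h1 : R.nn j * a * (R.nn j)⁻¹ ∈ R.X (S.neg (S.p j)) := by
          have := R.nn_X j _ a ha
          rwa [S.w_p] at this
        have h2 : R.nn j * a * (R.nn j)⁻¹ ≠ 1 := by
          intro h
          apply ha1
          have : a = (R.nn j)⁻¹ * (R.nn j * a * (R.nn j)⁻¹) * R.nn j := by group
          rw [this, h]; group
        obtain ⟨a', ha', h', hh', b', hb', e⟩ := R.rank1 j _ h1 h2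
        set k := R.nn j * h * (R.nn j)⁻¹ * (R.nn j * R.nn j) with hk
        refine (hM _).2 (Or.inr ⟨a', ha', R.nn j * (h' * k) * (R.nn j)⁻¹, R.nn_H j _ (mul_mem hh' hsq),
          k⁻¹ * b' * k * b, mul_mem (hX' _ hsq b' hb') hb, ?_⟩)
        have e1 : R.nn j * (a * h * R.nn j * b) = (R.nn j * a * (R.nn j)⁻¹) * k * b := by rw [hk]; group
        rw [e1, e]; group
  have hle : Lv R j ≤ Subgroup.closure (((R.X (S.p j) : Set Γ) ∪ (R.H : Set Γ)) ∪ {R.nn j}) := by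
    have c1 : R.X (S.p j) ≤ Subgroup.closure (((R.X (S.p j) : Set Γ) ∪ (R.H : Set Γ)) ∪ {R.nn j}) :=
      fun x hx => Subgroup.subset_closure (Or.inl (Or.inl hx))
    have c2 : R.nn j ∈ Subgroup.closure (((R.X (S.p j) : Set Γ) ∪ (R.H : Set Γ)) ∪ {R.nn j}) :=
      Subgroup.subset_closure (Or.inr rfl)
    refine sup_le (sup_le c1 ?_) (fun x hx => Subgroup.subset_closure (Or.inl (Or.inr hx)))
    intro x hx
    have h1 : (R.nn j)⁻¹ * x * R.nn j ∈ R.X (S.p j) := by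
      have := (RGrp.act_nn (R := R) j).conj' hx
      rwa [S.w_inv, S.w_neg, S.w_p, S.neg_neg] at this
    have e : x = R.nn j * ((R.nn j)⁻¹ * x * R.nn j) * (R.nn j)⁻¹ := by group
    rw [e]
    exact mul_mem (mul_mem c2 (c1 h1)) (inv_mem c2)
  have hall : ∀ g ∈ Subgroup.closure (((R.X (S.p j) : Set Γ) ∪ (R.H : Set Γ)) ∪ {R.nn j}), M g := by
    intro g hg
    induction hg using Subgroup.closure_induction_left with
    | one => exact (hM _).2 (Or.inl ⟨1, one_mem _, 1, one_mem _, by group⟩)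
    | mul_left x hx y hy ih =>
      rcases hx with (hx | hx) | hx
      · exact hMX x hx y ih
      · exact hMH x hx y ih
      · rw [Set.mem_singleton_iff] at hx
        subst hx
        exact hMn y ih
    | inv_mul_cancel x hx y hy ih =>
      rcases hx with (hx | hx) | hx
      · exact hMX x⁻¹ (inv_mem hx) y ih
      · exact hMH x⁻¹ (inv_mem hx) y ih
      · rw [Set.mem_singleton_iff] at hx
        subst hx
        have e : (R.nn j)⁻¹ * y = R.nn j * ((R.nn j * R.nn j)⁻¹ * y) := by group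
        rw [e]
        exact hMn _ (hMH _ (inv_mem (R.nn_sq j)) y ih)
  exact (hM l).1 (hall l (hle hl))

/-- parabolic subgroup -/
noncomputable def PP (R : RGrp S Γ) (j : Fin chevG2.rank) : Subgroup Γ := Lv R j ⊔ R.Ui j

lemma mem_PP {j : Fin chevG2.rank} {p : Γ} (hp : p ∈ PP R j) : ∃ l ∈ Lv R j, ∃ u ∈ R.Ui j, p = l * u :=
  mem_sup_of_normalizes (fun _ ha _ hc => of_norm (Lv_norm_Ui j) ha hc) hp

lemma Lv_PP {j : Fin chevG2.rank} : Lv R j ≤ PP R j := le_sup_left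
lemma Ui_PP {j : Fin chevG2.rank} : R.Ui j ≤ PP R j := le_sup_right
lemma PP_Grp {j : Fin chevG2.rank} : PP R j ≤ R.Grp := sup_le Lv_Grp Ui_Grp
lemma H_PP {j : Fin chevG2.rank} : R.H ≤ PP R j := H_Lv.trans Lv_PP
lemma BB_PP {j : Fin chevG2.rank} : R.B ≤ PP R j := by
  refine sup_le ?_ H_PP
  intro u hu
  obtain ⟨x, hx, v, hv, rfl⟩ := RGrp.mem_U j hu
  exact mul_mem (Lv_PP (X_Lv hx)) (Ui_PP hv)

lemma mem_BB {j : Fin chevG2.rank} {b : Γ} (hb : b ∈ R.B) : ∃ t ∈ R.H, ∃ x ∈ R.X (S.p j), ∃ u ∈ R.Ui j, b = t * x * u := by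
  obtain ⟨t, ht, v, hv, rfl⟩ := RGrp.mem_B'.1 hb
  obtain ⟨x, hx, u, hu, rfl⟩ := RGrp.mem_U j hv
  exact ⟨t, ht, x, hx, u, hu, by group⟩

/-- the two possibilities for multiplication by a fundamental reflection on the right -/
lemma bn' (j : Fin chevG2.rank) {g : Γ} (hg : g ∈ R.N) {b : Γ} (hb : b ∈ R.B) :
    ∃ b₁ ∈ R.B, ∃ b₂ ∈ R.B, g * b * (R.nn j)⁻¹ = b₁ * (g * (R.nn j)⁻¹) * b₂ ∨ g * b * (R.nn j)⁻¹ = b₁ * g * b₂ := by
  have h := RGrp.bn (R := R) j (inv_mem hg) (inv_mem hb)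
  rcases h with ⟨b₁, h1, b₂, h2, e⟩ | ⟨b₁, h1, b₂, h2, e⟩
  · refine ⟨b₂⁻¹, inv_mem h2, b₁⁻¹, inv_mem h1, Or.inl ?_⟩
    have := congrArg (fun z => z⁻¹) e
    simpa [mul_assoc] using this
  · refine ⟨b₂⁻¹, inv_mem h2, b₁⁻¹, inv_mem h1, Or.inr ?_⟩
    have := congrArg (fun z => z⁻¹) e
    simpa [mul_assoc] using this

end Cfsg.Agent.H51.TqC
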