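import Cfsg.Agent.H51.TqC

set_option autoImplicit false
set_option maxRecDepth 100000

/-!
Products of two conjugates inside the Levi subgroup containing the short root subgroups.
-/

namespace Cfsg.Agent.H51.TqD

open Cfsg.Lie Cfsg.Agent.Chev Cfsg.Agent.ChevGrp Cfsg.Agent.ChevF Cfsg.Agent.H51.G2W Cfsg.Agent.H51.SqC Cfsg.Agent.H51.SqE
  Cfsg.Agent.H51.TqA Cfsg.Agent.H51.TqB Cfsg.Agent.H51.TqC

variable {Γ : Type*} [Group Γ] {R : RGrp S Γ} {K : Type*} [Field K]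

/-- the situation -/
structure Sit (K : Type*) [Field K] (R : RGrp S Γ) where
  r : Rel K R
  c₀ : Kˣ
  d₀ : Kˣ
  hd : r.φ d₀ = d₀
  sq : ∀ a : Kˣ, ∃ c d : Kˣ, r.φ d = d ∧ c * c * d⁻¹ = a
  nsurj : ∀ d : Kˣ, r.φ d = d → ∃ c : Kˣ, Nm r.φ c = d
  nfix : ∃ e : Kˣ, r.φ e ≠ e

namespace Sit

variable (T : Sit K R)

/-- elements of the class -/
def x1 (u : Kˣ) : Γ := T.r.X u * R.nn j0 * T.r.tt (u⁻¹ * T.c₀) T.d₀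

/-- elements of the class -/
def x2 (v : Kˣ) : Γ := R.nn j0 * T.r.tt (v⁻¹ * T.c₀) T.d₀ * T.r.X v

lemma x2_eq (v : Kˣ) : T.x2 v = (T.r.X v)⁻¹ * T.x1 v * T.r.X v := by
  unfold x1 x2; group

lemma x1_eq (v : Kˣ) : T.x1 v = T.r.X v * T.x2 v * (T.r.X v)⁻¹ := by
  unfold x1 x2; group

lemma x1_conj (u c : Kˣ) {d : Kˣ} (hd : T.r.φ d = d) :
    T.r.tt c d * T.x1 u * (T.r.tt c d)⁻¹ = T.x1 (c * c * d⁻¹ * u) := by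
  have e : T.r.tt c d * T.x1 u * (T.r.tt c d)⁻¹ = (T.r.tt c d * T.r.X u * (T.r.tt c d)⁻¹) * R.nn j0 *
      (((R.nn j0)⁻¹ * T.r.tt c d * R.nn j0) * T.r.tt (u⁻¹ * T.c₀) T.d₀ * (T.r.tt c d)⁻¹) := by
    unfold x1; group
  rw [e, T.r.tX hd, T.r.nt' hd, T.r.tt_inv, T.r.tt_mul, T.r.tt_mul]
  unfold x1
  have e1 : c⁻¹ * d * (u⁻¹ * T.c₀) * c⁻¹ = (c * c * d⁻¹ * u)⁻¹ * T.c₀ := by
    simp only [mul_inv, inv_inv]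
    ac_rfl
  have e2 : d * T.d₀ * d⁻¹ = T.d₀ := by rw [mul_right_comm, mul_inv_cancel, one_mul]
  rw [e1, e2, ← Units.val_mul]

lemma x1_Lv (u : Kˣ) : T.x1 u ∈ Lv R j0 :=
  mul_mem (mul_mem (X_Lv (T.r.X_mem _)) T.r.n_Lv) (H_Lv (T.r.tt_H T.hd))

variable (hC : CU R j0 (T.x1 1))
include hC

lemma ad1 (u : Kˣ) : Ad R j0 (T.x1 1) (T.x1 u) := by
  obtain ⟨c, d, hd, e⟩ := T.sq u
  have h1 := T.x1_conj 1 c hd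
  rw [mul_one, e] at h1
  rw [← h1]
  exact Ad.conj ⟨T.x1_Lv 1, ⟨1, one_mem _, by group⟩, hC⟩ (H_Lv (T.r.tt_H hd))

lemma ad2 (u : Kˣ) : Ad R j0 (T.x1 1) (T.x2 u) := by
  have h1 := (T.ad1 hC u).conj (inv_mem (X_Lv (T.r.X_mem (u : K))))
  rw [inv_inv] at h1
  rw [x2_eq]; exact h1

omit hC in
/-- torus elements of fixed determinant -/
def zT (ρ : Kˣ) : Γ := T.r.tt (ρ * T.d₀) (T.d₀ * T.d₀)

omit hC in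
lemma hdd : T.r.φ ((T.d₀ * T.d₀ : Kˣ) : K) = ((T.d₀ * T.d₀ : Kˣ) : K) := by
  rw [Units.val_mul, map_mul, T.hd]

omit hC in
lemma zT_H (ρ : Kˣ) : T.zT ρ ∈ R.H := T.r.tt_H T.hdd

omit hC in
lemma zT_X (ρ : Kˣ) (w : K) : T.r.X w * T.zT ρ = T.zT ρ * T.r.X (((ρ⁻¹ * ρ⁻¹ : Kˣ) : K) * w) := by
  have h1 := T.r.tX (c := ρ * T.d₀) (d := T.d₀ * T.d₀) T.hdd (((ρ⁻¹ * ρ⁻¹ : Kˣ) : K) * w)
  have e1 : ((ρ * T.d₀ * (ρ * T.d₀) * (T.d₀ * T.d₀)⁻¹ : Kˣ) : K) * (((ρ⁻¹ * ρ⁻¹ : Kˣ) : K) * w) = w := by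
    rw [← mul_assoc, ← Units.val_mul]
    have : ρ * T.d₀ * (ρ * T.d₀) * (T.d₀ * T.d₀)⁻¹ * (ρ⁻¹ * ρ⁻¹) = 1 := by
      apply Units.ext
      have h1 := ρ.ne_zero
      have h2 := T.d₀.ne_zero
      push_cast
      field_simp
    rw [this, Units.val_one, one_mul]
  rw [e1] at h1
  calc T.r.X w * T.zT ρ = (T.zT ρ * T.r.X (((ρ⁻¹ * ρ⁻¹ : Kˣ) : K) * w) * (T.zT ρ)⁻¹) * T.zT ρ := by
        unfold zT; rw [h1]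
    _ = _ := by group

omit hC in
lemma zT_mul (ρ σ : Kˣ) : T.r.h σ * T.zT ρ = T.zT (σ * ρ) := by
  unfold zT
  rw [T.r.h_eq, T.r.tt_mul, one_mul, mul_assoc]

omit hC in
lemma n_zT (ρ : Kˣ) : R.nn j0 * T.zT ρ = T.zT ρ⁻¹ * R.nn j0 := by
  have h1 := T.r.nt (c := ρ * T.d₀) (d := T.d₀ * T.d₀) T.hdd
  have e : (ρ * T.d₀)⁻¹ * (T.d₀ * T.d₀) = ρ⁻¹ * T.d₀ := by
    rw [mul_inv, mul_assoc, inv_mul_cancel_left]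
  rw [e] at h1
  unfold zT
  rw [← h1]; group

omit hC in
/-- the middle torus element -/
lemma mid (u v : Kˣ) : (R.nn j0 * T.r.tt (u⁻¹ * T.c₀) T.d₀ * (R.nn j0)⁻¹) * (R.nn j0 * R.nn j0) * T.r.tt (v⁻¹ * T.c₀) T.d₀ =
    T.zT (-(u * v⁻¹)) := by
  rw [T.r.nt T.hd, T.r.nsq', T.r.tt_mul, T.r.tt_mul]
  unfold zT
  congr 1
  · apply Units.ext
    have h1 := u.ne_zero
    have h2 := v.ne_zero
    have h3 := T.c₀.ne_zero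
    push_cast
    field_simp
  · rw [mul_one]

omit hC in
lemma prod12 (u v : Kˣ) : T.x1 u * T.x2 v = T.zT (-(u * v⁻¹)) * T.r.X ((((-(u * v⁻¹))⁻¹ * (-(u * v⁻¹))⁻¹ : Kˣ) : K) * u + v) := by
  have e : T.x1 u * T.x2 v = T.r.X u * ((R.nn j0 * T.r.tt (u⁻¹ * T.c₀) T.d₀ * (R.nn j0)⁻¹) * (R.nn j0 * R.nn j0) *
      T.r.tt (v⁻¹ * T.c₀) T.d₀) * T.r.X v := by
    unfold x1 x2; group
  rw [e, T.mid, T.zT_X, T.r.X_add, mul_assoc]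

/-- (P1) -/
lemma P1 {ρ : Kˣ} (hρ : ρ ≠ 1) {μ : K} (hμ : μ ≠ 0) : Pr R j0 (T.x1 1) (T.zT ρ * T.r.X μ) := by
  have hρ' : (ρ : K) - 1 ≠ 0 := by
    intro h
    exact hρ (Units.ext (by rw [Units.val_one]; exact sub_eq_zero.1 h))
  have hρ0 := ρ.ne_zero
  set v : Kˣ := Units.mk0 (μ * ρ / (ρ - 1)) (div_ne_zero (mul_ne_zero hμ hρ0) hρ') with hv
  refine ⟨T.x1 (-(ρ * v)), T.x2 v, T.ad1 hC _, T.ad2 hC _, ?_⟩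
  rw [T.prod12]
  have e1 : -(-(ρ * v) * v⁻¹) = ρ := by
    rw [neg_mul, _root_.neg_neg, mul_inv_cancel_right]
  rw [e1]
  congr 2
  have hvv : (v : K) = μ * ρ / (ρ - 1) := rfl
  push_cast
  rw [hvv]
  field_simp
  ring

/-- (P2) -/
lemma P2 : Pr R j0 (T.x1 1) (T.zT 1) := by
  refine ⟨T.x1 (-1), T.x2 1, T.ad1 hC _, T.ad2 hC _, ?_⟩
  rw [T.prod12]
  have e1 : -(-1 * (1 : Kˣ)⁻¹) = 1 := by
    rw [inv_one, mul_one, _root_.neg_neg]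
  rw [e1]
  have : ((((1 : Kˣ)⁻¹ * (1 : Kˣ)⁻¹ : Kˣ) : K)) * ((-1 : Kˣ) : K) + ((1 : Kˣ) : K) = 0 := by
    push_cast
    simp
  rw [this, T.r.X_zero, mul_one]

/-- (P13) -/
lemma P13 {ρ : Kˣ} (hρ : ρ * ρ ≠ 1) (μ : K) : Pr R j0 (T.x1 1) (T.zT ρ * T.r.X μ) := by
  have hρ1 : ρ ≠ 1 := by
    rintro rfl
    exact hρ (mul_one 1)
  by_cases hμ : μ = 0
  · have h1 : (1 : K) - ((ρ⁻¹ * ρ⁻¹ : Kˣ) : K) ≠ 0 := by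
      intro h
      apply hρ
      have h2 : ρ⁻¹ * ρ⁻¹ = 1 := Units.ext (sub_eq_zero.1 h).symm
      rw [← mul_inv, inv_eq_one] at h2
      exact h2
    set ν : K := 1 / (1 - ((ρ⁻¹ * ρ⁻¹ : Kˣ) : K)) with hν
    have h2 := (T.P1 hC hρ1 (μ := 1) one_ne_zero).conj (X_Lv (T.r.X_mem ν))
    have e : T.r.X ν * (T.zT ρ * T.r.X 1) * (T.r.X ν)⁻¹ = T.zT ρ * T.r.X μ := by
      rw [← mul_assoc, T.zT_X, ← T.r.X_neg, mul_assoc, mul_assoc, ← T.r.X_add, ← T.r.X_add]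
      congr 2
      rw [hμ, hν]
      field_simp
      ring
    rwa [e] at h2
  · exact T.P1 hC hρ1 hμ

/-- (P4) -/
lemma P4 (ρ : Kˣ) : ∃ m : K, Pr R j0 (T.x1 1) (T.zT ρ * R.nn j0 * T.r.X m) := by
  set u : Kˣ := -(ρ * (T.c₀ * T.c₀) * T.d₀⁻¹) with hu
  have hp : Pr R j0 (T.x1 1) (T.x1 u * T.x1 1) := ⟨_, _, T.ad1 hC u, T.ad1 hC 1, rfl⟩
  -- compute
  set w : Kˣ := u⁻¹ * u⁻¹ * (T.c₀ * T.c₀) * T.d₀⁻¹ with hw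
  have e1 : T.r.tt (u⁻¹ * T.c₀) T.d₀ * T.r.X 1 * (T.r.tt (u⁻¹ * T.c₀) T.d₀)⁻¹ = T.r.X w := by
    rw [T.r.tX T.hd, mul_one, hw]
    congr 2
    ac_rfl
  have e2 : T.x1 u * T.x1 1 = T.r.X u * (R.nn j0 * T.r.X w * (R.nn j0)⁻¹) *
      ((R.nn j0 * T.r.tt (u⁻¹ * T.c₀) T.d₀ * (R.nn j0)⁻¹) * (R.nn j0 * R.nn j0) * T.r.tt ((1 : Kˣ)⁻¹ * T.c₀) T.d₀) := by
    rw [← e1]
    unfold x1
    rw [Units.val_one]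
    group
  have e3 : R.nn j0 * T.r.X w * (R.nn j0)⁻¹ = T.r.X (((-w)⁻¹ : Kˣ) : K) * (T.r.h (-(-w)⁻¹) * R.nn j0) * T.r.X (((-w)⁻¹ : Kˣ) : K) := by
    rw [T.r.nX, ← T.r.rn, Units.val_neg]
  rw [e2, e3, T.mid] at hp
  set a : K := (((-w)⁻¹ : Kˣ) : K) with ha
  set τ : Kˣ := -(u * (1 : Kˣ)⁻¹) with hτ
  have e4 : T.r.X u * (T.r.X a * (T.r.h (-(-w)⁻¹) * R.nn j0) * T.r.X a) * T.zT τ =
      T.r.X (u + a) * (T.zT (-(-w)⁻¹ * τ⁻¹) * R.nn j0 * T.r.X (((τ⁻¹ * τ⁻¹ : Kˣ) : K) * a)) := by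
    rw [← T.zT_mul, T.r.X_add]
    calc T.r.X u * (T.r.X a * (T.r.h (-(-w)⁻¹) * R.nn j0) * T.r.X a) * T.zT τ =
        T.r.X u * T.r.X a * T.r.h (-(-w)⁻¹) * R.nn j0 * (T.r.X a * T.zT τ) := by group
      _ = T.r.X u * T.r.X a * T.r.h (-(-w)⁻¹) * (R.nn j0 * T.zT τ) * T.r.X (((τ⁻¹ * τ⁻¹ : Kˣ) : K) * a) := by
        rw [T.zT_X]; group
      _ = _ := by rw [T.n_zT]; group
  rw [e4] at hp
  have h2 := hp.conj (inv_mem (X_Lv (T.r.X_mem ((u : K) + a))))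
  refine ⟨((τ⁻¹ * τ⁻¹ : Kˣ) : K) * a + (u + a), ?_⟩
  have e5 : -(-w)⁻¹ * τ⁻¹ = ρ := by
    rw [hτ, hw, hu]
    apply Units.ext
    have h1 := ρ.ne_zero
    have h2 := T.c₀.ne_zero
    have h3 := T.d₀.ne_zero
    push_cast
    field_simp
  rw [e5] at h2
  rw [T.r.X_add]
  have e6 : (T.r.X (u + a))⁻¹ * (T.r.X (u + a) * (T.zT ρ * R.nn j0 * T.r.X (((τ⁻¹ * τ⁻¹ : Kˣ) : K) * a))) *
      (T.r.X (u + a))⁻¹⁻¹ = T.zT ρ * R.nn j0 * (T.r.X (((τ⁻¹ * τ⁻¹ : Kˣ) : K) * a) * T.r.X (u + a)) := by group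
  rwa [e6] at h2

end Sit

end Cfsg.Agent.H51.TqD
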