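import Cfsg.Agent.H51.TqD

set_option autoImplicit false
set_option maxRecDepth 100000

/-!
The covering property for q at least three: analysis by double cosets.
-/

namespace Cfsg.Agent.H51.TqE

open Cfsg.Lie Cfsg.Agent.Chev Cfsg.Agent.ChevGrp Cfsg.Agent.ChevF Cfsg.Agent.H51.G2W Cfsg.Agent.H51.SqC Cfsg.Agent.H51.SqE
  Cfsg.Agent.H51.TqA Cfsg.Agent.H51.TqB Cfsg.Agent.H51.TqC Cfsg.Agent.H51.TqD

variable {Γ : Type*} [Group Γ] {R : RGrp S Γ} {K : Type*} [Field K]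

/-- commuting root subgroups -/
def Cm (R : RGrp S Γ) (s s' : Fin chevG2.nroots) : Prop := ∀ x ∈ R.X s, ∀ y ∈ R.X s', x * y = y * x

lemma Cm.conj {s s' : Fin chevG2.nroots} (h : Cm R s s') {g : Γ} {u : Equiv.Perm (Fin chevG2.nroots)} (hg : R.Act g u) :
    Cm R (u s) (u s') := by
  intro x hx y hy
  have h1 := hg.conj' hx
  have h2 := hg.conj' hy
  have e1 : u⁻¹ (u s) = s := by rw [← Equiv.Perm.mul_apply, inv_mul_cancel, Equiv.Perm.one_apply]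
  have e2 : u⁻¹ (u s') = s' := by rw [← Equiv.Perm.mul_apply, inv_mul_cancel, Equiv.Perm.one_apply]
  rw [e1] at h1
  rw [e2] at h2
  have h3 := h _ h1 _ h2
  calc x * y = g * ((g⁻¹ * x * g) * (g⁻¹ * y * g)) * g⁻¹ := by group
    _ = _ := by rw [h3]; group

lemma Cm.wd {s s' : Fin chevG2.nroots} (h : Cm R s s') (L : List (Fin chevG2.rank)) {a a' : Fin chevG2.nroots}
    (ha : wf L s = a) (ha' : wf L s' = a') : Cm R a a' := by
  have h1 := h.conj (RGrp.act_nd (R := R) L)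
  have e1 : S.wd L s = a := Fin.ext (by rw [wd_val]; exact ha)
  have e2 : S.wd L s' = a' := Fin.ext (by rw [wd_val]; exact ha')
  rwa [e1, e2] at h1

/-- root indices -/
def i9 : Fin chevG2.nroots := ⟨9, by decide⟩
/-- root indices -/
def i2 : Fin chevG2.nroots := ⟨2, by decide⟩
/-- root indices -/
def i6 : Fin chevG2.nroots := ⟨6, by decide⟩
/-- root indices -/
def i5 : Fin chevG2.nroots := ⟨5, by decide⟩

lemma c96 (r : Rel K R) : Cm R i9 i6 := r.comm1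
lemma c95 (r : Rel K R) : Cm R i9 i5 := (c96 r).wd [j1] (by decide +kernel) (by decide +kernel)
lemma c26 (r : Rel K R) : Cm R i2 i6 := (c95 r).wd w0 (by decide +kernel) (by decide +kernel)
lemma c25 (r : Rel K R) : Cm R i2 i5 := (c96 r).wd w0 (by decide +kernel) (by decide +kernel)

lemma p1_eq : S.p j1 = i6 := Fin.ext p1_val
lemma np1_eq : S.neg (S.p j1) = i5 := Fin.ext np1_val
lemma ni9 : S.neg i9 = i2 := Fin.ext (by rw [neg_val]; decide)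

namespace Sit

variable (T : TqD.Sit K R) [Finite Γ] (hC : CU R j0 (T.x1 1))
include hC

omit hC in
lemma claimB {ν : Γ} {s : Fin chevG2.nroots} (hs : S.Pos s) (hsp : s ≠ S.p j0) {a : Γ} (ha : a ∈ R.H) (hAdj : Adj R ν s a)
    (h2 : ∀ x ∈ R.X (S.p j0), ν⁻¹ * x * ν ∈ R.Ui j0) {l u : Γ} (hl : l ∈ Lv R j0) (hu : u ∈ R.Ui j0) {m : K}
    (hP : Pr R j0 (T.x1 1) (a⁻¹ * l * T.r.X m)) : Gd R (T.x1 1) (ν * l * u) := by
  have hy : T.r.X m ∈ Lv R j0 := X_Lv (T.r.X_mem m)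
  have hly : l * T.r.X m ∈ Lv R j0 := mul_mem hl hy
  apply Gd.of_conj' (Lv_Grp hy)
  have hyu : (T.r.X m)⁻¹ * u * T.r.X m ∈ R.Ui j0 := of_norm' (Lv_norm_Ui j0) hy hu
  have h3 : ν⁻¹ * (T.r.X m)⁻¹ * ν ∈ R.Ui j0 := h2 _ (inv_mem (T.r.X_mem m))
  have h4 := of_norm' (Lv_norm_Ui j0) hly h3
  have e : (T.r.X m)⁻¹ * (ν * l * u) * T.r.X m = ν * (l * T.r.X m) *
      (((l * T.r.X m)⁻¹ * (ν⁻¹ * (T.r.X m)⁻¹ * ν) * (l * T.r.X m)) * ((T.r.X m)⁻¹ * u * T.r.X m)) := by group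
  rw [e]
  obtain ⟨z, hz, w, hw, u', hu', e2⟩ := hAdj.use ha hs hsp hly (mul_mem h4 hyu)
  rw [e2]
  have hzU : z ∈ R.Ui j0 := R.X_le_Ui hs hsp hz
  apply Gd.of_conj' (Ui_Grp hzU)
  have e3 : z⁻¹ * (z * w * (a⁻¹ * (l * T.r.X m)) * u') * z = w * (a⁻¹ * l * T.r.X m) * (u' * z) := by group
  rw [e3]
  refine good_of hP (mul_mem hu' hzU) ?_
  refine mem_gen (P := fun t => ¬ S.Pos t ∧ t ≠ S.neg (S.p j0)) ⟨(npos_neg s).2 hs, fun h => hsp ?_⟩ hw
  have := congrArg S.neg h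
  rwa [WSys.neg_neg, WSys.neg_neg] at this

lemma lemA {ν : Γ} {s : Fin chevG2.nroots} (hs : S.Pos s) (hsp : s ≠ S.p j0)
    (hA : ∀ c d : Kˣ, T.r.φ d = d → ∃ a ∈ R.H, Adj R ν s a ∧ ∃ ρ, a⁻¹ * T.r.tt c d = T.zT ρ)
    (h1 : ∀ x ∈ R.X (S.p j0), ν * x * ν⁻¹ ∈ R.Ui j0) (h2 : ∀ x ∈ R.X (S.p j0), ν⁻¹ * x * ν ∈ R.Ui j0)
    {l u : Γ} (hl : l ∈ Lv R j0) (hu : u ∈ R.Ui j0) : Gd R (T.x1 1) (ν * l * u) := by
  rcases Lv_form hl with ⟨x, hx, t, ht, rfl⟩ | ⟨x, hx, t, ht, y, hy, rfl⟩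
  · have hg := h1 x hx
    apply Gd.of_conj' (Ui_Grp hg)
    have e : (ν * x * ν⁻¹)⁻¹ * (ν * (x * t) * u) * (ν * x * ν⁻¹) = ν * t * (u * (ν * x * ν⁻¹)) := by group
    rw [e]
    obtain ⟨c, d, hd, rfl⟩ := (T.r.mem_H t).1 ht
    obtain ⟨a, ha, hAdj, ρ, hρ⟩ := hA c d hd
    by_cases h : ρ = 1
    · refine claimB T hs hsp ha hAdj h2 (H_Lv ht) (mul_mem hu hg) (m := 0) ?_
      rw [T.r.X_zero, mul_one]
      have e2 : a⁻¹ * (T.r.h c * T.r.b d) = T.zT 1 := by rw [← h, ← hρ]; rfl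
      rw [e2]; exact T.P2 hC
    · refine claimB T hs hsp ha hAdj h2 (H_Lv ht) (mul_mem hu hg) (m := 1) ?_
      have e2 : a⁻¹ * (T.r.h c * T.r.b d) = T.zT ρ := by rw [← hρ]; rfl
      rw [e2]; exact T.P1 hC h one_ne_zero
  · have hg := h1 x hx
    apply Gd.of_conj' (Ui_Grp hg)
    have e : (ν * x * ν⁻¹)⁻¹ * (ν * (x * t * R.nn j0 * y) * u) * (ν * x * ν⁻¹) = ν * (t * R.nn j0 * y) * (u * (ν * x * ν⁻¹)) := by group
    rw [e]
    obtain ⟨c, d, hd, rfl⟩ := (T.r.mem_H t).1 ht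
    obtain ⟨a, ha, hAdj, ρ, hρ⟩ := hA c d hd
    obtain ⟨b, rfl⟩ := (T.r.mem_X y).1 hy
    obtain ⟨m0, hm0⟩ := T.P4 hC ρ
    refine claimB T hs hsp ha hAdj h2 (mul_mem (mul_mem (H_Lv ht) T.r.n_Lv) (X_Lv hy)) (mul_mem hu hg) (m := m0 - b) ?_
    have e2 : a⁻¹ * (T.r.h c * T.r.b d) = T.zT ρ := by rw [← hρ]; rfl
    have e3 : a⁻¹ * (T.r.h c * T.r.b d * R.nn j0 * T.r.X b) * T.r.X (m0 - b) = T.zT ρ * R.nn j0 * T.r.X m0 := by
      have : T.r.X m0 = T.r.X b * T.r.X (m0 - b) := by rw [← T.r.X_add]; congr 1; ring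
      rw [this, ← e2]; group
    rw [e3]; exact hm0

omit hC [Finite Γ] in
lemma Xp_Ui {L : List (Fin chevG2.rank)} (h : 8 ≤ wf L 7 ∨ wf L 7 = 6) {x : Γ} (hx : x ∈ R.X (S.p j0)) :
    R.nd L * x * (R.nd L)⁻¹ ∈ R.Ui j0 := by
  have h1 := (RGrp.act_nd (R := R) L).conj hx
  refine R.X_le_Ui ?_ ?_ h1
  · rw [pos_iff, wd_val, p0_val]; omega
  · intro h2
    have := congrArg (fun z : Fin chevG2.nroots => (z : ℕ)) h2
    simp only [wd_val, p0_val] at this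
    omega

lemma good_m {p q : Γ} (hp : p ∈ PP R j0) (hq : q ∈ PP R j0) : Gd R (T.x1 1) (p * R.nn j1 * q) := by
  apply Gd.of_conj' (PP_Grp hp)
  obtain ⟨l, hl, u, hu, e⟩ := mem_PP (mul_mem hq hp)
  have e1 : p⁻¹ * (p * R.nn j1 * q) * p = R.nn j1 * l * u := by
    rw [mul_assoc (R.nn j1), ← e]; group
  rw [e1]
  refine lemA T hC (s := S.p j1) (S.pos_p j1) ?_ ?_ ?_ ?_ hl hu
  · intro h
    have := congrArg (fun z : Fin chevG2.nroots => (z : ℕ)) h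
    simp only [p0_val, p1_val] at this
    omega
  · intro c d hd
    have hf : T.r.φ ((d * (T.d₀ * T.d₀)⁻¹ : Kˣ) : K) = ((d * (T.d₀ * T.d₀)⁻¹ : Kˣ) : K) := by
      push_cast
      rw [map_mul, map_inv₀, map_mul, hd, T.hd]
    refine ⟨T.r.b (d * (T.d₀ * T.d₀)⁻¹), ?_, adj_m T.r hf, c * T.d₀⁻¹, ?_⟩
    · rw [T.r.b_eq]; exact T.r.tt_H hf
    · rw [T.r.b_eq, T.r.tt_inv, T.r.tt_mul]
      unfold TqD.Sit.zT
      congr 1
      · rw [inv_one, one_mul, inv_mul_cancel_right]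
      · rw [mul_inv, inv_inv]
        apply Units.ext
        have h1 := d.ne_zero
        push_cast
        field_simp
  · intro x hx
    have := Xp_Ui (R := R) (L := [j1]) (by decide +kernel) hx
    simpa using this
  · intro x hx
    have h1 := (RGrp.act_nn (R := R) j1).conj' hx
    refine R.X_le_Ui ?_ ?_ h1
    · rw [S.w_inv, pos_iff, w_val, p0_val]; decide +kernel
    · intro h2
      have := congrArg (fun z : Fin chevG2.nroots => (z : ℕ)) h2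
      simp only [S.w_inv, w_val, p0_val] at this
      revert this
      decide +kernel

lemma good_mnm {p q : Γ} (hp : p ∈ PP R j0) (hq : q ∈ PP R j0) :
    Gd R (T.x1 1) (p * (R.nn j1 * R.nn j0 * (R.nn j1)⁻¹) * q) := by
  apply Gd.of_conj' (PP_Grp hp)
  obtain ⟨l, hl, u, hu, e⟩ := mem_PP (mul_mem hq hp)
  have e1 : p⁻¹ * (p * (R.nn j1 * R.nn j0 * (R.nn j1)⁻¹) * q) * p = (R.nn j1 * R.nn j0 * (R.nn j1)⁻¹) * l * u := by
    rw [mul_assoc (R.nn j1 * R.nn j0 * (R.nn j1)⁻¹), ← e]; group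
  rw [e1]
  have hact : R.Act (R.nn j1 * R.nn j0 * (R.nn j1)⁻¹) (S.wd [j1, j0, j1]) := by
    have h := ((RGrp.act_nn (R := R) j1).mul (RGrp.act_nn (R := R) j0)).mul (RGrp.act_nn (R := R) j1).inv
    rw [WSys.w_inv] at h
    have e : S.wd [j1, j0, j1] = S.w j1 * S.w j0 * S.w j1 := by
      rw [WSys.wd_cons, WSys.wd_cons, WSys.wd_cons, WSys.wd_nil]; group
    rw [e]; exact h
  have hsv : ((S.w j1 (S.p j0) : Fin chevG2.nroots) : ℕ) = 8 := by
    rw [w_val, p0_val]; decide +kernel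
  refine lemA T hC (s := S.w j1 (S.p j0)) ?_ ?_ ?_ ?_ ?_ hl hu
  · rw [pos_iff, hsv]; omega
  · intro h
    have := congrArg (fun z : Fin chevG2.nroots => (z : ℕ)) h
    simp only [p0_val, hsv] at this
    omega
  · intro c d hd
    have hf : T.r.φ ((d * (T.d₀ * T.d₀)⁻¹ : Kˣ) : K) = ((d * (T.d₀ * T.d₀)⁻¹ : Kˣ) : K) := by
      push_cast
      rw [map_mul, map_inv₀, map_mul, hd, T.hd]
    obtain ⟨e, he⟩ := T.nsurj _ hf
    refine ⟨R.nn j1 * T.r.h e * (R.nn j1)⁻¹, ?_, (adj_n T.r e).conj (RGrp.act_nn j1), e⁻¹ * c * T.d₀⁻¹, ?_⟩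
    · refine R.nn_H j1 _ ?_
      rw [T.r.h_eq]; exact T.r.tt_H (by simp)
    · rw [T.r.mh, he]
      have e2 : T.r.h e * T.r.b (d * (T.d₀ * T.d₀)⁻¹) = T.r.tt e (d * (T.d₀ * T.d₀)⁻¹) := rfl
      rw [e2, T.r.tt_inv, T.r.tt_mul]
      unfold TqD.Sit.zT
      congr 1
      · rw [inv_mul_cancel_right]
      · rw [mul_inv, inv_inv]
        apply Units.ext
        have h1 := d.ne_zero
        push_cast
        field_simp
  · intro x hx
    have h1 := hact.conj hx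
    refine R.X_le_Ui ?_ ?_ h1
    · rw [pos_iff, wd_val, p0_val]; decide +kernel
    · intro h2
      have := congrArg (fun z : Fin chevG2.nroots => (z : ℕ)) h2
      simp only [wd_val, p0_val] at this
      revert this
      decide +kernel
  · intro x hx
    have h1 := hact.conj' hx
    have e2 : (S.wd [j1, j0, j1])⁻¹ = S.wd [j1, j0, j1] := by
      simp only [WSys.wd_cons, WSys.wd_nil, mul_inv_rev, WSys.w_inv, inv_one]; group
    rw [e2] at h1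
    refine R.X_le_Ui ?_ ?_ h1
    · rw [pos_iff, wd_val, p0_val]; decide +kernel
    · intro h2
      have := congrArg (fun z : Fin chevG2.nroots => (z : ℕ)) h2
      simp only [wd_val, p0_val] at this
      revert this
      decide +kernel

omit hC [Finite Γ] in
/-- choice of the parameter for the big cell -/
lemma exists_e (κ : Kˣ) : ∃ e : Kˣ, (κ * (e * (Nm T.r.φ e)⁻¹)) * (κ * (e * (Nm T.r.φ e)⁻¹)) ≠ 1 := by
  by_cases hκ : κ * κ = 1
  · obtain ⟨e, he⟩ := T.nfix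
    refine ⟨e, fun h => he ?_⟩
    have h1 : (e * (Nm T.r.φ e)⁻¹) * (e * (Nm T.r.φ e)⁻¹) = 1 := by
      rw [mul_mul_mul_comm, hκ, one_mul] at h
      exact h
    set f := Nm T.r.φ e with hf
    have hff : T.r.φ f = f := T.r.fixN e
    have h2 : ((e * f⁻¹ : Kˣ) : K) * ((e * f⁻¹ : Kˣ) : K) = 1 := by
      rw [← Units.val_mul, h1, Units.val_one]
    have h3 : (e : K) = ((e * f⁻¹ : Kˣ) : K) * f := by
      rw [← Units.val_mul, inv_mul_cancel_right]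
    rcases mul_self_eq_one_iff.1 h2 with h4 | h4
    · rw [h3, h4, one_mul, hff]
    · rw [h3, h4, neg_one_mul, map_neg, hff]
  · refine ⟨1, ?_⟩
    have : Nm T.r.φ 1 = 1 := by unfold Nm; rw [map_one, map_one, mul_one, mul_one]
    rw [this, inv_one, mul_one, mul_one]
    exact hκ

/-- the big cell -/
lemma lemW {t x u : Γ} (ht : t ∈ R.H) (hx : x ∈ R.X (S.p j0)) (hu : u ∈ R.Ui j0) :
    Gd R (T.x1 1) (((R.nn j0 * R.nn j1) * R.nn j0 * (R.nn j0 * R.nn j1)⁻¹) * R.nn j1 * (t * x) * u) := by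
  obtain ⟨c, d, hd, rfl⟩ := (T.r.mem_H t).1 ht
  obtain ⟨m, rfl⟩ := (T.r.mem_X x).1 hx
  obtain ⟨e, he⟩ := exists_e T (c * T.d₀⁻¹)
  set f : Kˣ := d * (Nm T.r.φ e * (T.d₀ * T.d₀))⁻¹ with hf
  have hff : T.r.φ f = f := by
    rw [hf]
    push_cast
    rw [map_mul, map_inv₀, map_mul, map_mul, hd, T.hd, T.r.fixN]
  set g : Γ := R.nn j0 * R.nn j1 with hg
  have hgact : R.Act g (S.wd [j0, j1]) := by
    have := RGrp.act_nd (R := R) [j0, j1]
    simpa [RGrp.nd_cons, RGrp.nd_nil] using this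
  have hs9 : S.wd [j0, j1] (S.p j0) = i9 := by
    apply Fin.ext
    rw [wd_val, p0_val]
    decide +kernel
  -- the reflection in `i9`
  have hAd : ∀ k : Kˣ, Adj R (g * R.nn j0 * g⁻¹) i9 (g * T.r.h k * g⁻¹) := by
    intro k
    have := (adj_n T.r k).conj hgact
    rwa [hs9] at this
  have hga : ∀ k : Kˣ, g * T.r.h k * g⁻¹ = T.r.tt (k⁻¹ * Nm T.r.φ k) (Nm T.r.φ k) := by
    intro k
    have e1 : g * T.r.h k * g⁻¹ = R.nn j0 * (R.nn j1 * T.r.h k * (R.nn j1)⁻¹) * (R.nn j0)⁻¹ := by rw [hg]; group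
    rw [e1, T.r.mh]
    exact T.r.nt (T.r.fixN k)
  have hbH : T.r.b f ∈ R.H := by rw [T.r.b_eq]; exact T.r.tt_H hff
  have hl : T.r.h c * T.r.b d * T.r.X m ∈ Lv R j0 := mul_mem (H_Lv ht) (X_Lv (T.r.X_mem m))
  obtain ⟨z, hz, w, hw, u1, hu1, e1⟩ := (adj_m T.r hff).use hbH (S.pos_p j1) (j := j0) (by
    intro h
    have := congrArg (fun z : Fin chevG2.nroots => (z : ℕ)) h
    simp only [p0_val, p1_val] at this
    omega) hl hu
  have hl1 : (T.r.b f)⁻¹ * (T.r.h c * T.r.b d * T.r.X m) ∈ Lv R j0 := mul_mem (inv_mem (H_Lv hbH)) hl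
  have haH : g * T.r.h e * g⁻¹ ∈ R.H := by rw [hga]; exact T.r.tt_H (T.r.fixN e)
  have h9p : S.Pos i9 := (pos_iff _).2 (by decide)
  have h9n : i9 ≠ S.p j0 := by
    intro h
    have := congrArg (fun z : Fin chevG2.nroots => (z : ℕ)) h
    simp only [p0_val] at this
    revert this
    decide
  obtain ⟨z2, hz2, w2, hw2, u2, hu2, e2⟩ := (hAd e).use haH h9p h9n hl1 hu1
  rw [p1_eq] at hz
  rw [np1_eq] at hw
  rw [ni9] at hw2
  -- commutation
  have hνz : (g * R.nn j0 * g⁻¹) * z = z * (g * R.nn j0 * g⁻¹) := by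
    obtain ⟨p1, hp1, p2, hp2, p3, hp3, e3⟩ := hAd 1
    rw [ni9] at hp2
    have e4 : g * T.r.h 1 * g⁻¹ = 1 := by rw [T.r.h_one]; group
    rw [e4, inv_one, mul_one] at e3
    rw [e3]
    calc p1 * p2 * p3 * z = p1 * p2 * (p3 * z) := by group
      _ = p1 * (p2 * z) * p3 := by rw [c96 T.r _ hp3 _ hz]; group
      _ = (p1 * z) * p2 * p3 := by rw [c26 T.r _ hp2 _ hz]; group
      _ = _ := by rw [c96 T.r _ hp1 _ hz]; group
  have hνw : (g * R.nn j0 * g⁻¹) * w = w * (g * R.nn j0 * g⁻¹) := by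
    obtain ⟨p1, hp1, p2, hp2, p3, hp3, e3⟩ := hAd 1
    rw [ni9] at hp2
    have e4 : g * T.r.h 1 * g⁻¹ = 1 := by rw [T.r.h_one]; group
    rw [e4, inv_one, mul_one] at e3
    rw [e3]
    calc p1 * p2 * p3 * w = p1 * p2 * (p3 * w) := by group
      _ = p1 * (p2 * w) * p3 := by rw [c95 T.r _ hp3 _ hw]; group
      _ = (p1 * w) * p2 * p3 := by rw [c25 T.r _ hp2 _ hw]; group
      _ = _ := by rw [c95 T.r _ hp1 _ hw]; group
  have hwz : z2 * w = w * z2 := c95 T.r _ hz2 _ hw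
  have e5 : (g * R.nn j0 * g⁻¹) * R.nn j1 * (T.r.h c * T.r.b d * T.r.X m) * u =
      (z * z2) * ((w * w2) * ((g * T.r.h e * g⁻¹)⁻¹ * ((T.r.b f)⁻¹ * (T.r.h c * T.r.b d * T.r.X m))) * u2) := by
    calc (g * R.nn j0 * g⁻¹) * R.nn j1 * (T.r.h c * T.r.b d * T.r.X m) * u =
        (g * R.nn j0 * g⁻¹) * (R.nn j1 * (T.r.h c * T.r.b d * T.r.X m) * u) := by group
      _ = ((g * R.nn j0 * g⁻¹) * z) * w * ((T.r.b f)⁻¹ * (T.r.h c * T.r.b d * T.r.X m)) * u1 := by rw [e1]; group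
      _ = z * ((g * R.nn j0 * g⁻¹) * w) * ((T.r.b f)⁻¹ * (T.r.h c * T.r.b d * T.r.X m)) * u1 := by rw [hνz]; group
      _ = z * w * ((g * R.nn j0 * g⁻¹) * ((T.r.b f)⁻¹ * (T.r.h c * T.r.b d * T.r.X m)) * u1) := by rw [hνw]; group
      _ = z * (w * z2) * w2 * ((g * T.r.h e * g⁻¹)⁻¹ * ((T.r.b f)⁻¹ * (T.r.h c * T.r.b d * T.r.X m))) * u2 := by rw [e2]; group
      _ = _ := by rw [← hwz]; group
  rw [e5]
  have hzU : z * z2 ∈ R.Ui j0 := by
    refine mul_mem (R.X_le_Ui ((pos_iff _).2 (by decide)) ?_ hz) (R.X_le_Ui h9p h9n hz2)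
    intro h
    have := congrArg (fun z : Fin chevG2.nroots => (z : ℕ)) h
    simp only [p0_val] at this
    revert this
    decide
  apply Gd.of_conj' (Ui_Grp hzU)
  have e6 : (z * z2)⁻¹ * ((z * z2) * ((w * w2) * ((g * T.r.h e * g⁻¹)⁻¹ * ((T.r.b f)⁻¹ * (T.r.h c * T.r.b d * T.r.X m))) * u2)) * (z * z2) =
      (w * w2) * ((g * T.r.h e * g⁻¹)⁻¹ * ((T.r.b f)⁻¹ * (T.r.h c * T.r.b d * T.r.X m))) * (u2 * (z * z2)) := by group
  rw [e6]
  refine good_of ?_ (mul_mem hu2 hzU) (mul_mem ?_ ?_)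
  · have e7 : (g * T.r.h e * g⁻¹)⁻¹ * ((T.r.b f)⁻¹ * (T.r.h c * T.r.b d * T.r.X m)) =
        T.zT (c * T.d₀⁻¹ * (e * (Nm T.r.φ e)⁻¹)) * T.r.X m := by
      have e8 : (g * T.r.h e * g⁻¹)⁻¹ * ((T.r.b f)⁻¹ * (T.r.h c * T.r.b d)) = T.zT (c * T.d₀⁻¹ * (e * (Nm T.r.φ e)⁻¹)) := by
        rw [hga, T.r.b_eq]
        have e9 : T.r.h c * T.r.b d = T.r.tt c d := rfl
        rw [e9, T.r.tt_inv, T.r.tt_inv, T.r.tt_mul, T.r.tt_mul]
        unfold TqD.Sit.zT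
        congr 1
        · apply Units.ext
          have h1 := c.ne_zero
          have h2 := e.ne_zero
          have h3 := T.d₀.ne_zero
          have h4 := (Nm T.r.φ e).ne_zero
          push_cast
          field_simp
        · apply Units.ext
          have h1 := d.ne_zero
          have h3 := T.d₀.ne_zero
          have h4 := (Nm T.r.φ e).ne_zero
          rw [hf]
          push_cast
          field_simp
      rw [← e8]; group
    rw [e7]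
    exact T.P13 hC he m
  · refine mem_gen (P := fun t => ¬ S.Pos t ∧ t ≠ S.neg (S.p j0)) ⟨?_, ?_⟩ hw
    · rw [pos_iff]; decide
    · intro h
      have := congrArg (fun z : Fin chevG2.nroots => (z : ℕ)) h
      simp only [neg_val, p0_val] at this
      revert this
      decide
  · refine mem_gen (P := fun t => ¬ S.Pos t ∧ t ≠ S.neg (S.p j0)) ⟨?_, ?_⟩ hw2
    · rw [pos_iff]; decide
    · intro h
      have := congrArg (fun z : Fin chevG2.nroots => (z : ℕ)) h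
      simp only [neg_val, p0_val] at this
      revert this
      decide

end Sit

end Cfsg.Agent.H51.TqE
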