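import Cfsg.Agent.H51.TqE

set_option autoImplicit false
set_option maxRecDepth 100000

/-!
The covering property for q at least three: conclusion.
-/

namespace Cfsg.Agent.H51.TqF

open Cfsg.Lie Cfsg.Agent.Chev Cfsg.Agent.ChevGrp Cfsg.Agent.ChevF Cfsg.Agent.H51.G2W Cfsg.Agent.H51.SqC Cfsg.Agent.H51.SqE
  Cfsg.Agent.H51.TqA Cfsg.Agent.H51.TqB Cfsg.Agent.H51.TqC Cfsg.Agent.H51.TqD

variable {Γ : Type*} [Group Γ] {R : RGrp S Γ} {K : Type*} [Field K]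

variable (T : TqD.Sit K R) [Finite Γ] (hC : CU R j0 (T.x1 1))
include hC

lemma good_word {L : List (Fin chevG2.rank)} (hL : L ∈ SqH.list12) (hL1 : L ≠ []) {b : Γ} (hb : b ∈ R.B) :
    Gd R (T.x1 1) (R.nd L * b) := by
  have hbP : b ∈ PP R j0 := BB_PP hb
  have hn : R.nn j0 ∈ PP R j0 := Lv_PP T.r.n_Lv
  have hmG : R.nn j1 ∈ R.Grp := R.N_le_Grp (R.nn_mem_N j1)
  have sq : R.nn j1 * R.nn j1 ∈ PP R j0 := H_PP (R.nn_sq j1)
  have g1 : ∀ p ∈ PP R j0, ∀ q ∈ PP R j0, Gd R (T.x1 1) (p * R.nn j1 * q) := fun p hp q hq => TqE.Sit.good_m T hC hp hq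
  have g2 : ∀ p ∈ PP R j0, ∀ q ∈ PP R j0, Gd R (T.x1 1) (p * (R.nn j1 * R.nn j0 * R.nn j1) * q) := by
    intro p hp q hq
    have e : p * (R.nn j1 * R.nn j0 * R.nn j1) * q = p * (R.nn j1 * R.nn j0 * (R.nn j1)⁻¹) * ((R.nn j1 * R.nn j1) * q) := by group
    rw [e]; exact TqE.Sit.good_mnm T hC hp (mul_mem sq hq)
  simp only [SqH.list12, List.mem_cons, List.not_mem_nil, or_false] at hL
  rcases hL with rfl | rfl | rfl | rfl | rfl | rfl | rfl | rfl | rfl | rfl | rfl | rfl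
  · exact absurd rfl hL1
  · -- n
    simp only [RGrp.nd_cons, RGrp.nd_nil, mul_one]
    apply Gd.of_conj hmG
    have e : R.nn j1 * (R.nn j0 * b) * (R.nn j1)⁻¹ = (R.nn j1 * R.nn j0) * b * (R.nn j1)⁻¹ := by group
    rw [e]
    obtain ⟨b₁, h1, b₂, h2, h | h⟩ := bn' j1 (mul_mem (R.nn_mem_N j1) (R.nn_mem_N j0)) hb
    · rw [h]
      have e2 : b₁ * (R.nn j1 * R.nn j0 * (R.nn j1)⁻¹) * b₂ = b₁ * (R.nn j1 * R.nn j0 * R.nn j1) * ((R.nn j1 * R.nn j1)⁻¹ * b₂) := by group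
      rw [e2]; exact g2 _ (BB_PP h1) _ (mul_mem (inv_mem sq) (BB_PP h2))
    · rw [h]
      have e2 : b₁ * (R.nn j1 * R.nn j0) * b₂ = b₁ * R.nn j1 * (R.nn j0 * b₂) := by group
      rw [e2]; exact g1 _ (BB_PP h1) _ (mul_mem hn (BB_PP h2))
  · -- m
    have := g1 1 (one_mem _) b hbP
    simp only [RGrp.nd_cons, RGrp.nd_nil, mul_one]
    rwa [one_mul] at this
  · -- n m
    simp only [RGrp.nd_cons, RGrp.nd_nil, mul_one]
    exact g1 _ hn _ hbP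
  · -- m n
    simp only [RGrp.nd_cons, RGrp.nd_nil, mul_one]
    have e : R.nn j1 * R.nn j0 * b = 1 * R.nn j1 * (R.nn j0 * b) := by group
    rw [e]; exact g1 _ (one_mem _) _ (mul_mem hn hbP)
  · -- n m n
    simp only [RGrp.nd_cons, RGrp.nd_nil, mul_one]
    have e : R.nn j0 * (R.nn j1 * R.nn j0) * b = R.nn j0 * R.nn j1 * (R.nn j0 * b) := by group
    rw [e]; exact g1 _ hn _ (mul_mem hn hbP)
  · -- m n m
    simp only [RGrp.nd_cons, RGrp.nd_nil, mul_one]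
    have e : R.nn j1 * (R.nn j0 * R.nn j1) * b = 1 * (R.nn j1 * R.nn j0 * R.nn j1) * b := by group
    rw [e]; exact g2 _ (one_mem _) _ hbP
  · -- n m n m
    simp only [RGrp.nd_cons, RGrp.nd_nil, mul_one]
    have e : R.nn j0 * (R.nn j1 * (R.nn j0 * R.nn j1)) * b = R.nn j0 * (R.nn j1 * R.nn j0 * R.nn j1) * b := by group
    rw [e]; exact g2 _ hn _ hbP
  · -- m n m n
    simp only [RGrp.nd_cons, RGrp.nd_nil, mul_one]
    have e : R.nn j1 * (R.nn j0 * (R.nn j1 * R.nn j0)) * b = 1 * (R.nn j1 * R.nn j0 * R.nn j1) * (R.nn j0 * b) := by group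
    rw [e]; exact g2 _ (one_mem _) _ (mul_mem hn hbP)
  · -- n m n m n
    simp only [RGrp.nd_cons, RGrp.nd_nil, mul_one]
    have e : R.nn j0 * (R.nn j1 * (R.nn j0 * (R.nn j1 * R.nn j0))) * b = R.nn j0 * (R.nn j1 * R.nn j0 * R.nn j1) * (R.nn j0 * b) := by group
    rw [e]; exact g2 _ hn _ (mul_mem hn hbP)
  · -- m n m n m
    simp only [RGrp.nd_cons, RGrp.nd_nil, mul_one]
    apply Gd.of_conj' hmG
    have hw : R.nn j0 * R.nn j1 * R.nn j0 * R.nn j1 ∈ R.N :=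
      mul_mem (mul_mem (mul_mem (R.nn_mem_N j0) (R.nn_mem_N j1)) (R.nn_mem_N j0)) (R.nn_mem_N j1)
    have e : (R.nn j1)⁻¹ * (R.nn j1 * (R.nn j0 * (R.nn j1 * (R.nn j0 * R.nn j1))) * b) * R.nn j1 =
        ((R.nn j0 * R.nn j1 * R.nn j0 * R.nn j1) * b * (R.nn j1)⁻¹) * (R.nn j1 * R.nn j1) := by group
    rw [e]
    obtain ⟨b₁, h1, b₂, h2, h | h⟩ := bn' j1 hw hb
    · rw [h]
      have e2 : b₁ * (R.nn j0 * R.nn j1 * R.nn j0 * R.nn j1 * (R.nn j1)⁻¹) * b₂ * (R.nn j1 * R.nn j1) =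
          (b₁ * R.nn j0) * R.nn j1 * (R.nn j0 * b₂ * (R.nn j1 * R.nn j1)) := by group
      rw [e2]; exact g1 _ (mul_mem (BB_PP h1) hn) _ (mul_mem (mul_mem hn (BB_PP h2)) sq)
    · rw [h]
      have e2 : b₁ * (R.nn j0 * R.nn j1 * R.nn j0 * R.nn j1) * b₂ * (R.nn j1 * R.nn j1) =
          (b₁ * R.nn j0) * (R.nn j1 * R.nn j0 * R.nn j1) * (b₂ * (R.nn j1 * R.nn j1)) := by group
      rw [e2]; exact g2 _ (mul_mem (BB_PP h1) hn) _ (mul_mem (BB_PP h2) sq)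
  · -- longest
    obtain ⟨t, ht, x, hx, u, hu, rfl⟩ := mem_BB (j := j0) hb
    set g : Γ := R.nn j0 * R.nn j1 with hg
    have hgN : g ∈ R.N := mul_mem (R.nn_mem_N j0) (R.nn_mem_N j1)
    -- the torus correction
    have hk : ((g * R.nn j0 * g⁻¹) * R.nn j1)⁻¹ * R.nd w0 ∈ R.H := by
      refine RGrp.inv_mul_mem_H (mul_mem (mul_mem (mul_mem hgN (R.nn_mem_N j0)) (inv_mem hgN)) (R.nn_mem_N j1)) (RGrp.nd_mem_N _)
        (u := S.wd w0) ?_ (RGrp.act_nd _)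
      have hgact : R.Act g (S.w j0 * S.w j1) := (RGrp.act_nn j0).mul (RGrp.act_nn j1)
      have h := ((hgact.mul (RGrp.act_nn (R := R) j0)).mul hgact.inv).mul (RGrp.act_nn (R := R) j1)
      have e : S.wd w0 = S.w j0 * S.w j1 * S.w j0 * (S.w j0 * S.w j1)⁻¹ * S.w j1 := by
        apply Equiv.ext
        intro s
        apply Fin.ext
        rw [w0_w0, neg_val]
        have e1 : S.w j0 * S.w j1 * S.w j0 * (S.w j0 * S.w j1)⁻¹ * S.w j1 = S.wd [j0, j1, j0, j1, j0, j1] := by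
          simp only [WSys.wd_cons, WSys.wd_nil, mul_inv_rev, WSys.w_inv]; group
        rw [e1, wd_val]
        exact (w0_val s).symm
      rw [e]; exact h
    set k := ((g * R.nn j0 * g⁻¹) * R.nn j1)⁻¹ * R.nd w0 with hkdef
    have e : R.nd w0 * (t * x * u) = (g * R.nn j0 * g⁻¹) * R.nn j1 * ((k * t) * x) * u := by
      rw [hkdef]; group
    rw [e]
    exact TqE.Sit.lemW T hC (mul_mem hk ht) hx hu

theorem main {g : Γ} (hg : g ∈ R.Grp) (hw : ∃ w ∈ R.Grp, w * g * w⁻¹ ∉ R.B) : Gd R (T.x1 1) g := by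
  obtain ⟨w, hw, hwB⟩ := hw
  apply Gd.of_conj hw
  have hwg : w * g * w⁻¹ ∈ R.Grp := mul_mem (mul_mem hw hg) (inv_mem hw)
  obtain ⟨b, hb, m, hm, b', hb', e⟩ := RGrp.exists_bnb hwg
  obtain ⟨u, hu⟩ := RGrp.exists_act hm
  obtain ⟨L, hL, hL'⟩ := SqH.mem_list12 hu.1
  have hH := RGrp.inv_mul_mem_H (RGrp.nd_mem_N (R := R) L) hm (RGrp.act_nd (R := R) L) (by rw [← hL']; exact hu)
  have hL1 : L ≠ [] := by
    rintro rfl
    apply hwB
    rw [e]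
    rw [RGrp.nd_nil, inv_one, one_mul] at hH
    exact mul_mem (mul_mem hb (R.H_le_B hH)) hb'
  rw [e]
  apply Gd.of_conj' (R.B_le_Grp hb)
  have e2 : b⁻¹ * (b * m * b') * b = R.nd L * (((R.nd L)⁻¹ * m) * (b' * b)) := by group
  rw [e2]
  exact good_word T hC hL hL1 (mul_mem (R.H_le_B hH) (mul_mem hb' hb))

end Cfsg.Agent.H51.TqF
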