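import Cfsg.Agent.H51.TqF

set_option autoImplicit false
set_option maxRecDepth 100000

/-!
Regularity of the chosen elements.
-/

namespace Cfsg.Agent.H51.TqG

open Cfsg.Lie Cfsg.Agent.Chev Cfsg.Agent.ChevGrp Cfsg.Agent.ChevF Cfsg.Agent.H51.G2W Cfsg.Agent.H51.SqC Cfsg.Agent.H51.SqE
  Cfsg.Agent.H51.TqA Cfsg.Agent.H51.TqB Cfsg.Agent.H51.TqC Cfsg.Agent.H51.TqD

variable {Γ : Type*} [Group Γ] {R : RGrp S Γ} {K : Type*} [Field K] (r : Rel K R)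

lemma Ct0 {c d : Kˣ} (hd : r.φ d = d) (h : c * c * d⁻¹ ≠ 1) : Ct R (r.tt c d) (S.p j0) := by
  intro x hx hc
  obtain ⟨u, rfl⟩ := (r.mem_X x).1 hx
  have h1 := r.tX hd (c := c) u
  have h2 : r.tt c d * r.X u * (r.tt c d)⁻¹ = r.X u := by rw [hc]; group
  rw [h2] at h1
  have h3 := r.X_inj _ _ h1
  have h4 : (((c * c * d⁻¹ : Kˣ) : K) - 1) * u = 0 := by linear_combination -h3
  rcases mul_eq_zero.1 h4 with h5 | h5
  · exact absurd (Units.ext (sub_eq_zero.1 h5)) h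
  · rw [h5, r.X_zero]

lemma Ct1 {c d : Kˣ} (hd : r.φ d = d) (h : d * d * (Nm r.φ c)⁻¹ ≠ 1) : Ct R (r.tt c d) (S.p j1) := by
  intro x hx hc
  obtain ⟨u, hu, rfl⟩ := (r.mem_Z x).1 hx
  have h1 := r.tZ hd (c := c) hu
  have h2 : r.tt c d * r.Z u * (r.tt c d)⁻¹ = r.Z u := by rw [hc]; group
  rw [h2] at h1
  have h3 := r.Z_inj _ _ h1
  have h4 : (((d * d * (Nm r.φ c)⁻¹ : Kˣ) : K) - 1) * u = 0 := by linear_combination -h3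
  rcases mul_eq_zero.1 h4 with h5 | h5
  · exact absurd (Units.ext (sub_eq_zero.1 h5)) h
  · rw [h5, r.Z_zero]

/-- norms of the successive torus elements -/
lemma Nm1 {c d : Kˣ} (hd : r.φ d = d) : Nm r.φ (c⁻¹ * d) = (Nm r.φ c)⁻¹ * (d * (d * d)) := by
  rw [Nm_mul, Nm_inv, Nm_fix hd]

section chain

variable {c d : Kˣ} (hd : r.φ d = d)
include hd

lemma d2 : r.φ (((Nm r.φ c)⁻¹ * (d * d) : Kˣ) : K) = (((Nm r.φ c)⁻¹ * (d * d) : Kˣ) : K) := by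
  push_cast
  rw [map_mul, map_mul, map_inv₀, hd, r.fixN]

lemma d4 : r.φ (((Nm r.φ c)⁻¹ * d : Kˣ) : K) = (((Nm r.φ c)⁻¹ * d : Kˣ) : K) := by
  push_cast
  rw [map_mul, map_inv₀, hd, r.fixN]

lemma s1 : R.nn j0 * r.tt c d * (R.nn j0)⁻¹ = r.tt (c⁻¹ * d) d := r.nt hd

lemma s2 : R.nn j1 * r.tt (c⁻¹ * d) d * (R.nn j1)⁻¹ = r.tt (c⁻¹ * d) ((Nm r.φ c)⁻¹ * (d * d)) := by
  rw [r.mt hd, Nm1 r hd]
  congr 1
  apply Units.ext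
  have h1 := d.ne_zero
  push_cast
  field_simp

lemma s3 : R.nn j0 * r.tt (c⁻¹ * d) ((Nm r.φ c)⁻¹ * (d * d)) * (R.nn j0)⁻¹ =
    r.tt (c * d * (Nm r.φ c)⁻¹) ((Nm r.φ c)⁻¹ * (d * d)) := by
  rw [r.nt (d2 r hd)]
  congr 1
  apply Units.ext
  have h1 := d.ne_zero
  have h2 := c.ne_zero
  push_cast
  field_simp

lemma N3 : Nm r.φ (c * d * (Nm r.φ c)⁻¹) = d * (d * d) * ((Nm r.φ c)⁻¹ * (Nm r.φ c)⁻¹) := by
  rw [Nm_mul, Nm_mul, Nm_inv, Nm_fix hd, Nm_fix (r.fixN c)]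
  apply Units.ext
  have h1 := (Nm r.φ c).ne_zero
  push_cast
  field_simp

lemma s4 : R.nn j1 * r.tt (c * d * (Nm r.φ c)⁻¹) ((Nm r.φ c)⁻¹ * (d * d)) * (R.nn j1)⁻¹ =
    r.tt (c * d * (Nm r.φ c)⁻¹) ((Nm r.φ c)⁻¹ * d) := by
  rw [r.mt (d2 r hd), N3 r hd]
  congr 1
  apply Units.ext
  have h1 := (Nm r.φ c).ne_zero
  have h2 := d.ne_zero
  push_cast
  field_simp

lemma s5 : R.nn j0 * r.tt (c * d * (Nm r.φ c)⁻¹) ((Nm r.φ c)⁻¹ * d) * (R.nn j0)⁻¹ = r.tt c⁻¹ ((Nm r.φ c)⁻¹ * d) := by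
  rw [r.nt (d4 r hd)]
  congr 1
  apply Units.ext
  have h1 := (Nm r.φ c).ne_zero
  have h2 := d.ne_zero
  have h3 := c.ne_zero
  push_cast
  field_simp

lemma s6 : R.nn j1 * r.tt c⁻¹ ((Nm r.φ c)⁻¹ * d) * (R.nn j1)⁻¹ = r.tt c⁻¹ d⁻¹ := by
  rw [r.mt (d4 r hd), Nm_inv]
  congr 1
  apply Units.ext
  have h1 := (Nm r.φ c).ne_zero
  have h2 := d.ne_zero
  push_cast
  field_simp

lemma n0_tt : n0 R * r.tt c d * (n0 R)⁻¹ = r.tt c⁻¹ d⁻¹ := by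
  -- the word `m n m n m n` sends `t` to its inverse; use the inverse word
  have h : R.nd [j1, j0, j1, j0, j1, j0] * r.tt c d * (R.nd [j1, j0, j1, j0, j1, j0])⁻¹ = r.tt c⁻¹ d⁻¹ := by
    simp only [RGrp.nd_cons, RGrp.nd_nil, mul_one]
    calc R.nn j1 * (R.nn j0 * (R.nn j1 * (R.nn j0 * (R.nn j1 * R.nn j0)))) * r.tt c d *
        (R.nn j1 * (R.nn j0 * (R.nn j1 * (R.nn j0 * (R.nn j1 * R.nn j0)))))⁻¹ =
        R.nn j1 * (R.nn j0 * (R.nn j1 * (R.nn j0 * (R.nn j1 * (R.nn j0 * r.tt c d * (R.nn j0)⁻¹) * (R.nn j1)⁻¹) *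
          (R.nn j0)⁻¹) * (R.nn j1)⁻¹) * (R.nn j0)⁻¹) * (R.nn j1)⁻¹ := by group
      _ = _ := by rw [s1 r hd, s2 r hd, s3 r hd, s4 r hd, s5 r hd, s6 r hd]
  -- both words have the same action
  have h2 : (n0 R)⁻¹ * R.nd [j1, j0, j1, j0, j1, j0] ∈ R.H := by
    refine RGrp.inv_mul_mem_H n0_N (RGrp.nd_mem_N _) (u := S.wd w0) act_n0 ?_
    have := RGrp.act_nd (R := R) [j1, j0, j1, j0, j1, j0]
    have e : S.wd [j1, j0, j1, j0, j1, j0] = S.wd w0 := SqH.w0_alt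
    rwa [e] at this
  obtain ⟨c', d', hd', e⟩ := (r.mem_H _).1 h2
  have e' : R.nd [j1, j0, j1, j0, j1, j0] = n0 R * r.tt c' d' := by
    have : r.tt c' d' = (n0 R)⁻¹ * R.nd [j1, j0, j1, j0, j1, j0] := e.symm
    rw [this]; group
  rw [e'] at h
  have h3 : r.tt c' d' * r.tt c d * (r.tt c' d')⁻¹ = r.tt c d := by
    rw [r.tt_inv, r.tt_mul, r.tt_mul, mul_right_comm, mul_inv_cancel, one_mul, mul_right_comm, mul_inv_cancel, one_mul]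
  rw [← h]
  calc n0 R * r.tt c d * (n0 R)⁻¹ = n0 R * (r.tt c' d' * r.tt c d * (r.tt c' d')⁻¹) * (n0 R)⁻¹ := by rw [h3]
    _ = _ := by group

/-- centralizers of regular elements -/
lemma cent_Ui0 (e1 : Nm r.φ c * d⁻¹ ≠ 1) (e2 : Nm r.φ c * (c * c)⁻¹ ≠ 1) (e3 : d ≠ 1)
    (e4 : c * c * d * (Nm r.φ c)⁻¹ ≠ 1) (e5 : d * d * (Nm r.φ c)⁻¹ ≠ 1) {u : Γ} (hu : u ∈ R.Ui j0)
    (hc : r.tt c d * u = u * r.tt c d) : u = 1 := by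
  obtain ⟨a1, a2, a3⟩ := stepU j0 (r.tt_H hd) hu hc
  rw [s1 r hd] at a1 a3
  obtain ⟨b1, b2, b3⟩ := stepT j1 a1 a2 a3 (Ct1 r hd (by
    rw [Nm1 r hd]
    intro h
    apply e1
    rw [← h]
    apply Units.ext
    have h2 := d.ne_zero
    push_cast
    field_simp))
  rw [s2 r hd] at b1 b3
  obtain ⟨c1, c2, c3⟩ := stepT j0 b1 b2 b3 (Ct0 r (d2 r hd) (by
    intro h
    apply e2
    rw [← h]
    apply Units.ext
    have h2 := d.ne_zero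
    have h3 := c.ne_zero
    push_cast
    field_simp))
  rw [s3 r hd] at c1 c3
  obtain ⟨f1, f2, f3⟩ := stepT j1 c1 c2 c3 (Ct1 r (d2 r hd) (by
    rw [N3 r hd]
    intro h
    apply e3
    rw [← h]
    apply Units.ext
    have h2 := d.ne_zero
    have h3 := (Nm r.φ c).ne_zero
    push_cast
    field_simp))
  rw [s4 r hd] at f1 f3
  obtain ⟨g1, g2, g3⟩ := stepT j0 f1 f2 f3 (Ct0 r (d4 r hd) (by
    intro h
    apply e4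
    rw [← h]
    apply Units.ext
    have h2 := d.ne_zero
    have h3 := (Nm r.φ c).ne_zero
    push_cast
    field_simp))
  rw [s5 r hd] at g1 g3
  obtain ⟨k1, k2, k3⟩ := stepT j1 g1 g2 g3 (Ct1 r (d4 r hd) (by
    rw [Nm_inv, inv_inv]
    intro h
    apply e5
    rw [← h]
    apply Units.ext
    have h3 := (Nm r.φ c).ne_zero
    push_cast
    field_simp))
  have h1 := w0_to_V (R := R) (L := [j1, j0, j1, j0, j1, j0]) (by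
    intro s hs
    have h : ∀ s : Fin 12, 6 ≤ (s : ℕ) → wf [j1, j0, j1, j0, j1, j0] s < 6 := by decide +kernel
    exact h s hs) (R.Ui_le_U j0 hu)
  have e : R.nd [j1, j0, j1, j0, j1, j0] * u * (R.nd [j1, j0, j1, j0, j1, j0])⁻¹ =
      R.nn j1 * (R.nn j0 * (R.nn j1 * (R.nn j0 * (R.nn j1 * (R.nn j0 * u * (R.nn j0)⁻¹) * (R.nn j1)⁻¹) *
          (R.nn j0)⁻¹) * (R.nn j1)⁻¹) * (R.nn j0)⁻¹) * (R.nn j1)⁻¹ := by
    simp only [RGrp.nd_cons, RGrp.nd_nil, mul_one]; group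
  rw [← e] at k2
  have h2 := R.U_inf_V k2 h1
  calc u = (R.nd [j1, j0, j1, j0, j1, j0])⁻¹ * (R.nd [j1, j0, j1, j0, j1, j0] * u * (R.nd [j1, j0, j1, j0, j1, j0])⁻¹) *
        R.nd [j1, j0, j1, j0, j1, j0] := by group
    _ = 1 := by rw [h2]; group

lemma CU_tt (e1 : Nm r.φ c * d⁻¹ ≠ 1) (e2 : Nm r.φ c * (c * c)⁻¹ ≠ 1) (e3 : d ≠ 1)
    (e4 : c * c * d * (Nm r.φ c)⁻¹ ≠ 1) (e5 : d * d * (Nm r.φ c)⁻¹ ≠ 1) : CU R j0 (r.tt c d) := by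
  refine ⟨fun u hu hc => cent_Ui0 r hd e1 e2 e3 e4 e5 hu hc, fun u hu hc => ?_⟩
  have h1 : n0 R * u * (n0 R)⁻¹ = 1 := by
    refine cent_Ui0 r hd e1 e2 e3 e4 e5 (n0_Vi hu) ?_
    have h2 : (n0 R * r.tt c d * (n0 R)⁻¹) * (n0 R * u * (n0 R)⁻¹) = (n0 R * u * (n0 R)⁻¹) * (n0 R * r.tt c d * (n0 R)⁻¹) := by
      calc (n0 R * r.tt c d * (n0 R)⁻¹) * (n0 R * u * (n0 R)⁻¹) = n0 R * (r.tt c d * u) * (n0 R)⁻¹ := by group
        _ = _ := by rw [hc]; group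
    rw [n0_tt r hd, ← r.tt_inv] at h2
    calc r.tt c d * (n0 R * u * (n0 R)⁻¹) = r.tt c d * ((n0 R * u * (n0 R)⁻¹) * (r.tt c d)⁻¹) * r.tt c d := by group
      _ = r.tt c d * ((r.tt c d)⁻¹ * (n0 R * u * (n0 R)⁻¹)) * r.tt c d := by rw [h2]
      _ = _ := by group
  calc u = (n0 R)⁻¹ * (n0 R * u * (n0 R)⁻¹) * n0 R := by group
    _ = 1 := by rw [h1]; group

end chain

end Cfsg.Agent.H51.TqG
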