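import Cfsg.Agent.H51.TqG

set_option autoImplicit false
set_option maxRecDepth 100000

/-!
Existence of the regular elements for q at least three.
-/

namespace Cfsg.Agent.H51.TqH

open Cfsg.Lie Cfsg.Agent.Chev Cfsg.Agent.ChevGrp Cfsg.Agent.ChevF Cfsg.Agent.H51.G2W Cfsg.Agent.H51.SqC Cfsg.Agent.H51.SqE
  Cfsg.Agent.H51.TqA Cfsg.Agent.H51.TqB Cfsg.Agent.H51.TqC Cfsg.Agent.H51.TqD Cfsg.Agent.H51.TqE Cfsg.Agent.H51.TqG

variable {Γ : Type*} [Group Γ] {R : RGrp S Γ} {K : Type*} [Field K]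

/-- the split case -/
lemma conj_t1 (T : TqD.Sit K R) {c d κ : Kˣ} (hdd : T.r.φ d = d) (hα : c * c * d⁻¹ ≠ 1)
    (hκ : (κ : K) = 1 + (((c * c * d⁻¹)⁻¹ : Kˣ) : K)) (hc₀ : T.c₀ = -(κ * c)) (hd₀ : T.d₀ = d) :
    ∃ g ∈ Lv R j0, T.x1 κ = g * T.r.tt c d * g⁻¹ := by
  set α : Kˣ := c * c * d⁻¹ with hαdef
  have hα' : (1 : K) - ((α⁻¹ : Kˣ) : K) ≠ 0 := by
    intro h
    apply hα
    have h2 : α⁻¹ = 1 := Units.ext (sub_eq_zero.1 h).symm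
    rwa [inv_eq_one] at h2
  set w : K := -1 / (1 - ((α⁻¹ : Kˣ) : K)) with hw
  -- `t' = n⁻¹ t n`
  have e1 : T.r.tt (c⁻¹ * d) d * T.r.X w * (T.r.tt (c⁻¹ * d) d)⁻¹ = T.r.X (((α⁻¹ : Kˣ) : K) * w) := by
    rw [T.r.tX hdd]
    congr 3
    rw [hαdef]
    apply Units.ext
    have h1 := c.ne_zero
    have h2 := d.ne_zero
    push_cast
    field_simp
  have e2 : (R.nn j0)⁻¹ * T.r.tt c d * R.nn j0 = T.r.tt (c⁻¹ * d) d := T.r.nt' hdd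
  have e3 : T.r.X w * T.r.tt (c⁻¹ * d) d * (T.r.X w)⁻¹ = T.r.X (-1) * T.r.tt (c⁻¹ * d) d := by
    have h1 : T.r.X w * T.r.tt (c⁻¹ * d) d * (T.r.X w)⁻¹ =
        T.r.X w * (T.r.tt (c⁻¹ * d) d * T.r.X w * (T.r.tt (c⁻¹ * d) d)⁻¹)⁻¹ * T.r.tt (c⁻¹ * d) d := by group
    rw [h1, e1, ← T.r.X_neg, ← T.r.X_add]
    congr 2
    rw [hw]
    field_simp
    ring
  have e4 : T.r.Y 1 = T.r.X 1 * (T.r.h (-1) * R.nn j0) * T.r.X 1 := by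
    have := T.r.rn 1
    rwa [inv_one, Units.val_one] at this
  have e5 : T.r.Y 1 = R.nn j0 * T.r.X (-1) * (R.nn j0)⁻¹ := by rw [T.r.nX, _root_.neg_neg]
  have e6 : T.r.X 1 * T.r.tt c d = T.r.tt c d * T.r.X ((α⁻¹ : Kˣ) : K) := by
    have h1 := T.r.tX (c := c) hdd ((α⁻¹ : Kˣ) : K)
    have h2 : ((c * c * d⁻¹ : Kˣ) : K) * ((α⁻¹ : Kˣ) : K) = 1 := by
      rw [← Units.val_mul, ← hαdef, mul_inv_cancel, Units.val_one]
    rw [h2] at h1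
    rw [← h1]; group
  have e7 : T.r.h (-1) * R.nn j0 = R.nn j0 * T.r.h (-1) := by
    have := T.r.nh (-1)
    rw [inv_neg, inv_one] at this
    calc T.r.h (-1) * R.nn j0 = (R.nn j0 * T.r.h (-1) * (R.nn j0)⁻¹) * R.nn j0 := by rw [this]
      _ = _ := by group
  have e8 : T.r.h (-1) * T.r.tt c d = T.r.tt (-c) d := by
    rw [T.r.h_eq, T.r.tt_mul, neg_one_mul, one_mul]
  refine ⟨T.r.X ((α⁻¹ : Kˣ) : K) * (R.nn j0 * T.r.X w * (R.nn j0)⁻¹), mul_mem (X_Lv (T.r.X_mem _))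
    (mul_mem (mul_mem T.r.n_Lv (X_Lv (T.r.X_mem _))) (inv_mem T.r.n_Lv)), ?_⟩
  have e9 : T.r.X ((α⁻¹ : Kˣ) : K) * (R.nn j0 * T.r.X w * (R.nn j0)⁻¹) * T.r.tt c d *
      (T.r.X ((α⁻¹ : Kˣ) : K) * (R.nn j0 * T.r.X w * (R.nn j0)⁻¹))⁻¹ =
      T.r.X ((α⁻¹ : Kˣ) : K) * (T.r.Y 1 * T.r.tt c d) * (T.r.X ((α⁻¹ : Kˣ) : K))⁻¹ := by
    have h1 : T.r.Y 1 * T.r.tt c d = R.nn j0 * (T.r.X w * ((R.nn j0)⁻¹ * T.r.tt c d * R.nn j0) * (T.r.X w)⁻¹) * (R.nn j0)⁻¹ := by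
      rw [e2, e3, e5, ← e2]; group
    rw [h1]; group
  rw [e9, e4]
  have e10 : T.r.X ((α⁻¹ : Kˣ) : K) * (T.r.X 1 * (T.r.h (-1) * R.nn j0) * T.r.X 1 * T.r.tt c d) * (T.r.X ((α⁻¹ : Kˣ) : K))⁻¹ =
      T.r.X ((α⁻¹ : Kˣ) : K) * T.r.X 1 * R.nn j0 * (T.r.h (-1) * T.r.tt c d) := by
    calc T.r.X ((α⁻¹ : Kˣ) : K) * (T.r.X 1 * (T.r.h (-1) * R.nn j0) * T.r.X 1 * T.r.tt c d) * (T.r.X ((α⁻¹ : Kˣ) : K))⁻¹ =
        T.r.X ((α⁻¹ : Kˣ) : K) * T.r.X 1 * (T.r.h (-1) * R.nn j0) * (T.r.X 1 * T.r.tt c d) * (T.r.X ((α⁻¹ : Kˣ) : K))⁻¹ := by group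
      _ = _ := by rw [e6, e7]; group
  rw [e10, e8, ← T.r.X_add]
  unfold TqD.Sit.x1
  have e11 : κ⁻¹ * T.c₀ = -c := by
    rw [hc₀, mul_neg, inv_mul_cancel_left]
  rw [e11, hd₀, hκ, add_comm]

section three

variable (r : Rel K R)

/-- root index -/
def i11 : Fin chevG2.nroots := ⟨11, by decide⟩
/-- root index -/
def i7 : Fin chevG2.nroots := ⟨7, by decide⟩
/-- root index -/
def i4 : Fin chevG2.nroots := ⟨4, by decide⟩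

include r in
lemma c7_11 : Cm R i7 i11 := (c96 r).wd [j1, j0] (by decide +kernel) (by decide +kernel)
include r in
lemma c4_11 : Cm R i4 i11 := (c96 r).wd [j0, j1, j0] (by decide +kernel) (by decide +kernel)

lemma p0_eq : S.p j0 = i7 := Fin.ext p0_val
lemma np0_eq : S.neg (S.p j0) = i4 := Fin.ext (by rw [neg_val, p0_val]; rfl)

include r in
lemma Li_11 {l : Γ} (hl : l ∈ R.Li j0) {x : Γ} (hx : x ∈ R.X i11) : l * x = x * l := by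
  have h : R.Li j0 ≤ Subgroup.centralizer {x} := by
    refine sup_le ?_ ?_
    · intro y hy
      rw [p0_eq] at hy
      rw [Subgroup.mem_centralizer_singleton_iff]
      exact c7_11 r y hy x hx
    · intro y hy
      rw [np0_eq] at hy
      rw [Subgroup.mem_centralizer_singleton_iff]
      exact c4_11 r y hy x hx
  exact Subgroup.mem_centralizer_singleton_iff.1 (h hl)

lemma Ct11 {c d : Kˣ} (hd : r.φ d = d) (h : d ≠ 1) : Ct R (r.tt c d) i11 := by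
  intro x hx hc
  have hact := RGrp.act_nd (R := R) [j0, j1, j0]
  have h1 := hact.conj hx
  have e1 : S.wd [j0, j1, j0] i11 = S.p j1 := by
    apply Fin.ext
    rw [wd_val, p1_val]
    decide +kernel
  rw [e1] at h1
  have h2 : R.nd [j0, j1, j0] * r.tt c d * (R.nd [j0, j1, j0])⁻¹ = r.tt (c * d * (Nm r.φ c)⁻¹) ((Nm r.φ c)⁻¹ * (d * d)) := by
    simp only [RGrp.nd_cons, RGrp.nd_nil, mul_one]
    calc R.nn j0 * (R.nn j1 * R.nn j0) * r.tt c d * (R.nn j0 * (R.nn j1 * R.nn j0))⁻¹ =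
        R.nn j0 * (R.nn j1 * (R.nn j0 * r.tt c d * (R.nn j0)⁻¹) * (R.nn j1)⁻¹) * (R.nn j0)⁻¹ := by group
      _ = _ := by rw [s1 r hd, s2 r hd, s3 r hd]
  have h3 := Ct1 r (c := c * d * (Nm r.φ c)⁻¹) (d2 r hd (c := c)) (by
    rw [N3 r hd]
    intro h'
    apply h
    rw [← h']
    apply Units.ext
    have h2 := d.ne_zero
    have h3 := (Nm r.φ c).ne_zero
    push_cast
    field_simp)
  rw [← h2] at h3
  have h4 := h3 _ h1 (by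
    calc R.nd [j0, j1, j0] * r.tt c d * (R.nd [j0, j1, j0])⁻¹ * (R.nd [j0, j1, j0] * x * (R.nd [j0, j1, j0])⁻¹) =
        R.nd [j0, j1, j0] * (r.tt c d * x) * (R.nd [j0, j1, j0])⁻¹ := by group
      _ = _ := by rw [hc]; group)
  calc x = (R.nd [j0, j1, j0])⁻¹ * (R.nd [j0, j1, j0] * x * (R.nd [j0, j1, j0])⁻¹) * R.nd [j0, j1, j0] := by group
    _ = 1 := by rw [h4]; group

lemma Nm_neg_one : Nm r.φ (-1) = -1 := by
  rw [Nm_fix (by push_cast; rw [map_neg, map_one])]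
  simp

lemma Nm_one : Nm r.φ 1 = 1 := by
  rw [Nm_fix (by push_cast; rw [map_one])]
  simp

variable (h2 : (-1 : Kˣ) ≠ 1)
include h2

lemma cent_h {u : Γ} (hu : u ∈ R.Ui j0) (hc : r.tt (-1) 1 * u = u * r.tt (-1) 1) : u ∈ R.X i11 := by
  have f1 : r.φ ((1 : Kˣ) : K) = ((1 : Kˣ) : K) := by push_cast; rw [map_one]
  have f2 : r.φ ((-1 : Kˣ) : K) = ((-1 : Kˣ) : K) := by push_cast; rw [map_neg, map_one]
  obtain ⟨a1, a2, a3⟩ := stepU j0 (r.tt_H f1) hu hc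
  have q1 : R.nn j0 * r.tt (-1) 1 * (R.nn j0)⁻¹ = r.tt (-1) 1 := by
    rw [r.nt f1]; simp
  rw [q1] at a1 a3
  obtain ⟨b1, b2, b3⟩ := stepT j1 a1 a2 a3 (Ct1 r f1 (by rw [Nm_neg_one]; simpa using h2))
  have q2 : R.nn j1 * r.tt (-1) 1 * (R.nn j1)⁻¹ = r.tt (-1) (-1) := by
    rw [r.mt f1, Nm_neg_one]; simp
  rw [q2] at b1 b3
  obtain ⟨c1, c2, c3⟩ := stepT j0 b1 b2 b3 (Ct0 r f2 (by simpa using h2))
  have q3 : R.nn j0 * r.tt (-1) (-1) * (R.nn j0)⁻¹ = r.tt 1 (-1) := by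
    rw [r.nt f2]; simp
  rw [q3] at c1 c3
  obtain ⟨z, hz, v, hv, f1', f2', f3'⟩ := stepS j1 c1 c2 c3
  have q4 : R.nn j1 * r.tt 1 (-1) * (R.nn j1)⁻¹ = r.tt 1 (-1) := by
    rw [r.mt f2, Nm_one]; simp
  rw [q4] at f1' f3'
  obtain ⟨g1, g2, g3⟩ := stepT j0 f1' f2' f3' (Ct0 r f2 (by simpa using h2))
  have q5 : R.nn j0 * r.tt 1 (-1) * (R.nn j0)⁻¹ = r.tt (-1) (-1) := by
    rw [r.nt f2]; simp
  rw [q5] at g1 g3
  obtain ⟨k1, k2, k3⟩ := stepT j1 g1 g2 g3 (Ct1 r f2 (by rw [Nm_neg_one]; simpa using h2))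
  -- the last element is trivial
  have p1 := w0_to_V (R := R) (L := [j1, j0, j1, j0, j1, j0]) (by
    intro s hs
    have h : ∀ s : Fin 12, 6 ≤ (s : ℕ) → wf [j1, j0, j1, j0, j1, j0] s < 6 := by decide +kernel
    exact h s hs) (R.Ui_le_U j0 hu)
  have p2 := to_V (R := R) (L := [j1, j0, j1]) (r := S.p j1) (by rw [p1_val]; decide +kernel) (inv_mem hz)
  have e3 : R.nn j0 * (R.nn j1 * (R.nn j0 * u * (R.nn j0)⁻¹) * (R.nn j1)⁻¹) * (R.nn j0)⁻¹ = z * v := hv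
  have e : R.nn j1 * (R.nn j0 * (R.nn j1 * v * (R.nn j1)⁻¹) * (R.nn j0)⁻¹) * (R.nn j1)⁻¹ =
      (R.nd [j1, j0, j1] * z⁻¹ * (R.nd [j1, j0, j1])⁻¹) *
      (R.nd [j1, j0, j1, j0, j1, j0] * u * (R.nd [j1, j0, j1, j0, j1, j0])⁻¹) := by
    have : v = z⁻¹ * (R.nn j0 * (R.nn j1 * (R.nn j0 * u * (R.nn j0)⁻¹) * (R.nn j1)⁻¹) * (R.nn j0)⁻¹) := by rw [e3]; group
    rw [this]
    simp only [RGrp.nd_cons, RGrp.nd_nil, mul_one]; group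
  have p3 := R.U_inf_V k2 (e ▸ mul_mem p2 p1)
  have hv1 : v = 1 := by
    calc v = (R.nn j1)⁻¹ * ((R.nn j0)⁻¹ * ((R.nn j1)⁻¹ * (R.nn j1 * (R.nn j0 * (R.nn j1 * v * (R.nn j1)⁻¹) * (R.nn j0)⁻¹) * (R.nn j1)⁻¹) *
          R.nn j1) * R.nn j0) * R.nn j1 := by group
      _ = 1 := by rw [p3]; group
  rw [hv1, mul_one] at e3
  have hact := RGrp.act_nd (R := R) [j0, j1, j0]
  have h3 := hact.conj' hz
  have e1 : (S.wd [j0, j1, j0])⁻¹ (S.p j1) = i11 := by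
    have e2 : (S.wd [j0, j1, j0])⁻¹ = S.wd [j0, j1, j0] := by
      simp only [WSys.wd_cons, WSys.wd_nil, mul_inv_rev, WSys.w_inv, inv_one]; group
    rw [e2]
    apply Fin.ext
    rw [wd_val, p1_val]
    decide +kernel
  rw [e1, ← e3] at h3
  have e4 : (R.nd [j0, j1, j0])⁻¹ * (R.nn j0 * (R.nn j1 * (R.nn j0 * u * (R.nn j0)⁻¹) * (R.nn j1)⁻¹) * (R.nn j0)⁻¹) *
      R.nd [j0, j1, j0] = u := by
    simp only [RGrp.nd_cons, RGrp.nd_nil, mul_one]; group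
  rwa [e4] at h3

lemma cent3 {l : Γ} (hl : l ∈ R.Li j0) {c d : Kˣ} (hd : r.φ d = d) (hd1 : d ≠ 1)
    (h4 : (l * r.tt c d) ^ 4 = r.tt (-1) 1) {u : Γ} (hu : u ∈ R.Ui j0)
    (hc : (l * r.tt c d) * u = u * (l * r.tt c d)) : u = 1 := by
  have h5 : Commute ((l * r.tt c d) ^ 4) u := Commute.pow_left hc 4
  rw [h4] at h5
  have h6 := cent_h r h2 hu h5.eq
  have h7 : r.tt c d * u * (r.tt c d)⁻¹ ∈ R.X i11 := R.H_X _ (r.tt_H hd) _ _ h6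
  have h8 := Li_11 r hl h7
  apply Ct11 r hd hd1 (c := c) u h6
  have h9 : l * (r.tt c d * u * (r.tt c d)⁻¹) * l⁻¹ = u := by
    calc l * (r.tt c d * u * (r.tt c d)⁻¹) * l⁻¹ = ((l * r.tt c d) * u) * (l * r.tt c d)⁻¹ := by group
      _ = u := by rw [hc]; group
  rw [h8] at h9
  have h10 : r.tt c d * u * (r.tt c d)⁻¹ = u := by
    calc r.tt c d * u * (r.tt c d)⁻¹ = (r.tt c d * u * (r.tt c d)⁻¹) * l * l⁻¹ := by group
      _ = u := h9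
  exact mul_inv_eq_iff_eq_mul.1 h10

lemma CU3 {l : Γ} (hl : l ∈ R.Li j0) {c d : Kˣ} (hd : r.φ d = d) (hd1 : d ≠ 1)
    (h4 : (l * r.tt c d) ^ 4 = r.tt (-1) 1) : CU R j0 (l * r.tt c d) := by
  refine ⟨fun u hu hc => cent3 r h2 hl hd hd1 h4 hu hc, fun u hu hc => ?_⟩
  have hl' : n0 R * l * (n0 R)⁻¹ ∈ R.Li j0 := by
    rw [Li_gen] at hl ⊢
    refine n0_gen ?_ hl
    rintro s (rfl | rfl)
    · right; rfl
    · left; exact WSys.neg_neg _ _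
  have e : n0 R * (l * r.tt c d) * (n0 R)⁻¹ = (n0 R * l * (n0 R)⁻¹) * r.tt c⁻¹ d⁻¹ := by
    rw [← n0_tt r hd]; group
  have hd' : r.φ ((d⁻¹ : Kˣ) : K) = ((d⁻¹ : Kˣ) : K) := by
    rw [Units.val_inv_eq_inv_val, map_inv₀, hd]
  have h1 : n0 R * u * (n0 R)⁻¹ = 1 := by
    refine cent3 r h2 hl' (c := c⁻¹) hd' (by rwa [ne_eq, inv_eq_one]) ?_ (n0_Vi hu) ?_
    · rw [← e, conj_pow, h4, n0_tt r (by push_cast; rw [map_one])]
      simp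
    · rw [← e]
      calc n0 R * (l * r.tt c d) * (n0 R)⁻¹ * (n0 R * u * (n0 R)⁻¹) = n0 R * ((l * r.tt c d) * u) * (n0 R)⁻¹ := by group
        _ = _ := by rw [hc]; group
  calc u = (n0 R)⁻¹ * (n0 R * u * (n0 R)⁻¹) * n0 R := by group
    _ = 1 := by rw [h1]; group

end three

/-- the fourth power in characteristic three -/
lemma pow4 (T : TqD.Sit K R) (h3 : (2 : K) = -1) (hc : T.c₀ = 1) (hd : T.d₀ = -1) :
    (T.x1 1) ^ 4 = T.r.tt (-1) 1 := by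
  have f2 : T.r.φ ((-1 : Kˣ) : K) = ((-1 : Kˣ) : K) := by push_cast; rw [map_neg, map_one]
  have e0 : T.x1 1 = T.r.X 1 * R.nn j0 * T.r.tt 1 (-1) := by
    unfold TqD.Sit.x1
    rw [hc, hd, inv_one, one_mul, Units.val_one]
  have e1 : T.r.tt 1 (-1) * T.r.X 1 * (T.r.tt 1 (-1))⁻¹ = T.r.X (-1) := by
    rw [T.r.tX f2]; simp
  have e2 : R.nn j0 * T.r.tt 1 (-1) * (R.nn j0)⁻¹ = T.r.tt (-1) (-1) := by
    rw [T.r.nt f2]; simp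
  have e3 : R.nn j0 * T.r.X (-1) * (R.nn j0)⁻¹ = T.r.Y 1 := by rw [T.r.nX, _root_.neg_neg]
  have e4 : T.r.Y 1 = T.r.X 1 * (T.r.h (-1) * R.nn j0) * T.r.X 1 := by
    have := T.r.rn 1
    rwa [inv_one, Units.val_one] at this
  have e5 : (T.x1 1) ^ 2 = T.r.X 1 * T.r.Y 1 := by
    rw [pow_two, e0]
    calc T.r.X 1 * R.nn j0 * T.r.tt 1 (-1) * (T.r.X 1 * R.nn j0 * T.r.tt 1 (-1)) =
        T.r.X 1 * (R.nn j0 * (T.r.tt 1 (-1) * T.r.X 1 * (T.r.tt 1 (-1))⁻¹) * (R.nn j0)⁻¹) *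
          ((R.nn j0 * T.r.tt 1 (-1) * (R.nn j0)⁻¹) * (R.nn j0 * R.nn j0) * T.r.tt 1 (-1)) := by group
      _ = _ := by
        rw [e1, e2, e3, T.r.nsq', T.r.tt_mul, T.r.tt_mul]
        simp only [mul_one, neg_mul_neg, T.r.tt_one]
  have e6 : T.r.X 1 * T.r.Y 1 = (T.r.X 1)⁻¹ * (T.r.h (-1) * R.nn j0) * T.r.X 1 := by
    rw [e4, ← T.r.X_neg, ← mul_assoc, ← mul_assoc, ← T.r.X_add]
    have : (1 : K) + 1 = -1 := by rw [← h3]; norm_num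
    rw [this]
  have e7 : T.r.tt (-1) 1 * T.r.X 1 * (T.r.tt (-1) 1)⁻¹ = T.r.X 1 := by
    rw [T.r.tX (by push_cast; rw [map_one])]; simp
  have e8 : (T.r.h (-1) * R.nn j0) * (T.r.h (-1) * R.nn j0) = T.r.tt (-1) 1 := by
    have h1 := T.r.nh (-1)
    rw [inv_neg, inv_one] at h1
    calc (T.r.h (-1) * R.nn j0) * (T.r.h (-1) * R.nn j0) =
        T.r.h (-1) * (R.nn j0 * T.r.h (-1) * (R.nn j0)⁻¹) * (R.nn j0 * R.nn j0) := by group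
      _ = _ := by
        rw [h1, T.r.nsq', T.r.h_eq, T.r.tt_mul, T.r.tt_mul]
        simp
  have e9 : (T.x1 1) ^ 4 = (T.x1 1) ^ 2 * (T.x1 1) ^ 2 := by rw [← pow_add]
  rw [e9, e5, e6]
  calc (T.r.X 1)⁻¹ * (T.r.h (-1) * R.nn j0) * T.r.X 1 * ((T.r.X 1)⁻¹ * (T.r.h (-1) * R.nn j0) * T.r.X 1) =
      (T.r.X 1)⁻¹ * ((T.r.h (-1) * R.nn j0) * (T.r.h (-1) * R.nn j0)) * T.r.X 1 := by group
    _ = (T.r.X 1)⁻¹ * (T.r.tt (-1) 1 * T.r.X 1 * (T.r.tt (-1) 1)⁻¹) * T.r.tt (-1) 1 := by rw [e8]; group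
    _ = _ := by rw [e7]; group

include K in
/-- `n` lies in the rank one group -/
lemma n_Li (r : Rel K R) : R.nn j0 ∈ R.Li j0 := by
  have h1 := r.hn 1
  rw [r.h_one, one_mul] at h1
  rw [← h1]
  exact mul_mem (mul_mem (Subgroup.mem_sup_left (r.X_mem _)) (Subgroup.mem_sup_right (r.Y_mem _))) (Subgroup.mem_sup_left (r.X_mem _))

/-- the element in characteristic three -/
lemma CU_three (T : TqD.Sit K R) (h3 : (2 : K) = -1) (h2 : (-1 : Kˣ) ≠ 1) (hc : T.c₀ = 1) (hd : T.d₀ = -1) :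
    CU R j0 (T.x1 1) ∧ (T.x1 1) ^ 8 = 1 := by
  have f2 : T.r.φ ((-1 : Kˣ) : K) = ((-1 : Kˣ) : K) := by push_cast; rw [map_neg, map_one]
  have e0 : T.x1 1 = T.r.X 1 * R.nn j0 * T.r.tt 1 (-1) := by
    unfold TqD.Sit.x1
    rw [hc, hd, inv_one, one_mul, Units.val_one]
  have h4 := pow4 T h3 hc hd
  constructor
  · rw [e0] at h4 ⊢
    exact CU3 T.r h2 (mul_mem (Subgroup.mem_sup_left (T.r.X_mem _)) (n_Li T.r)) f2 h2 h4
  · have : (T.x1 1) ^ 8 = (T.x1 1) ^ 4 * (T.x1 1) ^ 4 := by rw [← pow_add]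
    rw [this, h4, T.r.tt_mul]
    simp only [neg_mul_neg, mul_one, T.r.tt_one]

end Cfsg.Agent.H51.TqH
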