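import Cfsg.Agent.H51.TqH

set_option autoImplicit false
set_option maxRecDepth 100000

/-!
The relations hold in the twisted groups of type D4 (triality).
-/

namespace Cfsg.Agent.H51.TqI

open Cfsg.Lie Cfsg.Agent.Chev Cfsg.Agent.ChevGrp Cfsg.Agent.ChevGrp.DData Cfsg.Agent.ChevWeyl Cfsg.Agent.ChevTw Cfsg.Agent.Tw3

section gen

variable {l n : ℕ} {S : WSys l n} {G F : Type*} [Group G] [Field F] {A : Amb S G F} {l' n' : ℕ}
  {S' : WSys l' n'} {O : OData A S'} (Bd : BData O)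

open OData BData

theorem gen_comm {G : Type*} [Group G] {n : ℕ} {X : Fin n → Subgroup G} {P Q : Fin n → Prop}
    (h : ∀ r, P r → ∀ s, Q s → ∀ x ∈ X r, ∀ y ∈ X s, x * y = y * x) :
    ∀ x ∈ gen X P, ∀ y ∈ gen X Q, x * y = y * x := by
  have h1 : ∀ s, Q s → ∀ y ∈ X s, ∀ x ∈ gen X P, x * y = y * x := by
    intro s hs y hy x hx
    have : gen X P ≤ Subgroup.centralizer {y} := by
      rw [gen_le]
      intro r hr z hz
      rw [Subgroup.mem_centralizer_singleton_iff]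
      exact h r hr s hs z hz y hy
    exact Subgroup.mem_centralizer_singleton_iff.1 (this hx)
  intro x hx y hy
  have : gen X Q ≤ Subgroup.centralizer {x} := by
    rw [gen_le]
    intro s hs z hz
    rw [Subgroup.mem_centralizer_singleton_iff]
    exact (h1 s hs z hz x hx).symm
  exact (show y * x = x * y from Subgroup.mem_centralizer_singleton_iff.1 (this hy)).symm

theorem nj_conj_E (j : Fin l') (hη : ∀ i ∈ O.L j, ∀ t, A.R.nn i * A.x (S.p i) t * (A.R.nn i)⁻¹ = A.x (S.neg (S.p i)) (-t))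
    (t : Fin l → F) : A.R.nd (O.L j) * O.E S.p j t * (A.R.nd (O.L j))⁻¹ = O.E (fun i => S.neg (S.p i)) j (fun i => - t i) := by
  have hx : ∀ i, ∀ c, A.x (S.p i) c ∈ A.R.Li i := fun i c => Subgroup.mem_sup_left (A.x_mem _ _)
  have hy : ∀ i, ∀ c, A.x (S.neg (S.p i)) c ∈ A.R.Li i := fun i c => Subgroup.mem_sup_right (A.x_mem _ _)
  have h1 : A.R.nd (O.L j) * O.E S.p j t = ((O.L j).map fun i => A.R.nn i * A.x (S.p i) (t i)).prod := by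
    rw [prod_map_mul _ _ _ (fun i hi k hk h => Li_comm hi hk h (hx i _) (nn_mem k)) (O.L_nodup j)]
    rfl
  have h2 : O.E (fun i => S.neg (S.p i)) j (fun i => - t i) * A.R.nd (O.L j) =
      ((O.L j).map fun i => A.x (S.neg (S.p i)) (- t i) * A.R.nn i).prod := by
    rw [prod_map_mul _ _ _ (fun i hi k hk h => Li_comm hi hk h (nn_mem i) (hy k _)) (O.L_nodup j)]
    rfl
  rw [mul_inv_eq_iff_eq_mul, h1, h2]
  congr 1
  refine List.map_congr_left fun i hi => ?_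
  rw [← hη i hi]; group

theorem nj_conj_xb (j : Fin l') (hη : ∀ i ∈ O.L j, ∀ t, A.R.nn i * A.x (S.p i) t * (A.R.nn i)⁻¹ = A.x (S.neg (S.p i)) (-t))
    (u : F) : A.R.nd (O.L j) * Bd.xb S.p j u * (A.R.nd (O.L j))⁻¹ = Bd.xb (fun i => S.neg (S.p i)) j (-u) := by
  unfold xb
  rw [nj_conj_E j hη]
  exact E_congr _ _ fun i _ => (map_neg _ _).symm

end gen

variable {K : Type*} [Field K] (φ : K ≃+* K)

/-- ambient group -/
noncomputable abbrev AA (K : Type*) [Field K] := amb goodD4 dD4 K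
/-- block data -/
noncomputable abbrev Bd := bdD4 goodD4 dD4 dG2 φ

theorem tabs : ∀ i < 4, chevD4.reflectRoot i (chevD4.simple i) = chevD4.neg (chevD4.simple i) ∧
    eta chevD4 i (chevD4.simple i) = -1 ∧ ∀ k < 4, chevD4.cartan k (chevD4.simple i) =
      if i = k then 2 else if i = 1 ∨ k = 1 then -1 else 0 := by decide +kernel

theorem eta_nn (i : Fin chevD4.rank) (t : K) : (AA K).R.nn i * (AA K).x (dD4.rp.wsys.p i) t * ((AA K).R.nn i)⁻¹ =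
    (AA K).x (dD4.rp.wsys.neg (dD4.rp.wsys.p i)) (-t) := by
  have h1 := nG_conj (F := K) goodD4.toGood2 i.2 (dD4.rp.p i).2 t
  have h2 : ((dD4.rp.p i : Fin _) : ℕ) = chevD4.simple i := dD4.hp i
  have h3 : ((dD4.rp.neg (dD4.rp.p i) : Fin _) : ℕ) = chevD4.neg (chevD4.simple i) := by rw [← h2]; exact dD4.hneg _
  obtain ⟨e1, e2, -⟩ := tabs i i.2
  show (chevG dD4 goodD4 K).nn i * xG goodD4.toGood2 (dD4.rp.p i : Fin _) t * ((chevG dD4 goodD4 K).nn i)⁻¹ =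
    xG goodD4.toGood2 (dD4.rp.neg (dD4.rp.p i) : Fin _) (-t)
  rw [chevG_nn, h1, h3, h2, e1, e2]
  simp

theorem m_val (i k : Fin chevD4.rank) : (AA K).m k (dD4.rp.wsys.p i) = if (i : ℕ) = k then 2 else if (i : ℕ) = 1 ∨ (k : ℕ) = 1 then -1 else 0 := by
  have h : (AA K).m k (dD4.rp.wsys.p i) = dD4.rp.m k (dD4.rp.p i) := rfl
  rw [h, dD4.hm, dD4.hp]
  exact (tabs i i.2).2.2 k k.2

theorem nn_h0 {i k : Fin chevD4.rank} (h : (i : ℕ) ≠ k) (h1 : (i : ℕ) ≠ 1) (h2 : (k : ℕ) ≠ 1) (c : Kˣ) :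
    (AA K).R.nn i * (AA K).h k c * ((AA K).R.nn i)⁻¹ = (AA K).h k c := by
  rw [(AA K).nn_h, m_val, if_neg h, if_neg (by tauto)]
  simp [(AA K).h_one]

theorem nn_h1 {i k : Fin chevD4.rank} (h : (i : ℕ) ≠ k) (h1 : (i : ℕ) = 1 ∨ (k : ℕ) = 1) (c : Kˣ) :
    (AA K).R.nn i * (AA K).h k c * ((AA K).R.nn i)⁻¹ = (AA K).h k c * (AA K).h i c := by
  rw [(AA K).nn_h, m_val, if_neg h, if_pos h1]
  simp

/-- indices -/
def k0 : Fin chevD4.rank := ⟨0, by decide⟩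
/-- indices -/
def k1 : Fin chevD4.rank := ⟨1, by decide⟩
/-- indices -/
def k2 : Fin chevD4.rank := ⟨2, by decide⟩
/-- indices -/
def k3 : Fin chevD4.rank := ⟨3, by decide⟩

theorem hb0 (c : Kˣ) : (Bd φ).hb Tw3.j0 c = (AA K).h k0 c * ((AA K).h k2 (φu φ c) * ((AA K).h k3 (φu φ (φu φ c)) * 1)) := rfl
theorem hb1 (c : Kˣ) : (Bd φ).hb Tw3.j1 c = (AA K).h k1 c * 1 := rfl
theorem nd0 : (AA K).R.nd ((oD4 goodD4 dD4 dG2 φ).L Tw3.j0) = (AA K).R.nn k0 * ((AA K).R.nn k2 * ((AA K).R.nn k3 * 1)) := by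
  have h : (oD4 goodD4 dD4 dG2 φ).L Tw3.j0 = [k0, k2, k3] := rfl
  rw [h]; simp
theorem nd1 : (AA K).R.nd ((oD4 goodD4 dD4 dG2 φ).L Tw3.j1) = (AA K).R.nn k1 * 1 := by
  have h : (oD4 goodD4 dD4 dG2 φ).L Tw3.j1 = [k1] := rfl
  rw [h]; simp

theorem nb_rel {d : Kˣ} (hd : φ d = d) : (AA K).R.nd ((oD4 goodD4 dD4 dG2 φ).L Tw3.j0) * (Bd φ).hb Tw3.j1 d *
    ((AA K).R.nd ((oD4 goodD4 dD4 dG2 φ).L Tw3.j0))⁻¹ = (Bd φ).hb Tw3.j0 d * (Bd φ).hb Tw3.j1 d := by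
  have hu : φu φ d = d := Units.ext hd
  rw [hb0, hb1, nd0, hu, hu]
  have a3 := nn_h1 (K := K) (i := k3) (k := k1) (by decide) (by decide) d
  have a2 := nn_h1 (K := K) (i := k2) (k := k1) (by decide) (by decide) d
  have a0 := nn_h1 (K := K) (i := k0) (k := k1) (by decide) (by decide) d
  have b23 := nn_h0 (K := K) (i := k2) (k := k3) (by decide) (by decide) (by decide) d
  have b03 := nn_h0 (K := K) (i := k0) (k := k3) (by decide) (by decide) (by decide) d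
  have b02 := nn_h0 (K := K) (i := k0) (k := k2) (by decide) (by decide) (by decide) d
  have c1 := (AA K).h_comm k1 k0 d d
  have c2 := (AA K).h_comm k1 k2 d d
  have c3 := (AA K).h_comm k1 k3 d d
  calc (AA K).R.nn k0 * ((AA K).R.nn k2 * ((AA K).R.nn k3 * 1)) * ((AA K).h k1 d * 1) *
      ((AA K).R.nn k0 * ((AA K).R.nn k2 * ((AA K).R.nn k3 * 1)))⁻¹ =
      (AA K).R.nn k0 * ((AA K).R.nn k2 * ((AA K).R.nn k3 * (AA K).h k1 d * ((AA K).R.nn k3)⁻¹) * ((AA K).R.nn k2)⁻¹) * ((AA K).R.nn k0)⁻¹ := by group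
    _ = (AA K).R.nn k0 * (((AA K).R.nn k2 * (AA K).h k1 d * ((AA K).R.nn k2)⁻¹) *
        ((AA K).R.nn k2 * (AA K).h k3 d * ((AA K).R.nn k2)⁻¹)) * ((AA K).R.nn k0)⁻¹ := by rw [a3]; group
    _ = ((AA K).R.nn k0 * (AA K).h k1 d * ((AA K).R.nn k0)⁻¹) * ((AA K).R.nn k0 * (AA K).h k2 d * ((AA K).R.nn k0)⁻¹) *
        ((AA K).R.nn k0 * (AA K).h k3 d * ((AA K).R.nn k0)⁻¹) := by rw [a2, b23]; group
    _ = (AA K).h k1 d * (AA K).h k0 d * (AA K).h k2 d * (AA K).h k3 d := by rw [a0, b02, b03]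
    _ = (AA K).h k0 d * ((AA K).h k1 d * (AA K).h k2 d) * (AA K).h k3 d := by rw [c1]; group
    _ = (AA K).h k0 d * (AA K).h k2 d * ((AA K).h k1 d * (AA K).h k3 d) := by rw [c2]; group
    _ = _ := by rw [c3]; group

theorem mh_rel (c : Kˣ) : (AA K).R.nd ((oD4 goodD4 dD4 dG2 φ).L Tw3.j1) * (Bd φ).hb Tw3.j0 c *
    ((AA K).R.nd ((oD4 goodD4 dD4 dG2 φ).L Tw3.j1))⁻¹ = (Bd φ).hb Tw3.j0 c * (Bd φ).hb Tw3.j1 (TqB.Nm φ c) := by
  have hN : TqB.Nm φ c = c * (φu φ c * φu φ (φu φ c)) := rfl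
  rw [hb0, hb1, nd1, hN]
  set c' := φu φ c
  set c'' := φu φ c'
  have a0 := nn_h1 (K := K) (i := k1) (k := k0) (by decide) (by decide) c
  have a2 := nn_h1 (K := K) (i := k1) (k := k2) (by decide) (by decide) c'
  have a3 := nn_h1 (K := K) (i := k1) (k := k3) (by decide) (by decide) c''
  have c1 := (AA K).h_comm k1 k2 c c'
  have c2 := (AA K).h_comm k1 k3 (c * c') c''
  calc (AA K).R.nn k1 * 1 * ((AA K).h k0 c * ((AA K).h k2 c' * ((AA K).h k3 c'' * 1))) * ((AA K).R.nn k1 * 1)⁻¹ =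
      ((AA K).R.nn k1 * (AA K).h k0 c * ((AA K).R.nn k1)⁻¹) * ((AA K).R.nn k1 * (AA K).h k2 c' * ((AA K).R.nn k1)⁻¹) *
        ((AA K).R.nn k1 * (AA K).h k3 c'' * ((AA K).R.nn k1)⁻¹) := by group
    _ = (AA K).h k0 c * ((AA K).h k1 c * (AA K).h k2 c') * (AA K).h k1 c' * ((AA K).h k3 c'' * (AA K).h k1 c'') := by
      rw [a0, a2, a3]; group
    _ = (AA K).h k0 c * (AA K).h k2 c' * ((AA K).h k1 (c * c') * (AA K).h k3 c'') * (AA K).h k1 c'' := by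
      rw [c1, (AA K).h_mul]; group
    _ = _ := by
      rw [c2, ← mul_assoc c c' c'', (AA K).h_mul k1 (c * c') c'']; group

theorem sig_hb {j : Fin chevG2.rank} {c : Kˣ} (hc : (Bd φ).IsFx j c) :
    (oD4 goodD4 dD4 dG2 φ).σ ((Bd φ).hb j c) = (Bd φ).hb j c := by
  have h1 := (Bd φ).hb_mem_G1 j hc
  exact (TwData.G1_le_Fx _) h1

theorem chb00 (c : Kˣ) : (Bd φ).chb Tw3.j0 c (dD4.rp.wsys.p ((Bd φ).b Tw3.j0)) = c * c := by
  rw [chb_j0]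
  have h : ((dD4.rp.wsys.p ((Bd φ).b Tw3.j0) : Fin _) : ℕ) = chevD4.simple 0 := dD4.hp _
  obtain ⟨a1, a2, a3, a4, a5, a6, a7, a8⟩ := cart_D4
  rw [h, a1, a2, a3, zpow_zero, zpow_zero, mul_one, mul_one, zpow_two]

theorem chb01 (c : Kˣ) : (Bd φ).chb Tw3.j0 c (dD4.rp.wsys.p ((Bd φ).b Tw3.j1)) = (TqB.Nm φ c)⁻¹ := by
  rw [chb_j0]
  have h : ((dD4.rp.wsys.p ((Bd φ).b Tw3.j1) : Fin _) : ℕ) = chevD4.simple 1 := dD4.hp _
  obtain ⟨a1, a2, a3, a4, a5, a6, a7, a8⟩ := cart_D4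
  have hN : TqB.Nm φ c = c * (φu φ c * φu φ (φu φ c)) := rfl
  rw [h, a5, a6, a7, hN, zpow_neg_one, zpow_neg_one, zpow_neg_one, mul_inv, mul_inv]

theorem chb10 (d : Kˣ) : (Bd φ).chb Tw3.j1 d (dD4.rp.wsys.p ((Bd φ).b Tw3.j0)) = d⁻¹ := by
  rw [chb_j1]
  have h : ((dD4.rp.wsys.p ((Bd φ).b Tw3.j0) : Fin _) : ℕ) = chevD4.simple 0 := dD4.hp _
  obtain ⟨a1, a2, a3, a4, a5, a6, a7, a8⟩ := cart_D4
  rw [h, a4, zpow_neg_one]

theorem chb11 (d : Kˣ) : (Bd φ).chb Tw3.j1 d (dD4.rp.wsys.p ((Bd φ).b Tw3.j1)) = d * d := by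
  rw [chb_j1]
  have h : ((dD4.rp.wsys.p ((Bd φ).b Tw3.j1) : Fin _) : ℕ) = chevD4.simple 1 := dD4.hp _
  obtain ⟨a1, a2, a3, a4, a5, a6, a7, a8⟩ := cart_D4
  rw [h, a8, zpow_two]

/-- check -/
def okc (a b r s : ℕ) : Bool := !(decide (cD4 r = a) && decide (cD4 s = b)) ||
  (decide (s ≠ r) && decide (s ≠ chevD4.neg r) && decide (chevD4.commTerms r s = []))

theorem okc_spec {a b r s : ℕ} (h : okc a b r s = true) (h1 : cD4 r = a) (h2 : cD4 s = b) :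
    s ≠ r ∧ s ≠ chevD4.neg r ∧ chevD4.commTerms r s = [] := by
  unfold okc at h
  rw [h1, h2] at h
  simp only [decide_true, Bool.and_self, Bool.not_true, Bool.false_or, Bool.and_eq_true, decide_eq_true_eq] at h
  exact ⟨h.1.1, h.1.2, h.2⟩

theorem comm_tab1 : ∀ r < 24, ∀ s < 24, okc 9 6 r s = true := by decide +kernel
theorem comm_tab2 : ∀ r < 24, ∀ s < 24, okc 4 6 r s = true := by decide +kernel
theorem comm_tab3 : ∀ r < 24, ∀ s < 24, okc 6 11 r s = true := by decide +kernel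

theorem comm_of {a b : ℕ} (ha : a < chevG2.nroots) (hb : b < chevG2.nroots)
    (h : ∀ r < 24, ∀ s < 24, okc a b r s = true) :
    ∀ x ∈ (tD4 φ).tw.X (⟨a, ha⟩ : Fin chevG2.nroots), ∀ y ∈ (tD4 φ).tw.X (⟨b, hb⟩ : Fin chevG2.nroots), x * y = y * x := by
  intro x hx y hy
  refine gen_comm (X := (AA K).R.X) (P := fun r => clsD4 r = ⟨a, ha⟩) (Q := fun r => clsD4 r = ⟨b, hb⟩) ?_ x hx.1 y hy.1
  intro r hr s hs x hx y hy
  obtain ⟨t, rfl⟩ := ((AA K).mem_X _ _).1 hx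
  obtain ⟨u, rfl⟩ := ((AA K).mem_X _ _).1 hy
  have hr' : cD4 r = a := congrArg (fun z : Fin chevG2.nroots => (z : ℕ)) hr
  have hs' : cD4 s = b := congrArg (fun z : Fin chevG2.nroots => (z : ℕ)) hs
  obtain ⟨h1, h2, h3⟩ := okc_spec (h r r.2 s s.2) hr' hs'
  exact xG_comm goodD4 r.2 s.2 h1 h2 h3 t u

/-- the relations -/
noncomputable def rel (h3 : ∀ t, φ (φ (φ t)) = t) : TqB.Rel K (tD4 φ).tw where
  φ := φ
  h3 := h3
  X := (Bd φ).xb dD4.rp.wsys.p Tw3.j0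
  Y := (Bd φ).xb (fun i => dD4.rp.wsys.neg (dD4.rp.wsys.p i)) Tw3.j0
  Z := (Bd φ).xb dD4.rp.wsys.p Tw3.j1
  W := (Bd φ).xb (fun i => dD4.rp.wsys.neg (dD4.rp.wsys.p i)) Tw3.j1
  h := (Bd φ).hb Tw3.j0
  b := (Bd φ).hb Tw3.j1
  X_add := (Bd φ).xb_add OData.sel_p Tw3.j0
  Z_add := (Bd φ).xb_add OData.sel_p Tw3.j1
  X_inj _ _ h := (Bd φ).xb_inj OData.sel_p Tw3.j0 h
  Z_inj _ _ h := (Bd φ).xb_inj OData.sel_p Tw3.j1 h
  mem_X g := by
    have h1 := (Bd φ).mem_X'_p Tw3.j0 g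
    refine Iff.trans h1 ⟨?_, ?_⟩
    · rintro ⟨c, -, h⟩; exact ⟨c, h⟩
    · rintro ⟨c, h⟩; exact ⟨c, fx0 goodD4 dD4 dG2 φ h3 c, h⟩
  mem_Y g := by
    have h1 := (Bd φ).mem_X'_n Tw3.j0 g
    refine Iff.trans h1 ⟨?_, ?_⟩
    · rintro ⟨c, -, h⟩; exact ⟨c, h⟩
    · rintro ⟨c, h⟩; exact ⟨c, fx0 goodD4 dD4 dG2 φ h3 c, h⟩
  mem_Z g := (Bd φ).mem_X'_p Tw3.j1 g
  mem_W g := (Bd φ).mem_X'_n Tw3.j1 g
  h_mul := (Bd φ).hb_mul Tw3.j0
  b_mul := (Bd φ).hb_mul Tw3.j1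
  mem_H g := mem_twH goodD4 dD4 dG2 φ h3 g
  hbc c d := (AA K).H_comm ((Bd φ).hb_mem_H Tw3.j0 c) ((Bd φ).hb_mem_H Tw3.j1 d)
  hX c u := by
    have h1 := ((Bd φ).conj_xb (sig_hb φ (j := Tw3.j0) (c := c) (fx0 goodD4 dD4 dG2 φ h3 c)) ((Bd φ).hb_conj Tw3.j0 c)
      OData.sel_p Tw3.j0 (d := u) (fx0 goodD4 dD4 dG2 φ h3 u)).1
    rw [chb00] at h1
    exact h1
  bX d u hd := by
    have h1 := ((Bd φ).conj_xb (sig_hb φ (j := Tw3.j1) (c := d) hd) ((Bd φ).hb_conj Tw3.j1 d)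
      OData.sel_p Tw3.j0 (d := u) (fx0 goodD4 dD4 dG2 φ h3 u)).1
    rw [chb10] at h1
    exact h1
  hZ c u hu := by
    have h1 := ((Bd φ).conj_xb (sig_hb φ (j := Tw3.j0) (c := c) (fx0 goodD4 dD4 dG2 φ h3 c)) ((Bd φ).hb_conj Tw3.j0 c)
      OData.sel_p Tw3.j1 (d := u) hu).1
    rw [chb01] at h1
    exact h1
  bZ d u hd hu := by
    have h1 := ((Bd φ).conj_xb (sig_hb φ (j := Tw3.j1) (c := d) hd) ((Bd φ).hb_conj Tw3.j1 d)
      OData.sel_p Tw3.j1 (d := u) hu).1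
    rw [chb11] at h1
    exact h1
  nh c := (Bd φ).nj_conj_hb Tw3.j0 c
  nb d hd := nb_rel φ hd
  mh c := mh_rel φ c
  mb d _ := (Bd φ).nj_conj_hb Tw3.j1 d
  nsq := (Bd φ).nj_sq' Tw3.j0
  msq := (Bd φ).nj_sq' Tw3.j1
  hn c := by
    have h1 := (Bd φ).nb_eq Tw3.j0 c
    rw [← Units.val_inv_eq_inv_val] at h1
    exact h1
  bm d _ := by
    have h1 := (Bd φ).nb_eq Tw3.j1 d
    rw [← Units.val_inv_eq_inv_val] at h1
    exact h1
  nX u := nj_conj_xb (Bd φ) Tw3.j0 (fun i _ t => eta_nn i t) u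
  mZ u _ := nj_conj_xb (Bd φ) Tw3.j1 (fun i _ t => eta_nn i t) u
  comm1 := comm_of φ _ _ comm_tab1
  comm2 := comm_of φ _ _ comm_tab2
  comm3 := comm_of φ _ _ comm_tab3

/-- nontrivial elements have conjugates outside the Borel subgroup -/
theorem core {g : ↥(chevD4.group K)} (hg : g ∈ (tD4 φ).tw.Grp) (hg1 : g ≠ 1) :
    ∃ w ∈ (tD4 φ).tw.Grp, w * g * w⁻¹ ∉ (tD4 φ).tw.B := by
  by_contra hcon
  push Not at hcon
  apply hg1
  have hx : (⟨g, hg⟩ : (tD4 φ).tw.Grp) ∈ ((tD4 φ).tw.B.subgroupOf (tD4 φ).tw.Grp).normalCore := by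
    intro a
    rw [Subgroup.mem_subgroupOf]
    exact hcon (a : ↥(chevD4.group K)) a.2
  obtain ⟨h1, h2⟩ := core_gen (tD4 φ).tw rfl hx
  have h3 : g ∈ (AA K).R.H := by
    have := h1
    rw [TwData.tw_H] at this
    exact this.1
  exact (Bd φ).core_trivial h3 h2

end Cfsg.Agent.H51.TqI
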