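import Cfsg.Agent.H51.TqI

set_option autoImplicit false
set_option maxRecDepth 100000

/-!
Fields of order q³ and the covering property for q at least three.
-/

namespace Cfsg.Agent.H51.TqJ

open Cfsg.Lie Cfsg.Agent.Chev Cfsg.Agent.ChevGrp Cfsg.Agent.H51.TqA Cfsg.Agent.H51.TqB Cfsg.Agent.H51.TqC Cfsg.Agent.H51.TqD
  Cfsg.Agent.H51.SqC

section field

variable {K : Type*} [Field K] [Fintype K] {q : ℕ} (hq : 2 ≤ q) (hK : Fintype.card K = q ^ 3) (φ : K ≃+* K) (hφ : ∀ t : K, φ t = t ^ q)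

include hφ in
omit [Fintype K] in
lemma pu_pow (c : Kˣ) : pu φ c = c ^ q := Units.ext (by rw [pu_val, hφ, Units.val_pow_eq_pow_val])

include hφ in
omit [Fintype K] in
lemma Nm_pow (c : Kˣ) : Nm φ c = c ^ (1 + q + q * q) := by
  unfold Nm
  rw [pu_pow φ hφ, pu_pow φ hφ, ← pow_mul, pow_add, pow_add, pow_one, mul_assoc]

include hK in
lemma exists_gen : ∃ g : Kˣ, (∀ a : Kˣ, ∃ n : ℕ, g ^ n = a) ∧ orderOf g = q ^ 3 - 1 := by
  classical
  obtain ⟨g, hg⟩ := IsCyclic.exists_generator (α := Kˣ)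
  refine ⟨g, fun a => ?_, ?_⟩
  · obtain ⟨n, hn⟩ := (mem_powers_iff_mem_zpowers (x := g)).2 (hg a)
    exact ⟨n, hn⟩
  · rw [orderOf_eq_card_of_forall_mem_zpowers hg, Nat.card_eq_fintype_card, Fintype.card_units, hK]

include hK in
lemma pow_card (a : Kˣ) : a ^ (q ^ 3 - 1) = 1 := by
  classical
  have h := pow_card_eq_one (x := a)
  rwa [Fintype.card_units, hK] at h

lemma num (hq : 2 ≤ q) : (q - 1) * (1 + q + q * q) = q ^ 3 - 1 := by
  obtain ⟨m, rfl⟩ : ∃ m, q = m + 1 := ⟨q - 1, by omega⟩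
  have : (m + 1) ^ 3 = m * (1 + (m + 1) + (m + 1) * (m + 1)) + 1 := by ring
  rw [this, Nat.add_sub_cancel, Nat.add_sub_cancel]

include hq hK hφ


lemma fix_iff (d : Kˣ) : φ d = d ↔ d ^ (q - 1) = 1 := by
  rw [hφ]
  have h : (d : K) ^ q = d ↔ d ^ q = d := by
    constructor
    · intro h; exact Units.ext (by rw [Units.val_pow_eq_pow_val, h])
    · intro h; rw [← Units.val_pow_eq_pow_val, h]
  rw [h]
  have e : d ^ q = d ^ (q - 1) * d := by
    rw [← pow_succ]; congr 1; omega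
  rw [e]
  constructor
  · intro h; exact mul_eq_right.1 h
  · intro h; rw [h, one_mul]

lemma fix_N (a : Kˣ) : φ (Nm φ a) = Nm φ a := by
  rw [fix_iff hq hK φ hφ, Nm_pow φ hφ, ← pow_mul, mul_comm, num hq, pow_card hK]

lemma sq' (a : Kˣ) : ∃ c d : Kˣ, φ d = d ∧ c * c * d⁻¹ = a := by
  have hev : 2 ∣ q + q * q := by
    rcases Nat.even_or_odd q with h | h
    · exact (h.two_dvd).add (h.two_dvd.mul_right _)
    · exact (h.add_odd (h.mul h)).two_dvd
  obtain ⟨k, hk⟩ := hev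
  refine ⟨a ^ (1 + k), Nm φ a, fix_N hq hK φ hφ a, ?_⟩
  rw [Nm_pow φ hφ, ← pow_add, mul_inv_eq_iff_eq_mul, ← pow_succ']
  congr 1
  omega

lemma nsurj (d : Kˣ) (hd : φ d = d) : ∃ c : Kˣ, Nm φ c = d := by
  obtain ⟨g, hg, hord⟩ := exists_gen (q := q) hK
  obtain ⟨k, rfl⟩ := hg d
  rw [fix_iff hq hK φ hφ, ← pow_mul] at hd
  have h1 := orderOf_dvd_of_pow_eq_one hd
  rw [hord, ← num hq, mul_comm k] at h1
  have h2 : (1 + q + q * q) ∣ k := Nat.dvd_of_mul_dvd_mul_left (by omega) h1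
  obtain ⟨j, rfl⟩ := h2
  refine ⟨g ^ j, ?_⟩
  rw [Nm_pow φ hφ, ← pow_mul, mul_comm]

lemma nfix : ∃ e : Kˣ, φ e ≠ e := by
  obtain ⟨g, hg, hord⟩ := exists_gen (q := q) hK
  refine ⟨g, fun h => ?_⟩
  rw [fix_iff hq hK φ hφ] at h
  have h1 := Nat.le_of_dvd (by omega) (orderOf_dvd_of_pow_eq_one h)
  rw [hord, ← num hq] at h1
  have h2 : (q - 1) * 1 < (q - 1) * (1 + q + q * q) := by
    apply Nat.mul_lt_mul_of_pos_left _ (by omega)
    nlinarith
  omega

end field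


section three

open Cfsg.Agent.Tw3 Cfsg.Agent.H51.TqI

variable {K : Type*} [Field K] [Fintype K] {q : ℕ} (φ : K ≃+* K) (hφ : ∀ t : K, φ t = t ^ q) (h3 : ∀ t, φ (φ (φ t)) = t)
  (hK : Fintype.card K = q ^ 3)

/-- the situation -/
noncomputable def sit (hq : 2 ≤ q) (hK : Fintype.card K = q ^ 3) (φ : K ≃+* K) (hφ : ∀ t : K, φ t = t ^ q)
    (h3 : ∀ t, φ (φ (φ t)) = t) (c₀ d₀ : Kˣ) (hd : φ d₀ = d₀) : Sit K (tD4 φ).tw where
  r := rel φ h3
  c₀ := c₀
  d₀ := d₀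
  hd := hd
  sq := sq' hq hK φ hφ
  nsurj := nsurj hq hK φ hφ
  nfix := nfix hq hK φ hφ

omit [Fintype K] in
lemma tt_pow {Γ : Type*} [Group Γ] {R : RGrp S Γ} (r : Rel K R) (c d : Kˣ) (n : ℕ) : r.tt c d ^ n = r.tt (c ^ n) (d ^ n) := by
  induction n with
  | zero => rw [pow_zero, pow_zero, pow_zero, r.tt_one]
  | succ n ih => rw [pow_succ, ih, r.tt_mul, ← pow_succ, ← pow_succ]

include hK hφ h3 in
/-- the case of at least four elements -/
theorem exists_four (hq : 4 ≤ q) : ∃ T : Sit K (tD4 φ).tw, CU (tD4 φ).tw SqC.j0 (T.x1 1) ∧ (T.x1 1) ^ (q ^ 3 - 1) = 1 := by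
  have hq2 : 2 ≤ q := by omega
  obtain ⟨g, hg, hord⟩ := exists_gen (q := q) hK
  obtain ⟨m, rfl⟩ : ∃ m, q = m + 4 := ⟨q - 4, by omega⟩
  have key : ∀ n, 0 < n → n < (m + 4) ^ 3 - 1 → g ^ n ≠ 1 := by
    intro n hn hn' h
    have h2 := Nat.le_of_dvd hn (orderOf_dvd_of_pow_eq_one h)
    rw [hord] at h2
    omega
  have hcube : (m + 4) ^ 3 = m * m * m + 12 * (m * m) + 48 * m + 64 := by ring
  have key2 : ∀ a b, a < b → b - a < (m + 4) ^ 3 - 1 → g ^ a ≠ g ^ b := by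
    intro a b hab hb h
    apply key (b - a) (by omega) hb
    have : g ^ b = g ^ a * g ^ (b - a) := by rw [← pow_add]; congr 1; omega
    rw [this] at h
    exact (mul_eq_left.1 h.symm)
  set c : Kˣ := g ^ (m + 3) with hc
  set d : Kˣ := g ^ (1 + (m + 4) + (m + 4) * (m + 4)) with hd
  have hdd : φ d = d := by
    rw [fix_iff hq2 hK φ hφ, hd, ← pow_mul, mul_comm, num hq2, pow_card hK]
  have hN : Nm φ c = 1 := by
    rw [Nm_pow φ hφ, hc, ← pow_mul]
    have : m + 3 = m + 4 - 1 := rfl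
    rw [this, num hq2, pow_card hK]
  have hmm : 0 ≤ m * m := Nat.zero_le _
  have hmmm : 0 ≤ m * m * m := Nat.zero_le _
  have hsq : (m + 4) * (m + 4) = m * m + 8 * m + 16 := by ring
  have hcc : c * c = g ^ (2 * m + 6) := by rw [hc, ← pow_add]; congr 1; omega
  have h_d1 : d ≠ 1 := key _ (by omega) (by omega)
  have h_cc1 : c * c ≠ 1 := by rw [hcc]; exact key _ (by omega) (by omega)
  have h_ccd : c * c * d ≠ 1 := by
    rw [hcc, hd, ← pow_add]; exact key _ (by omega) (by omega)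
  have h_dd : d * d ≠ 1 := by
    rw [hd, ← pow_add]; exact key _ (by omega) (by omega)
  have h_al : c * c * d⁻¹ ≠ 1 := by
    intro h
    rw [mul_inv_eq_one, hcc, hd] at h
    exact key2 _ _ (by omega) (by omega) h
  have h_al2 : (c * c * d⁻¹) * (c * c * d⁻¹) ≠ 1 := by
    intro h
    have h1 : (c * c) * (c * c) = d * d := by
      have : (c * c * d⁻¹) * (c * c * d⁻¹) = (c * c) * (c * c) * (d * d)⁻¹ := by
        rw [mul_inv]
        exact mul_mul_mul_comm _ _ _ _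
      rw [this, mul_inv_eq_one] at h
      exact h
    rw [hcc, hd, ← pow_add, ← pow_add] at h1
    exact key2 _ _ (by omega) (by omega) h1
  set α : Kˣ := c * c * d⁻¹ with hα
  have hκ0 : (1 : K) + ((α⁻¹ : Kˣ) : K) ≠ 0 := by
    intro h
    apply h_al2
    have h1 : ((α⁻¹ : Kˣ) : K) = -1 := by linear_combination h
    have h2 : α⁻¹ * α⁻¹ = 1 := Units.ext (by rw [Units.val_mul, h1, Units.val_one]; ring)
    rw [← mul_inv, inv_eq_one] at h2
    exact h2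
  set κ : Kˣ := Units.mk0 _ hκ0 with hκ
  set T := sit hq2 hK φ hφ h3 (-(κ * c)) d hdd with hT
  obtain ⟨w, hw, e1⟩ := TqH.conj_t1 T (c := c) (d := d) (κ := κ) hdd h_al rfl rfl rfl
  obtain ⟨c', d', hd', e2⟩ := T.sq κ
  have e3 := T.x1_conj 1 c' hd'
  rw [mul_one, e2] at e3
  -- `x1 1` is a conjugate of the torus element
  have hs : T.r.tt c' d' ∈ Lv (tD4 φ).tw SqC.j0 := H_Lv (T.r.tt_H hd')
  have e4 : T.x1 1 = ((T.r.tt c' d')⁻¹ * w) * T.r.tt c d * ((T.r.tt c' d')⁻¹ * w)⁻¹ := by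
    have : T.x1 1 = (T.r.tt c' d')⁻¹ * T.x1 κ * T.r.tt c' d' := by rw [← e3]; group
    rw [this, e1]; group
  refine ⟨T, ?_, ?_⟩
  · rw [e4]
    refine CU.conj ?_ (mul_mem (inv_mem hs) hw)
    have hN' : Nm T.r.φ c = 1 := hN
    refine TqG.CU_tt T.r hdd ?_ ?_ h_d1 ?_ ?_
    · rw [hN', one_mul]; exact fun h => h_d1 (inv_eq_one.1 h)
    · rw [hN', one_mul]; exact fun h => h_cc1 (inv_eq_one.1 h)
    · rw [hN', inv_one, mul_one]; exact h_ccd
    · rw [hN', inv_one, mul_one]; exact h_dd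
  · rw [e4, conj_pow, tt_pow, pow_card hK, pow_card hK, T.r.tt_one]; group

include hK hφ h3 in
/-- the case of three elements -/
theorem exists_three (hq : q = 3) (p : ℕ) [CharP K p] (hp : p.Prime) : ∃ T : Sit K (tD4 φ).tw, CU (tD4 φ).tw SqC.j0 (T.x1 1) ∧
    (T.x1 1) ^ 8 = 1 ∧ p = 3 := by
  subst hq
  have hp3 : p = 3 := by
    have : Fact p.Prime := ⟨hp⟩
    obtain ⟨n, hn, hc⟩ := FiniteField.card K p
    rw [hK] at hc
    have h1 : p ∣ 3 ^ 3 := by rw [hc]; exact dvd_pow_self p n.ne_zero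
    exact (Nat.prime_dvd_prime_iff_eq hp Nat.prime_three).1 (hp.dvd_of_dvd_pow h1)
  subst hp3
  have h30 : (3 : K) = 0 := by exact_mod_cast CharP.cast_eq_zero K 3
  have h2 : (2 : K) = -1 := by linear_combination h30
  have hne : (-1 : Kˣ) ≠ 1 := by
    intro h
    have h1 : (-1 : K) = 1 := by
      have := congrArg (fun u : Kˣ => (u : K)) h
      simpa using this
    have h4 : (1 : K) = 0 := by linear_combination h30 + h1
    exact one_ne_zero h4
  have hd : φ ((-1 : Kˣ) : K) = ((-1 : Kˣ) : K) := by push_cast; rw [map_neg, map_one]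
  set T := sit (q := 3) (by norm_num) hK φ hφ h3 1 (-1) hd
  obtain ⟨h5, h6⟩ := TqH.CU_three T h2 hne rfl rfl
  exact ⟨T, h5, h6, rfl⟩

end three

end Cfsg.Agent.H51.TqJ
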