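import Cfsg.Agent.H51.TqJ

set_option autoImplicit false
set_option maxRecDepth 100000

/-!
The case q = 2: the Levi subgroup containing the long root subgroups.
-/

namespace Cfsg.Agent.H51.TqK

open Cfsg.Lie Cfsg.Agent.Chev Cfsg.Agent.ChevGrp Cfsg.Agent.ChevF Cfsg.Agent.H51.G2W Cfsg.Agent.H51.SqC Cfsg.Agent.H51.SqE
  Cfsg.Agent.H51.TqA Cfsg.Agent.H51.TqB Cfsg.Agent.H51.TqC Cfsg.Agent.H51.TqE Cfsg.Agent.H51.TqH

variable {Γ : Type*} [Group Γ] {R : RGrp S Γ} {K : Type*} [Field K]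

/-- the situation for `q = 2` -/
structure Two (K : Type*) [Field K] (R : RGrp S Γ) where
  r : Rel K R
  fx : ∀ d : K, r.φ d = d → d = 0 ∨ d = 1
  N1 : ∀ c : Kˣ, Nm r.φ c = 1
  m1 : (-1 : Kˣ) = 1
  two : (1 : K) + 1 = 0
  c7 : ∀ c : Kˣ, c ^ 7 = 1
  c₀ : Kˣ
  c₀1 : c₀ ≠ 1

namespace Two

variable (T : Two K R)

/-- the long root element -/
def z : Γ := T.r.Z 1
include T in
lemma nn1 : R.nn j0 * R.nn j0 = 1 := by rw [T.r.nsq, T.m1, T.r.h_one]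
include T in
lemma mm1 : R.nn j1 * R.nn j1 = 1 := by rw [T.r.msq, T.m1, T.r.b_one]
include T in
lemma ninv : (R.nn j0)⁻¹ = R.nn j0 := inv_eq_of_mul_eq_one_left T.nn1
include T in
lemma minv : (R.nn j1)⁻¹ = R.nn j1 := inv_eq_of_mul_eq_one_left T.mm1

include T in
lemma f1 : T.r.φ 1 = 1 := map_one _
lemma f1' : T.r.φ ((1 : Kˣ) : K) = ((1 : Kˣ) : K) := by rw [Units.val_one, map_one]

lemma zz : T.z * T.z = 1 := by
  unfold z
  rw [← T.r.Z_add, T.two, T.r.Z_zero]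

lemma zinv : T.z⁻¹ = T.z := inv_eq_of_mul_eq_one_left T.zz

lemma z_mem : T.z ∈ R.X (S.p j1) := T.r.Z_mem T.f1

lemma zne : T.z ≠ 1 := by
  intro h
  have : T.r.Z 1 = T.r.Z 0 := by rw [T.r.Z_zero]; exact h
  exact one_ne_zero (T.r.Z_inj _ _ this)

lemma mem_p1 {g : Γ} (hg : g ∈ R.X (S.p j1)) : g = 1 ∨ g = T.z := by
  obtain ⟨t, ht, rfl⟩ := (T.r.mem_Z g).1 hg
  rcases T.fx t ht with h | h
  · left; rw [h, T.r.Z_zero]
  · right; rw [h]; rfl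

lemma hz (c : Kˣ) : T.r.h c * T.z = T.z * T.r.h c := by
  have h1 := T.r.hZ c 1 T.f1
  rw [T.N1, inv_one, Units.val_one, one_mul] at h1
  exact mul_inv_eq_iff_eq_mul.1 h1

lemma hm (c : Kˣ) : T.r.h c * R.nn j1 = R.nn j1 * T.r.h c := by
  have h1 := T.r.mh c
  rw [T.N1, T.r.b_one, mul_one] at h1
  exact (mul_inv_eq_iff_eq_mul.1 h1).symm

lemma mem_H {t : Γ} (ht : t ∈ R.H) : ∃ c, t = T.r.h c := by
  obtain ⟨c, d, hd, rfl⟩ := (T.r.mem_H t).1 ht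
  have hd1 : d = 1 := by
    rcases T.fx d hd with h | h
    · exact absurd h d.ne_zero
    · exact Units.ext h
  exact ⟨c, by rw [hd1, T.r.b_one, mul_one]⟩

lemma h_H (c : Kˣ) : T.r.h c ∈ R.H := by rw [T.r.h_eq]; exact T.r.tt_H T.f1'

lemma nh (c : Kˣ) : R.nn j0 * T.r.h c * (R.nn j0)⁻¹ = T.r.h c⁻¹ := T.r.nh c

lemma rel3 : T.z * R.nn j1 * T.z * R.nn j1 * T.z = R.nn j1 := by
  have h1 := T.r.bm 1 T.f1'
  have h2 := T.r.mZ 1 T.f1
  rw [T.r.b_one, one_mul, inv_one, Units.val_one, ← h2, T.minv] at h1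
  calc T.z * R.nn j1 * T.z * R.nn j1 * T.z = T.z * (R.nn j1 * T.z * R.nn j1) * T.z := by group
    _ = _ := h1

lemma rel_a : R.nn j1 * T.z * R.nn j1 * T.z = T.z * R.nn j1 := by
  calc R.nn j1 * T.z * R.nn j1 * T.z = (T.z * T.z) * (R.nn j1 * T.z * R.nn j1 * T.z) := by rw [T.zz, one_mul]
    _ = T.z * (T.z * R.nn j1 * T.z * R.nn j1 * T.z) := by group
    _ = _ := by rw [T.rel3]

lemma rel_b : T.z * R.nn j1 * T.z * R.nn j1 = R.nn j1 * T.z := by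
  calc T.z * R.nn j1 * T.z * R.nn j1 = (T.z * R.nn j1 * T.z * R.nn j1 * T.z) * T.z⁻¹ := by group
    _ = _ := by rw [T.rel3, T.zinv]

/-- even elements -/
def Ev (σ : Γ) : Prop := σ = 1 ∨ σ = T.z * R.nn j1 ∨ σ = R.nn j1 * T.z
/-- odd elements -/
def Od (σ : Γ) : Prop := σ = T.z ∨ σ = R.nn j1 ∨ σ = T.z * R.nn j1 * T.z

lemma h_comm {σ : Γ} (hσ : T.Ev σ ∨ T.Od σ) (c : Kˣ) : T.r.h c * σ = σ * T.r.h c := by
  have h1 : Commute (T.r.h c) T.z := T.hz c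
  have h2 : Commute (T.r.h c) (R.nn j1) := T.hm c
  rcases hσ with (rfl | rfl | rfl) | (rfl | rfl | rfl)
  · rw [mul_one, one_mul]
  · exact h1.mul_right h2
  · exact h2.mul_right h1
  · exact h1
  · exact h2
  · exact (h1.mul_right h2).mul_right h1

lemma z_Lv : T.z ∈ Lv R j1 := X_Lv T.z_mem
include T in
lemma m_Lv : R.nn j1 ∈ Lv R j1 := T.r.m_Lv

lemma σ_Lv {σ : Γ} (hσ : T.Ev σ ∨ T.Od σ) : σ ∈ Lv R j1 := by
  have h1 := T.z_Lv
  have h2 := T.m_Lv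
  rcases hσ with (rfl | rfl | rfl) | (rfl | rfl | rfl)
  · exact one_mem _
  · exact mul_mem h1 h2
  · exact mul_mem h2 h1
  · exact h1
  · exact h2
  · exact mul_mem (mul_mem h1 h2) h1

lemma Lv_form2 {l : Γ} (hl : l ∈ Lv R j1) : ∃ c σ, l = T.r.h c * σ ∧ (T.Ev σ ∨ T.Od σ) := by
  rcases Lv_form hl with ⟨a, ha, t, ht, rfl⟩ | ⟨a, ha, t, ht, b, hb, rfl⟩
  · obtain ⟨c, rfl⟩ := T.mem_H ht
    rcases T.mem_p1 ha with rfl | rfl
    · exact ⟨c, 1, by group, Or.inl (Or.inl rfl)⟩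
    · exact ⟨c, T.z, (T.hz c).symm, Or.inr (Or.inl rfl)⟩
  · obtain ⟨c, rfl⟩ := T.mem_H ht
    rcases T.mem_p1 ha with rfl | rfl <;> rcases T.mem_p1 hb with rfl | rfl
    · exact ⟨c, R.nn j1, by group, Or.inr (Or.inr (Or.inl rfl))⟩
    · exact ⟨c, R.nn j1 * T.z, by group, Or.inl (Or.inr (Or.inr rfl))⟩
    · refine ⟨c, T.z * R.nn j1, ?_, Or.inl (Or.inr (Or.inl rfl))⟩
      rw [← T.hz]; group
    · refine ⟨c, T.z * R.nn j1 * T.z, ?_, Or.inr (Or.inr (Or.inr rfl))⟩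
      rw [← T.hz]; group

lemma Od_z {σ : Γ} (h : T.Od σ) : T.Ev (σ * T.z) := by
  rcases h with rfl | rfl | rfl
  · exact Or.inl T.zz
  · exact Or.inr (Or.inr rfl)
  · right; left
    rw [mul_assoc, T.zz, mul_one]

lemma Od_m {σ : Γ} (h : T.Od σ) : T.Ev (R.nn j1 * σ) := by
  rcases h with rfl | rfl | rfl
  · exact Or.inr (Or.inr rfl)
  · exact Or.inl T.mm1
  · right; left
    calc R.nn j1 * (T.z * R.nn j1 * T.z) = R.nn j1 * T.z * R.nn j1 * T.z := by group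
      _ = _ := T.rel_a

/-! ### regularity -/

include T in
lemma cc_ne {c : Kˣ} (hc : c ≠ 1) : c * c ≠ 1 := by
  intro h
  apply hc
  have h7 := T.c7 c
  have : c ^ 7 = (c * c) ^ 3 * c := by
    rw [← pow_two, ← pow_mul, ← pow_succ]
  rw [this, h, one_pow, one_mul] at h7
  exact h7

/-- root index -/
def i10 : Fin chevG2.nroots := ⟨10, by decide⟩

lemma cent1 {c : Kˣ} (hc1 : c ≠ 1) {u : Γ} (hu : u ∈ R.Ui j1) (hc : T.r.h c * u = u * T.r.h c) :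
    ∃ p ∈ R.X i11, ∃ p' ∈ R.X i10, u = p * p' := by
  have hci : c⁻¹ ≠ 1 := fun h => hc1 (inv_eq_one.1 h)
  have mt : ∀ c : Kˣ, R.nn j1 * T.r.tt c 1 * (R.nn j1)⁻¹ = T.r.tt c 1 := by
    intro c
    rw [T.r.mt T.f1', T.N1]; simp
  have nt : ∀ c : Kˣ, R.nn j0 * T.r.tt c 1 * (R.nn j0)⁻¹ = T.r.tt c⁻¹ 1 := by
    intro c
    rw [T.r.nt T.f1']; simp
  have hCt : ∀ c : Kˣ, c ≠ 1 → Ct R (T.r.tt c 1) (S.p j0) := by
    intro c hc
    apply TqG.Ct0 T.r T.f1'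
    rw [inv_one, mul_one]
    exact T.cc_ne hc
  rw [T.r.h_eq] at hc
  obtain ⟨a1, a2, a3⟩ := stepU j1 (T.r.tt_H T.f1') hu hc
  rw [mt] at a1 a3
  obtain ⟨b1, b2, b3⟩ := stepT j0 a1 a2 a3 (hCt c hc1)
  rw [nt] at b1 b3
  obtain ⟨z1, hz1, v, hv, g1, g2, g3⟩ := stepS j1 b1 b2 b3
  rw [mt] at g1 g3
  obtain ⟨k1, k2, k3⟩ := stepT j0 g1 g2 g3 (hCt c⁻¹ hci)
  rw [nt, inv_inv] at k1 k3
  obtain ⟨z2, hz2, v', hv', l1, l2, l3⟩ := stepS j1 k1 k2 k3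
  rw [mt] at l1 l3
  obtain ⟨q1, q2, q3⟩ := stepT j0 l1 l2 l3 (hCt c hc1)
  have p1 := w0_to_V (R := R) (L := w0) (by
    intro s hs
    have h : ∀ s : Fin 12, 6 ≤ (s : ℕ) → wf w0 s < 6 := by decide +kernel
    exact h s hs) (R.Ui_le_U j1 hu)
  have p2 := to_V (R := R) (L := [j0, j1]) (r := S.p j1) (by rw [p1_val]; decide +kernel) (inv_mem hz2)
  have p3 := to_V (R := R) (L := [j0, j1, j0, j1]) (r := S.p j1) (by rw [p1_val]; decide +kernel) (inv_mem hz1)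
  have e : R.nn j0 * (R.nn j1 * v' * (R.nn j1)⁻¹) * (R.nn j0)⁻¹ =
      (R.nd [j0, j1] * z2⁻¹ * (R.nd [j0, j1])⁻¹) * (R.nd [j0, j1, j0, j1] * z1⁻¹ * (R.nd [j0, j1, j0, j1])⁻¹) *
      (R.nd w0 * u * (R.nd w0)⁻¹) := by
    have e1 : v' = z2⁻¹ * (R.nn j0 * (R.nn j1 * v * (R.nn j1)⁻¹) * (R.nn j0)⁻¹) := by rw [hv']; group
    have e2 : v = z1⁻¹ * (R.nn j0 * (R.nn j1 * u * (R.nn j1)⁻¹) * (R.nn j0)⁻¹) := by rw [hv]; group
    rw [e1, e2]
    simp only [w0, RGrp.nd_cons, RGrp.nd_nil, mul_one]; group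
  have p4 := R.U_inf_V q2 (e ▸ mul_mem (mul_mem p2 p3) p1)
  have hv1 : v' = 1 := by
    calc v' = (R.nn j1)⁻¹ * ((R.nn j0)⁻¹ * (R.nn j0 * (R.nn j1 * v' * (R.nn j1)⁻¹) * (R.nn j0)⁻¹) * R.nn j0) * R.nn j1 := by group
      _ = 1 := by rw [p4]; group
  rw [hv1, mul_one] at hv'
  have h1 := (RGrp.act_nd (R := R) [j0, j1]).conj' hz1
  have h2 := (RGrp.act_nd (R := R) [j0, j1, j0, j1]).conj' hz2
  have e1 : (S.wd [j0, j1])⁻¹ (S.p j1) = i11 := by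
    have e2 : (S.wd [j0, j1])⁻¹ = S.wd [j1, j0] := by
      simp only [WSys.wd_cons, WSys.wd_nil, mul_inv_rev, WSys.w_inv, inv_one]; group
    rw [e2]
    apply Fin.ext
    rw [wd_val, p1_val]
    decide +kernel
  have e3 : (S.wd [j0, j1, j0, j1])⁻¹ (S.p j1) = i10 := by
    have e2 : (S.wd [j0, j1, j0, j1])⁻¹ = S.wd [j1, j0, j1, j0] := by
      simp only [WSys.wd_cons, WSys.wd_nil, mul_inv_rev, WSys.w_inv, inv_one]; group
    rw [e2]
    apply Fin.ext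
    rw [wd_val, p1_val]
    decide +kernel
  rw [e1] at h1
  rw [e3] at h2
  refine ⟨_, h1, _, h2, ?_⟩
  have e4 : u = (R.nd [j0, j1])⁻¹ * (R.nn j0 * (R.nn j1 * u * (R.nn j1)⁻¹) * (R.nn j0)⁻¹) * R.nd [j0, j1] := by
    simp only [RGrp.nd_cons, RGrp.nd_nil, mul_one]; group
  have e5 : v = (R.nd [j0, j1])⁻¹ * (R.nn j0 * (R.nn j1 * v * (R.nn j1)⁻¹) * (R.nn j0)⁻¹) * R.nd [j0, j1] := by
    simp only [RGrp.nd_cons, RGrp.nd_nil, mul_one]; group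
  rw [e4, hv, e5, hv']
  simp only [RGrp.nd_cons, RGrp.nd_nil, mul_one]; group

/-- long root elements -/
def a' : Γ := R.nn j0 * T.z * (R.nn j0)⁻¹
/-- long root elements -/
def a : Γ := R.nn j1 * T.a' * (R.nn j1)⁻¹

lemma mem_10 {g : Γ} (hg : g ∈ R.X i10) : g = 1 ∨ g = T.a' := by
  have h1 := (RGrp.act_nn (R := R) j0).conj' hg
  have e : (S.w j0)⁻¹ i10 = S.p j1 := by
    rw [WSys.w_inv]
    apply Fin.ext
    rw [w_val, p1_val]
    decide +kernel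
  rw [e] at h1
  have e2 : g = R.nn j0 * ((R.nn j0)⁻¹ * g * R.nn j0) * (R.nn j0)⁻¹ := by group
  rcases T.mem_p1 h1 with h | h
  · left; rw [e2, h]; group
  · right; rw [e2, h]; rfl

lemma a'_mem : T.a' ∈ R.X i10 := by
  have h1 := (RGrp.act_nn (R := R) j0).conj T.z_mem
  have e : S.w j0 (S.p j1) = i10 := by
    apply Fin.ext
    rw [w_val, p1_val]
    decide +kernel
  rw [e] at h1
  exact h1

lemma mem_11 {g : Γ} (hg : g ∈ R.X i11) : g = 1 ∨ g = T.a := by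
  have h1 := (RGrp.act_nn (R := R) j1).conj' hg
  have e : (S.w j1)⁻¹ i11 = i10 := by
    rw [WSys.w_inv]
    apply Fin.ext
    rw [w_val]
    decide +kernel
  rw [e] at h1
  have e2 : g = R.nn j1 * ((R.nn j1)⁻¹ * g * R.nn j1) * (R.nn j1)⁻¹ := by group
  rcases T.mem_10 h1 with h | h
  · left; rw [e2, h]; group
  · right; rw [e2, h]; rfl

lemma a_mem : T.a ∈ R.X i11 := by
  have h1 := (RGrp.act_nn (R := R) j1).conj T.a'_mem
  have e : S.w j1 i10 = i11 := by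
    apply Fin.ext
    rw [w_val]
    decide +kernel
  rw [e] at h1
  exact h1

lemma a'_ne : T.a' ≠ 1 := by
  intro h
  apply T.zne
  calc T.z = (R.nn j0)⁻¹ * T.a' * R.nn j0 := by unfold a'; group
    _ = 1 := by rw [h]; group

lemma a_ne_a' : T.a ≠ T.a' := by
  intro h
  have h1 := to_V (R := R) (L := [j1, j0, j1]) (r := i11) (by decide +kernel) T.a_mem
  have h2 := (RGrp.act_nd (R := R) [j1, j0, j1]).conj T.a'_mem
  rw [← h] at h2
  have h3 := R.U_inf_V (R.X_le_U ?_ h2) h1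
  · apply T.a'_ne
    rw [← h]
    calc T.a = (R.nd [j1, j0, j1])⁻¹ * (R.nd [j1, j0, j1] * T.a * (R.nd [j1, j0, j1])⁻¹) * R.nd [j1, j0, j1] := by group
      _ = 1 := by rw [h3]; group
  · rw [TqA.pos_iff, wd_val]
    decide +kernel

include T in
lemma c6_11 : Cm R i6 i11 := T.r.comm3
include T in
lemma c10_11 : Cm R i10 i11 := T.c6_11.wd [j0] (by decide +kernel) (by decide +kernel)

lemma za : T.z * T.a = T.a * T.z := T.c6_11 _ (p1_eq ▸ T.z_mem) _ T.a_mem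
lemma aa' : T.a' * T.a = T.a * T.a' := T.c10_11 _ T.a'_mem _ T.a_mem

lemma ma : R.nn j1 * T.a = T.a' * R.nn j1 := by
  have h : R.nn j1 * T.a = (R.nn j1 * R.nn j1) * T.a' * (R.nn j1)⁻¹ := by unfold a; group
  rw [h, T.mm1, one_mul, T.minv]

lemma ma' : R.nn j1 * T.a' = T.a * R.nn j1 := by
  unfold a; group

lemma s3 : (T.z * R.nn j1) ^ 3 = 1 := by
  calc (T.z * R.nn j1) ^ 3 = T.z * R.nn j1 * T.z * R.nn j1 * T.z * R.nn j1 := by
        rw [pow_succ, pow_two]; group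
    _ = 1 := by rw [T.rel3, T.mm1]

lemma s3' : (R.nn j1 * T.z) ^ 3 = 1 := by
  calc (R.nn j1 * T.z) ^ 3 = R.nn j1 * T.z * R.nn j1 * T.z * (R.nn j1 * T.z) := by
        rw [pow_succ, pow_two]; group
    _ = T.z * (R.nn j1 * R.nn j1) * T.z := by rw [T.rel_a]; group
    _ = 1 := by rw [T.mm1, mul_one, T.zz]

lemma s_inv : (T.z * R.nn j1)⁻¹ = R.nn j1 * T.z := by
  rw [mul_inv_rev, T.minv, T.zinv]

lemma cent_s {u : Γ} (hu : ∃ p ∈ R.X i11, ∃ p' ∈ R.X i10, u = p * p')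
    (hc : T.z * R.nn j1 * u = u * (T.z * R.nn j1)) : u = 1 := by
  obtain ⟨p, hp, p', hp', rfl⟩ := hu
  have hne := T.a_ne_a'
  have za := T.za
  have aa' := T.aa'
  have ma := T.ma
  have ma' := T.ma'
  rcases T.mem_11 hp with rfl | rfl <;> rcases T.mem_10 hp' with rfl | rfl
  · rw [one_mul]
  · exfalso
    rw [one_mul] at hc
    apply hne
    have h1 : T.z * R.nn j1 * T.a' = T.a * T.z * R.nn j1 := by
      rw [mul_assoc, ma', ← mul_assoc, za]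
    rw [h1, mul_assoc] at hc
    exact mul_right_cancel hc
  · exfalso
    rw [mul_one] at hc
    apply hne
    have h1 : T.z * R.nn j1 * T.a = T.z * T.a' * R.nn j1 := by
      rw [mul_assoc, ma, ← mul_assoc]
    have h2 : T.a * (T.z * R.nn j1) = T.z * T.a * R.nn j1 := by rw [za]; group
    rw [h1, h2] at hc
    exact (mul_left_cancel (mul_right_cancel hc)).symm
  · exfalso
    apply hne
    have h1 : T.z * R.nn j1 * (T.a * T.a') = T.z * T.a' * T.a * R.nn j1 := by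
      calc T.z * R.nn j1 * (T.a * T.a') = T.z * (R.nn j1 * T.a) * T.a' := by group
        _ = T.z * T.a' * (R.nn j1 * T.a') := by rw [ma]; group
        _ = _ := by rw [ma']; group
    have h2 : T.a * T.a' * (T.z * R.nn j1) = T.a' * T.z * T.a * R.nn j1 := by
      calc T.a * T.a' * (T.z * R.nn j1) = T.a' * (T.a * T.z) * R.nn j1 := by rw [← aa']; group
        _ = _ := by rw [← za]; group
    rw [h1, h2] at hc
    have hza' : T.z * T.a' = T.a' * T.z := mul_right_cancel (mul_right_cancel hc)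
    have k1 : T.z * R.nn j1 * T.a = T.a' * (T.z * R.nn j1) := by
      calc T.z * R.nn j1 * T.a = T.z * (R.nn j1 * T.a) := by group
        _ = (T.z * T.a') * R.nn j1 := by rw [ma]; group
        _ = _ := by rw [hza']; group
    have k2 : T.z * R.nn j1 * T.a' = T.a * (T.z * R.nn j1) := by
      calc T.z * R.nn j1 * T.a' = T.z * (R.nn j1 * T.a') := by group
        _ = (T.z * T.a) * R.nn j1 := by rw [ma']; group
        _ = _ := by rw [za]; group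
    set s := T.z * R.nn j1 with hs
    have k3 : Commute (s ^ 2) T.a := by
      show s ^ 2 * T.a = T.a * s ^ 2
      calc s ^ 2 * T.a = s * (s * T.a) := by rw [pow_two]; group
        _ = (s * T.a') * s := by rw [k1]; group
        _ = _ := by rw [k2, pow_two]; group
    have k4 : Commute s T.a := by
      have h5 : s = (s ^ 2) ^ 2 := by
        have h6 : (s ^ 2) ^ 2 = s ^ 3 * s := by rw [← pow_mul, ← pow_succ]
        rw [h6, T.s3, one_mul]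
      rw [h5]; exact k3.pow_left 2
    have k5 : T.a * s = T.a' * s := k4.eq.symm.trans k1
    exact mul_right_cancel k5

lemma cent_y {c : Kˣ} (hc1 : c ≠ 1) {σ : Γ} (hσ : σ = T.z * R.nn j1 ∨ σ = R.nn j1 * T.z) {u : Γ} (hu : u ∈ R.Ui j1)
    (hc : T.r.h c * σ * u = u * (T.r.h c * σ)) : u = 1 := by
  have hEv : T.Ev σ ∨ T.Od σ := Or.inl (Or.inr hσ)
  have hcomm : Commute (T.r.h c) σ := T.h_comm hEv c
  have hσ3 : σ ^ 3 = 1 := by
    rcases hσ with rfl | rfl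
    · exact T.s3
    · exact T.s3'
  have hpow : (T.r.h c * σ) ^ 15 = T.r.h c := by
    rw [hcomm.mul_pow]
    have h1 : σ ^ 15 = (σ ^ 3) ^ 5 := by rw [← pow_mul]
    have h2 : T.r.h c ^ 15 = T.r.h c := by
      rw [T.r.h_eq, TqJ.tt_pow]
      have : c ^ 15 = (c ^ 7) ^ 2 * c := by rw [← pow_mul, ← pow_succ]
      rw [this, T.c7, one_pow, one_mul, one_pow]
    rw [h1, hσ3, one_pow, mul_one, h2]
  have h3 : Commute (T.r.h c) u := by
    rw [← hpow]; exact Commute.pow_left hc 15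
  have h4 : Commute σ u := by
    have : σ = (T.r.h c)⁻¹ * (T.r.h c * σ) := by group
    rw [this]
    exact (h3.inv_left).mul_left hc
  have h5 := T.cent1 hc1 hu h3.eq
  apply T.cent_s h5
  rcases hσ with rfl | rfl
  · exact h4.eq
  · have := h4.inv_left
    rw [mul_inv_rev, T.minv, T.zinv] at this
    exact this.eq

/-! ### the orthogonal reflection -/

/-- the reflection in the short root orthogonal to the long simple root -/
def ν (_ : Two K R) : Γ := (R.nn j0 * R.nn j1) * R.nn j0 * (R.nn j0 * R.nn j1)⁻¹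

lemma ν_adj (c : Kˣ) : Adj R T.ν i9 (T.r.h c) := by
  have hact : R.Act (R.nn j0 * R.nn j1) (S.wd [j0, j1]) := by
    have := RGrp.act_nd (R := R) [j0, j1]
    simpa [RGrp.nd_cons, RGrp.nd_nil] using this
  have h := (adj_n T.r c⁻¹).conj hact
  have e : S.wd [j0, j1] (S.p j0) = i9 := by
    apply Fin.ext
    rw [wd_val, p0_val]
    decide +kernel
  rw [e] at h
  have e2 : (R.nn j0 * R.nn j1) * T.r.h c⁻¹ * (R.nn j0 * R.nn j1)⁻¹ = T.r.h c := by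
    calc (R.nn j0 * R.nn j1) * T.r.h c⁻¹ * (R.nn j0 * R.nn j1)⁻¹ = R.nn j0 * (R.nn j1 * T.r.h c⁻¹) * (R.nn j1)⁻¹ * (R.nn j0)⁻¹ := by group
      _ = R.nn j0 * T.r.h c⁻¹ * (R.nn j0)⁻¹ := by rw [← T.hm]; group
      _ = _ := by rw [T.r.nh, inv_inv]
  rw [e2] at h
  exact h

lemma ν_comm {x : Γ} (hx : x ∈ R.X i6 ∨ x ∈ R.X i5) : T.ν * x = x * T.ν := by
  obtain ⟨p1, hp1, p2, hp2, p3, hp3, e3⟩ := T.ν_adj 1
  rw [ni9] at hp2
  rw [T.r.h_one, inv_one, mul_one] at e3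
  rw [e3]
  have k1 : ∀ p ∈ R.X i9, Commute p x := by
    intro p hp
    rcases hx with hx | hx
    · exact c96 T.r _ hp _ hx
    · exact c95 T.r _ hp _ hx
  have k2 : Commute p2 x := by
    rcases hx with hx | hx
    · exact c26 T.r _ hp2 _ hx
    · exact c25 T.r _ hp2 _ hx
  exact (((k1 p1 hp1).mul_left k2).mul_left (k1 p3 hp3)).eq

lemma ν_z : T.ν * T.z = T.z * T.ν := T.ν_comm (Or.inl (p1_eq ▸ T.z_mem))

lemma ν_m : T.ν * R.nn j1 = R.nn j1 * T.ν := by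
  have h1 : Commute T.ν T.z := T.ν_z
  have h2 : Commute T.ν (R.nn j1 * T.z * R.nn j1) := by
    apply T.ν_comm
    right
    have := R.nn_X j1 _ _ T.z_mem
    rw [S.w_p, np1_eq, T.minv] at this
    exact this
  have h3 : R.nn j1 = T.z * (R.nn j1 * T.z * R.nn j1) * T.z := by
    rw [← T.rel3]
    have := T.rel3
    calc T.z * R.nn j1 * T.z * R.nn j1 * T.z = R.nn j1 := this
      _ = T.z * R.nn j1 * T.z * R.nn j1 * T.z := this.symm
      _ = T.z * (R.nn j1 * T.z * R.nn j1) * T.z := by group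
      _ = _ := by rw [this]
  rw [h3]
  exact (h1.mul_right h2).mul_right h1

lemma ν_σ {σ : Γ} (hσ : T.Ev σ ∨ T.Od σ) : T.ν * σ = σ * T.ν := by
  have h1 : Commute T.ν T.z := T.ν_z
  have h2 : Commute T.ν (R.nn j1) := T.ν_m
  rcases hσ with (rfl | rfl | rfl) | (rfl | rfl | rfl)
  · rw [mul_one, one_mul]
  · exact h1.mul_right h2
  · exact h2.mul_right h1
  · exact h1
  · exact h2
  · exact (h1.mul_right h2).mul_right h1

lemma ν_h (c : Kˣ) : T.ν * T.r.h c * T.ν⁻¹ = T.r.h c⁻¹ := by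
  have n' : ∀ c, (R.nn j0)⁻¹ * T.r.h c * R.nn j0 = T.r.h c⁻¹ := by
    intro c
    have := T.r.nh c
    rwa [T.ninv] at this ⊢
  calc T.ν * T.r.h c * T.ν⁻¹ = (R.nn j0 * R.nn j1) * (R.nn j0 * ((R.nn j1)⁻¹ * ((R.nn j0)⁻¹ * T.r.h c * R.nn j0) * R.nn j1) *
        (R.nn j0)⁻¹) * (R.nn j0 * R.nn j1)⁻¹ := by unfold ν; group
    _ = (R.nn j0 * R.nn j1) * (R.nn j0 * ((R.nn j1)⁻¹ * (T.r.h c⁻¹ * R.nn j1)) *
        (R.nn j0)⁻¹) * (R.nn j0 * R.nn j1)⁻¹ := by rw [n']; group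
    _ = (R.nn j0 * R.nn j1) * (R.nn j0 * T.r.h c⁻¹ * (R.nn j0)⁻¹) * (R.nn j0 * R.nn j1)⁻¹ := by rw [T.hm]; group
    _ = R.nn j0 * (R.nn j1 * T.r.h c) * (R.nn j1)⁻¹ * (R.nn j0)⁻¹ := by rw [T.r.nh, inv_inv]; group
    _ = R.nn j0 * T.r.h c * (R.nn j0)⁻¹ := by rw [← T.hm]; group
    _ = _ := T.r.nh c

lemma ν_N (T : Two K R) : T.ν ∈ R.N :=
  mul_mem (mul_mem (mul_mem (R.nn_mem_N j0) (R.nn_mem_N j1)) (R.nn_mem_N j0)) (inv_mem (mul_mem (R.nn_mem_N j0) (R.nn_mem_N j1)))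

lemma νm_act (T : Two K R) : R.Act (T.ν * R.nn j1) (S.wd w0) := by
  have hgact : R.Act (R.nn j0 * R.nn j1) (S.w j0 * S.w j1) := (RGrp.act_nn j0).mul (RGrp.act_nn j1)
  have h := ((hgact.mul (RGrp.act_nn (R := R) j0)).mul hgact.inv).mul (RGrp.act_nn (R := R) j1)
  have e : S.wd w0 = S.w j0 * S.w j1 * S.w j0 * (S.w j0 * S.w j1)⁻¹ * S.w j1 := by
    apply Equiv.ext
    intro s
    apply Fin.ext
    rw [w0_w0, neg_val]
    have e1 : S.w j0 * S.w j1 * S.w j0 * (S.w j0 * S.w j1)⁻¹ * S.w j1 = S.wd [j0, j1, j0, j1, j0, j1] := by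
      simp only [WSys.wd_cons, WSys.wd_nil, mul_inv_rev, WSys.w_inv]; group
    rw [e1, wd_val]
    exact (w0_val s).symm
  rw [e]; exact h

lemma CU_y {c : Kˣ} (hc1 : c ≠ 1) {σ : Γ} (hσ : σ = T.z * R.nn j1 ∨ σ = R.nn j1 * T.z) : CU R j1 (T.r.h c * σ) := by
  refine ⟨fun u hu hc => T.cent_y hc1 hσ hu hc, fun u hu hc => ?_⟩
  have hw : ∀ s, ¬ S.Pos s ∧ s ≠ S.neg (S.p j1) → S.Pos (S.wd w0 s) ∧ S.wd w0 s ≠ S.p j1 := by
    intro s hs
    rw [w0_w0]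
    refine ⟨(S.pos_neg_iff s).2 hs.1, fun h => hs.2 (by rw [← h, WSys.neg_neg])⟩
  have h1 : (T.ν * R.nn j1) * u * (T.ν * R.nn j1)⁻¹ ∈ R.Ui j1 := RGrp.act_gen T.νm_act hw u hu
  obtain ⟨σ', hσ', e1⟩ : ∃ σ', (σ' = T.z * R.nn j1 ∨ σ' = R.nn j1 * T.z) ∧ R.nn j1 * σ = σ' * R.nn j1 := by
    rcases hσ with rfl | rfl
    · exact ⟨R.nn j1 * T.z, Or.inr rfl, by group⟩
    · refine ⟨T.z * R.nn j1, Or.inl rfl, ?_⟩
      rw [← mul_assoc, T.mm1, one_mul, mul_assoc, T.mm1, mul_one]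
  have e2 : (T.ν * R.nn j1) * (T.r.h c * σ) = (T.r.h c⁻¹ * σ') * (T.ν * R.nn j1) := by
    calc (T.ν * R.nn j1) * (T.r.h c * σ) = T.ν * (R.nn j1 * T.r.h c) * σ := by group
      _ = T.ν * T.r.h c * (R.nn j1 * σ) := by rw [← T.hm]; group
      _ = (T.ν * T.r.h c * T.ν⁻¹) * (T.ν * σ') * R.nn j1 := by rw [e1]; group
      _ = _ := by rw [T.ν_h, T.ν_σ (Or.inl (Or.inr hσ'))]; group
  have h2 := T.cent_y (c := c⁻¹) (fun h => hc1 (inv_eq_one.1 h)) hσ' h1 (by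
    calc T.r.h c⁻¹ * σ' * ((T.ν * R.nn j1) * u * (T.ν * R.nn j1)⁻¹) =
        ((T.r.h c⁻¹ * σ') * (T.ν * R.nn j1)) * u * (T.ν * R.nn j1)⁻¹ := by group
      _ = (T.ν * R.nn j1) * ((T.r.h c * σ) * u) * (T.ν * R.nn j1)⁻¹ := by rw [← e2]; group
      _ = (T.ν * R.nn j1) * u * ((T.r.h c * σ) * (T.ν * R.nn j1)⁻¹) := by rw [hc]; group
      _ = (T.ν * R.nn j1) * u * (T.ν * R.nn j1)⁻¹ * (((T.ν * R.nn j1) * (T.r.h c * σ)) * (T.ν * R.nn j1)⁻¹) := by group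
      _ = _ := by rw [e2]; group)
  calc u = (T.ν * R.nn j1)⁻¹ * ((T.ν * R.nn j1) * u * (T.ν * R.nn j1)⁻¹) * (T.ν * R.nn j1) := by group
    _ = 1 := by rw [h2]; group

end Two

end Cfsg.Agent.H51.TqK
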