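import Cfsg.Agent.H51.TqK

set_option autoImplicit false
set_option maxRecDepth 100000

/-!
The case q = 2: double cosets.
-/

namespace Cfsg.Agent.H51.TqL

open Cfsg.Lie Cfsg.Agent.Chev Cfsg.Agent.ChevGrp Cfsg.Agent.ChevF Cfsg.Agent.H51.G2W Cfsg.Agent.H51.SqC Cfsg.Agent.H51.SqE
  Cfsg.Agent.H51.TqA Cfsg.Agent.H51.TqB Cfsg.Agent.H51.TqC Cfsg.Agent.H51.TqE Cfsg.Agent.H51.TqH Cfsg.Agent.H51.TqK

variable {Γ : Type*} [Group Γ] {R : RGrp S Γ} {K : Type*} [Field K] (T : Two K R)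

lemma z_Grp : T.z ∈ R.Grp := X_Grp _ T.z_mem
lemma n_Grp : R.nn j0 ∈ R.Grp := R.N_le_Grp (R.nn_mem_N j0)
lemma m_Grp : R.nn j1 ∈ R.Grp := R.N_le_Grp (R.nn_mem_N j1)
lemma ν_Grp : T.ν ∈ R.Grp := R.N_le_Grp (Two.ν_N T)

/-- the element -/
def xx : Γ := T.r.h T.c₀ * (T.z * R.nn j1)

lemma ad_A {σ : Γ} (hσ : σ = T.z * R.nn j1 ∨ σ = R.nn j1 * T.z) : Ad R j1 (xx T) (T.r.h T.c₀ * σ) := by
  have h0 : Ad R j1 (xx T) (xx T) :=
    ⟨mul_mem (H_Lv (T.h_H _)) (T.σ_Lv (Or.inl (Or.inr (Or.inl rfl)))), ⟨1, one_mem _, by group⟩, T.CU_y T.c₀1 (Or.inl rfl)⟩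
  rcases hσ with rfl | rfl
  · exact h0
  · have h1 := h0.conj T.z_Lv
    have e : T.z * xx T * T.z⁻¹ = T.r.h T.c₀ * (R.nn j1 * T.z) := by
      unfold xx
      calc T.z * (T.r.h T.c₀ * (T.z * R.nn j1)) * T.z⁻¹ = (T.z * T.r.h T.c₀) * T.z * R.nn j1 * T.z⁻¹ := by group
        _ = T.r.h T.c₀ * (T.z * T.z) * R.nn j1 * T.z⁻¹ := by rw [← T.hz]; group
        _ = _ := by rw [T.zz, T.zinv]; group
    rwa [e] at h1

lemma ad_B {σ : Γ} (hσ : σ = T.z * R.nn j1 ∨ σ = R.nn j1 * T.z) : Ad R j1 (xx T) (T.r.h T.c₀⁻¹ * σ) := by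
  obtain ⟨h1, ⟨g, hg, e⟩, h3⟩ := ad_A T hσ
  refine ⟨mul_mem (H_Lv (T.h_H _)) (T.σ_Lv (Or.inl (Or.inr hσ))), ⟨T.ν * g, mul_mem (ν_Grp T) hg, ?_⟩,
    T.CU_y (fun h => T.c₀1 (inv_eq_one.1 h)) hσ⟩
  have h4 : T.ν * (T.r.h T.c₀ * σ) * T.ν⁻¹ = T.r.h T.c₀⁻¹ * σ := by
    calc T.ν * (T.r.h T.c₀ * σ) * T.ν⁻¹ = (T.ν * T.r.h T.c₀ * T.ν⁻¹) * (T.ν * σ) * T.ν⁻¹ := by group
      _ = _ := by rw [T.ν_h, T.ν_σ (Or.inl (Or.inr hσ))]; group
  rw [← h4, e]; group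

lemma pr_E {σ : Γ} (hσ : T.Ev σ) : Pr R j1 (xx T) σ := by
  have key : ∀ σ₁ σ₂, (σ₁ = T.z * R.nn j1 ∨ σ₁ = R.nn j1 * T.z) → (σ₂ = T.z * R.nn j1 ∨ σ₂ = R.nn j1 * T.z) →
      Pr R j1 (xx T) (σ₁ * σ₂) := by
    intro σ₁ σ₂ h1 h2
    refine ⟨_, _, ad_A T h1, ad_B T h2, ?_⟩
    calc σ₁ * σ₂ = σ₁ * (T.r.h T.c₀ * (T.r.h T.c₀)⁻¹) * σ₂ := by group
      _ = (σ₁ * T.r.h T.c₀) * (T.r.h T.c₀⁻¹ * σ₂) := by rw [T.r.h_inv]; group
      _ = _ := by rw [← T.h_comm (Or.inl (Or.inr h1))]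
  rcases hσ with rfl | rfl | rfl
  · have := key _ _ (Or.inl rfl) (Or.inr rfl)
    have e : T.z * R.nn j1 * (R.nn j1 * T.z) = 1 := by
      calc T.z * R.nn j1 * (R.nn j1 * T.z) = T.z * (R.nn j1 * R.nn j1) * T.z := by group
        _ = 1 := by rw [T.mm1, mul_one, T.zz]
    rwa [e] at this
  · have := key _ _ (Or.inr rfl) (Or.inr rfl)
    have e : R.nn j1 * T.z * (R.nn j1 * T.z) = T.z * R.nn j1 := by
      rw [← T.rel_a]; 
      have := T.rel_a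
      calc R.nn j1 * T.z * (R.nn j1 * T.z) = R.nn j1 * T.z * R.nn j1 * T.z := by group
        _ = _ := rfl
    rwa [e] at this
  · have := key _ _ (Or.inl rfl) (Or.inl rfl)
    have e : T.z * R.nn j1 * (T.z * R.nn j1) = R.nn j1 * T.z := by
      calc T.z * R.nn j1 * (T.z * R.nn j1) = T.z * R.nn j1 * T.z * R.nn j1 := by group
        _ = _ := T.rel_b
    rwa [e] at this

variable [Finite Γ]

lemma sevenA {ν' : Γ} {s : Fin chevG2.nroots} (hs : S.Pos s) (hsp : s ≠ S.p j1) (hA : ∀ c, Adj R ν' s (T.r.h c))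
    {c : Kˣ} {σ u : Γ} (hσ : T.Ev σ) (hu : u ∈ R.Ui j1) : Gd R (xx T) (ν' * (T.r.h c * σ) * u) := by
  have hl : T.r.h c * σ ∈ Lv R j1 := mul_mem (H_Lv (T.h_H _)) (T.σ_Lv (Or.inl hσ))
  obtain ⟨z, hz, w, hw, u', hu', e⟩ := (hA c).use (T.h_H c) hs hsp hl hu
  rw [e]
  have hzU : z ∈ R.Ui j1 := R.X_le_Ui hs hsp hz
  apply Gd.of_conj' (Ui_Grp hzU)
  have e3 : z⁻¹ * (z * w * ((T.r.h c)⁻¹ * (T.r.h c * σ)) * u') * z = w * σ * (u' * z) := by group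
  rw [e3]
  refine good_of (pr_E T hσ) (mul_mem hu' hzU) ?_
  refine mem_gen (P := fun t => ¬ S.Pos t ∧ t ≠ S.neg (S.p j1)) ⟨(npos_neg s).2 hs, fun h => hsp ?_⟩ hw
  have := congrArg S.neg h
  rwa [WSys.neg_neg, WSys.neg_neg] at this

omit [Finite Γ] in
lemma ne_p1 {s : Fin chevG2.nroots} (h : (s : ℕ) ≠ 6) : s ≠ S.p j1 := by
  intro h'
  apply h
  rw [h', p1_val]

lemma dist2 {p q : Γ} (hp : p ∈ PP R j1) (hq : q ∈ PP R j1) : Gd R (xx T) (p * R.nn j0 * q) := by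
  apply Gd.of_conj' (PP_Grp hp)
  obtain ⟨l, hl, u, hu, e⟩ := mem_PP (mul_mem hq hp)
  have e1 : p⁻¹ * (p * R.nn j0 * q) * p = R.nn j0 * l * u := by
    rw [mul_assoc (R.nn j0), ← e]; group
  rw [e1]
  have hp0 : S.p j0 ≠ S.p j1 := ne_p1 (by rw [p0_val]; omega)
  obtain ⟨c, σ, rfl, hσ | hσ⟩ := T.Lv_form2 hl
  · exact sevenA T (S.pos_p j0) hp0 (adj_n T.r) hσ hu
  · apply Gd.of_conj' (z_Grp T)
    have hlz : T.r.h c * σ * T.z ∈ Lv R j1 := mul_mem hl T.z_Lv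
    have h1 : (R.nn j0)⁻¹ * T.z⁻¹ * R.nn j0 ∈ R.Ui j1 := by
      have h2 := (RGrp.act_nn (R := R) j0).conj' (inv_mem T.z_mem)
      refine R.X_le_Ui ?_ (ne_p1 ?_) h2
      · rw [TqA.pos_iff, WSys.w_inv, w_val, p1_val]; decide +kernel
      · rw [WSys.w_inv, w_val, p1_val]; decide +kernel
    have e2 : T.z⁻¹ * (R.nn j0 * (T.r.h c * σ) * u) * T.z = R.nn j0 * (T.r.h c * (σ * T.z)) *
        (((T.r.h c * σ * T.z)⁻¹ * ((R.nn j0)⁻¹ * T.z⁻¹ * R.nn j0) * (T.r.h c * σ * T.z)) * (T.z⁻¹ * u * T.z)) := by group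
    rw [e2]
    exact sevenA T (S.pos_p j0) hp0 (adj_n T.r) (T.Od_z hσ)
      (mul_mem (of_norm' (Lv_norm_Ui j1) hlz h1) (of_norm' (Lv_norm_Ui j1) T.z_Lv hu))

/-- root index -/
def i0 : Fin chevG2.nroots := ⟨0, by decide⟩

include T in
omit [Finite Γ] in
lemma c7_0 : Cm R i7 i0 := (c4_11 T.r).wd w0 (by decide +kernel) (by decide +kernel)
include T in
omit [Finite Γ] in
lemma c4_0 : Cm R i4 i0 := (c7_11 T.r).wd w0 (by decide +kernel) (by decide +kernel)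

omit [Finite Γ] in
lemma ν_comm9 {x : Γ} (hx : x ∈ R.X i9) {σ : Γ} (hσ : T.Ev σ ∨ T.Od σ) : σ * x = x * σ := by
  have h1 : Commute T.z x := (c96 T.r _ hx _ (p1_eq ▸ T.z_mem)).symm
  have h2 : Commute (R.nn j1 * T.z * R.nn j1) x := by
    have := R.nn_X j1 _ _ T.z_mem
    rw [S.w_p, np1_eq, T.minv] at this
    exact (c95 T.r _ hx _ this).symm
  have h3 : R.nn j1 = T.z * (R.nn j1 * T.z * R.nn j1) * T.z := by
    have := T.rel3
    calc R.nn j1 = T.z * R.nn j1 * T.z * R.nn j1 * T.z := this.symm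
      _ = _ := by group
  have h4 : Commute (R.nn j1) x := by
    rw [h3]; exact (h1.mul_left h2).mul_left h1
  rcases hσ with (rfl | rfl | rfl) | (rfl | rfl | rfl)
  · rw [mul_one, one_mul]
  · exact h1.mul_left h4
  · exact h4.mul_left h1
  · exact h1
  · exact h4
  · exact (h1.mul_left h4).mul_left h1

lemma dist6 {p q : Γ} (hp : p ∈ PP R j1) (hq : q ∈ PP R j1) : Gd R (xx T) (p * T.ν * q) := by
  apply Gd.of_conj' (PP_Grp hp)
  obtain ⟨l, hl, u, hu, e⟩ := mem_PP (mul_mem hq hp)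
  have e1 : p⁻¹ * (p * T.ν * q) * p = T.ν * l * u := by
    rw [mul_assoc T.ν, ← e]; group
  rw [e1]
  have h9p : S.Pos i9 := (TqA.pos_iff _).2 (by decide)
  have h9n : i9 ≠ S.p j1 := ne_p1 (by decide)
  obtain ⟨c, σ, rfl, hσ | hσ⟩ := T.Lv_form2 hl
  · exact sevenA T h9p h9n T.ν_adj hσ hu
  · -- the odd case
    have hσ' := T.Od_m hσ
    set σ' := R.nn j1 * σ with hσ'def
    set nγ : Γ := (R.nn j1 * R.nn j0) * R.nn j1 * (R.nn j1 * R.nn j0)⁻¹ with hnγ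
    have hgact : R.Act (R.nn j1 * R.nn j0) (S.w j1 * S.w j0) := (RGrp.act_nn j1).mul (RGrp.act_nn j0)
    have hnγN : nγ ∈ R.N := mul_mem (mul_mem (mul_mem (R.nn_mem_N j1) (R.nn_mem_N j0)) (R.nn_mem_N j1))
      (inv_mem (mul_mem (R.nn_mem_N j1) (R.nn_mem_N j0)))
    have hact : R.Act (nγ * R.nn j0) (S.wd w0) := by
      have h := ((hgact.mul (RGrp.act_nn (R := R) j1)).mul hgact.inv).mul (RGrp.act_nn (R := R) j0)
      have e : S.wd w0 = S.w j1 * S.w j0 * S.w j1 * (S.w j1 * S.w j0)⁻¹ * S.w j0 := by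
        have e1 : S.w j1 * S.w j0 * S.w j1 * (S.w j1 * S.w j0)⁻¹ * S.w j0 = S.wd [j1, j0, j1, j0, j1, j0] := by
          simp only [WSys.wd_cons, WSys.wd_nil, mul_inv_rev, WSys.w_inv]; group
        rw [e1]; exact SqH.w0_alt.symm
      rw [e]; exact h
    have hk := RGrp.inv_mul_mem_H (mul_mem hnγN (R.nn_mem_N j0)) (mul_mem (Two.ν_N T) (R.nn_mem_N j1)) hact (Two.νm_act T)
    obtain ⟨k, hk⟩ := T.mem_H hk
    have e2 : T.ν * (T.r.h c * σ) * u = nγ * (R.nn j0 * (T.r.h (k * c) * σ') * u) := by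
      have h1 : T.ν * R.nn j1 = nγ * R.nn j0 * T.r.h k := by rw [← hk]; group
      calc T.ν * (T.r.h c * σ) * u = T.ν * (R.nn j1 * R.nn j1) * T.r.h c * σ * u := by rw [T.mm1]; group
        _ = (T.ν * R.nn j1) * (R.nn j1 * T.r.h c) * σ * u := by group
        _ = (T.ν * R.nn j1) * T.r.h c * σ' * u := by rw [← T.hm, hσ'def]; group
        _ = _ := by rw [h1, T.r.h_mul]; group
    rw [e2]
    have hl' : T.r.h (k * c) * σ' ∈ Lv R j1 := mul_mem (H_Lv (T.h_H _)) (T.σ_Lv (Or.inl hσ'))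
    have hp0 : S.p j0 ≠ S.p j1 := ne_p1 (by rw [p0_val]; omega)
    obtain ⟨z1, hz1, w1, hw1, u1, hu1, e3⟩ := (adj_n T.r (k * c)).use (T.h_H _) (S.pos_p j0) hp0 hl' hu
    have e3' : R.nn j0 * (T.r.h (k * c) * σ') * u = z1 * w1 * σ' * u1 := by rw [e3]; group
    rw [e3']
    have hAd : Adj R nγ i11 1 := by
      have h := (adj_m T.r T.f1').conj hgact
      have e4 : (S.w j1 * S.w j0) (S.p j1) = i11 := by
        rw [Equiv.Perm.mul_apply]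
        apply Fin.ext
        rw [w_val, w_val, p1_val]
        decide +kernel
      rw [e4, T.r.b_one] at h
      have e5 : R.nn j1 * R.nn j0 * 1 * (R.nn j1 * R.nn j0)⁻¹ = 1 := by group
      rwa [e5] at h
    have h11p : S.Pos i11 := (TqA.pos_iff _).2 (by decide)
    have h11n : i11 ≠ S.p j1 := ne_p1 (by decide)
    obtain ⟨z2, hz2, w2, hw2, u2, hu2, e4⟩ := hAd.use (one_mem _) h11p h11n (T.σ_Lv (Or.inl hσ')) hu1
    rw [inv_one, one_mul] at e4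
    rw [p0_eq] at hz1
    rw [np0_eq] at hw1
    have hn11 : S.neg i11 = i0 := Fin.ext (by rw [neg_val]; decide)
    rw [hn11] at hw2
    obtain ⟨p1, hp1, p2, hp2, p3, hp3, e5⟩ := hAd
    rw [hn11] at hp2
    rw [inv_one, mul_one] at e5
    have cz : Commute nγ z1 := by
      rw [e5]
      have q1 : ∀ p ∈ R.X i11, Commute p z1 := fun p hp => (c7_11 T.r _ hz1 _ hp).symm
      exact ((q1 _ hp1).mul_left (c7_0 T _ hz1 _ hp2).symm).mul_left (q1 _ hp3)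
    have cw : Commute nγ w1 := by
      rw [e5]
      have q1 : ∀ p ∈ R.X i11, Commute p w1 := fun p hp => (c4_11 T.r _ hw1 _ hp).symm
      exact ((q1 _ hp1).mul_left (c4_0 T _ hw1 _ hp2).symm).mul_left (q1 _ hp3)
    have c12 : w1 * z2 = z2 * w1 := c4_11 T.r _ hw1 _ hz2
    have e6 : nγ * (z1 * w1 * σ' * u1) = (z1 * z2) * ((w1 * w2) * σ' * u2) := by
      calc nγ * (z1 * w1 * σ' * u1) = (nγ * z1) * w1 * σ' * u1 := by group
        _ = z1 * (nγ * w1) * σ' * u1 := by rw [cz.eq]; group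
        _ = z1 * w1 * (nγ * σ' * u1) := by rw [cw.eq]; group
        _ = z1 * (w1 * z2) * w2 * σ' * u2 := by rw [e4]; group
        _ = _ := by rw [c12]; group
    rw [e6]
    have hzU : z1 * z2 ∈ R.Ui j1 := mul_mem (R.X_le_Ui ((TqA.pos_iff _).2 (by decide)) (ne_p1 (by decide)) hz1)
      (R.X_le_Ui h11p h11n hz2)
    apply Gd.of_conj' (Ui_Grp hzU)
    have e7 : (z1 * z2)⁻¹ * ((z1 * z2) * ((w1 * w2) * σ' * u2)) * (z1 * z2) = (w1 * w2) * σ' * (u2 * (z1 * z2)) := by group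
    rw [e7]
    have hneg : ∀ s : Fin chevG2.nroots, (s : ℕ) < 5 → ¬ S.Pos s ∧ s ≠ S.neg (S.p j1) := by
      intro s hs
      refine ⟨?_, ?_⟩
      · rw [TqA.pos_iff]; omega
      · intro h
        have := congrArg (fun z : Fin chevG2.nroots => (z : ℕ)) h
        simp only [neg_val, p1_val] at this
        omega
    exact good_of (pr_E T hσ') (mul_mem hu2 hzU) (mul_mem
      (mem_gen (P := fun t => ¬ S.Pos t ∧ t ≠ S.neg (S.p j1)) (hneg _ (by decide)) hw1)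
      (mem_gen (P := fun t => ¬ S.Pos t ∧ t ≠ S.neg (S.p j1)) (hneg _ (by decide)) hw2))

/-- elements of the radical -/
lemma good_Ui {g : Γ} (hg : g ∈ R.Ui j1) : Gd R (xx T) g := by
  have := good_of (pr_E T (Or.inl rfl)) hg (one_mem (Vi R j1))
  rwa [one_mul, one_mul] at this

omit [Finite Γ] in
lemma ν_eq : T.ν = R.nn j0 * R.nn j1 * R.nn j0 * R.nn j1 * R.nn j0 := by
  unfold Two.ν
  rw [mul_inv_rev, T.minv, T.ninv]; group

omit [Finite Γ] in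
lemma Ct9 {c : Kˣ} (hc : c ≠ 1) : Ct R (T.r.h c) i9 := by
  intro x hx hcx
  have hact := RGrp.act_nd (R := R) [j0, j1]
  have h1 := hact.conj' hx
  have e : (S.wd [j0, j1])⁻¹ i9 = S.p j0 := by
    have e2 : (S.wd [j0, j1])⁻¹ = S.wd [j1, j0] := by
      simp only [WSys.wd_cons, WSys.wd_nil, mul_inv_rev, WSys.w_inv, inv_one]; group
    rw [e2]
    apply Fin.ext
    rw [wd_val, p0_val]
    decide +kernel
  rw [e] at h1
  have hh : (R.nd [j0, j1])⁻¹ * T.r.h c * R.nd [j0, j1] = T.r.h c⁻¹ := by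
    have n' : (R.nn j0)⁻¹ * T.r.h c * R.nn j0 = T.r.h c⁻¹ := by
      have := T.r.nh c
      rwa [T.ninv] at this ⊢
    simp only [RGrp.nd_cons, RGrp.nd_nil, mul_one]
    calc (R.nn j0 * R.nn j1)⁻¹ * T.r.h c * (R.nn j0 * R.nn j1) = (R.nn j1)⁻¹ * (((R.nn j0)⁻¹ * T.r.h c * R.nn j0) * R.nn j1) := by group
      _ = _ := by rw [n', T.hm]; group
  have hci : c⁻¹ ≠ 1 := fun h => hc (inv_eq_one.1 h)
  have hC : Ct R (T.r.h c⁻¹) (S.p j0) := by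
    rw [T.r.h_eq]
    apply TqG.Ct0 T.r T.f1'
    rw [inv_one, mul_one]
    exact T.cc_ne hci
  have h2 := hC _ h1 (by
    rw [← hh]
    calc (R.nd [j0, j1])⁻¹ * T.r.h c * R.nd [j0, j1] * ((R.nd [j0, j1])⁻¹ * x * R.nd [j0, j1]) =
        (R.nd [j0, j1])⁻¹ * (T.r.h c * x) * R.nd [j0, j1] := by group
      _ = _ := by rw [hcx]; group)
  calc x = R.nd [j0, j1] * ((R.nd [j0, j1])⁻¹ * x * R.nd [j0, j1]) * (R.nd [j0, j1])⁻¹ := by group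
    _ = 1 := by rw [h2]; group

omit [Finite Γ] in
lemma Ct8 {c : Kˣ} (hc : c ≠ 1) : Ct R (T.r.h c) (⟨8, by decide⟩ : Fin chevG2.nroots) := by
  intro x hx hcx
  have h1 := (RGrp.act_nn (R := R) j1).conj' hx
  have e : (S.w j1)⁻¹ (⟨8, by decide⟩ : Fin chevG2.nroots) = S.p j0 := by
    rw [WSys.w_inv]
    apply Fin.ext
    rw [w_val, p0_val]
    decide +kernel
  rw [e] at h1
  have hC : Ct R (T.r.h c) (S.p j0) := by
    rw [T.r.h_eq]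
    apply TqG.Ct0 T.r T.f1'
    rw [inv_one, mul_one]
    exact T.cc_ne hc
  have h2 := hC _ h1 (by
    calc T.r.h c * ((R.nn j1)⁻¹ * x * R.nn j1) = (T.r.h c * R.nn j1) * x * R.nn j1 := by rw [T.minv]; group
      _ = R.nn j1 * (T.r.h c * x) * R.nn j1 := by rw [T.hm]; group
      _ = R.nn j1 * x * (T.r.h c * R.nn j1) := by rw [hcx]; group
      _ = _ := by rw [T.hm, T.minv]; group)
  calc x = R.nn j1 * ((R.nn j1)⁻¹ * x * R.nn j1) * (R.nn j1)⁻¹ := by group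
    _ = 1 := by rw [h2]; group

/-- elements of the Levi subgroup with regular torus part -/
lemma good_L {c : Kˣ} (hc : c ≠ 1) {σ : Γ} (hσ : σ = T.z * R.nn j1 ∨ σ = R.nn j1 * T.z) : Gd R (xx T) (T.r.h c * σ) := by
  have hEv : T.Ev σ := Or.inr hσ
  set g : Γ := R.nn j0 * R.nn j1 with hg
  have hgact : R.Act g (S.wd [j0, j1]) := by
    have := RGrp.act_nd (R := R) [j0, j1]
    simpa [RGrp.nd_cons, RGrp.nd_nil] using this
  have hs9 : S.wd [j0, j1] (S.p j0) = i9 := by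
    apply Fin.ext
    rw [wd_val, p0_val]
    decide +kernel
  have hX9 : ∀ x ∈ R.X (S.p j0), g * x * g⁻¹ ∈ R.X i9 := by
    intro x hx
    have := hgact.conj hx
    rwa [hs9] at this
  set e : Γ := g * T.r.X 1 * g⁻¹ with he
  have he9 : e ∈ R.X i9 := hX9 _ (T.r.X_mem 1)
  have hne : e ≠ 1 := by
    intro h
    have : T.r.X 1 = 1 := by
      calc T.r.X 1 = g⁻¹ * e * g := by rw [he]; group
        _ = 1 := by rw [h]; group
    rw [← T.r.X_zero] at this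
    exact one_ne_zero (T.r.X_inj _ _ this)
  set e' : Γ := (T.r.h c)⁻¹ * e⁻¹ * T.r.h c * e with he'
  have he'9 : e' ∈ R.X i9 := by
    have h1 := R.H_X _ (inv_mem (T.h_H c)) _ _ (inv_mem he9)
    rw [inv_inv] at h1
    exact mul_mem h1 he9
  have he'1 : e' ≠ 1 := by
    intro h
    apply hne
    apply Ct9 T hc e he9
    calc T.r.h c * e = e * T.r.h c * ((T.r.h c)⁻¹ * e⁻¹ * T.r.h c * e) := by group
      _ = _ := by rw [← he', h, mul_one]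
  apply Gd.of_conj' (X_Grp _ he9)
  have e1 : e⁻¹ * (T.r.h c * σ) * e = T.r.h c * σ * e' := by
    have h1 : (T.r.h c)⁻¹ * e⁻¹ * T.r.h c ∈ R.X i9 := by
      have h1 := R.H_X _ (inv_mem (T.h_H c)) _ _ (inv_mem he9)
      rwa [inv_inv] at h1
    have h2 := ν_comm9 T h1 (Or.inl hEv)
    calc e⁻¹ * (T.r.h c * σ) * e = T.r.h c * (((T.r.h c)⁻¹ * e⁻¹ * T.r.h c) * σ) * e := by group
      _ = _ := by rw [← h2, he']; group
  rw [e1]
  apply Gd.of_conj (ν_Grp T)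
  have hνact : R.Act T.ν (S.wd [j0, j1, j0, j1, j0]) := by
    have := RGrp.act_nd (R := R) [j0, j1, j0, j1, j0]
    rw [ν_eq]
    simpa [RGrp.nd_cons, RGrp.nd_nil, mul_assoc] using this
  have hf := hνact.conj he'9
  have e2 : S.wd [j0, j1, j0, j1, j0] i9 = i2 := by
    apply Fin.ext
    rw [wd_val]
    decide +kernel
  rw [e2] at hf
  set f : Γ := T.ν * e' * T.ν⁻¹ with hfdef
  have hf1 : f ≠ 1 := by
    intro h
    apply he'1
    calc e' = T.ν⁻¹ * f * T.ν := by rw [hfdef]; group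
      _ = 1 := by rw [h]; group
  have e3 : T.ν * (T.r.h c * σ * e') * T.ν⁻¹ = T.r.h c⁻¹ * σ * f := by
    calc T.ν * (T.r.h c * σ * e') * T.ν⁻¹ = (T.ν * T.r.h c * T.ν⁻¹) * (T.ν * σ) * e' * T.ν⁻¹ := by group
      _ = _ := by rw [T.ν_h, T.ν_σ (Or.inl hEv), hfdef]; group
  rw [e3]
  have hf' := hgact.conj' hf
  have e4 : (S.wd [j0, j1])⁻¹ i2 = S.neg (S.p j0) := by
    have e2 : (S.wd [j0, j1])⁻¹ = S.wd [j1, j0] := by
      simp only [WSys.wd_cons, WSys.wd_nil, mul_inv_rev, WSys.w_inv, inv_one]; group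
    rw [e2]
    apply Fin.ext
    rw [wd_val, neg_val, p0_val]
    decide +kernel
  rw [e4] at hf'
  obtain ⟨a1, ha1, h1, hh1, b1, hb1, e5⟩ := R.rank1 j0 _ hf' (by
    intro h
    apply hf1
    calc f = g * (g⁻¹ * f * g) * g⁻¹ := by group
      _ = 1 := by rw [h]; group)
  have ha2 := hX9 _ ha1
  have hb2 := hX9 _ hb1
  have hgN : g ∈ R.N := mul_mem (R.nn_mem_N j0) (R.nn_mem_N j1)
  obtain ⟨k, hk⟩ := T.mem_H (RGrp.N_conj_H hgN hh1)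
  have e6 : f = (g * a1 * g⁻¹) * T.ν * T.r.h k * (g * b1 * g⁻¹) := by
    have : T.ν = g * R.nn j0 * g⁻¹ := rfl
    rw [← hk, this]
    calc f = g * (g⁻¹ * f * g) * g⁻¹ := by group
      _ = _ := by rw [e5]; group
  rw [e6]
  set a2 := g * a1 * g⁻¹ with ha2def
  set b2 := g * b1 * g⁻¹ with hb2def
  have h9p : S.Pos i9 := (TqA.pos_iff _).2 (by decide)
  have h9n : i9 ≠ S.p j1 := ne_p1 (by decide)
  have hl : T.r.h c⁻¹ * σ ∈ Lv R j1 := mul_mem (H_Lv (T.h_H _)) (T.σ_Lv (Or.inl hEv))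
  have ha3 : (T.r.h c⁻¹ * σ) * a2 * (T.r.h c⁻¹ * σ)⁻¹ ∈ R.Ui j1 := of_norm (Lv_norm_Ui j1) hl (R.X_le_Ui h9p h9n ha2)
  apply Gd.of_conj' (Ui_Grp ha3)
  have e7 : T.r.h c⁻¹ * T.ν = T.ν * T.r.h c := by rw [← T.ν_h]; group
  have e8 : ((T.r.h c⁻¹ * σ) * a2 * (T.r.h c⁻¹ * σ)⁻¹)⁻¹ * (T.r.h c⁻¹ * σ * (a2 * T.ν * T.r.h k * b2)) *
      ((T.r.h c⁻¹ * σ) * a2 * (T.r.h c⁻¹ * σ)⁻¹) = T.ν * (T.r.h (c * k) * σ) * (b2 * ((T.r.h c⁻¹ * σ) * a2 * (T.r.h c⁻¹ * σ)⁻¹)) := by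
    calc ((T.r.h c⁻¹ * σ) * a2 * (T.r.h c⁻¹ * σ)⁻¹)⁻¹ * (T.r.h c⁻¹ * σ * (a2 * T.ν * T.r.h k * b2)) *
        ((T.r.h c⁻¹ * σ) * a2 * (T.r.h c⁻¹ * σ)⁻¹) =
        T.r.h c⁻¹ * (σ * T.ν) * T.r.h k * (b2 * ((T.r.h c⁻¹ * σ) * a2 * (T.r.h c⁻¹ * σ)⁻¹)) := by group
      _ = (T.r.h c⁻¹ * T.ν) * (σ * T.r.h k) * (b2 * ((T.r.h c⁻¹ * σ) * a2 * (T.r.h c⁻¹ * σ)⁻¹)) := by
        rw [← T.ν_σ (Or.inl hEv)]; group
      _ = _ := by rw [e7, ← T.h_comm (Or.inl hEv), T.r.h_mul]; group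
  rw [e8]
  exact sevenA T h9p h9n T.ν_adj hEv (mul_mem (R.X_le_Ui h9p h9n hb2) ha3)

end Cfsg.Agent.H51.TqL
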