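import Cfsg.Agent.H51.TqL

set_option autoImplicit false
set_option maxRecDepth 100000

/-!
The case q = 2: the remaining double cosets, conclusion.
-/

namespace Cfsg.Agent.H51.TqM

open Cfsg.Lie Cfsg.Agent.Chev Cfsg.Agent.ChevGrp Cfsg.Agent.ChevF Cfsg.Agent.H51.G2W Cfsg.Agent.H51.SqC Cfsg.Agent.H51.SqE
  Cfsg.Agent.H51.TqA Cfsg.Agent.H51.TqB Cfsg.Agent.H51.TqC Cfsg.Agent.H51.TqE Cfsg.Agent.H51.TqH Cfsg.Agent.H51.TqK
  Cfsg.Agent.H51.TqL

variable {Γ : Type*} [Group Γ] {R : RGrp S Γ} {K : Type*} [Field K] (T : Two K R)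

open Classical in
/-- parity of an element of the positive unipotent group -/
noncomputable def pf (R : RGrp S Γ) (g : Γ) : ZMod 2 := if g ∈ R.Ui j1 then 0 else 1

lemma pf_zero {g : Γ} (h : g ∈ R.Ui j1) : pf R g = 0 := if_pos h
lemma pf_one {g : Γ} (h : g ∉ R.Ui j1) : pf R g = 1 := if_neg h

lemma mem_of_pf {g : Γ} (h : pf R g = 0) : g ∈ R.Ui j1 := by
  by_contra h'
  rw [pf_one h'] at h
  exact absurd h (by decide)

lemma pf_conj {b : Γ} (hb : b ∈ PP R j1) (g : Γ) : pf R (b⁻¹ * g * b) = pf R g := by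
  have hn : PP R j1 ≤ Subgroup.normalizer (R.Ui j1 : Set Γ) := sup_le (Lv_norm_Ui j1) Subgroup.le_normalizer
  by_cases h : g ∈ R.Ui j1
  · rw [pf_zero h, pf_zero (of_norm' hn hb h)]
  · rw [pf_one h, pf_one]
    intro h'
    apply h
    have := of_norm hn hb h'
    have e : b * (b⁻¹ * g * b) * b⁻¹ = g := by group
    rwa [e] at this

include T in
lemma pf_mul {g g' : Γ} (hg : g ∈ R.U) (hg' : g' ∈ R.U) : pf R (g * g') = pf R g + pf R g' := by
  have form : ∀ g ∈ R.U, g ∉ R.Ui j1 → ∃ v ∈ R.Ui j1, g = T.z * v := by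
    intro g hg h
    obtain ⟨x, hx, v, hv, rfl⟩ := RGrp.mem_U j1 hg
    rcases T.mem_p1 hx with rfl | rfl
    · rw [one_mul] at h; exact absurd hv h
    · exact ⟨v, hv, rfl⟩
  by_cases h : g ∈ R.Ui j1 <;> by_cases h' : g' ∈ R.Ui j1
  · rw [pf_zero h, pf_zero h', pf_zero (mul_mem h h'), add_zero]
  · rw [pf_zero h, pf_one h', pf_one, zero_add]
    intro h''
    exact h' ((Subgroup.mul_mem_cancel_left _ h).1 h'')
  · rw [pf_one h, pf_zero h', pf_one, add_zero]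
    intro h''
    exact h ((Subgroup.mul_mem_cancel_right _ h').1 h'')
  · obtain ⟨v, hv, rfl⟩ := form g hg h
    obtain ⟨v', hv', rfl⟩ := form g' hg' h'
    rw [pf_one h, pf_one h', pf_zero]
    · decide
    · have e : T.z * v * (T.z * v') = (T.z * T.z) * (T.z⁻¹ * v * T.z) * v' := by group
      rw [e, T.zz, one_mul]
      exact mul_mem (of_norm' (Lv_norm_Ui j1) T.z_Lv hv) hv'

/-- elements moving the lines through a point -/
def kap (y : K) : Γ := T.r.X y * R.nn j0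

lemma kap_Lv (y : K) : kap T y ∈ Lv R j0 := mul_mem (X_Lv (T.r.X_mem y)) T.r.n_Lv

lemma kap_Grp (y : K) : kap T y ∈ R.Grp := Lv_Grp (kap_Lv T y)

variable [Fintype K] (hcard : Fintype.card K = 8)

/-- the sum of the parities -/
noncomputable def chi (g : Γ) : ZMod 2 := pf R g + ∑ y : K, pf R ((kap T y)⁻¹ * g * kap T y)

lemma chi_mul {g g' : Γ} (hg : g ∈ R.Ui j0) (hg' : g' ∈ R.Ui j0) : chi T (g * g') = chi T g + chi T g' := by
  unfold chi
  have h1 : ∀ y : K, pf R ((kap T y)⁻¹ * (g * g') * kap T y) =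
      pf R ((kap T y)⁻¹ * g * kap T y) + pf R ((kap T y)⁻¹ * g' * kap T y) := by
    intro y
    have e : (kap T y)⁻¹ * (g * g') * kap T y = ((kap T y)⁻¹ * g * kap T y) * ((kap T y)⁻¹ * g' * kap T y) := by group
    rw [e]
    exact pf_mul T (R.Ui_le_U j0 (of_norm' (Lv_norm_Ui j0) (kap_Lv T y) hg))
      (R.Ui_le_U j0 (of_norm' (Lv_norm_Ui j0) (kap_Lv T y) hg'))
  rw [pf_mul T (R.Ui_le_U j0 hg) (R.Ui_le_U j0 hg'), Finset.sum_congr rfl (fun y _ => h1 y), Finset.sum_add_distrib]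
  ring

lemma chi_one : chi T (1 : Γ) = 0 := by
  unfold chi
  have h1 : ∀ y : K, pf R ((kap T y)⁻¹ * 1 * kap T y) = 0 := by
    intro y
    have e : (kap T y)⁻¹ * 1 * kap T y = 1 := by group
    rw [e]; exact pf_zero (one_mem _)
  rw [Finset.sum_congr rfl (fun y _ => h1 y), pf_zero (one_mem _)]
  simp

lemma chi_T (c : Kˣ) (g : Γ) : chi T ((T.r.h c)⁻¹ * g * T.r.h c) = chi T g := by
  unfold chi
  rw [pf_conj (H_PP (T.h_H c))]
  congr 1
  have h1 : ∀ y : K, pf R ((kap T y)⁻¹ * ((T.r.h c)⁻¹ * g * T.r.h c) * kap T y) =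
      pf R ((kap T (((c * c : Kˣ) : K) * y))⁻¹ * g * kap T (((c * c : Kˣ) : K) * y)) := by
    intro y
    have e1 : T.r.h c * kap T y = kap T (((c * c : Kˣ) : K) * y) * T.r.h c⁻¹ := by
      unfold kap
      rw [← T.r.hX, ← T.r.nh, T.ninv]
      calc T.r.h c * (T.r.X y * R.nn j0) = T.r.h c * T.r.X y * (T.r.h c)⁻¹ * T.r.h c * R.nn j0 := by group
        _ = T.r.h c * T.r.X y * (T.r.h c)⁻¹ * (R.nn j0 * R.nn j0) * T.r.h c * R.nn j0 := by rw [T.nn1, mul_one]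
        _ = _ := by group
    have e2 : (kap T y)⁻¹ * ((T.r.h c)⁻¹ * g * T.r.h c) * kap T y = (T.r.h c * kap T y)⁻¹ * g * (T.r.h c * kap T y) := by group
    rw [e2, e1]
    have e3 : (kap T (((c * c : Kˣ) : K) * y) * T.r.h c⁻¹)⁻¹ * g * (kap T (((c * c : Kˣ) : K) * y) * T.r.h c⁻¹) =
        (T.r.h c⁻¹)⁻¹ * ((kap T (((c * c : Kˣ) : K) * y))⁻¹ * g * kap T (((c * c : Kˣ) : K) * y)) * T.r.h c⁻¹ := by group
    rw [e3, pf_conj (H_PP (T.h_H _))]
  rw [Finset.sum_congr rfl (fun y _ => h1 y)]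
  exact Fintype.sum_equiv (Equiv.mulLeft₀ ((c * c : Kˣ) : K) (Units.ne_zero _)) _ _ (fun y => rfl)

/-- root indices -/
def i8 : Fin chevG2.nroots := ⟨8, by decide⟩

lemma chi_short [Finite Γ] {s : Fin chevG2.nroots} (hs : S.Pos s) (hsp : s ≠ S.p j0) (hC : Ct R (T.r.h T.c₀) s) {x : Γ} (hx : x ∈ R.X s) :
    chi T x = 0 := by
  have hn : T.r.h T.c₀ ∈ Subgroup.normalizer (R.X s : Set Γ) := by
    have : R.H ≤ Subgroup.normalizer (R.X s : Set Γ) := le_norm (fun h hh x hx => R.H_X h hh s x hx)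
    exact this (T.h_H _)
  obtain ⟨w, hw, e⟩ := SqG.cov hn hC hx
  have e2 : x = ((T.r.h T.c₀)⁻¹ * w * T.r.h T.c₀) * w⁻¹ := by
    calc x = (T.r.h T.c₀)⁻¹ * (T.r.h T.c₀ * x) := by group
      _ = _ := by rw [← e]; group
  have hwU : w ∈ R.Ui j0 := R.X_le_Ui hs hsp hw
  rw [e2, chi_mul T (of_norm' (Lv_norm_Ui j0) (H_Lv (T.h_H _)) hwU) (inv_mem hwU), chi_T, ← chi_mul T hwU (inv_mem hwU), mul_inv_cancel,
    chi_one]

lemma kap_11 (y : K) {x : Γ} (hx : x ∈ R.X i11) : (kap T y)⁻¹ * x * kap T y = x := by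
  have h : kap T y ∈ R.Li j0 := mul_mem (Subgroup.mem_sup_left (T.r.X_mem y)) (n_Li T.r)
  have h1 := Li_11 T.r h hx
  calc (kap T y)⁻¹ * x * kap T y = (kap T y)⁻¹ * (x * kap T y) := by group
    _ = x := by rw [← h1]; group

lemma X_Ui1 {s : Fin chevG2.nroots} (h : 6 ≤ (s : ℕ)) (h6 : (s : ℕ) ≠ 6) : R.X s ≤ R.Ui j1 :=
  R.X_le_Ui ((TqA.pos_iff s).2 h) (ne_p1 h6)

lemma chi_11 {x : Γ} (hx : x ∈ R.X i11) : chi T x = 0 := by
  unfold chi
  have h0 : pf R x = 0 := pf_zero (X_Ui1 (by decide) (by decide) hx)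
  have h1 : ∀ y : K, pf R ((kap T y)⁻¹ * x * kap T y) = 0 := by
    intro y
    rw [kap_11 T y hx, h0]
  rw [Finset.sum_congr rfl (fun y _ => h1 y), h0]
  simp

lemma pf_z : pf R T.z = 1 := pf_one fun h => T.zne (X_inf_Ui T.z_mem h)

omit [Fintype K] in
include T in
lemma c46 : Cm R i4 i6 := T.r.comm2

/-- parities of the conjugates of the long root element -/
lemma pf_kap {y : K} (hy : y ≠ 0) : pf R ((kap T y)⁻¹ * T.z * kap T y) = 1 := by
  set v : Kˣ := (Units.mk0 y hy)⁻¹ with hv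
  have hvi : ((v⁻¹ : Kˣ) : K) = y := by rw [hv, inv_inv]; rfl
  have h1 := T.r.rn v
  rw [hvi] at h1
  -- `X y * n` in terms of the negative root element
  have h2 : kap T y = T.r.Y v * ((T.r.X y)⁻¹ * ((R.nn j0)⁻¹ * (T.r.h (-v⁻¹))⁻¹ * R.nn j0)) := by
    rw [h1]
    unfold kap
    have h3 : (T.r.h (-v⁻¹) * R.nn j0) * ((R.nn j0)⁻¹ * (T.r.h (-v⁻¹))⁻¹ * R.nn j0) = R.nn j0 := by group
    calc T.r.X y * R.nn j0 = T.r.X y * ((T.r.h (-v⁻¹) * R.nn j0) * ((R.nn j0)⁻¹ * (T.r.h (-v⁻¹))⁻¹ * R.nn j0)) := by rw [h3]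
      _ = _ := by group
  set β : Γ := (T.r.X y)⁻¹ * ((R.nn j0)⁻¹ * (T.r.h (-v⁻¹))⁻¹ * R.nn j0) with hβ
  have hβB : β ∈ R.B := mul_mem (R.U_le_B (R.X_le_U (S.pos_p j0) (inv_mem (T.r.X_mem y))))
    (R.H_le_B (RGrp.nn_H' j0 (inv_mem (T.h_H _))))
  have h4 : T.r.Y v * T.z = T.z * T.r.Y v := by
    refine c46 T _ ?_ _ (p1_eq ▸ T.z_mem)
    have := T.r.Y_mem (v : K)
    rwa [np0_eq] at this
  have e : (kap T y)⁻¹ * T.z * kap T y = β⁻¹ * T.z * β := by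
    rw [h2]
    calc (T.r.Y v * β)⁻¹ * T.z * (T.r.Y v * β) = β⁻¹ * (T.r.Y v)⁻¹ * (T.z * T.r.Y v) * β := by group
      _ = _ := by rw [← h4]; group
  rw [e, pf_conj (BB_PP hβB)]
  exact pf_z T

include hcard in
lemma chi_z : chi T T.z = 0 := by
  classical
  unfold chi
  have h0 : pf R ((kap T 0)⁻¹ * T.z * kap T 0) = 0 := by
    apply pf_zero
    have e : kap T 0 = R.nn j0 := by unfold kap; rw [T.r.X_zero, one_mul]
    rw [e]
    have h2 := (RGrp.act_nn (R := R) j0).conj' T.z_mem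
    refine X_Ui1 ?_ ?_ h2
    · rw [WSys.w_inv, w_val, p1_val]; decide +kernel
    · rw [WSys.w_inv, w_val, p1_val]; decide +kernel
  have h1 : ∀ y : K, pf R ((kap T y)⁻¹ * T.z * kap T y) = if y = 0 then 0 else 1 := by
    intro y
    by_cases hy : y = 0
    · rw [hy, h0, if_pos rfl]
    · rw [if_neg hy]; exact pf_kap T hy
  rw [Finset.sum_congr rfl (fun y _ => h1 y), pf_z]
  have h2 : ∑ y : K, (if y = 0 then (0 : ZMod 2) else 1) = 1 := by
    rw [← Finset.add_sum_erase _ _ (Finset.mem_univ (0 : K)), if_pos rfl, zero_add]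
    rw [Finset.sum_congr rfl (fun y hy => if_neg (Finset.ne_of_mem_erase hy))]
    rw [Finset.sum_const, Finset.card_erase_of_mem (Finset.mem_univ _), Finset.card_univ, hcard]
    decide
  rw [h2]; decide

include hcard in
lemma chi_a' : chi T T.a' = 0 := by
  unfold chi
  have h0 : pf R T.a' = 0 := pf_zero (X_Ui1 (by decide) (by decide) T.a'_mem)
  have h1 : ∀ y : K, pf R ((kap T y)⁻¹ * T.a' * kap T y) = 1 := by
    intro y
    have hA : (R.nn j0)⁻¹ * kap T y ∈ R.X i4 := by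
      have h2 := (RGrp.act_nn (R := R) j0).conj' (T.r.X_mem y)
      rw [WSys.w_inv, S.w_p, np0_eq] at h2
      have e : (R.nn j0)⁻¹ * kap T y = (R.nn j0)⁻¹ * T.r.X y * R.nn j0 := by unfold kap; group
      rwa [e]
    have h4 := c46 T _ hA _ (p1_eq ▸ T.z_mem)
    have e : (kap T y)⁻¹ * T.a' * kap T y = T.z := by
      unfold Two.a'
      calc (kap T y)⁻¹ * (R.nn j0 * T.z * (R.nn j0)⁻¹) * kap T y =
          ((R.nn j0)⁻¹ * kap T y)⁻¹ * (T.z * ((R.nn j0)⁻¹ * kap T y)) := by group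
        _ = _ := by rw [← h4]; group
    rw [e]; exact pf_z T
  rw [Finset.sum_congr rfl (fun y _ => h1 y), h0, Finset.sum_const, Finset.card_univ, hcard]
  decide

include hcard in
lemma chi_Ui [Finite Γ] {g : Γ} (hg : g ∈ R.Ui j0) : chi T g = 0 := by
  let Kc : Subgroup Γ :=
    { carrier := {g | g ∈ R.Ui j0 ∧ chi T g = 0}
      mul_mem' := by
        rintro a b ⟨ha, ha'⟩ ⟨hb, hb'⟩
        exact ⟨mul_mem ha hb, by rw [chi_mul T ha hb, ha', hb', add_zero]⟩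
      one_mem' := ⟨one_mem _, chi_one T⟩
      inv_mem' := by
        rintro a ⟨ha, ha'⟩
        refine ⟨inv_mem ha, ?_⟩
        have h := chi_mul T ha (inv_mem ha)
        rw [mul_inv_cancel, chi_one, ha', zero_add] at h
        exact h.symm }
  have hle : R.Ui j0 ≤ Kc := by
    unfold RGrp.Ui
    rw [gen_le]
    rintro s ⟨hs, hsp⟩ x hx
    refine ⟨R.X_le_Ui hs hsp hx, ?_⟩
    have h1 := (TqA.pos_iff s).1 hs
    have h2 : (s : ℕ) ≠ 7 := fun h => hsp (Fin.ext (h.trans p0_val.symm))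
    have h3 := s.2
    have h12 : chevG2.nroots = 12 := rfl
    have : (s : ℕ) = 6 ∨ (s : ℕ) = 8 ∨ (s : ℕ) = 9 ∨ (s : ℕ) = 10 ∨ (s : ℕ) = 11 := by omega
    rcases this with h | h | h | h | h
    · have e : s = S.p j1 := Fin.ext (h.trans p1_val.symm)
      rw [e] at hx
      rcases T.mem_p1 hx with rfl | rfl
      · exact chi_one T
      · exact chi_z T hcard
    · have e : s = i8 := Fin.ext h
      rw [e] at hx hs hsp
      exact chi_short T hs hsp (Ct8 T T.c₀1) hx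
    · have e : s = i9 := Fin.ext h
      rw [e] at hx hs hsp
      exact chi_short T hs hsp (Ct9 T T.c₀1) hx
    · have e : s = Two.i10 := Fin.ext h
      rw [e] at hx
      rcases T.mem_10 hx with rfl | rfl
      · exact chi_one T
      · exact chi_a' T hcard
    · have e : s = i11 := Fin.ext h
      rw [e] at hx
      exact chi_11 T hx
  exact (hle hg).2

variable [Finite Γ]

include hcard in
/-- elements of the radical of the other parabolic subgroup -/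
lemma good_Q {g : Γ} (hg : g ∈ R.Ui j0) : Gd R (xx T) g := by
  by_cases h0 : pf R g = 0
  · exact good_Ui T (mem_of_pf h0)
  by_cases h1 : ∃ y : K, pf R ((kap T y)⁻¹ * g * kap T y) = 0
  · obtain ⟨y, hy⟩ := h1
    exact Gd.of_conj' (kap_Grp T y) (good_Ui T (mem_of_pf hy))
  · exfalso
    push Not at h1
    have two : ∀ a : ZMod 2, a ≠ 0 → a = 1 := by decide
    have h2 := chi_Ui T hcard hg
    unfold chi at h2
    rw [Finset.sum_congr rfl (fun y _ => two _ (h1 y)), two _ h0, Finset.sum_const, Finset.card_univ, hcard] at h2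
    exact absurd h2 (by decide)

include hcard in
/-- elements of the Borel subgroup -/
lemma good_B {g : Γ} (hg : g ∈ R.B) : Gd R (xx T) g := by
  obtain ⟨t, ht, x, hx, v, hv, rfl⟩ := mem_BB (j := j0) hg
  obtain ⟨c, rfl⟩ := T.mem_H ht
  obtain ⟨y, rfl⟩ := (T.r.mem_X x).1 hx
  by_cases hcy : c = 1 ∧ y = 0
  · obtain ⟨rfl, rfl⟩ := hcy
    rw [T.r.h_one, T.r.X_zero, one_mul, one_mul]
    exact good_Q T hcard hv
  · -- move the line
    obtain ⟨y', hy'⟩ : ∃ y' : K, -(((c⁻¹ * c⁻¹ : Kˣ) : K) * y') + y + y' ≠ 0 := by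
      by_cases hy : y = 0
      · have hc : c ≠ 1 := fun h => hcy ⟨h, hy⟩
        refine ⟨1, fun h => ?_⟩
        have hci : c⁻¹ ≠ 1 := fun h => hc (inv_eq_one.1 h)
        apply T.cc_ne hci
        apply Units.ext
        rw [hy, mul_one, add_zero] at h
        rw [Units.val_one]
        linear_combination -h
      · exact ⟨0, by simpa using hy⟩
    set η : K := -(((c⁻¹ * c⁻¹ : Kˣ) : K) * y') + y + y' with hη
    apply Gd.of_conj' (X_Grp _ (T.r.X_mem y'))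
    set v' : Γ := (T.r.X y')⁻¹ * v * T.r.X y' with hv'
    have hv'U : v' ∈ R.Ui j0 := of_norm' (Lv_norm_Ui j0) (X_Lv (T.r.X_mem y')) hv
    have e1 : (T.r.X y')⁻¹ * (T.r.h c * T.r.X y * v) * T.r.X y' = T.r.h c * T.r.X η * v' := by
      have h1 := T.r.hX c⁻¹ (-y')
      rw [T.r.h_inv, inv_inv] at h1
      have h2 : T.r.X η = T.r.X (((c⁻¹ * c⁻¹ : Kˣ) : K) * -y') * T.r.X y * T.r.X y' := by
        rw [← T.r.X_add, ← T.r.X_add]
        congr 1
        rw [hη]; ring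
      rw [h2, ← h1, T.r.X_neg, hv']
      group
    rw [e1]
    apply Gd.of_conj' (n_Grp (R := R))
    have hf := (RGrp.act_nn (R := R) j0).conj' (T.r.X_mem η)
    rw [WSys.w_inv, S.w_p] at hf
    obtain ⟨a, ha, h', hh', b, hb, e2⟩ := R.rank1 j0 _ hf (by
      intro h
      apply hy'
      have h3 : T.r.X η = T.r.X 0 := by
        rw [T.r.X_zero]
        calc T.r.X η = R.nn j0 * ((R.nn j0)⁻¹ * T.r.X η * R.nn j0) * (R.nn j0)⁻¹ := by group
          _ = 1 := by rw [h]; group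
      exact T.r.X_inj _ _ h3)
    have e3 : (R.nn j0)⁻¹ * (T.r.h c * T.r.X η * v') * R.nn j0 =
        (((R.nn j0)⁻¹ * T.r.h c * R.nn j0) * a) * R.nn j0 * (h' * b * ((R.nn j0)⁻¹ * v' * R.nn j0)) := by
      calc (R.nn j0)⁻¹ * (T.r.h c * T.r.X η * v') * R.nn j0 =
          ((R.nn j0)⁻¹ * T.r.h c * R.nn j0) * ((R.nn j0)⁻¹ * T.r.X η * R.nn j0) * ((R.nn j0)⁻¹ * v' * R.nn j0) := by group
        _ = _ := by rw [e2]; group
    rw [e3]
    have hXB : R.X (S.p j0) ≤ R.B := (R.X_le_U (S.pos_p j0)).trans R.U_le_B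
    refine dist2 T (BB_PP (mul_mem (R.H_le_B (RGrp.nn_H' j0 (T.h_H c))) (hXB ha)))
      (BB_PP (mul_mem (mul_mem (R.H_le_B hh') (hXB hb)) (R.U_le_B (R.Ui_le_U j0 (RGrp.nn_Ui' j0 _ hv'U)))))

include hcard in
/-- elements of the parabolic subgroup -/
lemma good_P {g : Γ} (hg : g ∈ PP R j1) : Gd R (xx T) g := by
  obtain ⟨l, hl, u, hu, rfl⟩ := mem_PP hg
  have hUB : R.Ui j1 ≤ R.B := (R.Ui_le_U j1).trans R.U_le_B
  have hHB : ∀ c, T.r.h c ∈ R.B := fun c => R.H_le_B (T.h_H c)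
  have hzB : T.z ∈ R.B := R.U_le_B (R.X_le_U (S.pos_p j1) T.z_mem)
  obtain ⟨c, σ, rfl, hσ | hσ⟩ := T.Lv_form2 hl
  · rcases hσ with rfl | hσ
    · exact good_B T hcard (mul_mem (mul_mem (hHB c) (one_mem _)) (hUB hu))
    · by_cases hc : c = 1
      · subst hc
        have := good_of (pr_E T (Or.inr hσ)) hu (one_mem (Vi R j1))
        rw [one_mul] at this
        rw [T.r.h_one, one_mul]; exact this
      · obtain ⟨w, hw, e⟩ := SqG.cov (Lv_norm_Ui j1 hl) (T.CU_y hc hσ).1 hu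
        rw [← e]
        exact (good_L T hc hσ).conj (Ui_Grp hw)
  · -- odd case: conjugate into the Borel subgroup
    obtain ⟨w, hw, hwL, e⟩ : ∃ w : Γ, (T.Ev w ∨ T.Od w) ∧ w ∈ Lv R j1 ∧ σ * w = w * T.z := by
      rcases hσ with rfl | rfl | rfl
      · exact ⟨1, Or.inl (Or.inl rfl), one_mem _, by group⟩
      · refine ⟨T.z * R.nn j1, Or.inl (Or.inr (Or.inl rfl)), mul_mem T.z_Lv T.m_Lv, ?_⟩
        calc R.nn j1 * (T.z * R.nn j1) = (T.z * R.nn j1 * T.z * R.nn j1 * T.z) * T.z * R.nn j1 := by rw [T.rel3]; group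
          _ = T.z * R.nn j1 * T.z * R.nn j1 * (T.z * T.z) * R.nn j1 := by group
          _ = T.z * R.nn j1 * T.z * (R.nn j1 * R.nn j1) := by rw [T.zz]; group
          _ = _ := by rw [T.mm1, mul_one]
      · refine ⟨R.nn j1, Or.inr (Or.inr (Or.inl rfl)), T.m_Lv, ?_⟩
        exact T.rel_b
    apply Gd.of_conj' (Lv_Grp hwL)
    have e2 : w⁻¹ * (T.r.h c * σ * u) * w = T.r.h c * T.z * (w⁻¹ * u * w) := by
      have h1 := T.h_comm hw c
      calc w⁻¹ * (T.r.h c * σ * u) * w = w⁻¹ * T.r.h c * (σ * w) * (w⁻¹ * u * w) := by group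
        _ = w⁻¹ * (T.r.h c * w) * T.z * (w⁻¹ * u * w) := by rw [e]; group
        _ = _ := by rw [h1]; group
    rw [e2]
    exact good_B T hcard (mul_mem (mul_mem (hHB c) hzB) (hUB (of_norm' (Lv_norm_Ui j1) hwL hu)))

include hcard in
lemma dist4 {p q : Γ} (hp : p ∈ PP R j1) (hq : q ∈ PP R j1) : Gd R (xx T) (p * (R.nn j0 * R.nn j1 * R.nn j0) * q) := by
  apply Gd.of_conj' (PP_Grp hp)
  obtain ⟨l, hl, u, hu, e⟩ := mem_PP (mul_mem hq hp)
  have e1 : p⁻¹ * (p * (R.nn j0 * R.nn j1 * R.nn j0) * q) * p = (R.nn j0 * R.nn j1 * R.nn j0) * l * u := by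
    rw [mul_assoc (R.nn j0 * R.nn j1 * R.nn j0), ← e]; group
  rw [e1]
  have hUB : R.Ui j1 ≤ R.B := (R.Ui_le_U j1).trans R.U_le_B
  have hXB : ∀ s : Fin chevG2.nroots, 6 ≤ (s : ℕ) → R.X s ≤ R.B := fun s hs => (R.X_le_U ((TqA.pos_iff s).2 hs)).trans R.U_le_B
  have hX0 : R.X (S.p j0) ≤ R.B := hXB _ (by rw [p0_val]; omega)
  have hX1 : R.X (S.p j1) ≤ R.B := hXB _ (by rw [p1_val])
  have hm : R.nn j1 ∈ PP R j1 := Lv_PP T.m_Lv
  rcases Lv_form hl with ⟨a, ha, t, ht, rfl⟩ | ⟨a, ha, t, ht, b, hb, rfl⟩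
  · -- the element is in `B (nmn) B`
    have hb : a * t * u ∈ R.B := mul_mem (mul_mem (hX1 ha) (R.H_le_B ht)) (hUB hu)
    apply Gd.of_conj' (n_Grp (R := R))
    have e2 : (R.nn j0)⁻¹ * (R.nn j0 * R.nn j1 * R.nn j0 * (a * t) * u) * R.nn j0 =
        R.nn j1 * (R.nn j0 * (a * t * u) * (R.nn j0)⁻¹) * (R.nn j0 * R.nn j0) := by group
    rw [e2, T.nn1, mul_one]
    obtain ⟨b₁, h1, b₂, h2, h | h⟩ := bn' j0 (R.nn_mem_N j0) hb
    · rw [h]
      have e3 : R.nn j1 * (b₁ * (R.nn j0 * (R.nn j0)⁻¹) * b₂) = R.nn j1 * (b₁ * b₂) := by group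
      rw [e3]
      exact good_P T hcard (mul_mem hm (BB_PP (mul_mem h1 h2)))
    · rw [h]
      have e3 : R.nn j1 * (b₁ * R.nn j0 * b₂) = (R.nn j1 * b₁) * R.nn j0 * b₂ := by group
      rw [e3]
      exact dist2 T (mul_mem hm (BB_PP h1)) (BB_PP h2)
  · -- the element is in `B (nmnm) B`
    set g3 : Γ := R.nn j0 * R.nn j1 * R.nn j0 with hg3
    have hact3 : R.Act g3 (S.wd [j0, j1, j0]) := by
      have := RGrp.act_nd (R := R) [j0, j1, j0]
      simpa [RGrp.nd_cons, RGrp.nd_nil, mul_assoc, hg3] using this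
    have hg3N : g3 ∈ R.N := mul_mem (mul_mem (R.nn_mem_N j0) (R.nn_mem_N j1)) (R.nn_mem_N j0)
    have hb3 : g3 * (a * t) * g3⁻¹ ∈ R.B := by
      have h1 : g3 * a * g3⁻¹ ∈ R.B := by
        have h2 := hact3.conj ha
        refine hXB _ ?_ h2
        rw [wd_val, p1_val]; decide +kernel
      have h2 : g3 * t * g3⁻¹ ∈ R.B := R.H_le_B (RGrp.N_conj_H hg3N ht)
      have e2 : g3 * (a * t) * g3⁻¹ = (g3 * a * g3⁻¹) * (g3 * t * g3⁻¹) := by group
      rw [e2]; exact mul_mem h1 h2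
    set b3 := g3 * (a * t) * g3⁻¹ with hb3def
    apply Gd.of_conj' (R.B_le_Grp hb3)
    have e2 : b3⁻¹ * (g3 * (a * t * R.nn j1 * b) * u) * b3 = g3 * R.nn j1 * (b * u * b3) := by
      rw [hb3def]; group
    rw [e2]
    have hbB : b * u * b3 ∈ R.B := mul_mem (mul_mem (hX1 hb) (hUB hu)) hb3
    set b4 := b * u * b3 with hb4
    -- conjugate by `X(1) n`
    apply Gd.of_conj' (kap_Grp T 1)
    have hf := (RGrp.act_nn (R := R) j0).conj' (inv_mem (T.r.X_mem 1))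
    rw [WSys.w_inv, S.w_p] at hf
    obtain ⟨a1, ha1, h1, hh1, a2, ha2, e3⟩ := R.rank1 j0 _ hf (by
      intro h
      have h3 : T.r.X 1 = T.r.X 0 := by
        rw [T.r.X_zero]
        calc T.r.X 1 = (R.nn j0 * ((R.nn j0)⁻¹ * (T.r.X 1)⁻¹ * R.nn j0) * (R.nn j0)⁻¹)⁻¹ := by group
          _ = 1 := by rw [h]; group
      exact one_ne_zero (T.r.X_inj _ _ h3))
    set g4 : Γ := R.nn j1 * R.nn j0 * R.nn j1 with hg4
    have hact4 : R.Act g4 (S.wd [j1, j0, j1]) := by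
      have := RGrp.act_nd (R := R) [j1, j0, j1]
      simpa [RGrp.nd_cons, RGrp.nd_nil, mul_assoc, hg4] using this
    have ha2' : g4⁻¹ * a2 * g4 ∈ R.B := by
      have h2 := hact4.conj' ha2
      refine hXB _ ?_ h2
      have e2 : (S.wd [j1, j0, j1])⁻¹ = S.wd [j1, j0, j1] := by
        simp only [WSys.wd_cons, WSys.wd_nil, mul_inv_rev, WSys.w_inv, inv_one]; group
      rw [e2, wd_val, p0_val]; decide +kernel
    have hb5 : (g4⁻¹ * a2 * g4) * (b4 * T.r.X 1) ∈ R.B := mul_mem ha2' (mul_mem hbB (hX0 (T.r.X_mem 1)))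
    have e4 : (kap T 1)⁻¹ * (g3 * R.nn j1 * b4) * kap T 1 =
        a1 * (R.nn j0 * h1 * (R.nn j0)⁻¹) * (R.nn j0 * g4) * ((g4⁻¹ * a2 * g4) * (b4 * T.r.X 1)) * R.nn j0 := by
      unfold kap
      calc (T.r.X 1 * R.nn j0)⁻¹ * (g3 * R.nn j1 * b4) * (T.r.X 1 * R.nn j0) =
          ((R.nn j0)⁻¹ * (T.r.X 1)⁻¹ * R.nn j0) * g4 * b4 * T.r.X 1 * R.nn j0 := by rw [hg3, hg4]; group
        _ = _ := by rw [e3]; group
    rw [e4]
    obtain ⟨t5, ht5, x5, hx5, u5, hu5, e5⟩ := mem_BB (j := j0) hb5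
    rw [e5]
    set g5 : Γ := R.nn j0 * g4 with hg5
    have hact5 : R.Act g5 (S.wd [j0, j1, j0, j1]) := by
      have := RGrp.act_nd (R := R) [j0, j1, j0, j1]
      simpa [RGrp.nd_cons, RGrp.nd_nil, mul_assoc, hg5, hg4] using this
    have hg5N : g5 ∈ R.N := mul_mem (R.nn_mem_N j0) (mul_mem (mul_mem (R.nn_mem_N j1) (R.nn_mem_N j0)) (R.nn_mem_N j1))
    have hx5' : g5 * x5 * g5⁻¹ ∈ R.B := by
      have h2 := hact5.conj hx5
      refine hXB _ ?_ h2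
      rw [wd_val, p0_val]; decide +kernel
    have ht5' : g5 * t5 * g5⁻¹ ∈ R.B := R.H_le_B (RGrp.N_conj_H hg5N ht5)
    have e6 : a1 * (R.nn j0 * h1 * (R.nn j0)⁻¹) * g5 * (t5 * x5 * u5) * R.nn j0 =
        (a1 * (R.nn j0 * h1 * (R.nn j0)⁻¹) * (g5 * t5 * g5⁻¹) * (g5 * x5 * g5⁻¹)) * T.ν * ((R.nn j0)⁻¹ * u5 * R.nn j0) := by
      have h7 : T.ν = g5 * R.nn j0 := by rw [ν_eq, hg5, hg4]; group
      rw [h7]; group
    rw [e6]
    refine dist6 T (BB_PP (mul_mem (mul_mem (mul_mem (hX0 ha1) (R.H_le_B (R.nn_H j0 _ hh1))) ht5') hx5')) (BB_PP ?_)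
    exact R.U_le_B (R.Ui_le_U j0 (RGrp.nn_Ui' j0 _ hu5))

include hcard in
lemma good_word {L : List (Fin chevG2.rank)} (hL : L ∈ SqH.list12) {b : Γ} (hb : b ∈ R.B) :
    Gd R (xx T) (R.nd L * b) := by
  have hbP : b ∈ PP R j1 := BB_PP hb
  have hm : R.nn j1 ∈ PP R j1 := Lv_PP T.m_Lv
  have d2 : ∀ p ∈ PP R j1, ∀ q ∈ PP R j1, Gd R (xx T) (p * R.nn j0 * q) := fun p hp q hq => dist2 T hp hq
  have d4 : ∀ p ∈ PP R j1, ∀ q ∈ PP R j1, Gd R (xx T) (p * (R.nn j0 * R.nn j1 * R.nn j0) * q) := fun p hp q hq => dist4 T hcard hp hq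
  have d6 : ∀ p ∈ PP R j1, ∀ q ∈ PP R j1, Gd R (xx T) (p * (R.nn j0 * R.nn j1 * R.nn j0 * R.nn j1 * R.nn j0) * q) := by
    intro p hp q hq
    rw [← ν_eq T]; exact dist6 T hp hq
  simp only [SqH.list12, List.mem_cons, List.not_mem_nil, or_false] at hL
  rcases hL with rfl | rfl | rfl | rfl | rfl | rfl | rfl | rfl | rfl | rfl | rfl | rfl
  · rw [RGrp.nd_nil, one_mul]; exact good_P T hcard hbP
  · -- n
    simp only [RGrp.nd_cons, RGrp.nd_nil, mul_one]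
    have := d2 1 (one_mem _) b hbP
    rwa [one_mul] at this
  · -- m
    simp only [RGrp.nd_cons, RGrp.nd_nil, mul_one]
    exact good_P T hcard (mul_mem hm hbP)
  · -- n m
    simp only [RGrp.nd_cons, RGrp.nd_nil, mul_one]
    have e : R.nn j0 * R.nn j1 * b = 1 * R.nn j0 * (R.nn j1 * b) := by group
    rw [e]; exact d2 _ (one_mem _) _ (mul_mem hm hbP)
  · -- m n
    simp only [RGrp.nd_cons, RGrp.nd_nil, mul_one]
    exact d2 _ hm _ hbP
  · -- n m n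
    simp only [RGrp.nd_cons, RGrp.nd_nil, mul_one]
    have e : R.nn j0 * (R.nn j1 * R.nn j0) * b = 1 * (R.nn j0 * R.nn j1 * R.nn j0) * b := by group
    rw [e]; exact d4 _ (one_mem _) _ hbP
  · -- m n m
    simp only [RGrp.nd_cons, RGrp.nd_nil, mul_one]
    have e : R.nn j1 * (R.nn j0 * R.nn j1) * b = R.nn j1 * R.nn j0 * (R.nn j1 * b) := by group
    rw [e]; exact d2 _ hm _ (mul_mem hm hbP)
  · -- n m n m
    simp only [RGrp.nd_cons, RGrp.nd_nil, mul_one]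
    have e : R.nn j0 * (R.nn j1 * (R.nn j0 * R.nn j1)) * b = 1 * (R.nn j0 * R.nn j1 * R.nn j0) * (R.nn j1 * b) := by group
    rw [e]; exact d4 _ (one_mem _) _ (mul_mem hm hbP)
  · -- m n m n
    simp only [RGrp.nd_cons, RGrp.nd_nil, mul_one]
    have e : R.nn j1 * (R.nn j0 * (R.nn j1 * R.nn j0)) * b = R.nn j1 * (R.nn j0 * R.nn j1 * R.nn j0) * b := by group
    rw [e]; exact d4 _ hm _ hbP
  · -- n m n m n
    simp only [RGrp.nd_cons, RGrp.nd_nil, mul_one]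
    have e : R.nn j0 * (R.nn j1 * (R.nn j0 * (R.nn j1 * R.nn j0))) * b =
        1 * (R.nn j0 * R.nn j1 * R.nn j0 * R.nn j1 * R.nn j0) * b := by group
    rw [e]; exact d6 _ (one_mem _) _ hbP
  · -- m n m n m
    simp only [RGrp.nd_cons, RGrp.nd_nil, mul_one]
    have e : R.nn j1 * (R.nn j0 * (R.nn j1 * (R.nn j0 * R.nn j1))) * b = R.nn j1 * (R.nn j0 * R.nn j1 * R.nn j0) * (R.nn j1 * b) := by group
    rw [e]; exact d4 _ hm _ (mul_mem hm hbP)
  · -- n m n m n m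
    simp only [w0, RGrp.nd_cons, RGrp.nd_nil, mul_one]
    have e : R.nn j0 * (R.nn j1 * (R.nn j0 * (R.nn j1 * (R.nn j0 * R.nn j1)))) * b =
        1 * (R.nn j0 * R.nn j1 * R.nn j0 * R.nn j1 * R.nn j0) * (R.nn j1 * b) := by group
    rw [e]; exact d6 _ (one_mem _) _ (mul_mem hm hbP)

include hcard in
theorem main2 {g : Γ} (hg : g ∈ R.Grp) : Gd R (xx T) g := by
  obtain ⟨b, hb, m, hm, b', hb', e⟩ := RGrp.exists_bnb hg
  obtain ⟨u, hu⟩ := RGrp.exists_act hm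
  obtain ⟨L, hL, hL'⟩ := SqH.mem_list12 hu.1
  have hH := RGrp.inv_mul_mem_H (RGrp.nd_mem_N (R := R) L) hm (RGrp.act_nd (R := R) L) (by rw [← hL']; exact hu)
  rw [e]
  apply Gd.of_conj' (R.B_le_Grp hb)
  have e2 : b⁻¹ * (b * m * b') * b = R.nd L * (((R.nd L)⁻¹ * m) * (b' * b)) := by group
  rw [e2]
  exact good_word T hcard hL (mul_mem (R.H_le_B hH) (mul_mem hb' hb))

end Cfsg.Agent.H51.TqM
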