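import Cfsg.Agent.H51.TqM

set_option autoImplicit false
set_option maxRecDepth 100000

/-!
Assembly for the triality groups.
-/

namespace Cfsg.Agent.H51.TqN

open Cfsg.Lie Cfsg.Agent.Chev Cfsg.Agent.ChevGrp Cfsg.Agent.H51.TqA Cfsg.Agent.H51.TqB Cfsg.Agent.H51.TqC Cfsg.Agent.H51.TqD
  Cfsg.Agent.Tw3 Cfsg.Agent.H51

variable {K : Type*} [Field K] [Fintype K] {q : ℕ} (φ : K ≃+* K) (hφ : ∀ t : K, φ t = t ^ q) (h3 : ∀ t, φ (φ (φ t)) = t)

include hφ h3 in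
omit [Fintype K] in
lemma grp_eq : (tD4 φ).tw.Grp = (twistedD4 K q).subgroupOf (chevD4.group K) := by
  rw [TwData.tw_Grp]
  exact hG_D4 φ hφ h3

include hφ h3 in
omit [Fintype K] in
lemma transfer {p N : ℕ} (x : ↥(chevD4.group K)) (hx : x ∈ (tD4 φ).tw.Grp) (hxN : x ^ N = 1) (hN : ¬ p ∣ N)
    (h : ∀ g ∈ (tD4 φ).tw.Grp, g ≠ 1 → Gd (tD4 φ).tw x g) :
    ∃ x : twistedD4 K q, ¬ p ∣ orderOf x ∧ ∀ g : twistedD4 K q, g ≠ 1 → ∃ u v : twistedD4 K q,
      g = (u * x * u⁻¹) * (v * x * v⁻¹) := by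
  have key : ∀ y : ↥(chevD4.group K), y ∈ (tD4 φ).tw.Grp ↔ (y : GL chevD4.Idx K) ∈ twistedD4 K q := by
    intro y
    rw [grp_eq φ hφ h3, Subgroup.mem_subgroupOf]
  refine ⟨⟨(x : GL chevD4.Idx K), (key x).1 hx⟩, ?_, ?_⟩
  · intro hp
    apply hN
    refine hp.trans (orderOf_dvd_of_pow_eq_one ?_)
    apply Subtype.ext
    have := congrArg (fun y : ↥(chevD4.group K) => (y : GL chevD4.Idx K)) hxN
    simpa using this
  · intro g hg
    have hgD : (g : GL chevD4.Idx K) ∈ chevD4.group K := hle_D4 g.2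
    obtain ⟨u, hu, v, hv, e⟩ := h ⟨(g : GL chevD4.Idx K), hgD⟩ ((key _).2 g.2)
      (fun h1 => hg (Subtype.ext (congrArg (fun y : ↥(chevD4.group K) => (y : GL chevD4.Idx K)) h1)))
    refine ⟨⟨u, (key u).1 hu⟩, ⟨v, (key v).1 hv⟩, ?_⟩
    apply Subtype.ext
    have := congrArg (fun y : ↥(chevD4.group K) => (y : GL chevD4.Idx K)) e
    simpa using this

/-- the situation for `q = 2` -/
lemma exists_two (hφ : ∀ t : K, φ t = t ^ 2) (h3 : ∀ t, φ (φ (φ t)) = t) (hK : Fintype.card K = 2 ^ 3) (p : ℕ) [CharP K p]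
    (hp : p.Prime) : (∃ _ : TqK.Two K (tD4 φ).tw, True) ∧ p = 2 := by
  have hp2 : p = 2 := by
    have : Fact p.Prime := ⟨hp⟩
    obtain ⟨n, hn, hc⟩ := FiniteField.card K p
    rw [hK] at hc
    have h1 : p ∣ 2 ^ 3 := by rw [hc]; exact dvd_pow_self p n.ne_zero
    exact (Nat.prime_dvd_prime_iff_eq hp Nat.prime_two).1 (hp.dvd_of_dvd_pow h1)
  subst hp2
  have h20 : (1 : K) + 1 = 0 := by
    have : (2 : K) = 0 := by exact_mod_cast CharP.cast_eq_zero K 2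
    linear_combination this
  have h7 : ∀ c : Kˣ, c ^ 7 = 1 := fun c => TqJ.pow_card (q := 2) hK c
  obtain ⟨e, he⟩ := TqJ.nfix (le_refl 2) hK φ hφ
  refine ⟨⟨{ r := TqI.rel φ h3, fx := ?_, N1 := ?_, m1 := ?_, two := h20, c7 := h7, c₀ := e, c₀1 := ?_ }, trivial⟩, rfl⟩
  · intro d hd
    have h1 : φ d = d := hd
    rw [hφ] at h1
    have h2 : d * (d - 1) = 0 := by linear_combination h1
    rcases mul_eq_zero.1 h2 with h | h
    · exact Or.inl h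
    · exact Or.inr (sub_eq_zero.1 h)
  · intro c
    have h1 : Nm φ c = 1 := by rw [TqJ.Nm_pow φ hφ]; exact h7 c
    exact h1
  · apply Units.ext
    push_cast
    linear_combination -h20
  · rintro rfl
    apply he
    rw [Units.val_one, map_one]

/-- the covering theorem -/
theorem all (p : ℕ) [Fact p.Prime] [CharP K p] (hq : IsPrimePow q) (hK : Fintype.card K = q ^ 3) :
    ∃ x : twistedD4 K q, ¬ p ∣ orderOf x ∧ ∀ g : twistedD4 K q, g ≠ 1 → ∃ u v : twistedD4 K q,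
      g = (u * x * u⁻¹) * (v * x * v⁻¹) := by
  classical
  obtain ⟨φ, hφ, h3⟩ := frob3 hq hK
  have hpp : p.Prime := Fact.out
  have h2 : 2 ≤ q := hq.two_le
  have hcases : q = 2 ∨ q = 3 ∨ 4 ≤ q := by omega
  rcases hcases with h | h | h
  · subst h
    obtain ⟨⟨T, -⟩, hp2⟩ := exists_two φ hφ h3 hK p hpp
    subst hp2
    refine transfer φ hφ h3 (TqL.xx T) (N := 21) ?_ ?_ (by norm_num) ?_
    · exact Lv_Grp (mul_mem (H_Lv (T.h_H _)) (T.σ_Lv (Or.inl (Or.inr (Or.inl rfl)))))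
    · have hc : Commute (T.r.h T.c₀) (T.z * (tD4 φ).tw.nn SqC.j1) := T.h_comm (Or.inl (Or.inr (Or.inl rfl))) T.c₀
      unfold TqL.xx
      rw [hc.mul_pow]
      have e1 : (T.z * (tD4 φ).tw.nn SqC.j1) ^ 21 = 1 := by
        have : (T.z * (tD4 φ).tw.nn SqC.j1) ^ 21 = ((T.z * (tD4 φ).tw.nn SqC.j1) ^ 3) ^ 7 := by rw [← pow_mul]
        rw [this, T.s3, one_pow]
      have e2 : T.r.h T.c₀ ^ 21 = 1 := by
        rw [T.r.h_eq, TqJ.tt_pow]
        have : T.c₀ ^ 21 = (T.c₀ ^ 7) ^ 3 := by rw [← pow_mul]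
        rw [this, T.c7, one_pow, one_pow, T.r.tt_one]
      rw [e1, e2, one_mul]
    · intro g hg _
      exact TqM.main2 T hK hg
  · obtain ⟨T, hC, h8, hp3⟩ := TqJ.exists_three φ hφ h3 hK h p hpp
    subst hp3
    refine transfer φ hφ h3 (T.x1 1) (Lv_Grp (T.x1_Lv 1)) h8 (by norm_num) ?_
    intro g hg hg1
    exact TqF.main T hC hg (TqI.core φ hg hg1)
  · obtain ⟨T, hC, hN⟩ := TqJ.exists_four φ hφ h3 hK h
    refine transfer φ hφ h3 (T.x1 1) (Lv_Grp (T.x1_Lv 1)) hN ?_ ?_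
    · intro hpd
      obtain ⟨n, hn, hcF⟩ := FiniteField.card K p
      have h5 : p ∣ q ^ 3 := by
        rw [← hK, hcF]; exact dvd_pow_self p n.ne_zero
      have h7 : 1 ≤ q ^ 3 := Nat.one_le_pow _ _ (by omega)
      have h8 := (Nat.dvd_sub_iff_right h7 h5).1 hpd
      exact hpp.one_lt.ne' (Nat.dvd_one.1 h8)
    · intro g hg hg1
      exact TqF.main T hC hg (TqI.core φ hg hg1)

end Cfsg.Agent.H51.TqN
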