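import Cfsg.Agent.H51.TrA

set_option autoImplicit false
set_option maxRecDepth 100000

/-!
Relations in the large Ree groups and the covering element.
-/

namespace Cfsg.Agent.H51.TrB

open Cfsg.Lie Cfsg.Agent.Chev Cfsg.Agent.ChevGrp Cfsg.Agent.ChevWeyl Cfsg.Agent.Tw4 Cfsg.Agent.H51.TrA

variable {Γ : Type*} [Group Γ]

/-- the relations -/
structure Rl (K : Type*) [Field K] (R : RGrp S16 Γ) where
  two : (1 : K) + 1 = 0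
  ψ : Kˣ →* Kˣ
  ψψ : ∀ c, ψ (ψ c) = c * c
  sqr : ∀ c : Kˣ, ∃ d : Kˣ, d * d = c
  X : K → Γ
  h : Kˣ → Γ
  b : Kˣ → Γ
  X_add : ∀ s t, X (s + t) = X s * X t
  mem_X : ∀ g, g ∈ R.X 0 ↔ ∃ t, X t = g
  X_inj : ∀ t, X t = 1 → t = 0
  h_mul : ∀ c d, h (c * d) = h c * h d
  b_mul : ∀ c d, b (c * d) = b c * b d
  hb : ∀ c d, h c * b d = b d * h c
  mem_H : ∀ g, g ∈ R.H ↔ ∃ c d, g = h c * b d
  hX : ∀ (c : Kˣ) (u : K), h c * X u * (h c)⁻¹ = X (((c * c : Kˣ) : K) * u)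
  bX : ∀ (d : Kˣ) (u : K), b d * X u * (b d)⁻¹ = X (((d⁻¹ : Kˣ) : K) * u)
  nn : R.nn 0 * R.nn 0 = 1
  mm : R.nn 1 * R.nn 1 = 1
  nh : ∀ c, R.nn 0 * h c * (R.nn 0)⁻¹ = h c⁻¹
  nb : ∀ d, R.nn 0 * b d * (R.nn 0)⁻¹ = h d * b d
  mh : ∀ c, R.nn 1 * h c * (R.nn 1)⁻¹ = h c * b (c * c * ψ c)
  mb : ∀ d, R.nn 1 * b d * (R.nn 1)⁻¹ = b d⁻¹
  nX : ∀ c : Kˣ, R.nn 0 * X ((c⁻¹ : Kˣ) : K) * R.nn 0 = X c * h c * R.nn 0 * X c
  cm : ∀ x ∈ R.X 0, ∀ y ∈ R.X 4, x * y = y * x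
  ct : ∀ x y : Kˣ, x⁻¹ * (ψ y)⁻¹ * (y * y) ≠ 1 → Ct R (h x * b y) 7

namespace Rl

variable {K : Type*} [Field K] {R : RGrp S16 Γ} (T : Rl K R)

lemma X_zero : T.X 0 = 1 := by
  have := T.X_add 0 0
  rw [add_zero] at this
  exact mul_eq_left.1 this.symm

include T in
lemma neg_eq (t : K) : -t = t := by linear_combination (-t) * T.two

lemma X_inv (t : K) : (T.X t)⁻¹ = T.X t := by
  apply inv_eq_of_mul_eq_one_left
  rw [← T.X_add]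
  have : t + t = 0 := by linear_combination t * T.two
  rw [this, T.X_zero]

lemma X_mem (t : K) : T.X t ∈ R.X 0 := (T.mem_X _).2 ⟨t, rfl⟩

lemma h_one : T.h 1 = 1 := by
  have := T.h_mul 1 1
  rw [mul_one] at this
  exact mul_eq_left.1 this.symm

lemma b_one : T.b 1 = 1 := by
  have := T.b_mul 1 1
  rw [mul_one] at this
  exact mul_eq_left.1 this.symm

lemma h_inv (c : Kˣ) : (T.h c)⁻¹ = T.h c⁻¹ := by
  apply inv_eq_of_mul_eq_one_left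
  rw [← T.h_mul, inv_mul_cancel, T.h_one]

lemma b_inv (c : Kˣ) : (T.b c)⁻¹ = T.b c⁻¹ := by
  apply inv_eq_of_mul_eq_one_left
  rw [← T.b_mul, inv_mul_cancel, T.b_one]

include T in
lemma ninv : (R.nn 0)⁻¹ = R.nn 0 := inv_eq_of_mul_eq_one_left T.nn
include T in
lemma minv : (R.nn 1)⁻¹ = R.nn 1 := inv_eq_of_mul_eq_one_left T.mm

/-- torus elements -/
def tt (x y : Kˣ) : Γ := T.h x * T.b y

lemma tt_one : T.tt 1 1 = 1 := by unfold tt; rw [T.h_one, T.b_one, one_mul]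

lemma tt_mul (x y x' y' : Kˣ) : T.tt x y * T.tt x' y' = T.tt (x * x') (y * y') := by
  unfold tt
  rw [T.h_mul, T.b_mul]
  calc T.h x * T.b y * (T.h x' * T.b y') = T.h x * (T.b y * T.h x') * T.b y' := by group
    _ = _ := by rw [← T.hb]; group

lemma tt_inv (x y : Kˣ) : (T.tt x y)⁻¹ = T.tt x⁻¹ y⁻¹ := by
  apply inv_eq_of_mul_eq_one_left
  rw [tt_mul, inv_mul_cancel, inv_mul_cancel, tt_one]

lemma tt_H (x y : Kˣ) : T.tt x y ∈ R.H := (T.mem_H _).2 ⟨x, y, rfl⟩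

lemma mem_H' {g : Γ} (hg : g ∈ R.H) : ∃ x y, g = T.tt x y := (T.mem_H g).1 hg

lemma tt_pow (x y : Kˣ) (k : ℕ) : T.tt x y ^ k = T.tt (x ^ k) (y ^ k) := by
  induction k with
  | zero => rw [pow_zero, pow_zero, pow_zero, T.tt_one]
  | succ k ih => rw [pow_succ, ih, T.tt_mul, ← pow_succ, ← pow_succ]

lemma tt_comm (x y x' y' : Kˣ) : T.tt x y * T.tt x' y' = T.tt x' y' * T.tt x y := by
  rw [tt_mul, tt_mul, mul_comm x, mul_comm y]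

lemma ttX (x y : Kˣ) (u : K) : T.tt x y * T.X u * (T.tt x y)⁻¹ = T.X (((x * x * y⁻¹ : Kˣ) : K) * u) := by
  unfold tt
  have : T.h x * T.b y * T.X u * (T.h x * T.b y)⁻¹ = T.h x * (T.b y * T.X u * (T.b y)⁻¹) * (T.h x)⁻¹ := by group
  rw [this, T.bX, T.hX]
  congr 1
  push_cast
  ring

lemma n_tt (x y : Kˣ) : R.nn 0 * T.tt x y * (R.nn 0)⁻¹ = T.tt (x⁻¹ * y) y := by
  unfold tt
  have : R.nn 0 * (T.h x * T.b y) * (R.nn 0)⁻¹ = (R.nn 0 * T.h x * (R.nn 0)⁻¹) * (R.nn 0 * T.b y * (R.nn 0)⁻¹) := by group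
  rw [this, T.nh, T.nb, T.h_mul]; group

lemma m_tt (x y : Kˣ) : R.nn 1 * T.tt x y * (R.nn 1)⁻¹ = T.tt x (x * x * T.ψ x * y⁻¹) := by
  unfold tt
  have : R.nn 1 * (T.h x * T.b y) * (R.nn 1)⁻¹ = (R.nn 1 * T.h x * (R.nn 1)⁻¹) * (R.nn 1 * T.b y * (R.nn 1)⁻¹) := by group
  rw [this, T.mh, T.mb, mul_assoc, ← T.b_mul]

/-- monomials -/
def E (c : Kˣ) (a b : ℤ) : Kˣ := c ^ a * T.ψ c ^ b

lemma E_mul (c : Kˣ) (a b a' b' : ℤ) : T.E c a b * T.E c a' b' = T.E c (a + a') (b + b') := by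
  unfold E; rw [zpow_add, zpow_add]; exact mul_mul_mul_comm _ _ _ _

lemma E_inv (c : Kˣ) (a b : ℤ) : (T.E c a b)⁻¹ = T.E c (-a) (-b) := by
  unfold E; rw [mul_inv, zpow_neg, zpow_neg]

lemma ψE (c : Kˣ) (a b : ℤ) : T.ψ (T.E c a b) = T.E c (2 * b) a := by
  unfold E
  rw [map_mul, map_zpow, map_zpow, T.ψψ, mul_comm, zpow_mul, zpow_two]

lemma nE (c : Kˣ) (a b a' b' : ℤ) : R.nn 0 * T.tt (T.E c a b) (T.E c a' b') * (R.nn 0)⁻¹ =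
    T.tt (T.E c (a' - a) (b' - b)) (T.E c a' b') := by
  rw [n_tt, E_inv, E_mul]
  congr 2 <;> ring

lemma mE (c : Kˣ) (a b a' b' : ℤ) : R.nn 1 * T.tt (T.E c a b) (T.E c a' b') * (R.nn 1)⁻¹ =
    T.tt (T.E c a b) (T.E c (2 * a + 2 * b - a') (2 * b + a - b')) := by
  rw [m_tt, ψE, E_inv, E_mul, E_mul, E_mul]
  congr 2 <;> ring

include T in
lemma sq_inj {d : Kˣ} (h : d * d = 1) : d = 1 := by
  apply Units.ext
  have h1 : ((d : K) - 1) * ((d : K) - 1) = 0 := by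
    have h2 : (d : K) * d = 1 := by rw [← Units.val_mul, h, Units.val_one]
    linear_combination h2 - (d : K) * T.two + T.two
  have h3 := mul_self_eq_zero.1 h1
  rw [Units.val_one]
  linear_combination h3

lemma E_ne {c : Kˣ} (hc : c ≠ 1) (a b : ℤ) (h : a * a - 2 * b * b = 1 ∨ a * a - 2 * b * b = -1 ∨ a * a - 2 * b * b = 2 ∨
    a * a - 2 * b * b = -4) : T.E c a b ≠ 1 := by
  intro hE
  have h1 : T.E c a b ^ a * T.ψ (T.E c a b) ^ (-b) = 1 := by rw [hE, map_one, one_zpow, one_zpow, one_mul]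
  have h2 : T.E c a b ^ a * T.ψ (T.E c a b) ^ (-b) = c ^ (a * a - 2 * b * b) := by
    rw [ψE]
    unfold E
    rw [mul_zpow, mul_zpow, ← zpow_mul, ← zpow_mul, ← zpow_mul, ← zpow_mul, mul_mul_mul_comm, ← zpow_add, ← zpow_add]
    have e1 : b * a + a * -b = 0 := by ring
    have e2 : a * a + 2 * b * -b = a * a - 2 * b * b := by ring
    rw [e1, e2, zpow_zero, mul_one]
  rw [h2] at h1
  apply hc
  rcases h with h | h | h | h <;> rw [h] at h1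
  · rwa [zpow_one] at h1
  · rw [zpow_neg, zpow_one] at h1
    exact inv_eq_one.1 h1
  · apply T.sq_inj
    rw [← h1, zpow_two]
  · rw [zpow_neg, inv_eq_one] at h1
    apply T.sq_inj
    apply T.sq_inj
    rw [← h1]
    have : (4 : ℤ) = 2 + 2 := rfl
    rw [this, zpow_add, zpow_two]

lemma ct0 {x y : Kˣ} (h : x * x * y⁻¹ ≠ 1) : Ct R (T.tt x y) 0 := by
  intro z hz hc
  obtain ⟨u, rfl⟩ := (T.mem_X z).1 hz
  have h1 : T.tt x y * T.X u * (T.tt x y)⁻¹ = T.X u := by rw [hc]; group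
  rw [ttX] at h1
  have h2 : T.X ((((x * x * y⁻¹ : Kˣ) : K) - 1) * u) = 1 := by
    have e : (((x * x * y⁻¹ : Kˣ) : K) - 1) * u = ((x * x * y⁻¹ : Kˣ) : K) * u + u := by
      linear_combination -u * T.two
    rw [e, T.X_add, h1, ← T.X_add]
    have : u + u = 0 := by linear_combination u * T.two
    rw [this, T.X_zero]
  have h3 := T.X_inj _ h2
  rcases mul_eq_zero.1 h3 with h4 | h4
  · exfalso; apply h
    apply Units.ext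
    rw [Units.val_one]
    linear_combination h4
  · rw [h4, T.X_zero]

lemma ct0E {c : Kˣ} (hc : c ≠ 1) (a b a' b' : ℤ) (h : (2 * a - a') * (2 * a - a') - 2 * (2 * b - b') * (2 * b - b') = 2 ∨
    (2 * a - a') * (2 * a - a') - 2 * (2 * b - b') * (2 * b - b') = -4) : Ct R (T.tt (T.E c a b) (T.E c a' b')) 0 := by
  apply ct0
  rw [E_inv, E_mul, E_mul]
  have e1 : a + a + -a' = 2 * a - a' := by ring
  have e2 : b + b + -b' = 2 * b - b' := by ring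
  rw [e1, e2]
  exact T.E_ne hc _ _ (Or.inr (Or.inr h))

lemma ct7E {c : Kˣ} (hc : c ≠ 1) (a b a' b' : ℤ)
    (h : (2 * a' - a - 2 * b') * (2 * a' - a - 2 * b') - 2 * (2 * b' - b - a') * (2 * b' - b - a') = 1 ∨
    (2 * a' - a - 2 * b') * (2 * a' - a - 2 * b') - 2 * (2 * b' - b - a') * (2 * b' - b - a') = -1) :
    Ct R (T.tt (T.E c a b) (T.E c a' b')) 7 := by
  apply T.ct
  rw [ψE, E_inv, E_inv, E_mul, E_mul, E_mul]
  have e1 : -a + -(2 * b') + (a' + a') = 2 * a' - a - 2 * b' := by ring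
  have e2 : -b + -a' + (b' + b') = 2 * b' - b - a' := by ring
  rw [e1, e2]
  rcases h with h | h
  · exact T.E_ne hc _ _ (Or.inl h)
  · exact T.E_ne hc _ _ (Or.inr (Or.inl h))

/-- the central torus of the Levi subgroup -/
def s (c : Kˣ) : Γ := T.tt c (c * c)

lemma s_eq (c : Kˣ) : T.s c = T.tt (T.E c 1 0) (T.E c 2 0) := by
  unfold s E
  rw [zpow_one, zpow_zero, mul_one, zpow_two, mul_one]

lemma s_mul (c d : Kˣ) : T.s c * T.s d = T.s (c * d) := by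
  unfold s
  rw [tt_mul]
  congr 1
  exact mul_mul_mul_comm _ _ _ _

lemma s_H (c : Kˣ) : T.s c ∈ R.H := T.tt_H _ _

lemma s_one : T.s 1 = 1 := by unfold s; rw [mul_one, tt_one]

lemma s_inv (c : Kˣ) : (T.s c)⁻¹ = T.s c⁻¹ := by
  apply inv_eq_of_mul_eq_one_left
  rw [s_mul, inv_mul_cancel, s_one]

lemma s_pow (c : Kˣ) (k : ℕ) : T.s c ^ k = T.s (c ^ k) := by
  unfold s
  rw [tt_pow, mul_pow]

lemma s_X (c : Kˣ) (u : K) : T.s c * T.X u = T.X u * T.s c := by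
  have h := T.ttX c (c * c) u
  rw [mul_inv_cancel, Units.val_one, one_mul] at h
  exact mul_inv_eq_iff_eq_mul.1 h

lemma s_n (c : Kˣ) : T.s c * R.nn 0 = R.nn 0 * T.s c := by
  have h := T.n_tt c (c * c)
  rw [inv_mul_cancel_left] at h
  exact (mul_inv_eq_iff_eq_mul.1 h).symm

lemma s_h (c d : Kˣ) : T.s c * T.h d = T.h d * T.s c := by
  have h := T.tt_comm c (c * c) d 1
  have e : T.tt d 1 = T.h d := by unfold tt; rw [T.b_one, mul_one]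
  rwa [e] at h

lemma E0 (c : Kˣ) : T.E c 0 0 = 1 := by unfold E; rw [zpow_zero, zpow_zero, mul_one]

/-- regularity -/
lemma cu_pos {c : Kˣ} (hc : c ≠ 1) {u : Γ} (hu : u ∈ R.Ui 0) (h : T.s c * u = u * T.s c) : u = 1 := by
  rw [s_eq] at h
  obtain ⟨-, k0, e0⟩ := stepU 0 (T.tt_H _ _) hu h
  rw [T.nE] at e0
  obtain ⟨-, k1, e1⟩ := stepT 1 (T.tt_H _ _) k0 e0 (T.ct7E hc _ _ _ _ (by norm_num))
  rw [T.mE] at e1
  obtain ⟨-, k2, e2⟩ := stepT 0 (T.tt_H _ _) k1 e1 (T.ct0E hc _ _ _ _ (by norm_num))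
  rw [T.nE] at e2
  obtain ⟨-, k3, e3⟩ := stepT 1 (T.tt_H _ _) k2 e2 (T.ct7E hc _ _ _ _ (by norm_num))
  rw [T.mE] at e3
  obtain ⟨-, k4, e4⟩ := stepT 0 (T.tt_H _ _) k3 e3 (T.ct0E hc _ _ _ _ (by norm_num))
  rw [T.nE] at e4
  obtain ⟨-, k5, e5⟩ := stepT 1 (T.tt_H _ _) k4 e4 (T.ct7E hc _ _ _ _ (by norm_num))
  rw [T.mE] at e5
  obtain ⟨-, k6, e6⟩ := stepT 0 (T.tt_H _ _) k5 e5 (T.ct0E hc _ _ _ _ (by norm_num))
  rw [T.nE] at e6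
  obtain ⟨-, k7, e7⟩ := stepT 1 (T.tt_H _ _) k6 e6 (T.ct7E hc _ _ _ _ (by norm_num))
  have hV : R.nd L0 * u * (R.nd L0)⁻¹ ∈ R.V := by
    refine RGrp.act_gen (RGrp.act_nd L0) (P := S16.Pos) (Q := fun r => ¬ S16.Pos r) ?_ u (R.Ui_le_U 0 hu)
    intro r hr
    rw [w0_w0, npos_neg]; exact hr
  have e : R.nd L0 * u * (R.nd L0)⁻¹ = R.nn 1 * (R.nn 0 * (R.nn 1 * (R.nn 0 * (R.nn 1 * (R.nn 0 * (R.nn 1 * (R.nn 0 * u *
      (R.nn 0)⁻¹) * (R.nn 1)⁻¹) * (R.nn 0)⁻¹) * (R.nn 1)⁻¹) * (R.nn 0)⁻¹) * (R.nn 1)⁻¹) * (R.nn 0)⁻¹) * (R.nn 1)⁻¹ := by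
    have : R.nd L0 = R.nn 1 * (R.nn 0 * (R.nn 1 * (R.nn 0 * (R.nn 1 * (R.nn 0 * (R.nn 1 * (R.nn 0 * 1))))))) := by
      simp [RGrp.nd, L0]
    rw [this]; group
  rw [← e] at k7
  have h1 := R.U_inf_V k7 hV
  have e2 : u = (R.nd L0)⁻¹ * (R.nd L0 * u * (R.nd L0)⁻¹) * R.nd L0 := by group
  rw [e2, h1]; group

lemma n0_s (c : Kˣ) : n0 R * T.s c * (n0 R)⁻¹ = T.s c⁻¹ := by
  have : n0 R = R.nn 1 * (R.nn 0 * (R.nn 1 * (R.nn 0 * (R.nn 1 * (R.nn 0 * (R.nn 1 * (R.nn 0 * 1))))))) := by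
    simp [n0, RGrp.nd, L0]
  rw [this, s_eq]
  have e : R.nn 1 * (R.nn 0 * (R.nn 1 * (R.nn 0 * (R.nn 1 * (R.nn 0 * (R.nn 1 * (R.nn 0 * 1))))))) * T.tt (T.E c 1 0) (T.E c 2 0) *
      (R.nn 1 * (R.nn 0 * (R.nn 1 * (R.nn 0 * (R.nn 1 * (R.nn 0 * (R.nn 1 * (R.nn 0 * 1))))))))⁻¹ =
      R.nn 1 * (R.nn 0 * (R.nn 1 * (R.nn 0 * (R.nn 1 * (R.nn 0 * (R.nn 1 * (R.nn 0 * T.tt (T.E c 1 0) (T.E c 2 0) *
      (R.nn 0)⁻¹) * (R.nn 1)⁻¹) * (R.nn 0)⁻¹) * (R.nn 1)⁻¹) * (R.nn 0)⁻¹) * (R.nn 1)⁻¹) * (R.nn 0)⁻¹) * (R.nn 1)⁻¹ := by group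
  rw [e, T.nE, T.mE, T.nE, T.mE, T.nE, T.mE, T.nE, T.mE]
  have e1 : T.s c⁻¹ = (T.s c)⁻¹ := (T.s_inv c).symm
  rw [e1, s_eq, tt_inv, E_inv, E_inv]
  norm_num

lemma CU_s {c : Kˣ} (hc : c ≠ 1) : CU R 0 (T.s c) := by
  refine ⟨fun u hu h => T.cu_pos hc hu h, fun u hu h => ?_⟩
  have h1 := n0_Vi hu
  have h2 : T.s c⁻¹ * (n0 R * u * (n0 R)⁻¹) = (n0 R * u * (n0 R)⁻¹) * T.s c⁻¹ := by
    rw [← T.n0_s]
    calc n0 R * T.s c * (n0 R)⁻¹ * (n0 R * u * (n0 R)⁻¹) = n0 R * (T.s c * u) * (n0 R)⁻¹ := by group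
      _ = _ := by rw [h]; group
  have h3 := T.cu_pos (fun h => hc (inv_eq_one.1 h)) h1 h2
  calc u = (n0 R)⁻¹ * (n0 R * u * (n0 R)⁻¹) * n0 R := by group
    _ = 1 := by rw [h3]; group

end Rl

end Cfsg.Agent.H51.TrB
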