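import Cfsg.Agent.H51.TrB

set_option autoImplicit false
set_option maxRecDepth 100000

/-!
Products of two conjugates in the Levi subgroup.
-/

namespace Cfsg.Agent.H51.TrC

open Cfsg.Lie Cfsg.Agent.Chev Cfsg.Agent.ChevGrp Cfsg.Agent.ChevWeyl Cfsg.Agent.Tw4 Cfsg.Agent.H51.TrA Cfsg.Agent.H51.TrB

variable {Γ : Type*} [Group Γ] {K : Type*} [Field K] {R : RGrp S16 Γ} (T : Rl K R)

/-! ### the reflection orthogonal to the Levi subgroup -/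

/-- the conjugating element -/
def w4 (R : RGrp S16 Γ) : Γ := R.nn 1 * R.nn 0 * R.nn 1

/-- the reflection -/
def ν (R : RGrp S16 Γ) : Γ := w4 R * R.nn 0 * (w4 R)⁻¹

lemma act_n (r : Fin 16) {x : Γ} (hx : x ∈ R.X r) : R.nn 0 * x * (R.nn 0)⁻¹ ∈ R.X (t16 0 r) :=
  (RGrp.act_nn (R := R) 0).conj hx
lemma act_m (r : Fin 16) {x : Γ} (hx : x ∈ R.X r) : R.nn 1 * x * (R.nn 1)⁻¹ ∈ R.X (t16 1 r) :=
  (RGrp.act_nn (R := R) 1).conj hx

include T in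
lemma act_n' (r : Fin 16) {x : Γ} (hx : x ∈ R.X r) : R.nn 0 * x * R.nn 0 ∈ R.X (t16 0 r) := by
  have := act_n r hx
  rwa [T.ninv] at this
include T in
lemma act_m' (r : Fin 16) {x : Γ} (hx : x ∈ R.X r) : R.nn 1 * x * R.nn 1 ∈ R.X (t16 1 r) := by
  have := act_m r hx
  rwa [T.minv] at this

lemma comm_conj {a x y : Γ} (h : x * y = y * x) : (a * x * a⁻¹) * (a * y * a⁻¹) = (a * y * a⁻¹) * (a * x * a⁻¹) := by
  calc (a * x * a⁻¹) * (a * y * a⁻¹) = a * (x * y) * a⁻¹ := by group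
    _ = _ := by rw [h]; group

include T in
lemma cm84 {x y : Γ} (hx : x ∈ R.X 8) (hy : y ∈ R.X 4) : x * y = y * x := by
  have h1 := T.cm _ (act_n 8 hx) _ (act_n 4 hy)
  have h2 := comm_conj (a := (R.nn 0)⁻¹) h1
  have e : ∀ z : Γ, (R.nn 0)⁻¹ * (R.nn 0 * z * (R.nn 0)⁻¹) * (R.nn 0)⁻¹⁻¹ = z := fun z => by group
  rwa [e, e] at h2

lemma n0_X (r : Fin 16) {x : Γ} (hx : x ∈ R.X r) : n0 R * x * (n0 R)⁻¹ ∈ R.X (neg16 r) := by
  have := (act_n0 (R := R)).conj hx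
  rwa [w0_w0] at this

include T in
lemma cm812 {x y : Γ} (hx : x ∈ R.X 8) (hy : y ∈ R.X 12) : x * y = y * x := by
  have h1 := T.cm _ (n0_X 8 hx) _ (n0_X 12 hy)
  have h2 := comm_conj (a := (n0 R)⁻¹) h1
  have e : ∀ z : Γ, (n0 R)⁻¹ * (n0 R * z * (n0 R)⁻¹) * (n0 R)⁻¹⁻¹ = z := fun z => by group
  rwa [e, e] at h2

include T in
lemma cm012 {x y : Γ} (hx : x ∈ R.X 0) (hy : y ∈ R.X 12) : x * y = y * x := by
  have h1 := cm812 T (act_n 0 hx) (act_n 12 hy)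
  have h2 := comm_conj (a := (R.nn 0)⁻¹) h1
  have e : ∀ z : Γ, (R.nn 0)⁻¹ * (R.nn 0 * z * (R.nn 0)⁻¹) * (R.nn 0)⁻¹⁻¹ = z := fun z => by group
  rwa [e, e] at h2

lemma XX (t : K) : T.X t * T.X t = 1 := by
  rw [← T.X_add]
  have : t + t = 0 := by linear_combination t * T.two
  rw [this, T.X_zero]

/-- the braid relation -/
lemma braid : R.nn 0 * T.X 1 * R.nn 0 = T.X 1 * R.nn 0 * T.X 1 := by
  have := T.nX 1
  rwa [inv_one, Units.val_one, T.h_one, mul_one] at this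

lemma n_eq : R.nn 0 = T.X 1 * (R.nn 0 * T.X 1 * R.nn 0) * T.X 1 := by
  rw [braid]
  have h : T.X 1 * T.X 1 = 1 := XX T 1
  calc R.nn 0 = 1 * R.nn 0 * 1 := by group
    _ = (T.X 1 * T.X 1) * R.nn 0 * (T.X 1 * T.X 1) := by rw [h]
    _ = _ := by group

include T in
lemma n_comm {y : Γ} (h : ∀ x ∈ R.X 0, x * y = y * x) (h' : ∀ x ∈ R.X 8, x * y = y * x) : R.nn 0 * y = y * R.nn 0 := by
  have h1 : Commute (T.X 1) y := h _ (T.X_mem 1)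
  have h2 : Commute (R.nn 0 * T.X 1 * R.nn 0) y := h' _ (act_n' T 0 (T.X_mem 1))
  have h3 : Commute (T.X 1 * (R.nn 0 * T.X 1 * R.nn 0) * T.X 1) y := (h1.mul_left h2).mul_left h1
  rw [← n_eq] at h3
  exact h3

include T in
lemma n_4 {y : Γ} (hy : y ∈ R.X 4) : R.nn 0 * y = y * R.nn 0 :=
  n_comm T (fun x hx => T.cm x hx y hy) (fun _ hx => cm84 T hx hy)

include T in
lemma n_12 {y : Γ} (hy : y ∈ R.X 12) : R.nn 0 * y = y * R.nn 0 :=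
  n_comm T (fun _ hx => cm012 T hx hy) (fun _ hx => cm812 T hx hy)

include T in
lemma w4_inv : (w4 R)⁻¹ = w4 R := by
  unfold w4
  rw [mul_inv_rev, mul_inv_rev, T.minv, T.ninv]; group

include T in
lemma ν_inv : (ν R)⁻¹ = ν R := by
  unfold ν
  rw [mul_inv_rev, mul_inv_rev, inv_inv, T.ninv]; group

include T in
lemma ν_comm0 {x : Γ} (hx : x ∈ R.X 0) : ν R * x = x * ν R := by
  have h1 : (w4 R)⁻¹ * x * w4 R ∈ R.X 4 := by
    have h2 := act_m' T _ (act_n' T _ (act_m' T 0 hx))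
    have e : R.nn 1 * (R.nn 0 * (R.nn 1 * x * R.nn 1) * R.nn 0) * R.nn 1 = (w4 R)⁻¹ * x * w4 R := by
      rw [w4_inv T]; unfold w4; group
    rw [← e]; exact h2
  have h3 := n_4 T h1
  unfold ν
  calc w4 R * R.nn 0 * (w4 R)⁻¹ * x = w4 R * (R.nn 0 * ((w4 R)⁻¹ * x * w4 R)) * (w4 R)⁻¹ := by group
    _ = _ := by rw [h3]; group

include T in
lemma ν_comm8 {x : Γ} (hx : x ∈ R.X 8) : ν R * x = x * ν R := by
  have h1 : (w4 R)⁻¹ * x * w4 R ∈ R.X 12 := by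
    have h2 := act_m' T _ (act_n' T _ (act_m' T 8 hx))
    have e : R.nn 1 * (R.nn 0 * (R.nn 1 * x * R.nn 1) * R.nn 0) * R.nn 1 = (w4 R)⁻¹ * x * w4 R := by
      rw [w4_inv T]; unfold w4; group
    rw [← e]; exact h2
  have h3 := n_12 T h1
  unfold ν
  calc w4 R * R.nn 0 * (w4 R)⁻¹ * x = w4 R * (R.nn 0 * ((w4 R)⁻¹ * x * w4 R)) * (w4 R)⁻¹ := by group
    _ = _ := by rw [h3]; group

include T in
lemma ν_n : ν R * R.nn 0 = R.nn 0 * ν R :=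
  (n_comm T (fun _ hx => (ν_comm0 T hx).symm) (fun _ hx => (ν_comm8 T hx).symm)).symm

lemma ν_X (t : K) : ν R * T.X t = T.X t * ν R := ν_comm0 T (T.X_mem t)

lemma h_eq (c : Kˣ) : T.h c = T.X c * (R.nn 0 * T.X ((c⁻¹ : Kˣ) : K) * R.nn 0) * T.X c * R.nn 0 := by
  rw [T.nX]
  have h : T.X c * T.X c = 1 := XX T c
  calc T.h c = 1 * T.h c * 1 := by group
    _ = (T.X c * T.X c) * T.h c * (R.nn 0 * 1 * R.nn 0) := by rw [h, mul_one (R.nn 0), T.nn]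
    _ = (T.X c * T.X c) * T.h c * (R.nn 0 * (T.X c * T.X c) * R.nn 0) := by rw [h]
    _ = _ := by group

lemma ν_h (c : Kˣ) : ν R * T.h c = T.h c * ν R := by
  rw [h_eq]
  have h1 : Commute (ν R) (T.X c) := ν_X T _
  have h2 : Commute (ν R) (R.nn 0) := ν_n T
  have h3 : Commute (ν R) (T.X ((c⁻¹ : Kˣ) : K)) := ν_X T _
  exact ((h1.mul_right ((h2.mul_right h3).mul_right h2)).mul_right h1).mul_right h2

lemma ν_s (c : Kˣ) : ν R * T.s c * (ν R)⁻¹ = T.s c⁻¹ := by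
  have e : ν R * T.s c * (ν R)⁻¹ = R.nn 1 * (R.nn 0 * (R.nn 1 * (R.nn 0 * (R.nn 1 * (R.nn 0 * (R.nn 1 * T.s c * (R.nn 1)⁻¹) *
      (R.nn 0)⁻¹) * (R.nn 1)⁻¹) * (R.nn 0)⁻¹) * (R.nn 1)⁻¹) * (R.nn 0)⁻¹) * (R.nn 1)⁻¹ := by
    unfold ν
    rw [w4_inv T]
    unfold w4
    group
  rw [e, T.s_eq, T.mE, T.nE, T.mE, T.nE, T.mE, T.nE, T.mE]
  have e1 : T.s c⁻¹ = (T.s c)⁻¹ := (T.s_inv c).symm
  rw [e1, T.s_eq, T.tt_inv, T.E_inv, T.E_inv]
  norm_num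

/-! ### admissible elements -/

/-- the order three element -/
def f : Γ := T.X 1 * R.nn 0

lemma f3 : f T ^ 3 = 1 := by
  have h : T.X 1 * T.X 1 = 1 := by
    rw [← T.X_add, T.two, T.X_zero]
  calc f T ^ 3 = (T.X 1 * R.nn 0 * T.X 1) * (R.nn 0 * T.X 1 * R.nn 0) := by
        unfold f; rw [pow_succ, pow_two]; group
    _ = (T.X 1 * R.nn 0 * T.X 1) * (T.X 1 * R.nn 0 * T.X 1) := by rw [braid]
    _ = T.X 1 * R.nn 0 * (T.X 1 * T.X 1) * R.nn 0 * T.X 1 := by group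
    _ = T.X 1 * (R.nn 0 * R.nn 0) * T.X 1 := by rw [h]; group
    _ = 1 := by rw [T.nn, mul_one, h]

end Cfsg.Agent.H51.TrC
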