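import Cfsg.Agent.H51.TrC

set_option autoImplicit false
set_option maxRecDepth 100000

/-!
Products of two conjugates in the Levi subgroup, Gauss decomposition.
-/

namespace Cfsg.Agent.H51.TrD

open Cfsg.Lie Cfsg.Agent.Chev Cfsg.Agent.ChevGrp Cfsg.Agent.ChevWeyl Cfsg.Agent.Tw4 Cfsg.Agent.H51.TrA Cfsg.Agent.H51.TrB
  Cfsg.Agent.H51.TrC

variable {Γ : Type*} [Group Γ] {K : Type*} [Field K] {R : RGrp S16 Γ} (T : Rl K R)

lemma X_L (t : K) : T.X t ∈ Lv R 0 := X_Lv (j := 0) (T.X_mem t)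

include T in
lemma n_L : R.nn 0 ∈ Lv R 0 := by
  rw [n_eq T]
  exact mul_mem (mul_mem (X_L T 1) (Y_Lv (j := 0) (act_n' T 0 (T.X_mem 1)))) (X_L T 1)

lemma h_H (c : Kˣ) : T.h c ∈ R.H := by
  have := T.tt_H c 1
  unfold Rl.tt at this
  rwa [T.b_one, mul_one] at this

lemma h_L (c : Kˣ) : T.h c ∈ Lv R 0 := H_Lv (h_H T c)

lemma f_L : f T ∈ Lv R 0 := mul_mem (X_L T 1) (n_L T)

lemma s_L (c : Kˣ) {g : Γ} (hg : g ∈ Lv R 0) : T.s c * g = g * T.s c := by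
  have hle : Lv R 0 ≤ Subgroup.centralizer {T.s c} := by
    refine sup_le (sup_le ?_ ?_) ?_
    · intro x hx
      rw [Subgroup.mem_centralizer_singleton_iff]
      obtain ⟨t, rfl⟩ := (T.mem_X x).1 hx
      exact (T.s_X c t).symm
    · intro x hx
      rw [Subgroup.mem_centralizer_singleton_iff]
      have h1 := act_n' T 8 hx
      obtain ⟨t, ht⟩ := (T.mem_X _).1 h1
      have e : x = R.nn 0 * T.X t * R.nn 0 := by
        rw [ht]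
        calc x = 1 * x * 1 := by group
          _ = (R.nn 0 * R.nn 0) * x * (R.nn 0 * R.nn 0) := by rw [T.nn]
          _ = _ := by group
      rw [e]
      have h2 : Commute (R.nn 0) (T.s c) := (T.s_n c).symm
      have h3 : Commute (T.X t) (T.s c) := (T.s_X c t).symm
      exact (h2.mul_left h3).mul_left h2
    · intro x hx
      rw [Subgroup.mem_centralizer_singleton_iff]
      obtain ⟨a, b, rfl⟩ := T.mem_H' hx
      exact T.tt_comm _ _ _ _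
  exact (Subgroup.mem_centralizer_singleton_iff.1 (hle hg)).symm

/-- conjugates of the element of order three -/
def Ok (l : Γ) : Prop := ∃ g ∈ Lv R 0, l = g * f T * g⁻¹

/-- the covering element -/
def xx (c : Kˣ) : Γ := f T * T.s c

variable {T}

lemma Ok.conj {l : Γ} (h : Ok T l) {g : Γ} (hg : g ∈ Lv R 0) : Ok T (g * l * g⁻¹) := by
  obtain ⟨k, hk, rfl⟩ := h
  exact ⟨g * k, mul_mem hg hk, by group⟩

lemma Ok.L {l : Γ} (h : Ok T l) : l ∈ Lv R 0 := by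
  obtain ⟨k, hk, rfl⟩ := h
  exact mul_mem (mul_mem hk (f_L T)) (inv_mem hk)

lemma Ok.pow {l : Γ} (h : Ok T l) : l ^ 3 = 1 := by
  obtain ⟨k, hk, rfl⟩ := h
  rw [conj_pow, f3]; group

lemma CU_Ok {l : Γ} (h : Ok T l) {c : Kˣ} (hc : c ^ 3 ≠ 1) : CU R 0 (l * T.s c) := by
  have hcomm : Commute l (T.s c) := (s_L T c h.L).symm
  have e : (l * T.s c) ^ 3 = T.s (c ^ 3) := by
    rw [hcomm.mul_pow, h.pow, one_mul, T.s_pow]
  have h1 := T.CU_s hc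
  constructor
  · intro u hu hcu
    apply h1.1 u hu
    rw [← e]
    exact (show Commute (l * T.s c) u from hcu).pow_left 3
  · intro u hu hcu
    apply h1.2 u hu
    rw [← e]
    exact (show Commute (l * T.s c) u from hcu).pow_left 3

lemma ν_f : ν R * f T = f T * ν R := by
  have h1 : Commute (ν R) (T.X 1) := ν_X T 1
  have h2 : Commute (ν R) (R.nn 0) := ν_n T
  exact h1.mul_right h2

include T in
lemma ν_N : ν R ∈ R.N := by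
  unfold ν w4
  exact mul_mem (mul_mem (mul_mem (mul_mem (R.nn_mem_N 1) (R.nn_mem_N 0)) (R.nn_mem_N 1)) (R.nn_mem_N 0))
    (inv_mem (mul_mem (mul_mem (R.nn_mem_N 1) (R.nn_mem_N 0)) (R.nn_mem_N 1)))

lemma Ad_Ok {l : Γ} (h : Ok T l) {c : Kˣ} (hc : c ^ 3 ≠ 1) : Ad R 0 (xx T c) (l * T.s c) := by
  refine ⟨mul_mem h.L (H_Lv (T.s_H c)), ?_, CU_Ok h hc⟩
  obtain ⟨g, hg, rfl⟩ := h
  refine ⟨g, Lv_Grp hg, ?_⟩
  unfold xx
  have h1 := s_L T c (inv_mem hg)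
  calc g * f T * g⁻¹ * T.s c = g * f T * (g⁻¹ * T.s c) := by group
    _ = _ := by rw [← h1]; group

lemma Ad_Ok' {l : Γ} (h : Ok T l) {c : Kˣ} (hc : c ^ 3 ≠ 1) : Ad R 0 (xx T c) (l * T.s c⁻¹) := by
  have hc' : (c⁻¹) ^ 3 ≠ 1 := by rw [inv_pow]; exact fun h => hc (inv_eq_one.1 h)
  refine ⟨mul_mem h.L (H_Lv (T.s_H _)), ?_, CU_Ok h hc'⟩
  obtain ⟨g, hg, rfl⟩ := h
  refine ⟨g * ν R, mul_mem (Lv_Grp hg) (R.N_le_Grp (ν_N (T := T))), ?_⟩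
  unfold xx
  have h1 := s_L T c⁻¹ (inv_mem hg)
  have h2 := ν_f (T := T)
  calc g * f T * g⁻¹ * T.s c⁻¹ = g * f T * (g⁻¹ * T.s c⁻¹) := by group
    _ = g * (f T * ν R) * (ν R)⁻¹ * T.s c⁻¹ * g⁻¹ := by rw [← h1]; group
    _ = g * ν R * f T * (ν R)⁻¹ * (ν R * T.s c * (ν R)⁻¹) * g⁻¹ := by rw [← h2, ν_s T]; group
    _ = _ := by group

lemma Pr_mul {l₁ l₂ : Γ} (h1 : Ok T l₁) (h2 : Ok T l₂) {c : Kˣ} (hc : c ^ 3 ≠ 1) : Pr R 0 (xx T c) (l₁ * l₂) := by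
  refine ⟨l₁ * T.s c, l₂ * T.s c⁻¹, Ad_Ok h1 hc, Ad_Ok' h2 hc, ?_⟩
  have h3 := s_L T c h2.L
  calc l₁ * l₂ = l₁ * (l₂ * (T.s c * T.s c⁻¹)) := by rw [T.s_mul, mul_inv_cancel, T.s_one, mul_one]
    _ = l₁ * (l₂ * T.s c) * T.s c⁻¹ := by group
    _ = _ := by rw [← h3]; group

/-! ### the classes -/

variable {c : Kˣ} (hc : c ^ 3 ≠ 1)

lemma Ok_f : Ok T (f T) := ⟨1, one_mem _, by group⟩

lemma Ok_finv : Ok T (f T)⁻¹ := by
  refine ⟨R.nn 0, n_L T, ?_⟩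
  unfold f
  rw [mul_inv_rev, T.ninv, T.X_inv]
  calc R.nn 0 * T.X 1 = R.nn 0 * T.X 1 * (R.nn 0 * R.nn 0) := by rw [T.nn, mul_one]
    _ = _ := by group

include hc

lemma Pr_one : Pr R 0 (xx T c) 1 := by
  have := Pr_mul (Ok_f (T := T)) Ok_finv hc
  rwa [mul_inv_cancel] at this

lemma Pr_f : Pr R 0 (xx T c) (f T) := by
  have := Pr_mul (Ok_finv (T := T)) Ok_finv hc
  have e : (f T)⁻¹ * (f T)⁻¹ = f T := by
    have h := f3 T
    calc (f T)⁻¹ * (f T)⁻¹ = (f T ^ 3)⁻¹ * f T := by group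
      _ = f T := by rw [h]; group
  rwa [e] at this

/-- moving a root element around -/
lemma Pr_rot {a z : K} {y : Γ} (h : Pr R 0 (xx T c) (T.X (a + z) * y)) (hy : y ∈ Lv R 0) : Pr R 0 (xx T c) (T.X a * y * T.X z) := by
  have h1 := h.conj (g := T.X z) (X_L T z)
  have e : T.X z * (T.X (a + z) * y) * (T.X z)⁻¹ = T.X a * y * T.X z := by
    have h2 : T.X z * T.X (a + z) = T.X a := by
      rw [← T.X_add]
      congr 1
      linear_combination z * T.two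
    rw [T.X_inv]
    calc T.X z * (T.X (a + z) * y) * T.X z = (T.X z * T.X (a + z)) * y * T.X z := by group
      _ = _ := by rw [h2]
  rwa [e] at h1

/-- torus normalization -/
lemma Pr_tor {a : K} {e : Kˣ} (h : Pr R 0 (xx T c) (T.X (((e⁻¹ : Kˣ) : K) * a) * R.nn 0)) :
    Pr R 0 (xx T c) (T.X a * T.h e * R.nn 0) := by
  obtain ⟨d, hd⟩ := T.sqr e⁻¹
  have h1 := h.conj (g := (T.h d)⁻¹) (inv_mem (h_L T d))
  have e1 : (T.h d)⁻¹ * (T.X (((e⁻¹ : Kˣ) : K) * a) * R.nn 0) * (T.h d)⁻¹⁻¹ = T.X a * T.h e * R.nn 0 := by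
    have h2 := T.hX d a
    rw [hd] at h2
    rw [← h2]
    have h3 := T.nh d
    rw [← T.h_inv] at h3
    have h4 : R.nn 0 * T.h d = (T.h d)⁻¹ * R.nn 0 := by rw [← h3]; group
    have h5 : (T.h d)⁻¹ * (T.h d)⁻¹ = T.h e := by
      rw [← mul_inv_rev, ← T.h_mul, hd, ← T.h_inv, inv_inv]
    calc (T.h d)⁻¹ * (T.h d * T.X a * (T.h d)⁻¹ * R.nn 0) * (T.h d)⁻¹⁻¹ = T.X a * (T.h d)⁻¹ * (R.nn 0 * T.h d) := by group
      _ = T.X a * ((T.h d)⁻¹ * (T.h d)⁻¹) * R.nn 0 := by rw [h4]; group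
      _ = _ := by rw [h5]
  rwa [e1] at h1

/-- nonzero trace -/
lemma Pr_tr {t : K} (ht : t ≠ 0) : Pr R 0 (xx T c) (T.X t * R.nn 0) := by
  obtain ⟨b, hb⟩ := T.sqr (Units.mk0 t ht)
  have hb' : (b : K) * b = t := by
    have := congrArg (fun u : Kˣ => (u : K)) hb
    simpa using this
  -- the square
  have h1 : Ok T (T.X b * R.nn 0 * T.X (b + 1)) := by
    refine ⟨T.X (b + 1), X_L T _, ?_⟩
    unfold f
    rw [T.X_inv]
    have : T.X (b : K) = T.X (b + 1) * T.X 1 := by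
      rw [← T.X_add]
      congr 1
      linear_combination -T.two
    rw [this]; group
  have h2 := Pr_mul h1 (Ok_f (T := T)) hc
  have e1 : T.X b * R.nn 0 * T.X (b + 1) * f T = T.X b * (R.nn 0 * T.X b * R.nn 0) := by
    unfold f
    have : T.X ((b : K) + 1) * T.X 1 = T.X b := by
      rw [← T.X_add]
      congr 1
      linear_combination T.two
    calc T.X b * R.nn 0 * T.X (b + 1) * (T.X 1 * R.nn 0) = T.X b * R.nn 0 * (T.X (b + 1) * T.X 1) * R.nn 0 := by group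
      _ = _ := by rw [this]; group
  have e2 : R.nn 0 * T.X (b : K) * R.nn 0 = T.X ((b⁻¹ : Kˣ) : K) * T.h b⁻¹ * R.nn 0 * T.X ((b⁻¹ : Kˣ) : K) := by
    have := T.nX b⁻¹
    rwa [inv_inv] at this
  rw [e1, e2] at h2
  -- rotate back
  have h3 := h2.conj (g := T.X ((b⁻¹ : Kˣ) : K)) (X_L T _)
  have e3 : T.X ((b⁻¹ : Kˣ) : K) * (T.X (b : K) * (T.X ((b⁻¹ : Kˣ) : K) * T.h b⁻¹ * R.nn 0 * T.X ((b⁻¹ : Kˣ) : K))) *
      (T.X ((b⁻¹ : Kˣ) : K))⁻¹ = T.X (b : K) * T.h b⁻¹ * R.nn 0 := by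
    have h4 : T.X ((b⁻¹ : Kˣ) : K) * T.X (b : K) * T.X ((b⁻¹ : Kˣ) : K) = T.X (b : K) := by
      rw [← T.X_add, ← T.X_add]
      congr 1
      linear_combination ((b⁻¹ : Kˣ) : K) * T.two
    calc _ = (T.X ((b⁻¹ : Kˣ) : K) * T.X (b : K) * T.X ((b⁻¹ : Kˣ) : K)) * T.h b⁻¹ * R.nn 0 := by group
      _ = _ := by rw [h4]
  rw [e3] at h3
  -- torus
  obtain ⟨d, hd⟩ := T.sqr b
  have h5 := h3.conj (g := T.h d) (h_L T d)
  have e4 : T.h d * (T.X (b : K) * T.h b⁻¹ * R.nn 0) * (T.h d)⁻¹ = T.X t * R.nn 0 := by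
    have h6 := T.hX d b
    rw [hd] at h6
    rw [hb'] at h6
    have h7 := T.nh d⁻¹
    rw [inv_inv, ← T.h_inv] at h7
    have h8 : R.nn 0 * (T.h d)⁻¹ = T.h d * R.nn 0 := by
      calc R.nn 0 * (T.h d)⁻¹ = (R.nn 0 * (T.h d)⁻¹ * (R.nn 0)⁻¹) * R.nn 0 := by group
        _ = _ := by rw [h7]
    have h9 : T.h d * T.h b⁻¹ * T.h d = 1 := by
      rw [← T.h_mul, ← T.h_mul, ← hd]
      have : d * (d * d)⁻¹ * d = 1 := by group
      rw [this, T.h_one]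
    calc T.h d * (T.X (b : K) * T.h b⁻¹ * R.nn 0) * (T.h d)⁻¹ = (T.h d * T.X (b : K) * (T.h d)⁻¹) * T.h d * T.h b⁻¹ *
          (R.nn 0 * (T.h d)⁻¹) := by group
      _ = T.X t * (T.h d * T.h b⁻¹ * T.h d) * R.nn 0 := by rw [h6, h8]; group
      _ = _ := by rw [h9, mul_one]
  rwa [e4] at h5

/-- torus elements -/
lemma Pr_h (e : Kˣ) : Pr R 0 (xx T c) (T.h e) := by
  by_cases he : e = 1
  · rw [he, T.h_one]; exact Pr_one hc
  have he2 : (1 : K) + (((e * e)⁻¹ : Kˣ) : K) ≠ 0 := by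
    intro h
    apply he
    apply T.sq_inj
    have h1 : (((e * e)⁻¹ : Kˣ) : K) = 1 := by linear_combination h - T.two
    have h2 : (e * e)⁻¹ = 1 := Units.ext h1
    exact inv_eq_one.1 h2
  set φ : K := (1 + (((e * e)⁻¹ : Kˣ) : K))⁻¹ with hφ
  have hφ1 : φ + (((e * e)⁻¹ : Kˣ) : K) * φ = 1 := by
    have : φ * (1 + (((e * e)⁻¹ : Kˣ) : K)) = 1 := inv_mul_cancel₀ he2
    linear_combination this
  -- target
  have ht : (((e⁻¹)⁻¹ : Kˣ) : K) * ((((e * e)⁻¹ : Kˣ) : K) + 1) ≠ 0 :=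
    mul_ne_zero (Units.ne_zero _) (by rw [add_comm]; exact he2)
  have h1 : Pr R 0 (xx T c) (T.X ((((e * e)⁻¹ : Kˣ) : K) + 1) * T.h e⁻¹ * R.nn 0) := Pr_tor hc (Pr_tr hc ht)
  have h2 : Pr R 0 (xx T c) (T.X (((e * e)⁻¹ : Kˣ) : K) * (T.h e⁻¹ * R.nn 0) * T.X 1) := by
    apply Pr_rot hc
    · rw [← mul_assoc]; exact h1
    · exact mul_mem (h_L T _) (n_L T)
  have h3 := h2.conj (g := (R.nn 0 * T.X φ)⁻¹) (inv_mem (mul_mem (n_L T) (X_L T _)))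
  have e1 : (R.nn 0 * T.X φ) * T.h e * (R.nn 0 * T.X φ)⁻¹ = T.X (((e * e)⁻¹ : Kˣ) : K) * (T.h e⁻¹ * R.nn 0) * T.X 1 := by
    have h4 : (T.h e)⁻¹ * T.X φ * T.h e = T.X ((((e * e)⁻¹ : Kˣ) : K) * φ) := by
      have := T.hX e⁻¹ φ
      rw [← T.h_inv, inv_inv] at this
      rw [this, ← mul_inv]
    have h5 : (T.h e)⁻¹ * T.X φ * T.h e * T.X φ = T.X 1 := by
      rw [h4, ← T.X_add, add_comm, hφ1]
    have h6 : R.nn 0 * T.h e * (R.nn 0)⁻¹ = T.h e⁻¹ := T.nh e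
    have h7 : T.h e⁻¹ * T.X 1 * (T.h e⁻¹)⁻¹ = T.X (((e * e)⁻¹ : Kˣ) : K) := by
      have := T.hX e⁻¹ 1
      rw [mul_one, ← mul_inv] at this
      exact this
    calc (R.nn 0 * T.X φ) * T.h e * (R.nn 0 * T.X φ)⁻¹ = R.nn 0 * T.h e * ((T.h e)⁻¹ * T.X φ * T.h e * (T.X φ)⁻¹) * (R.nn 0)⁻¹ := by group
      _ = R.nn 0 * T.h e * T.X 1 * (R.nn 0)⁻¹ := by rw [T.X_inv, h5]
      _ = (R.nn 0 * T.h e * (R.nn 0)⁻¹) * (R.nn 0 * T.X 1 * (R.nn 0)⁻¹) := by group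
      _ = T.h e⁻¹ * (R.nn 0 * T.X 1 * R.nn 0) := by rw [h6, T.ninv]
      _ = T.h e⁻¹ * (T.X 1 * R.nn 0 * T.X 1) := by rw [braid]
      _ = (T.h e⁻¹ * T.X 1 * (T.h e⁻¹)⁻¹) * (T.h e⁻¹ * R.nn 0) * T.X 1 := by group
      _ = _ := by rw [h7]
  rw [← e1] at h3
  have e2 : (R.nn 0 * T.X φ)⁻¹ * (R.nn 0 * T.X φ * T.h e * (R.nn 0 * T.X φ)⁻¹) * (R.nn 0 * T.X φ)⁻¹⁻¹ = T.h e := by group
  rwa [e2] at h3

end Cfsg.Agent.H51.TrD
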