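import Cfsg.Agent.H51.TrD
import Cfsg.Agent.AutChev.Opp

set_option autoImplicit false
set_option maxRecDepth 100000

/-!
Gauss decomposition with prescribed Levi part; the covering theorem for the relations.
-/

namespace Cfsg.Agent.H51.TrE

open Cfsg.Lie Cfsg.Agent.Chev Cfsg.Agent.ChevGrp Cfsg.Agent.ChevWeyl Cfsg.Agent.Tw4 Cfsg.Agent.H51.TrA Cfsg.Agent.H51.TrB
  Cfsg.Agent.H51.TrC Cfsg.Agent.H51.TrD

variable {Γ : Type*} [Group Γ] {K : Type*} [Field K] {R : RGrp S16 Γ}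

/-- rank one -/
lemma rk (j : Fin 2) {x : Γ} (hx : x ∈ R.X (S16.p j)) (hx1 : x ≠ 1) :
    ∃ a ∈ R.X (S16.neg (S16.p j)), ∃ h ∈ R.H, ∃ b ∈ R.X (S16.p j), x * (R.nn j)⁻¹ = a * h * b := by
  have h1 : R.nn j * x * (R.nn j)⁻¹ ∈ R.X (S16.neg (S16.p j)) := by
    have := R.nn_X j _ x hx
    rwa [S16.w_p] at this
  have h2 : R.nn j * x * (R.nn j)⁻¹ ≠ 1 := by
    intro h
    apply hx1
    have : x = (R.nn j)⁻¹ * (R.nn j * x * (R.nn j)⁻¹) * R.nn j := by group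
    rw [this, h]; group
  obtain ⟨a, ha, h, hh, b, hb, e⟩ := R.rank1 j _ h1 h2
  refine ⟨(R.nn j)⁻¹ * a * R.nn j, ?_, h, hh, b, hb, ?_⟩
  · have := (RGrp.act_nn (R := R) j).conj' ha
    rwa [S16.w_inv, S16.w_p] at this
  · calc x * (R.nn j)⁻¹ = (R.nn j)⁻¹ * (R.nn j * x * (R.nn j)⁻¹) := by group
      _ = _ := by rw [e]; group

variable (T : Rl K R)

/-- Gauss decomposition -/
def Gs (ν : Γ) : Prop := ∀ z ∈ R.H, ∃ u ∈ R.Ui 0, ∃ v ∈ Vi R 0, ∃ u' ∈ R.Ui 0, ∃ e : Kˣ, u * ν⁻¹ = v * (T.h e * z⁻¹) * u'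

lemma gauss {j : Fin 2} {w : Γ} {σ : Equiv.Perm (Fin 16)} (hw : R.Act w σ) (hwN : w ∈ R.N)
    (h1 : S16.Pos (σ (S16.p j)) ∧ σ (S16.p j) ≠ S16.p 0)
    (h2 : ¬ S16.Pos (σ (S16.neg (S16.p j))) ∧ σ (S16.neg (S16.p j)) ≠ S16.neg (S16.p 0))
    (hs : ∀ e0 : Kˣ, ∃ g ∈ R.H, ∃ r, w * (g * (R.nn j * g⁻¹ * (R.nn j)⁻¹)) * w⁻¹ = T.tt r e0) :
    Gs T (w * R.nn j * w⁻¹) := by
  intro z hz
  obtain ⟨x, hx, hx1⟩ := Cfsg.Agent.AutChev.exists_X_ne (R := R) (S16.p j)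
  obtain ⟨a, ha, h0, hh0, b, hb, e⟩ := rk j hx hx1
  obtain ⟨a1, a2, ea⟩ := T.mem_H' (RGrp.N_conj_H hwN hh0)
  obtain ⟨z1, z2, ez⟩ := T.mem_H' hz
  obtain ⟨g, hg, r, er⟩ := hs (a2 * z2)⁻¹
  set k := R.nn j * g⁻¹ * (R.nn j)⁻¹ with hk
  have hkH : k ∈ R.H := R.nn_H j _ (inv_mem hg)
  have hH : w * (g * h0 * k) * w⁻¹ = T.h (r * a1 * z1) * z⁻¹ := by
    have hc : h0 * k = k * h0 := by
      obtain ⟨p1, p2, ep⟩ := T.mem_H' hh0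
      obtain ⟨q1, q2, eq⟩ := T.mem_H' hkH
      rw [ep, eq, T.tt_comm]
    have e1 : w * (g * h0 * k) * w⁻¹ = (w * (g * k) * w⁻¹) * (w * h0 * w⁻¹) := by
      calc w * (g * h0 * k) * w⁻¹ = w * (g * (h0 * k)) * w⁻¹ := by group
        _ = _ := by rw [hc]; group
    have e2 : T.h (r * a1 * z1) = T.tt (r * a1 * z1) 1 := by unfold Rl.tt; rw [T.b_one, mul_one]
    rw [e1, er, ea, T.tt_mul, e2, ez, T.tt_inv, T.tt_mul]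
    congr 1
    · rw [mul_inv_cancel_right]
    · rw [mul_inv, mul_right_comm, inv_mul_cancel]
  refine ⟨w * (g * x * g⁻¹) * w⁻¹, R.X_le_Ui h1.1 h1.2 (hw.conj (R.H_X g hg _ x hx)), w * (g * a * g⁻¹) * w⁻¹,
    mem_gen ⟨h2.1, h2.2⟩ (hw.conj (R.H_X g hg _ a ha)), w * (k⁻¹ * b * k) * w⁻¹,
    R.X_le_Ui h1.1 h1.2 (hw.conj ?_), r * a1 * z1, ?_⟩
  · have := R.H_X k⁻¹ (inv_mem hkH) _ b hb
    rwa [inv_inv] at this
  · rw [← hH]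
    calc w * (g * x * g⁻¹) * w⁻¹ * (w * R.nn j * w⁻¹)⁻¹ = w * (g * (x * (R.nn j)⁻¹) * k) * w⁻¹ := by rw [hk]; group
      _ = _ := by rw [e]; group

/-! ### the four reflections -/

lemma E_all (c : Kˣ) : T.E c 0 0 = 1 := T.E0 c

lemma exE {d e : Kˣ} (h : d * d = e) : T.E d 2 0 = e := by
  unfold Rl.E
  rw [zpow_two, zpow_zero, mul_one, h]

lemma exE4 {d f e : Kˣ} (h : d * d = e) (h' : f * f = d) : T.E f 4 0 = e := by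
  unfold Rl.E
  have : (4 : ℤ) = 2 + 2 := rfl
  rw [this, zpow_add, zpow_two, zpow_zero, mul_one, h', h]

lemma gs1 : Gs T (1 * R.nn 1 * 1⁻¹) := by
  refine gauss T (σ := 1) RGrp.act_one (one_mem _) ?_ ?_ ?_
  · show pos16 ((1 : Equiv.Perm (Fin 16)) 7) ∧ (1 : Equiv.Perm (Fin 16)) 7 ≠ (0 : Fin 16)
    decide +kernel
  · show ¬ pos16 ((1 : Equiv.Perm (Fin 16)) (neg16 7)) ∧ (1 : Equiv.Perm (Fin 16)) (neg16 7) ≠ neg16 0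
    decide +kernel
  · intro e0
    obtain ⟨d, hd⟩ := T.sqr e0
    refine ⟨T.tt (T.E d 0 0) (T.E d 1 0), T.tt_H _ _, 1, ?_⟩
    rw [T.tt_inv, T.E_inv, T.E_inv, T.mE, T.tt_mul, T.E_mul, T.E_mul, one_mul, inv_one, mul_one]
    norm_num
    rw [E_all, exE T hd]

lemma gs2 : Gs T (R.nn 1 * R.nn 0 * (R.nn 1)⁻¹) := by
  refine gauss T (σ := w16 1) (RGrp.act_nn 1) (R.nn_mem_N 1) ?_ ?_ ?_
  · show pos16 ((w16 1) 0) ∧ (w16 1) 0 ≠ (0 : Fin 16)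
    decide +kernel
  · show ¬ pos16 ((w16 1) (neg16 0)) ∧ (w16 1) (neg16 0) ≠ neg16 0
    decide +kernel
  · intro e0
    obtain ⟨d, hd⟩ := T.sqr e0
    obtain ⟨f, hf⟩ := T.sqr d
    refine ⟨T.tt (T.E f 2 (-1)) (T.E f 0 0), T.tt_H _ _, T.E f 4 (-2), ?_⟩
    rw [T.tt_inv, T.E_inv, T.E_inv, T.nE, T.tt_mul, T.E_mul, T.E_mul, T.mE]
    norm_num
    rw [exE4 T hd hf]

lemma gs3 : Gs T ((R.nn 1 * R.nn 0) * R.nn 1 * (R.nn 1 * R.nn 0)⁻¹) := by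
  refine gauss T (σ := w16 1 * w16 0) ((RGrp.act_nn 1).mul (RGrp.act_nn 0)) (mul_mem (R.nn_mem_N 1) (R.nn_mem_N 0)) ?_ ?_ ?_
  · show pos16 ((w16 1 * w16 0) 7) ∧ (w16 1 * w16 0) 7 ≠ (0 : Fin 16)
    decide +kernel
  · show ¬ pos16 ((w16 1 * w16 0) (neg16 7)) ∧ (w16 1 * w16 0) (neg16 7) ≠ neg16 0
    decide +kernel
  · intro e0
    obtain ⟨d, hd⟩ := T.sqr e0
    refine ⟨T.tt (T.E d 0 0) (T.E d (-1) 1), T.tt_H _ _, T.E d (-2) 2, ?_⟩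
    have e1 : ∀ y : Γ, R.nn 1 * R.nn 0 * y * (R.nn 1 * R.nn 0)⁻¹ = R.nn 1 * (R.nn 0 * y * (R.nn 0)⁻¹) * (R.nn 1)⁻¹ := fun y => by group
    rw [e1, T.tt_inv, T.E_inv, T.E_inv, T.mE, T.tt_mul, T.E_mul, T.E_mul, T.nE, T.mE]
    norm_num
    rw [exE T hd]

lemma gs4 : Gs T (ν R) := by
  unfold ν w4
  refine gauss T (σ := w16 1 * w16 0 * w16 1) (((RGrp.act_nn 1).mul (RGrp.act_nn 0)).mul (RGrp.act_nn 1))
    (mul_mem (mul_mem (R.nn_mem_N 1) (R.nn_mem_N 0)) (R.nn_mem_N 1)) ?_ ?_ ?_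
  · show pos16 ((w16 1 * w16 0 * w16 1) 0) ∧ (w16 1 * w16 0 * w16 1) 0 ≠ (0 : Fin 16)
    decide +kernel
  · show ¬ pos16 ((w16 1 * w16 0 * w16 1) (neg16 0)) ∧ (w16 1 * w16 0 * w16 1) (neg16 0) ≠ neg16 0
    decide +kernel
  · intro e0
    obtain ⟨d, hd⟩ := T.sqr e0
    obtain ⟨f, hf⟩ := T.sqr d
    refine ⟨T.tt (T.E f (-1) 1) (T.E f 0 0), T.tt_H _ _, T.E f 2 0, ?_⟩
    have e1 : ∀ y : Γ, R.nn 1 * R.nn 0 * R.nn 1 * y * (R.nn 1 * R.nn 0 * R.nn 1)⁻¹ =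
      R.nn 1 * (R.nn 0 * (R.nn 1 * y * (R.nn 1)⁻¹) * (R.nn 0)⁻¹) * (R.nn 1)⁻¹ := fun y => by group
    rw [e1, T.tt_inv, T.E_inv, T.E_inv, T.nE, T.tt_mul, T.E_mul, T.E_mul, T.mE, T.nE, T.mE]
    norm_num
    rw [exE4 T hd hf]

/-! ### goodness -/

variable {T}

lemma fin [Finite Γ] {x ν l u2 u v u' k : Γ} (e : u * ν⁻¹ = v * k * u') (hu : u ∈ R.Ui 0) (hv : v ∈ Vi R 0) (hu' : u' ∈ R.Ui 0)
    (hl : l ∈ Lv R 0) (hu2 : u2 ∈ R.Ui 0) (hP : Pr R 0 x (k * l)) : Gd R x (ν⁻¹ * l * u2) := by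
  apply Gd.of_conj (w := u) (Ui_Grp hu)
  have e1 : u * (ν⁻¹ * l * u2) * u⁻¹ = v * (k * l) * (l⁻¹ * u' * l * u2 * u⁻¹) := by
    calc u * (ν⁻¹ * l * u2) * u⁻¹ = (u * ν⁻¹) * l * u2 * u⁻¹ := by group
      _ = _ := by rw [e]; group
  rw [e1]
  exact good_of hP (mul_mem (mul_mem (of_norm' (Lv_norm_Ui 0) hl hu') hu2) (inv_mem hu)) hv

lemma shift {x ν l y0 u2 : Γ} (hF : ∀ y ∈ R.X 0, ν * y * ν⁻¹ ∈ R.Ui 0) (hy : y0 ∈ R.X 0) (hl : l ∈ Lv R 0) (hu2 : u2 ∈ R.Ui 0)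
    (h : ∀ u3 ∈ R.Ui 0, Gd R x (ν⁻¹ * (l * y0) * u3)) : Gd R x (ν⁻¹ * l * u2) := by
  have hyL : y0 ∈ Lv R 0 := X_Lv (j := 0) hy
  apply Gd.of_conj' (w := y0) (Lv_Grp hyL)
  have e : y0⁻¹ * (ν⁻¹ * l * u2) * y0 = ν⁻¹ * (l * y0) * ((l * y0)⁻¹ * (ν * y0⁻¹ * ν⁻¹) * (l * y0) * (y0⁻¹ * u2 * y0)) := by group
  rw [e]
  exact h _ (mul_mem (of_norm' (Lv_norm_Ui 0) (mul_mem hl hyL) (hF _ (inv_mem hy))) (of_norm' (Lv_norm_Ui 0) hyL hu2))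

variable {c : Kˣ} (hc : c ^ 3 ≠ 1)

lemma kconj {k : Γ} (hk : k ∈ R.H) (α : K) : ∃ α', k * T.X α * k⁻¹ = T.X α' ∧ (α' = 0 → α = 0) := by
  obtain ⟨x, y, rfl⟩ := T.mem_H' hk
  refine ⟨_, T.ttX x y α, ?_⟩
  intro h
  rcases mul_eq_zero.1 h with h | h
  · exact absurd h (Units.ne_zero _)
  · exact h

include hc

lemma good_k [Finite Γ] {ν : Γ} (hG : Gs T ν) (hF : ∀ y ∈ R.X 0, ν * y * ν⁻¹ ∈ R.Ui 0) {p : Γ} (hp : p ∈ PP R 0) :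
    Gd R (xx T c) (ν⁻¹ * p) := by
  obtain ⟨l, hl, u2, hu2, rfl⟩ := mem_PP hp
  rw [← mul_assoc]
  rcases Lv_form hl with ⟨a, ha, z, hz, rfl⟩ | ⟨a, ha, z, hz, b, hb, rfl⟩
  · have hz' : z⁻¹ * a⁻¹ * z ∈ R.X 0 := by
      have := R.H_X z⁻¹ (inv_mem hz) _ a⁻¹ (inv_mem ha)
      rwa [inv_inv] at this
    refine shift hF hz' hl hu2 ?_
    intro u3 hu3
    have e1 : a * z * (z⁻¹ * a⁻¹ * z) = z := by group
    rw [e1]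
    obtain ⟨u, hu, v, hv, u', hu', e, eq⟩ := hG z hz
    refine fin eq hu hv hu' (H_Lv hz) hu3 ?_
    have e2 : T.h e * z⁻¹ * z = T.h e := by group
    rw [e2]
    exact Pr_h hc e
  · obtain ⟨u, hu, v, hv, u', hu', e, eq⟩ := hG z hz
    obtain ⟨α, rfl⟩ := (T.mem_X a).1 ha
    obtain ⟨β, rfl⟩ := (T.mem_X b).1 hb
    have hk : T.h e * z⁻¹ ∈ R.H := mul_mem (h_H T e) (inv_mem hz)
    obtain ⟨α', hα', -⟩ := kconj (T := T) hk α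
    refine shift hF (T.X_mem ((e : K) + α' + β)) hl hu2 ?_
    intro u3 hu3
    refine fin eq hu hv hu' (mul_mem hl (X_L T _)) hu3 ?_
    have e1 : T.h e * z⁻¹ * (T.X α * z * R.nn 0 * T.X β * T.X ((e : K) + α' + β)) =
        T.X α' * (T.h e * R.nn 0) * T.X ((e : K) + α') := by
      have h1 : T.X β * T.X ((e : K) + α' + β) = T.X ((e : K) + α') := by
        rw [← T.X_add]
        congr 1
        linear_combination β * T.two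
      calc T.h e * z⁻¹ * (T.X α * z * R.nn 0 * T.X β * T.X ((e : K) + α' + β)) =
          (T.h e * z⁻¹ * T.X α * (T.h e * z⁻¹)⁻¹) * (T.h e * R.nn 0) * (T.X β * T.X ((e : K) + α' + β)) := by group
        _ = _ := by rw [hα', h1]
    rw [e1]
    apply Pr_rot hc
    · have e2 : α' + ((e : K) + α') = e := by linear_combination α' * T.two
      rw [e2, ← mul_assoc]
      apply Pr_tor hc
      have e3 : ((e⁻¹ : Kˣ) : K) * (e : K) = 1 := by rw [← Units.val_mul, inv_mul_cancel, Units.val_one]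
      rw [e3]
      exact Pr_f hc
    · exact mul_mem (h_L T e) (n_L T)

end Cfsg.Agent.H51.TrE
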