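import Cfsg.Agent.H51.TrE

set_option autoImplicit false
set_option maxRecDepth 100000

/-!
The opposite case and the covering theorem.
-/

namespace Cfsg.Agent.H51.TrF

open Cfsg.Lie Cfsg.Agent.Chev Cfsg.Agent.ChevGrp Cfsg.Agent.ChevWeyl Cfsg.Agent.Tw4 Cfsg.Agent.H51.TrA Cfsg.Agent.H51.TrB
  Cfsg.Agent.H51.TrC Cfsg.Agent.H51.TrD Cfsg.Agent.H51.TrE

variable {Γ : Type*} [Group Γ] {K : Type*} [Field K] {R : RGrp S16 Γ} {T : Rl K R}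

lemma fix1 {y : Γ} (hy : y ∈ R.X 0) : (1 * R.nn 1 * 1⁻¹) * y * (1 * R.nn 1 * 1⁻¹)⁻¹ ∈ R.Ui 0 := by
  have h := (RGrp.act_nn (R := R) 1).conj hy
  have e : (1 * R.nn 1 * 1⁻¹) * y * (1 * R.nn 1 * 1⁻¹)⁻¹ = R.nn 1 * y * (R.nn 1)⁻¹ := by group
  rw [e]
  refine R.X_le_Ui (r := w16 1 0) ?_ ?_ h
  · show pos16 (w16 1 0); decide +kernel
  · show w16 1 0 ≠ (0 : Fin 16); decide +kernel

lemma fix2 {y : Γ} (hy : y ∈ R.X 0) : (R.nn 1 * R.nn 0 * (R.nn 1)⁻¹) * y * (R.nn 1 * R.nn 0 * (R.nn 1)⁻¹)⁻¹ ∈ R.Ui 0 := by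
  have h := (((RGrp.act_nn (R := R) 1).mul (RGrp.act_nn (R := R) 0)).mul (RGrp.act_nn (R := R) 1).inv).conj hy
  refine R.X_le_Ui (r := (w16 1 * w16 0 * (w16 1)⁻¹) 0) ?_ ?_ h
  · show pos16 ((w16 1 * w16 0 * (w16 1)⁻¹) 0); decide +kernel
  · show (w16 1 * w16 0 * (w16 1)⁻¹) 0 ≠ (0 : Fin 16); decide +kernel

lemma fix3 {y : Γ} (hy : y ∈ R.X 0) : ((R.nn 1 * R.nn 0) * R.nn 1 * (R.nn 1 * R.nn 0)⁻¹) * y *
    ((R.nn 1 * R.nn 0) * R.nn 1 * (R.nn 1 * R.nn 0)⁻¹)⁻¹ ∈ R.Ui 0 := by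
  have h := ((((RGrp.act_nn (R := R) 1).mul (RGrp.act_nn (R := R) 0)).mul (RGrp.act_nn (R := R) 1)).mul
    ((RGrp.act_nn (R := R) 1).mul (RGrp.act_nn (R := R) 0)).inv).conj hy
  refine R.X_le_Ui (r := ((w16 1 * w16 0) * w16 1 * (w16 1 * w16 0)⁻¹) 0) ?_ ?_ h
  · show pos16 (((w16 1 * w16 0) * w16 1 * (w16 1 * w16 0)⁻¹) 0); decide +kernel
  · show ((w16 1 * w16 0) * w16 1 * (w16 1 * w16 0)⁻¹) 0 ≠ (0 : Fin 16); decide +kernel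

section

variable {c : Kˣ} (hc : c ^ 3 ≠ 1) [Finite Γ]

omit [Finite Γ] in
lemma dbl {x ν : Γ} (h : ∀ p ∈ PP R 0, Gd R x (ν⁻¹ * p)) {p p' : Γ} (hp : p ∈ PP R 0) (hp' : p' ∈ PP R 0) :
    Gd R x (p * ν⁻¹ * p') := by
  apply Gd.of_conj' (w := p) (PP_Grp hp)
  have e : p⁻¹ * (p * ν⁻¹ * p') * p = ν⁻¹ * (p' * p) := by group
  rw [e]
  exact h _ (mul_mem hp' hp)

include hc

lemma gd1 {p p' : Γ} (hp : p ∈ PP R 0) (hp' : p' ∈ PP R 0) : Gd R (xx T c) (p * R.nn 1 * p') := by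
  have h := dbl (fun p hp => good_k hc (gs1 T) (fun y hy => fix1 hy) (p := p) hp) hp hp'
  have e : (1 * R.nn 1 * 1⁻¹)⁻¹ = R.nn 1 := by
    rw [mul_inv_rev, mul_inv_rev, T.minv]; group
  rwa [e] at h

lemma gd2 {p p' : Γ} (hp : p ∈ PP R 0) (hp' : p' ∈ PP R 0) : Gd R (xx T c) (p * (R.nn 1 * R.nn 0 * R.nn 1) * p') := by
  have h := dbl (fun p hp => good_k hc (gs2 T) (fun y hy => fix2 hy) (p := p) hp) hp hp'
  have e : (R.nn 1 * R.nn 0 * (R.nn 1)⁻¹)⁻¹ = R.nn 1 * R.nn 0 * R.nn 1 := by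
    rw [mul_inv_rev, mul_inv_rev, inv_inv, T.ninv, T.minv]; group
  rwa [e] at h

lemma gd3 {p p' : Γ} (hp : p ∈ PP R 0) (hp' : p' ∈ PP R 0) :
    Gd R (xx T c) (p * (R.nn 1 * R.nn 0 * R.nn 1 * R.nn 0 * R.nn 1) * p') := by
  have h := dbl (fun p hp => good_k hc (gs3 T) (fun y hy => fix3 hy) (p := p) hp) hp hp'
  have e : (R.nn 1 * R.nn 0 * R.nn 1 * (R.nn 1 * R.nn 0)⁻¹)⁻¹ = R.nn 1 * R.nn 0 * R.nn 1 * R.nn 0 * R.nn 1 := by
    calc (R.nn 1 * R.nn 0 * R.nn 1 * (R.nn 1 * R.nn 0)⁻¹)⁻¹ = R.nn 1 * R.nn 0 * (R.nn 1)⁻¹ * (R.nn 0)⁻¹ * (R.nn 1)⁻¹ := by group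
      _ = _ := by rw [T.ninv, T.minv]
  rwa [e] at h

/-- the opposite case, Borel part -/
lemma gd4B {b : Γ} (hb : b ∈ R.B) : Gd R (xx T c) ((ν R)⁻¹ * b) := by
  apply Gd.of_conj (w := R.nn 1) (R.N_le_Grp (R.nn_mem_N 1))
  have hn : R.nn 0 ∈ PP R 0 := Lv_PP (n_L T)
  set g : Γ := R.nn 0 * R.nn 1 * R.nn 0 * R.nn 1 * R.nn 0 * R.nn 1 with hg
  have hgN : g ∈ R.N := mul_mem (mul_mem (mul_mem (mul_mem (mul_mem (R.nn_mem_N 0) (R.nn_mem_N 1)) (R.nn_mem_N 0))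
    (R.nn_mem_N 1)) (R.nn_mem_N 0)) (R.nn_mem_N 1)
  have e : R.nn 1 * ((ν R)⁻¹ * b) * (R.nn 1)⁻¹ = g * b * (R.nn 1)⁻¹ := by
    rw [ν_inv T]
    have : R.nn 1 * ν R = g := by
      unfold ν
      rw [w4_inv T]
      unfold w4
      calc R.nn 1 * (R.nn 1 * R.nn 0 * R.nn 1 * R.nn 0 * (R.nn 1 * R.nn 0 * R.nn 1)) = (R.nn 1 * R.nn 1) * R.nn 0 * R.nn 1 * R.nn 0 *
            R.nn 1 * R.nn 0 * R.nn 1 := by group
        _ = _ := by rw [T.mm, one_mul]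
    rw [← this]; group
  rw [e]
  obtain ⟨b₁, h1, b₂, h2, e | e⟩ := bn' 1 hgN hb
  · rw [e]
    have e2 : b₁ * (g * (R.nn 1)⁻¹) * b₂ = (b₁ * R.nn 0) * (R.nn 1 * R.nn 0 * R.nn 1) * (R.nn 0 * b₂) := by rw [hg]; group
    rw [e2]
    exact gd2 hc (mul_mem (BB_PP h1) hn) (mul_mem hn (BB_PP h2))
  · rw [e]
    have e2 : b₁ * g * b₂ = (b₁ * R.nn 0) * (R.nn 1 * R.nn 0 * R.nn 1 * R.nn 0 * R.nn 1) * b₂ := by rw [hg]; group
    rw [e2]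
    exact gd3 hc (mul_mem (BB_PP h1) hn) (BB_PP h2)

/-- the opposite case -/
lemma gd4 {p : Γ} (hp : p ∈ PP R 0) : Gd R (xx T c) ((ν R)⁻¹ * p) := by
  obtain ⟨l, hl, u2, hu2, rfl⟩ := mem_PP hp
  -- conjugation by elements commuting with the reflection
  have hcj : ∀ g ∈ Lv R 0, ν R * g = g * ν R → ∀ l ∈ Lv R 0, (∀ u ∈ R.Ui 0, Gd R (xx T c) ((ν R)⁻¹ * ((g * l * g⁻¹) * u))) →
      ∀ u ∈ R.Ui 0, Gd R (xx T c) ((ν R)⁻¹ * (l * u)) := by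
    intro g hg hgν l hl h u hu
    apply Gd.of_conj (w := g) (Lv_Grp hg)
    have e1 : g * (ν R)⁻¹ = (ν R)⁻¹ * g := by
      calc g * (ν R)⁻¹ = (ν R)⁻¹ * (ν R * g) * (ν R)⁻¹ := by group
        _ = _ := by rw [hgν]; group
    have e : g * ((ν R)⁻¹ * (l * u)) * g⁻¹ = (ν R)⁻¹ * ((g * l * g⁻¹) * (g * u * g⁻¹)) := by
      calc g * ((ν R)⁻¹ * (l * u)) * g⁻¹ = (g * (ν R)⁻¹) * (l * u) * g⁻¹ := by group
        _ = _ := by rw [e1]; group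
    rw [e]
    exact h _ (of_norm (Lv_norm_Ui 0) hg hu)
  rcases Lv_form hl with ⟨a, ha, z, hz, rfl⟩ | ⟨a, ha, z, hz, b, hb, rfl⟩
  · exact gd4B hc (mul_mem (mul_mem (R.U_le_B (R.X_le_U (S16.pos_p 0) ha)) (R.H_le_B hz)) (R.U_le_B (R.Ui_le_U 0 hu2)))
  · obtain ⟨β, rfl⟩ := (T.mem_X b).1 hb
    refine hcj (T.X β) (X_L T β) (ν_X T β) _ hl ?_ u2 hu2
    clear hu2 hp hl u2
    intro u2 hu2
    have hba : T.X β * a ∈ R.X 0 := mul_mem (T.X_mem β) ha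
    obtain ⟨α, hα⟩ := (T.mem_X _).1 hba
    have e1 : T.X β * (a * z * R.nn 0 * T.X β) * (T.X β)⁻¹ = T.X α * z * R.nn 0 := by rw [hα]; group
    rw [e1]
    by_cases hα0 : α = 0
    · -- involution
      rw [hα0, T.X_zero, one_mul]
      obtain ⟨x, y, rfl⟩ := T.mem_H' hz
      obtain ⟨d, hd⟩ := T.sqr y
      obtain ⟨r, hr⟩ := T.sqr (x * d⁻¹)⁻¹
      have e2 : T.tt x y = T.h (x * d⁻¹) * T.s d := by
        have h3 : T.h (x * d⁻¹) = T.tt (x * d⁻¹) 1 := by unfold Rl.tt; rw [T.b_one, mul_one]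
        rw [h3]
        unfold Rl.s
        rw [T.tt_mul, hd, one_mul, inv_mul_cancel_right]
      rw [e2]
      refine hcj (T.h r) (h_L T r) (ν_h T r) _ (mul_mem (mul_mem (h_L T _) (H_Lv (T.s_H d))) (n_L T)) ?_ u2 hu2
      clear hu2 u2
      intro u2 hu2
      have e3 : T.h r * (T.h (x * d⁻¹) * T.s d * R.nn 0) * (T.h r)⁻¹ = T.s d * R.nn 0 := by
        have h4 := T.nh r⁻¹
        rw [inv_inv, ← T.h_inv] at h4
        have h5 : R.nn 0 * (T.h r)⁻¹ = T.h r * R.nn 0 := by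
          calc R.nn 0 * (T.h r)⁻¹ = (R.nn 0 * (T.h r)⁻¹ * (R.nn 0)⁻¹) * R.nn 0 := by group
            _ = _ := by rw [h4]
        have h6 : T.h r * T.h (x * d⁻¹) * T.h r = 1 := by
          rw [← T.h_mul, ← T.h_mul]
          have : r * (x * d⁻¹) * r = (r * r) * (x * d⁻¹) := by
            rw [mul_right_comm]
          rw [this, hr, inv_mul_cancel, T.h_one]
        have h7 := T.s_h d r
        calc T.h r * (T.h (x * d⁻¹) * T.s d * R.nn 0) * (T.h r)⁻¹ = T.h r * T.h (x * d⁻¹) * T.s d * (R.nn 0 * (T.h r)⁻¹) := by group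
          _ = T.h r * T.h (x * d⁻¹) * (T.s d * T.h r) * R.nn 0 := by rw [h5]; group
          _ = (T.h r * T.h (x * d⁻¹) * T.h r) * T.s d * R.nn 0 := by rw [h7]; group
          _ = _ := by rw [h6, one_mul]
      rw [e3]
      have hcomm : ν R * (R.nn 0 * T.X 1) = (R.nn 0 * T.X 1) * ν R :=
        (show Commute (ν R) (R.nn 0) from ν_n T).mul_right (ν_X T 1)
      refine hcj (R.nn 0 * T.X 1) (mul_mem (n_L T) (X_L T 1)) hcomm _ (mul_mem (H_Lv (T.s_H d)) (n_L T)) ?_ u2 hu2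
      clear hu2 u2
      intro u2 hu2
      have e4 : R.nn 0 * T.X 1 * (T.s d * R.nn 0) * (R.nn 0 * T.X 1)⁻¹ = T.s d * T.X 1 := by
        have h8 := s_L T d (mul_mem (n_L T) (X_L T 1))
        have h9 : R.nn 0 * T.X 1 * R.nn 0 * (R.nn 0 * T.X 1)⁻¹ = T.X 1 := by
          rw [mul_inv_rev, T.X_inv, T.ninv]
          calc R.nn 0 * T.X 1 * R.nn 0 * (T.X 1 * R.nn 0) = (R.nn 0 * T.X 1 * R.nn 0) * T.X 1 * R.nn 0 := by group
            _ = T.X 1 * R.nn 0 * (T.X 1 * T.X 1) * R.nn 0 := by rw [braid]; group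
            _ = T.X 1 * (R.nn 0 * R.nn 0) := by rw [XX]; group
            _ = _ := by rw [T.nn, mul_one]
        calc R.nn 0 * T.X 1 * (T.s d * R.nn 0) * (R.nn 0 * T.X 1)⁻¹ = (R.nn 0 * T.X 1 * T.s d) * R.nn 0 * (R.nn 0 * T.X 1)⁻¹ := by group
          _ = T.s d * (R.nn 0 * T.X 1 * R.nn 0 * (R.nn 0 * T.X 1)⁻¹) := by rw [← h8]; group
          _ = _ := by rw [h9]
      rw [e4]
      exact gd4B hc (mul_mem (mul_mem (R.H_le_B (T.s_H d)) (R.U_le_B (R.X_le_U (S16.pos_p 0) (T.X_mem 1))))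
        (R.U_le_B (R.Ui_le_U 0 hu2)))
    · obtain ⟨u, hu, v, hv, u', hu', e, eq⟩ := gs4 T z hz
      have hk : T.h e * z⁻¹ ∈ R.H := mul_mem (h_H T e) (inv_mem hz)
      obtain ⟨α', hα', hα2⟩ := kconj (T := T) hk α
      rw [← mul_assoc]
      refine fin eq hu hv hu' (mul_mem (mul_mem (X_L T α) (H_Lv hz)) (n_L T)) hu2 ?_
      have e5 : T.h e * z⁻¹ * (T.X α * z * R.nn 0) = T.X α' * T.h e * R.nn 0 := by
        calc T.h e * z⁻¹ * (T.X α * z * R.nn 0) = (T.h e * z⁻¹ * T.X α * (T.h e * z⁻¹)⁻¹) * T.h e * R.nn 0 := by group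
          _ = _ := by rw [hα']
      rw [e5]
      exact Pr_tor hc (Pr_tr hc (mul_ne_zero (Units.ne_zero _) (fun h => hα0 (hα2 h))))

omit [Finite Γ] hc in
lemma words : ∀ k : Fin 16, ∃ p ∈ [([] : List (Fin 2)), [0]], ∃ q ∈ [([] : List (Fin 2)), [0]],
    ∃ w ∈ [([] : List (Fin 2)), [1], [1, 0, 1], [1, 0, 1, 0, 1], [1, 0, 1, 0, 1, 0, 1]], word16 k = p ++ w ++ q := by
  decide +kernel

/-- the covering theorem for elements outside the parabolic subgroup -/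
theorem main {g : Γ} (hg : g ∈ R.Grp) (hgP : g ∉ PP R 0) : Gd R (xx T c) g := by
  obtain ⟨b, hb, m, hm, b', hb', rfl⟩ := RGrp.exists_bnb hg
  obtain ⟨σ, hσ⟩ := RGrp.exists_act hm
  obtain ⟨k, rfl⟩ := mem_W16 hσ.mem
  have h1 : (R.nd (word16 k))⁻¹ * m ∈ R.H := RGrp.inv_mul_mem_H (RGrp.nd_mem_N _) hm (RGrp.act_nd _) hσ
  obtain ⟨p, hp, q, hq, w, hw, e⟩ := words k
  have hn : R.nn 0 ∈ PP R 0 := Lv_PP (n_L T)
  have hpq : ∀ p ∈ [([] : List (Fin 2)), [0]], R.nd p ∈ PP R 0 := by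
    intro p hp
    simp only [List.mem_cons, List.not_mem_nil, or_false] at hp
    rcases hp with rfl | rfl
    · exact one_mem _
    · simpa using hn
  have e1 : b * m * b' = (b * R.nd p) * R.nd w * (R.nd q * ((R.nd (word16 k))⁻¹ * m) * b') := by
    rw [e]
    simp only [RGrp.nd_append]
    group
  have hP1 : b * R.nd p ∈ PP R 0 := mul_mem (BB_PP hb) (hpq p hp)
  have hP2 : R.nd q * ((R.nd (word16 k))⁻¹ * m) * b' ∈ PP R 0 := mul_mem (mul_mem (hpq q hq) (H_PP h1)) (BB_PP hb')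
  rw [e1] at hgP ⊢
  simp only [List.mem_cons, List.not_mem_nil, or_false] at hw
  rcases hw with rfl | rfl | rfl | rfl | rfl
  · exfalso
    apply hgP
    rw [RGrp.nd_nil, mul_one]
    exact mul_mem hP1 hP2
  · have e2 : R.nd [1] = R.nn 1 := by simp
    rw [e2]
    exact gd1 hc hP1 hP2
  · have e2 : R.nd [1, 0, 1] = R.nn 1 * R.nn 0 * R.nn 1 := by simp [mul_assoc]
    rw [e2]
    exact gd2 hc hP1 hP2
  · have e2 : R.nd [1, 0, 1, 0, 1] = R.nn 1 * R.nn 0 * R.nn 1 * R.nn 0 * R.nn 1 := by simp [mul_assoc]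
    rw [e2]
    exact gd3 hc hP1 hP2
  · have e2 : R.nd [1, 0, 1, 0, 1, 0, 1] = (ν R)⁻¹ := by
      rw [ν_inv T]
      unfold ν
      rw [w4_inv T]
      unfold w4
      simp [mul_assoc]
    rw [e2]
    exact dbl (fun p hp => gd4 hc hp) hP1 hP2

end

end Cfsg.Agent.H51.TrF
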