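import Cfsg.Agent.H51.TrF

set_option autoImplicit false
set_option maxRecDepth 100000

/-!
The relations hold in the large Ree groups.
-/

namespace Cfsg.Agent.H51.TrG

open Cfsg.Lie Cfsg.Agent.Chev Cfsg.Agent.ChevGrp Cfsg.Agent.ChevGrp.DData Cfsg.Agent.ChevWeyl Cfsg.Agent.ChevTw
  Cfsg.Agent.Tw3 Cfsg.Agent.ChevGrp.RGrp Cfsg.Agent.Tw4 Cfsg.Agent.H51.TrA Cfsg.Agent.H51.TrB

variable {K : Type*} [Field K] (Z : Sg K)

theorem gen_comm {G : Type*} [Group G] {n : ℕ} {X : Fin n → Subgroup G} {P Q : Fin n → Prop}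
    (h : ∀ r, P r → ∀ s, Q s → ∀ x ∈ X r, ∀ y ∈ X s, x * y = y * x) :
    ∀ x ∈ gen X P, ∀ y ∈ gen X Q, x * y = y * x := by
  have h1 : ∀ s, Q s → ∀ y ∈ X s, ∀ x ∈ gen X P, x * y = y * x := by
    intro s hs y hy x hx
    have : gen X P ≤ Subgroup.centralizer {y} := by
      rw [gen_le]
      intro r hr z hz
      rw [Subgroup.mem_centralizer_singleton_iff]
      exact h r hr s hs z hz y hy
    exact Subgroup.mem_centralizer_singleton_iff.1 (this hx)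
  intro x hx y hy
  have : gen X Q ≤ Subgroup.centralizer {x} := by
    rw [gen_le]
    intro s hs z hz
    rw [Subgroup.mem_centralizer_singleton_iff]
    exact (h1 s hs z hz x hx).symm
  exact (show y * x = x * y from Subgroup.mem_centralizer_singleton_iff.1 (this hy)).symm

/-- tables -/
theorem tab0 : ∀ s < 48, chevF4.cartan 0 (jwF4 0 s) = - chevF4.cartan 0 s ∧ chevF4.cartan 3 (jwF4 0 s) = - chevF4.cartan 3 s ∧
    chevF4.cartan 1 (jwF4 0 s) = chevF4.cartan 1 s + chevF4.cartan 0 s ∧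
    chevF4.cartan 2 (jwF4 0 s) = chevF4.cartan 2 s + chevF4.cartan 3 s ∧ chevF4.cartan 1 (jwF4 1 s) = - chevF4.cartan 1 s ∧
    chevF4.cartan 2 (jwF4 1 s) = - chevF4.cartan 2 s := by decide +kernel

theorem tab1 : ∀ s < 48, (jwF4 0 s < 48 ∧ jwF4 0 (jwF4 0 s) = s) ∧ (jwF4 1 s < 48 ∧ jwF4 1 (jwF4 1 s) = s) := by decide +kernel

theorem tab2 : jwF4 0 33 = 14 ∧ jwF4 0 24 = 23 ∧ jwF4 0 14 = 33 ∧ jwF4 0 23 = 24 := by decide +kernel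

theorem tab3 : chevF4.cartan 0 33 = 2 ∧ chevF4.cartan 1 33 = -1 ∧ chevF4.cartan 2 33 = 0 ∧ chevF4.cartan 3 33 = 0 ∧
    chevF4.cartan 0 28 = -1 ∧ chevF4.cartan 1 28 = 0 ∧ chevF4.cartan 2 28 = 1 ∧ chevF4.cartan 3 28 = -1 := by decide +kernel

theorem jw_lt' (j : Fin 2) {s : ℕ} (hs : s < 48) : jwF4 j s < 48 ∧ jwF4 j (jwF4 j s) = s := by
  rcases Tw4.j_cases j with rfl | rfl
  · exact (tab1 s hs).1
  · exact (tab1 s hs).2

include Z in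
theorem nj_x (j : Fin 2) (s : Fin chevF4.nroots) (t : K) :
    (RF K).nd (LF j) * xF s t = xF (jwF4 j s) t * (RF K).nd (LF j) := by
  rw [nd_x _ _ _ Z.two, wdF_val]

include Z in
theorem nj_x' (j : Fin 2) (s : Fin chevF4.nroots) (t : K) :
    (RF K).nd (LF j) * xF s t * ((RF K).nd (LF j))⁻¹ = xF (jwF4 j s) t := by
  rw [nj_x Z]; group

include Z in
theorem nj_x'' (j : Fin 2) (s : Fin chevF4.nroots) (t : K) :
    ((RF K).nd (LF j))⁻¹ * xF s t * (RF K).nd (LF j) = xF (jwF4 j s) t := by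
  obtain ⟨h1, h2⟩ := jw_lt' j s.2
  have h3 := nj_x Z j ⟨jwF4 j s, h1⟩ t
  have h4 : jwF4 j ((⟨jwF4 j s, h1⟩ : Fin chevF4.nroots) : ℕ) = s := h2
  rw [h4] at h3
  rw [mul_assoc, ← h3]; group

include Z in
/-- conjugates of torus elements -/
theorem conj_ext (j : Fin 2) {g g' : ↥(chevF4.group K)} (hg : g ∈ (RF K).H) (hg' : g' ∈ (RF K).H) (χ χ' : ℕ → Kˣ)
    (h : ∀ s : Fin chevF4.nroots, ∀ t : K, g * xF s t * g⁻¹ = xF s ((χ s : K) * t))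
    (h' : ∀ s : Fin chevF4.nroots, ∀ t : K, g' * xF s t * g'⁻¹ = xF s ((χ' s : K) * t))
    (hχ : ∀ s < 48, χ (jwF4 j s) = χ' s) : (RF K).nd (LF j) * g * ((RF K).nd (LF j))⁻¹ = g' := by
  apply (AF K).H_ext (N_conj_H (nd_mem_N _) hg) hg'
  intro s t
  change (RF K).nd (LF j) * g * ((RF K).nd (LF j))⁻¹ * xF s t * ((RF K).nd (LF j) * g * ((RF K).nd (LF j))⁻¹)⁻¹ =
    g' * xF s t * g'⁻¹
  obtain ⟨h1, h2⟩ := jw_lt' j s.2
  have h4 : (RF K).nd (LF j) * g * ((RF K).nd (LF j))⁻¹ * xF s t * ((RF K).nd (LF j) * g * ((RF K).nd (LF j))⁻¹)⁻¹ =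
      (RF K).nd (LF j) * (g * (((RF K).nd (LF j))⁻¹ * xF s t * (RF K).nd (LF j)) * g⁻¹) * ((RF K).nd (LF j))⁻¹ := by group
  have h5 := h ⟨jwF4 j s, h1⟩ t
  have h6 := nj_x' Z j ⟨jwF4 j s, h1⟩ ((χ (jwF4 j s) : K) * t)
  have h7 : jwF4 j ((⟨jwF4 j s, h1⟩ : Fin chevF4.nroots) : ℕ) = s := h2
  rw [h7] at h6
  rw [h4, nj_x'' Z, h5, h6, h', hχ s s.2]

theorem nh0 (c : Kˣ) : (RF K).nd (LF 0) * hb0 Z c * ((RF K).nd (LF 0))⁻¹ = hb0 Z c⁻¹ := by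
  refine conj_ext Z 0 (hb0_H Z c) (hb0_H Z _) (ch0 Z c) (ch0 Z c⁻¹) (hb0_conj Z c) (hb0_conj Z _) ?_
  intro s hs
  obtain ⟨e1, e2, -⟩ := tab0 s hs
  have e1' : chevF4.cartan 0 (jwF4 ((0 : Fin 2) : ℕ) s) = - chevF4.cartan 0 s := e1
  have e2' : chevF4.cartan 3 (jwF4 ((0 : Fin 2) : ℕ) s) = - chevF4.cartan 3 s := e2
  unfold ch0
  rw [e1', e2', map_inv, inv_zpow', inv_zpow']

theorem mb0 (d : Kˣ) : (RF K).nd (LF 1) * hb1 Z d * ((RF K).nd (LF 1))⁻¹ = hb1 Z d⁻¹ := by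
  refine conj_ext Z 1 (hb1_H Z d) (hb1_H Z _) (ch1 Z d) (ch1 Z d⁻¹) (hb1_conj Z d) (hb1_conj Z _) ?_
  intro s hs
  obtain ⟨-, -, -, -, e1, e2⟩ := tab0 s hs
  have e1' : chevF4.cartan 1 (jwF4 ((1 : Fin 2) : ℕ) s) = - chevF4.cartan 1 s := e1
  have e2' : chevF4.cartan 2 (jwF4 ((1 : Fin 2) : ℕ) s) = - chevF4.cartan 2 s := e2
  unfold ch1
  rw [e1', e2', map_inv, inv_zpow', inv_zpow']

theorem hbb_conj (c d : Kˣ) (s : Fin chevF4.nroots) (t : K) :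
    hb0 Z c * hb1 Z d * xF s t * (hb0 Z c * hb1 Z d)⁻¹ = xF s (((ch0 Z c s * ch1 Z d s : Kˣ) : K) * t) := by
  rw [Tw4.conj_mul, hb1_conj, hb0_conj, Units.val_mul, mul_assoc]

theorem nb0 (d : Kˣ) : (RF K).nd (LF 0) * hb1 Z d * ((RF K).nd (LF 0))⁻¹ = hb0 Z d * hb1 Z d := by
  refine conj_ext Z 0 (hb1_H Z d) (mul_mem (hb0_H Z _) (hb1_H Z _)) (ch1 Z d) (fun s => ch0 Z d s * ch1 Z d s) (hb1_conj Z d)
    (hbb_conj Z d d) ?_
  intro s hs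
  obtain ⟨-, -, e1, e2, -⟩ := tab0 s hs
  have e1' : chevF4.cartan 1 (jwF4 ((0 : Fin 2) : ℕ) s) = chevF4.cartan 1 s + chevF4.cartan 0 s := e1
  have e2' : chevF4.cartan 2 (jwF4 ((0 : Fin 2) : ℕ) s) = chevF4.cartan 2 s + chevF4.cartan 3 s := e2
  unfold ch1 ch0
  rw [e1', e2', zpow_add, zpow_add]
  simp only [mul_comm, mul_left_comm, mul_assoc]

include Z in
theorem nsq (j : Fin 2) : (RF K).nd (LF j) * (RF K).nd (LF j) = 1 := by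
  have hN : (RF K).nd (LF j) * (RF K).nd (LF j) ∈ (RF K).N := mul_mem (nd_mem_N _) (nd_mem_N _)
  have ha : (RF K).Act ((RF K).nd (LF j) * (RF K).nd (LF j)) (dF4.rp.wsys.wd (LF j) * dF4.rp.wsys.wd (LF j)) :=
    (act_nd (R := RF K) (LF j)).mul (act_nd (LF j))
  have h1 : dF4.rp.wsys.wd (LF j) * dF4.rp.wsys.wd (LF j) = 1 := by
    apply Equiv.ext
    intro r
    apply Fin.ext
    rw [Equiv.Perm.mul_apply, wdF_val, wdF_val]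
    exact (jw_lt' j r.2).2
  rw [h1] at ha
  have hH : (RF K).nd (LF j) * (RF K).nd (LF j) ∈ (RF K).H := mem_H_of_act_one hN ha
  apply (AF K).H_ext hH (one_mem _)
  intro s t
  change (RF K).nd (LF j) * (RF K).nd (LF j) * xF s t * ((RF K).nd (LF j) * (RF K).nd (LF j))⁻¹ = 1 * xF s t * 1⁻¹
  obtain ⟨h1, h2⟩ := jw_lt' j s.2
  have h3 := nj_x' Z j s t
  have h4 := nj_x' Z j ⟨jwF4 j s, h1⟩ t
  have h7 : jwF4 j ((⟨jwF4 j s, h1⟩ : Fin chevF4.nroots) : ℕ) = s := h2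
  rw [h7] at h4
  have h5 : (RF K).nd (LF j) * (RF K).nd (LF j) * xF s t * ((RF K).nd (LF j) * (RF K).nd (LF j))⁻¹ =
    (RF K).nd (LF j) * ((RF K).nd (LF j) * xF s t * ((RF K).nd (LF j))⁻¹) * ((RF K).nd (LF j))⁻¹ := by group
  rw [h5, h3]
  have h6 : (RF K).nd (LF j) * xF (jwF4 j s) t * ((RF K).nd (LF j))⁻¹ = xF s t := h4
  rw [h6, one_mul, inv_one, mul_one]

theorem eP_add (t u : K) : eP Z (t + u) = eP Z t * eP Z u := by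
  unfold eP
  rw [map_add, xF_add (by norm_num), xF_add (by norm_num)]
  calc xF 33 (Z.θ t) * xF 33 (Z.θ u) * (xF 24 t * xF 24 u)
      = xF 33 (Z.θ t) * (xF 33 (Z.θ u) * xF 24 t) * xF 24 u := by group
    _ = _ := by rw [← c33_24]; group

theorem eP_sq (t : K) : eP Z t * eP Z t = 1 := by
  rw [← eP_add]
  have : t + t = 0 := by linear_combination t * Z.two
  rw [this]
  unfold eP
  rw [map_zero, xF_zero, xF_zero, one_mul]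

theorem eP_inj {t : K} (h : eP Z t = 1) : t = 0 := (PP_one _ _ h).2

theorem n_eP (t : K) : (RF K).nd (LF 0) * eP Z t * ((RF K).nd (LF 0))⁻¹ = eN Z t := by
  obtain ⟨e1, e2, -⟩ := tab2
  have h1 := nj_x' Z 0 ⟨33, by decide⟩ (Z.θ t)
  have h2 := nj_x' Z 0 ⟨24, by decide⟩ t
  have h3 : (RF K).nd (LF 0) * xF 33 (Z.θ t) * ((RF K).nd (LF 0))⁻¹ = xF 14 (Z.θ t) := by
    rw [← e1]; exact h1
  have h4 : (RF K).nd (LF 0) * xF 24 t * ((RF K).nd (LF 0))⁻¹ = xF 23 t := by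
    rw [← e2]; exact h2
  unfold eP eN
  rw [← h3, ← h4]; group

theorem hX0 (c : Kˣ) (u : K) : hb0 Z c * eP Z u * (hb0 Z c)⁻¹ = eP Z (((c * c : Kˣ) : K) * u) := by
  have h1 := hb0_conj Z c ⟨33, by decide⟩ (Z.θ u)
  have h2 := hb0_conj Z c ⟨24, by decide⟩ u
  obtain ⟨a0, a1, a2, a3, -⟩ := cart_vals
  obtain ⟨b0, b1, b2, b3, -⟩ := tab3
  unfold ch0 at h1 h2
  simp only at h1 h2
  rw [b0, b3] at h1
  rw [a0, a3] at h2
  unfold eP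
  have h3 : hb0 Z c * (xF 33 (Z.θ u) * xF 24 u) * (hb0 Z c)⁻¹ =
    (hb0 Z c * xF 33 (Z.θ u) * (hb0 Z c)⁻¹) * (hb0 Z c * xF 24 u * (hb0 Z c)⁻¹) := by group
  rw [h3, h1, h2, zpow_zero, zpow_zero, mul_one, one_mul, zpow_two, zpow_two]
  congr 2
  rw [map_mul]
  congr 1
  rw [Units.val_mul, Units.val_mul, map_mul]; rfl

theorem bX0 (d : Kˣ) (u : K) : hb1 Z d * eP Z u * (hb1 Z d)⁻¹ = eP Z (((d⁻¹ : Kˣ) : K) * u) := by
  have h1 := hb1_conj Z d ⟨33, by decide⟩ (Z.θ u)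
  have h2 := hb1_conj Z d ⟨24, by decide⟩ u
  obtain ⟨a0, a1, a2, a3, -⟩ := cart_vals
  obtain ⟨b0, b1, b2, b3, -⟩ := tab3
  unfold ch1 at h1 h2
  simp only at h1 h2
  rw [b1, b2] at h1
  rw [a1, a2] at h2
  unfold eP
  have h3 : hb1 Z d * (xF 33 (Z.θ u) * xF 24 u) * (hb1 Z d)⁻¹ =
    (hb1 Z d * xF 33 (Z.θ u) * (hb1 Z d)⁻¹) * (hb1 Z d * xF 24 u * (hb1 Z d)⁻¹) := by group
  rw [h3, h1, h2, zpow_zero, mul_one, zpow_zero, one_mul, zpow_neg_one, zpow_neg_one]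
  congr 2
  rw [map_mul]
  congr 1

theorem nX0 (c : Kˣ) : (RF K).nd (LF 0) * eP Z ((c⁻¹ : Kˣ) : K) * (RF K).nd (LF 0) =
    eP Z c * hb0 Z c * (RF K).nd (LF 0) * eP Z c := by
  have hn := nsq Z 0
  have hinv : ((RF K).nd (LF 0))⁻¹ = (RF K).nd (LF 0) := inv_eq_of_mul_eq_one_left hn
  have h1 := n_eP Z ((c⁻¹ : Kˣ) : K)
  rw [hinv] at h1
  rw [h1, hb0_eq Z c, ← nd0_eq Z]
  have e1 : (c : K)⁻¹ = ((c⁻¹ : Kˣ) : K) := (Units.val_inv_eq_inv_val c).symm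
  rw [e1]
  calc eN Z ((c⁻¹ : Kˣ) : K) = (eP Z c * eP Z c) * eN Z ((c⁻¹ : Kˣ) : K) * (eP Z c * eP Z c) := by rw [eP_sq]; group
    _ = eP Z c * (eP Z c * eN Z ((c⁻¹ : Kˣ) : K) * eP Z c) * 1 * eP Z c := by group
    _ = eP Z c * (eP Z c * eN Z ((c⁻¹ : Kˣ) : K) * eP Z c) * ((RF K).nd (LF 0) * (RF K).nd (LF 0)) * eP Z c := by rw [hn]
    _ = _ := by group

end Cfsg.Agent.H51.TrG
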