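import Cfsg.Agent.H51.TrG

set_option autoImplicit false
set_option maxRecDepth 100000

/-!
The relations hold in the large Ree groups, part 2.
-/

namespace Cfsg.Agent.H51.TrH

open Cfsg.Lie Cfsg.Agent.Chev Cfsg.Agent.ChevGrp Cfsg.Agent.ChevGrp.DData Cfsg.Agent.ChevWeyl Cfsg.Agent.ChevTw
  Cfsg.Agent.Tw3 Cfsg.Agent.ChevGrp.RGrp Cfsg.Agent.Tw4 Cfsg.Agent.H51.TrA Cfsg.Agent.H51.TrB Cfsg.Agent.H51.TrG

variable {K : Type*} [Field K] (Z : Sg K)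

theorem cls4 : ∀ r < 48, (cF4 r = 4 ↔ r = 39 ∨ r = 45) := by decide +kernel

theorem cm_tab : chevF4.commTerms 33 39 = [(43, 2, 1, 1)] ∧ chevF4.commTerms 33 45 = [] ∧ chevF4.commTerms 24 39 = [] ∧
    chevF4.commTerms 24 45 = [] := by decide +kernel

include Z in
theorem comm04 : ∀ x ∈ gen (RF K).X (fun r => clsF r = (0 : Fin 16)), ∀ y ∈ gen (RF K).X (fun r => clsF r = (4 : Fin 16)),
    x * y = y * x := by
  apply gen_comm
  intro r hr s hs x hx y hy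
  obtain ⟨t, rfl⟩ := (XF_eq r).1 hx
  obtain ⟨u, rfl⟩ := (XF_eq s).1 hy
  have hr' : cF4 r = 0 := congrArg Fin.val hr
  have hs' : cF4 s = 4 := congrArg Fin.val hs
  rw [cF4_p0 r r.2] at hr'
  rw [cls4 s s.2] at hs'
  obtain ⟨c1, c2, c3, c4⟩ := cm_tab
  rcases hr' with h | h <;> rcases hs' with h' | h' <;> rw [h, h']
  · exact (xF_c1 Z.two (r := 33) (s := 39) (by norm_num) (by norm_num) (by norm_num) (by decide +kernel) c1 (Or.inl rfl) t u).symm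
  · exact (xF_c0 (r := 33) (s := 45) (by norm_num) (by norm_num) (by norm_num) (by decide +kernel) c2 t u).symm
  · exact (xF_c0 (r := 24) (s := 39) (by norm_num) (by norm_num) (by norm_num) (by decide +kernel) c3 t u).symm
  · exact (xF_c0 (r := 24) (s := 45) (by norm_num) (by norm_num) (by norm_num) (by decide +kernel) c4 t u).symm

/-- the endomorphism -/
def ψ : Kˣ →* Kˣ := (powMonoidHom 2).comp Z.θu

theorem ψ_val (c : Kˣ) : ψ Z c = Z.θu c ^ 2 := rfl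

theorem ψψ (c : Kˣ) : ψ Z (ψ Z c) = c * c := by
  rw [ψ_val, ψ_val, map_pow, Z.θu_sq, sq]

include Z in
theorem sqr (c : Kˣ) : ∃ d : Kˣ, d * d = c := ⟨Z.θu (Z.θu c), by rw [← sq, Z.θu_sq]⟩

theorem chi25 (x y : Kˣ) : ch0 Z x 25 * ch1 Z y 25 = x⁻¹ * (ψ Z y)⁻¹ * (y * y) := by
  obtain ⟨-, -, -, -, b0, b1, b2, b3⟩ := cart_vals
  unfold ch0 ch1
  rw [b0, b1, b2, b3, ψ_val, zpow_zero, one_mul, zpow_neg_one, zpow_neg, zpow_two, zpow_two, sq, mul_assoc]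

theorem chi28 (x y : Kˣ) : ch0 Z x 28 * ch1 Z y 28 = (Z.θu x)⁻¹ * x⁻¹ * y := by
  obtain ⟨-, -, -, -, b0, b1, b2, b3⟩ := tab3
  unfold ch0 ch1
  rw [b0, b1, b2, b3, zpow_zero, one_mul, zpow_neg_one, zpow_neg_one, zpow_one]

theorem chi28' (x y : Kˣ) (c : Kˣ) (hc : c = x⁻¹ * (ψ Z y)⁻¹ * (y * y)) : (Z.θu x)⁻¹ * x⁻¹ * y = Z.θu c * c := by
  subst hc
  rw [ψ_val, map_mul, map_mul, map_inv, map_inv, map_pow, Z.θu_sq, map_mul, sq]
  calc (Z.θu x)⁻¹ * x⁻¹ * y = (Z.θu x)⁻¹ * x⁻¹ * y * ((Z.θu y * Z.θu y) * (Z.θu y * Z.θu y)⁻¹) * (y * y⁻¹) := by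
        rw [mul_inv_cancel, mul_inv_cancel, mul_one, mul_one]
    _ = _ := by simp only [mul_comm, mul_left_comm, mul_assoc]

theorem unit_exp {c : Kˣ} (h : Z.θu c * c = 1) : c = 1 := by
  have h1 : Z.θu (Z.θu c) * Z.θu c = 1 := by rw [← map_mul, h, map_one]
  have h2 : c * Z.θu c * Z.θu c = 1 := by
    have h3 : (Z.θu (Z.θu c) * Z.θu c) ^ 2 = 1 := by rw [h1, one_pow]
    rw [mul_pow, Z.θu_sq, sq] at h3
    rw [mul_assoc]; exact h3
  rw [mul_comm c, h, one_mul] at h2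
  rw [h2, one_mul] at h
  exact h

theorem hb_W (x y : Kˣ) (t1 t2 t3 t4 : K) : hb0 Z x * hb1 Z y * (quadP Z.two).W t1 t2 t3 t4 * (hb0 Z x * hb1 Z y)⁻¹ =
    (quadP Z.two).W (((ch0 Z x 27 * ch1 Z y 27 : Kˣ) : K) * t1) (((ch0 Z x 25 * ch1 Z y 25 : Kˣ) : K) * t2)
      (((ch0 Z x 28 * ch1 Z y 28 : Kˣ) : K) * t3) (((ch0 Z x 30 * ch1 Z y 30 : Kˣ) : K) * t4) := by
  have h1 := hbb_conj Z x y ⟨27, by decide⟩ t1
  have h2 := hbb_conj Z x y ⟨25, by decide⟩ t2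
  have h3 := hbb_conj Z x y ⟨28, by decide⟩ t3
  have h4 := hbb_conj Z x y ⟨30, by decide⟩ t4
  simp only at h1 h2 h3 h4
  rw [Quad.W_def, Quad.W_def, ← h1, ← h2, ← h3, ← h4]
  group

theorem ct7 (x y : Kˣ) (h : x⁻¹ * (ψ Z y)⁻¹ * (y * y) ≠ 1) : Ct (twF Z).tw (hb0 Z x * hb1 Z y) 7 := by
  intro g hg hc
  obtain ⟨t, u, rfl⟩ := (mem_X1 Z g).1 hg
  have h1 : hb0 Z x * hb1 Z y * fP Z t u * (hb0 Z x * hb1 Z y)⁻¹ = fP Z t u := by rw [hc]; group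
  unfold fP Quad.Fx at h1
  rw [hb_W] at h1
  obtain ⟨e1, e2, e3, e4⟩ := (quadP Z.two).inj_of (WP_one Z.two) _ _ _ _ _ _ _ _ h1
  set c := x⁻¹ * (ψ Z y)⁻¹ * (y * y) with hcd
  rw [chi25, ← hcd] at e2
  have ht : t = 0 := by
    by_contra h0
    apply h
    apply Units.ext
    exact mul_right_cancel₀ h0 (by rw [e2, Units.val_one, one_mul])
  subst ht
  rw [map_zero, zero_mul, zero_add, chi28, chi28' Z x y c hcd] at e3
  have hu : u = 0 := by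
    by_contra h0
    apply h
    apply unit_exp Z
    apply Units.ext
    exact mul_right_cancel₀ h0 (by rw [e3, Units.val_one, one_mul])
  subst hu
  unfold fP Quad.Fx
  rw [map_zero, zero_mul, zero_add]
  have : (0 : K) ^ 2 = 0 := by norm_num
  rw [this]
  exact (quadP Z.two).W_zero

theorem mem_tH [Finite K] (g : ↥(chevF4.group K)) : g ∈ (twF Z).tw.H ↔ ∃ c d, g = hb0 Z c * hb1 Z d := by
  have hm : ∀ c d, hb0 Z c * hb1 Z d ∈ (twF Z).tw.H := by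
    intro c d
    rw [TwData.tw_H]
    exact ⟨mul_mem (hb0_H Z c) (hb1_H Z d), mul_mem (hb0_G1 Z c) (hb1_G1 Z d)⟩
  constructor
  · intro hg
    have hcard := card_H1 Z
    have hpos : 0 < Nat.card Kˣ := Nat.card_pos
    have hfin : Finite (twF Z).tw.H := Nat.finite_of_card_ne_zero (by rw [hcard]; positivity)
    have hinj : Function.Injective (fun p : Kˣ × Kˣ => (⟨hb0 Z p.1 * hb1 Z p.2, hm p.1 p.2⟩ : (twF Z).tw.H)) := by
      rintro ⟨c, d⟩ ⟨c', d'⟩ e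
      obtain ⟨h1, h2⟩ := tor_inj Z (congrArg Subtype.val e)
      exact Prod.ext h1 h2
    have hbij := hinj.bijective_of_nat_card_le (by rw [hcard, Nat.card_prod, sq])
    obtain ⟨⟨c, d⟩, e⟩ := hbij.2 ⟨g, hg⟩
    exact ⟨c, d, (congrArg Subtype.val e).symm⟩
  · rintro ⟨c, d, rfl⟩
    exact hm c d

/-- the relations -/
noncomputable def rel [Finite K] : Rl K (twF Z).tw where
  two := by
    have := Z.two
    linear_combination this
  ψ := ψ Z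
  ψψ := ψψ Z
  sqr := sqr Z
  X := eP Z
  h := hb0 Z
  b := hb1 Z
  X_add := TrG.eP_add Z
  mem_X := fun g => mem_X0 Z g
  X_inj := fun t h => eP_inj Z h
  h_mul := hb0_mul Z
  b_mul := hb1_mul Z
  hb := hb_comm Z
  mem_H := mem_tH Z
  hX := hX0 Z
  bX := bX0 Z
  nn := nsq Z 0
  mm := nsq Z 1
  nh := nh0 Z
  nb := nb0 Z
  mh := fun c => by
    have h1 := nj1_hb0 Z c
    have h2 : Z.θu c ^ 2 * c ^ 2 = c * c * ψ Z c := by rw [ψ_val, mul_comm, sq c]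
    rw [h2] at h1
    exact h1
  mb := mb0 Z
  nX := nX0 Z
  cm := fun x hx y hy => comm04 Z x hx.1 y hy.1
  ct := ct7 Z

end Cfsg.Agent.H51.TrH
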