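import Cfsg.Agent.H51.TrH

set_option autoImplicit false
set_option maxRecDepth 100000

/-!
Products of two conjugates in the large Ree groups.
-/

namespace Cfsg.Agent.H51.TrI

open Cfsg.Lie Cfsg.Agent.Chev Cfsg.Agent.ChevGrp Cfsg.Agent.ChevGrp.DData Cfsg.Agent.ChevWeyl Cfsg.Agent.ChevTw
  Cfsg.Agent.Tw3 Cfsg.Agent.ChevGrp.RGrp Cfsg.Agent.Tw4 Cfsg.Agent.H51.TrA Cfsg.Agent.H51.TrB Cfsg.Agent.H51.TrC
  Cfsg.Agent.H51.TrD Cfsg.Agent.H51.TrF

section gen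

variable {Γ : Type*} [Group Γ] {R : RGrp S16 Γ}

lemma w_tab : w16 1 (0 : Fin 16) ≠ 0 ∧ w16 0 (0 : Fin 16) ≠ w16 1 (0 : Fin 16) := by decide +kernel

lemma nn1_notMem : R.nn 1 ∉ PP R 0 := by
  intro h
  obtain ⟨l, hl, u, hu, e⟩ := mem_PP h
  have huB : u ∈ R.B := R.U_le_B (R.Ui_le_U 0 hu)
  have haB : ∀ a ∈ R.X (S16.p 0), a ∈ R.B := fun a ha => R.U_le_B (R.X_le_U (S16.pos_p 0) ha)
  rcases Lv_form hl with ⟨a, ha, t, ht, rfl⟩ | ⟨a, ha, t, ht, b, hb, rfl⟩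
  · have h0 : R.Act (1 : Γ) 1 := R.act_H (one_mem _)
    have h1 : (1 : Equiv.Perm (Fin 16)) = S16.w 1 :=
      act_eq_of_bnb (R := R) (g := 1) (g' := R.nn 1) h0 (one_mem _) (act_nn 1) (R.nn_mem_N 1) (b := a * t) (b' := u)
        (mul_mem (haB a ha) (R.H_le_B ht)) huB (by rw [e, mul_one])
    have h2 := congrArg (fun w : Equiv.Perm (Fin 16) => w 0) h1
    exact w_tab.1 h2.symm
  · have h1 : (S16.w 0 : Equiv.Perm (Fin 16)) = S16.w 1 :=
      act_eq_of_bnb (R := R) (g := R.nn 0) (g' := R.nn 1) (act_nn 0) (R.nn_mem_N 0) (act_nn 1) (R.nn_mem_N 1) (b := a * t)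
        (b' := b * u) (mul_mem (haB a ha) (R.H_le_B ht)) (mul_mem (haB b hb) huB) (by rw [e]; group)
    have h2 := congrArg (fun w : Equiv.Perm (Fin 16) => w 0) h1
    exact w_tab.2 h2

lemma core (hs : IsSimpleGroup R.Grp) {g : Γ} (hg : g ∈ R.Grp) (hg1 : g ≠ 1) : ∃ w ∈ R.Grp, w * g * w⁻¹ ∉ PP R 0 := by
  by_contra hcon
  push Not at hcon
  have hx : (⟨g, hg⟩ : R.Grp) ∈ ((PP R 0).subgroupOf R.Grp).normalCore := by
    intro a
    rw [Subgroup.mem_subgroupOf]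
    exact hcon (a : Γ) a.2
  rcases hs.eq_bot_or_eq_top_of_normal ((PP R 0).subgroupOf R.Grp).normalCore inferInstance with h | h
  · rw [h, Subgroup.mem_bot] at hx
    exact hg1 (congrArg Subtype.val hx)
  · have h1 : (⟨R.nn 1, N_le_Grp (R.nn_mem_N 1)⟩ : R.Grp) ∈ ((PP R 0).subgroupOf R.Grp).normalCore := by
      rw [h]; exact Subgroup.mem_top _
    have h2 := Subgroup.normalCore_le _ h1
    exact nn1_notMem h2

variable {K : Type*} [Field K] (T : Rl K R)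

lemma xx_pow {c : Kˣ} {k : ℕ} (hc : c ^ k = 1) : xx T c ^ (3 * k) = 1 := by
  have h : Commute (f T) (T.s c) := (s_L T c (f_L T)).symm
  unfold xx
  rw [h.mul_pow, T.s_pow, pow_mul, f3, one_pow, mul_comm 3 k, pow_mul, hc, one_pow, T.s_one, mul_one]

lemma xx_Grp (c : Kˣ) : xx T c ∈ R.Grp := mul_mem (Lv_Grp (f_L T)) (H_Grp (T.s_H c))

/-- transfer to subgroups of a larger group -/
lemma transfer {G : Type*} [Group G] {D E : Subgroup G} (hle : E ≤ D) {R : RGrp S16 ↥D} (hGrp : R.Grp = E.subgroupOf D)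
    {K : Type*} [Field K] (T : Rl K R) [Finite ↥D] (hs : IsSimpleGroup ↥E) {c : Kˣ} (hc3 : c ^ 3 ≠ 1) {k : ℕ}
    (hck : c ^ k = 1) (hodd : Odd (3 * k)) :
    ∃ x : ↥E, Odd (orderOf x) ∧ ∀ g : ↥E, g ≠ 1 → ∃ u v : ↥E, g = (u * x * u⁻¹) * (v * x * v⁻¹) := by
  have hs' : IsSimpleGroup R.Grp := by
    rw [hGrp]
    have e := Subgroup.subgroupOfEquivOfLe hle
    exact e.isSimpleGroup_congr.2 hs
  have hxN := xx_pow T hck
  have key : ∀ y : ↥D, y ∈ R.Grp ↔ (y : G) ∈ E := by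
    intro y
    rw [hGrp, Subgroup.mem_subgroupOf]
  refine ⟨⟨((xx T c : ↥D) : G), (key _).1 (xx_Grp T c)⟩, ?_, ?_⟩
  · refine Odd.of_dvd_nat hodd (orderOf_dvd_of_pow_eq_one ?_)
    apply Subtype.ext
    have := congrArg (fun y : ↥D => (y : G)) hxN
    simpa using this
  · intro g hg
    have hgD : (g : G) ∈ D := hle g.2
    have hgG : (⟨g, hgD⟩ : ↥D) ∈ R.Grp := (key _).2 g.2
    have hg1 : (⟨g, hgD⟩ : ↥D) ≠ 1 := fun h1 => hg (Subtype.ext (congrArg (fun y : ↥D => (y : G)) h1))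
    obtain ⟨w, hw, hwP⟩ := core hs' hgG hg1
    obtain ⟨u, hu, v, hv, e⟩ := (TrF.main (T := T) hc3 (mul_mem (mul_mem hw hgG) (inv_mem hw)) hwP).of_conj hw
    refine ⟨⟨u, (key u).1 hu⟩, ⟨v, (key v).1 hv⟩, ?_⟩
    apply Subtype.ext
    have := congrArg (fun y : ↥D => (y : G)) e
    simpa using this

end gen

variable {K : Type*} [Field K] [Fintype K] {m : ℕ}

lemma cube_ne (hK : Fintype.card K = 2 ^ (2 * m + 1)) {c : Kˣ} (hc : c ≠ 1) : c ^ 3 ≠ 1 := by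
  classical
  intro h3
  have h1 : c ^ (2 ^ (2 * m + 1) - 1) = 1 := by
    rw [← hK, ← Fintype.card_units]; exact pow_card_eq_one
  have h2 : orderOf c ∣ 3 := orderOf_dvd_of_pow_eq_one h3
  have h4 : orderOf c ∣ 2 ^ (2 * m + 1) - 1 := orderOf_dvd_of_pow_eq_one h1
  have h5 : 2 ^ (2 * m + 1) % 3 = 2 := by
    rw [pow_succ, pow_mul, Nat.mul_mod, Nat.pow_mod]
    norm_num
  rcases (Nat.dvd_prime Nat.prime_three).1 h2 with h | h
  · exact hc (orderOf_eq_one_iff.1 h)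
  · rw [h] at h4
    have h6 : 1 ≤ 2 ^ (2 * m + 1) := Nat.one_le_two_pow
    omega

/-- the covering theorem -/
theorem all (hm : 1 ≤ m) (hK : Fintype.card K = 2 ^ (2 * m + 1)) :
    ∃ x : twistedF4 K (2 ^ m), Odd (orderOf x) ∧ ∀ g : twistedF4 K (2 ^ m), g ≠ 1 → ∃ u v : twistedF4 K (2 ^ m),
      g = (u * x * u⁻¹) * (v * x * v⁻¹) := by
  classical
  obtain ⟨Z, hZ⟩ := exists_Sg hK
  obtain ⟨c, hc⟩ := exists_ne_one hK hm
  have hc3 := cube_ne hK hc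
  have hGrp : (twF Z).tw.Grp = (twistedF4 K (2 ^ m)).subgroupOf (chevF4.group K) := by
    rw [TwData.tw_Grp]
    exact G1_F4 Z hZ
  have hcq : c ^ (2 ^ (2 * m + 1) - 1) = 1 := by
    rw [← hK, ← Fintype.card_units]; exact pow_card_eq_one
  have hodd : Odd (3 * (2 ^ (2 * m + 1) - 1)) := by
    refine Odd.mul (by decide) ?_
    have h1 : Even (2 ^ (2 * m + 1)) := (Nat.even_pow.2 ⟨even_two, by omega⟩)
    exact Nat.Even.sub_odd Nat.one_le_two_pow h1 odd_one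
  exact transfer hle_F4 hGrp (TrH.rel Z) (simp_F4 hm hK).1 hc3 hcq hodd

end Cfsg.Agent.H51.TrI
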