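import Mathlib

set_option autoImplicit false

/-!
Lifting local structure through a surjection; conjugating into an abelian Hall subgroup.
-/

namespace Cfsg.Agent.H51.TwoPrime

/-- Lifting a `ℓ`-subgroup and the elements which normalise it. -/
theorem lift_norm {Γ Q : Type*} [Group Γ] [Group Q] [Finite Γ] {ℓ : ℕ} [Fact ℓ.Prime] (φ : Γ →* Q) {C : Subgroup Q}
    (hC : IsPGroup ℓ C) (hCr : C ≤ φ.range) :
    ∃ P : Subgroup Γ, IsPGroup ℓ P ∧ P.map φ = C ∧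
      ∀ σ ∈ φ.range, (∀ x ∈ C, σ * x * σ⁻¹ ∈ C) → ∃ g : Γ, φ g = σ ∧ ∀ x ∈ P, g * x * g⁻¹ ∈ P := by
  classical
  set Y := C.comap φ with hY
  let f : Y →* C := (φ.comp Y.subtype).codRestrict C (fun x => x.2)
  have hf : Function.Surjective f := by
    rintro ⟨x, hx⟩
    obtain ⟨y, rfl⟩ := hCr hx
    exact ⟨⟨y, hx⟩, rfl⟩
  haveI : Finite C := Finite.of_surjective f hf
  obtain ⟨P⟩ : Nonempty (Sylow ℓ Y) := inferInstance
  have h4 : (P : Subgroup Y).map f = ⊤ := by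
    have h5 : ((P.mapSurjective hf : Sylow ℓ C) : Subgroup C) = (P : Subgroup Y).map f := rfl
    have h6 : IsPGroup ℓ (⊤ : Subgroup C) := hC.of_equiv Subgroup.topEquiv.symm
    have h7 := (P.mapSurjective hf).3 h6 le_top
    rw [← h5, ← h7]
  have hmap : ((P : Subgroup Y).map Y.subtype).map φ = C := by
    apply le_antisymm
    · rintro _ ⟨_, ⟨x, -, rfl⟩, rfl⟩
      exact x.2
    · intro c hc
      obtain ⟨x, hx, hxc⟩ : (⟨c, hc⟩ : C) ∈ (P : Subgroup Y).map f := by rw [h4]; trivial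
      exact ⟨_, ⟨x, hx, rfl⟩, congrArg Subtype.val hxc⟩
  refine ⟨(P : Subgroup Y).map Y.subtype, P.2.map _, hmap, ?_⟩
  rintro _ ⟨s, rfl⟩ hσ
  have hsY : ∀ x ∈ Y, s * x * s⁻¹ ∈ Y := by
    intro x hx
    rw [hY, Subgroup.mem_comap] at hx ⊢
    rw [map_mul, map_mul, map_inv]
    exact hσ _ hx
  let α : Y →* Y := ((MulAut.conj s).toMonoidHom.comp Y.subtype).codRestrict Y (fun x => hsY _ x.2)
  have hα : ∀ x : Y, ((α x : Y) : Γ) = s * x * s⁻¹ := fun x => rfl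
  have hP1 : IsPGroup ℓ ((P : Subgroup Y).map α) := P.2.map α
  obtain ⟨R, hR⟩ := hP1.exists_le_sylow
  obtain ⟨y, hy⟩ := MulAction.exists_smul_eq Y R P
  have h1 : ∀ x ∈ (P : Subgroup Y), y * α x * y⁻¹ ∈ (P : Subgroup Y) := by
    intro x hx
    have h2 : α x ∈ (R : Subgroup Y) := hR ⟨x, hx, rfl⟩
    rw [← hy]
    exact ⟨α x, h2, rfl⟩
  have h3 : ∀ x ∈ (P : Subgroup Y).map Y.subtype, ((y : Γ) * s) * x * ((y : Γ) * s)⁻¹ ∈ (P : Subgroup Y).map Y.subtype := by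
    rintro _ ⟨x, hx, rfl⟩
    refine ⟨_, h1 x hx, ?_⟩
    change ((y * α x * y⁻¹ : Y) : Γ) = _
    rw [Subgroup.coe_mul, Subgroup.coe_mul, hα, Subgroup.coe_inv]
    change _ = (y : Γ) * s * (x : Γ) * ((y : Γ) * s)⁻¹
    group
  -- correct by an element of `P`
  obtain ⟨z, hz, hzy⟩ : φ (y : Γ) ∈ ((P : Subgroup Y).map Y.subtype).map φ := by rw [hmap]; exact y.2
  refine ⟨z⁻¹ * ((y : Γ) * s), ?_, ?_⟩
  · rw [map_mul, map_mul, map_inv, hzy, inv_mul_cancel_left]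
  · intro x hx
    have h5 := h3 x hx
    have h6 : z⁻¹ * ((y : Γ) * s) * x * (z⁻¹ * ((y : Γ) * s))⁻¹ = z⁻¹ * ((y : Γ) * s * x * ((y : Γ) * s)⁻¹) * z⁻¹⁻¹ := by
      group
    rw [h6]
    exact Subgroup.mul_mem _ (Subgroup.mul_mem _ (Subgroup.inv_mem _ hz) h5) (Subgroup.inv_mem _ (Subgroup.inv_mem _ hz))

/-- conjugating an `ℓ`-subgroup into a subgroup of index prime to `ℓ` -/
theorem conj_into {G : Type*} [Group G] [Finite G] {T : Subgroup G} {ℓ : ℕ} [Fact ℓ.Prime] (h : ¬ ℓ ∣ T.index)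
    {P : Subgroup G} (hP : IsPGroup ℓ P) : ∃ g : G, ∀ v ∈ P, g⁻¹ * v * g ∈ T := by
  obtain ⟨x, hx⟩ := hP.nonempty_fixed_point_of_prime_not_dvd_card (α := G ⧸ T) h
  induction x using QuotientGroup.induction_on with
  | H g =>
    refine ⟨g, fun v hv => ?_⟩
    have h1 := hx ⟨v, hv⟩
    have h2 : ((v * g : G) : G ⧸ T) = (g : G ⧸ T) := h1
    rw [eq_comm, QuotientGroup.eq] at h2
    rwa [mul_assoc]

/-- two commuting subgroups of coprime prime power order, into an abelian subgroup -/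
theorem conj_into2 {G : Type*} [Group G] [Finite G] {T : Subgroup G} (hT : ∀ a ∈ T, ∀ b ∈ T, a * b = b * a)
    {ℓ ℓ' : ℕ} [Fact ℓ.Prime] [Fact ℓ'.Prime] (h : ¬ ℓ ∣ T.index) (h' : ¬ ℓ' ∣ T.index)
    {P P' : Subgroup G} (hP : IsPGroup ℓ P) (hP' : IsPGroup ℓ' P') (hc : ∀ x ∈ P, ∀ y ∈ P', x * y = y * x) :
    ∃ g : G, (∀ v ∈ P, g⁻¹ * v * g ∈ T) ∧ ∀ v ∈ P', g⁻¹ * v * g ∈ T := by
  obtain ⟨g, hg⟩ := conj_into h hP
  set C : Subgroup G := Subgroup.centralizer ((fun v => g⁻¹ * v * g) '' (P : Set G)) with hC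
  have hTC : T ≤ C := by
    intro t ht
    rw [hC, Subgroup.mem_centralizer_iff]
    rintro _ ⟨v, hv, rfl⟩
    exact hT _ (hg v hv) _ ht
  have hidx : ¬ ℓ' ∣ (T.subgroupOf C).index := by
    intro hd
    apply h'
    have := Subgroup.relIndex_mul_index hTC
    rw [← this]
    exact Dvd.dvd.mul_right hd _
  have hP'C : ∀ y ∈ P', g⁻¹ * y * g ∈ C := by
    intro y hy
    rw [hC, Subgroup.mem_centralizer_iff]
    rintro _ ⟨v, hv, rfl⟩
    have := hc v hv y hy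
    calc g⁻¹ * v * g * (g⁻¹ * y * g) = g⁻¹ * (v * y) * g := by group
      _ = g⁻¹ * (y * v) * g := by rw [this]
      _ = g⁻¹ * y * g * (g⁻¹ * v * g) := by group
  let P1 : Subgroup C := (P'.map (MulAut.conj g⁻¹).toMonoidHom).subgroupOf C
  have hP1 : IsPGroup ℓ' P1 := by
    have h1 : IsPGroup ℓ' (P'.map (MulAut.conj g⁻¹).toMonoidHom) := hP'.map _
    exact h1.comap_subtype
  obtain ⟨c, hc'⟩ := conj_into hidx hP1
  refine ⟨g * c, fun v hv => ?_, fun v hv => ?_⟩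
  · have h1 : (c : G)⁻¹ * (g⁻¹ * v * g) * c = g⁻¹ * v * g := by
      have h2 : (c : G) ∈ Subgroup.centralizer ((fun v => g⁻¹ * v * g) '' (P : Set G)) := c.2
      have h3 := Subgroup.mem_centralizer_iff.1 h2 _ ⟨v, hv, rfl⟩
      simp only at h3
      rw [mul_assoc, h3]; group
    have h2 : (g * (c : G))⁻¹ * v * (g * c) = (c : G)⁻¹ * (g⁻¹ * v * g) * c := by group
    rw [h2, h1]; exact hg v hv
  · have h1 := hc' ⟨g⁻¹ * v * g, hP'C v hv⟩ (by
      refine ⟨v, hv, ?_⟩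
      simp [MulAut.conj_apply])
    have h2 : (g * (c : G))⁻¹ * v * (g * c) = (c : G)⁻¹ * (g⁻¹ * v * g) * c := by group
    rw [h2]
    exact h1

end Cfsg.Agent.H51.TwoPrime
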